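import Cfsg.Agent.MinI.OMain

/-!
Point stabilisers and their indices; transfer along surjections.
-/

set_option autoImplicit false

namespace Cfsg.Agent.MinI

open Pointwise

theorem exists_index {G F V : Type*} [Group G] [Field F] [AddCommGroup V] [Module F V] [Finite V]
    [DistribMulAction G V] [SMulCommClass G F V] (S : Set V) (h0 : 0 ∉ S)
    (hinv : ∀ g : G, ∀ x ∈ S, g • x ∈ S) (htr : ∀ x ∈ S, ∀ y ∈ S, ∃ g : G, g • x = y) {w : V}
    (hw : w ∈ S) {κ : ℕ} (hκ : ∀ x ∈ S, Nat.card {l : F // l • x ∈ S} = κ) :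
    ∃ K : Subgroup G, (∀ g : G, (∃ c : F, ∀ v : V, g • v = c • v) → g ∈ K) ∧
      K.index * κ = Nat.card S := by
  have hs : ∀ (g : G) (x : V), g • Submodule.span F {x} = Submodule.span F {g • x} := fun g x => by
    rw [Submodule.smul_span, Set.smul_set_singleton]
  have hne : ∀ x ∈ S, x ≠ 0 := fun x hx e => h0 (e ▸ hx)
  refine ⟨MulAction.stabilizer G (Submodule.span F {w}), fun g ⟨c, hc⟩ => ?_, ?_⟩
  · rw [MulAction.mem_stabilizer_iff, hs, hc]
    refine Submodule.span_singleton_smul_eq (Ne.isUnit fun e => hne _ (hinv g w hw) ?_) w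
    rw [hc, e, zero_smul]
  · rw [MulAction.index_stabilizer, ← Nat.card_coe_set_eq, ← mul_one (Nat.card S)]
    refine double_count_eq (fun (L : MulAction.orbit G (Submodule.span F {w})) (x : S) => x.1 ∈ L.1)
      ?_ ?_
    · rintro ⟨_, g, rfl⟩
      rw [← hκ _ (hinv g w hw)]
      refine (Nat.card_congr (Equiv.ofBijective (fun l => ⟨⟨_, l.2⟩, (hs g w).ge
        (Submodule.mem_span_singleton.2 ⟨l, rfl⟩)⟩) ⟨fun l l' e => ?_, ?_⟩)).symm
      · exact Subtype.ext (smul_left_injective F (hne _ (hinv g w hw)) (congrArg (fun x => x.1.1) e))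
      · rintro ⟨⟨x, hx⟩, hx'⟩
        simp only [hs] at hx'
        obtain ⟨l, rfl⟩ := Submodule.mem_span_singleton.1 hx'
        exact ⟨⟨l, hx⟩, rfl⟩
    · rintro ⟨x, hx⟩
      obtain ⟨g, hg⟩ := htr w hw x hx
      rw [Nat.card_eq_one_iff_exists]
      refine ⟨⟨⟨Submodule.span F {x}, g, by simp only [hs, hg]⟩,
        Submodule.mem_span_singleton_self x⟩, ?_⟩
      rintro ⟨⟨_, k, rfl⟩, hk⟩
      simp only [hs] at hk
      refine Subtype.ext (Subtype.ext ?_)
      simp only [hs]
      exact le_antisymm (Submodule.span_le.2 (by simpa using mem_span_symm (hne x hx) hk))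
        (Submodule.span_le.2 (by simpa using hk))

/-- Transfer of a minimal index statement along a surjection. -/
theorem min_index_of_surj {G G' : Type*} [Group G] [Group G'] (π : G →* G')
    (hπ : Function.Surjective π) {b : ℕ} (h1 : ∀ H : Subgroup G, H ≠ ⊤ → b ≤ H.index)
    (h2 : ∃ K : Subgroup G, π.ker ≤ K ∧ K.index = b) :
    (∀ H : Subgroup G', H ≠ ⊤ → b ≤ H.index) ∧ ∃ H : Subgroup G', H.index = b := by
  refine ⟨fun H hH => ?_, ?_⟩
  · rw [← Subgroup.index_comap_of_surjective H hπ]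
    refine h1 _ fun e => hH ?_
    rw [← Subgroup.map_comap_eq_self_of_surjective hπ H, e, Subgroup.map_top_of_surjective _ hπ]
  · obtain ⟨K, hK, e⟩ := h2
    exact ⟨K.map π, by rw [Subgroup.index_map_eq _ hπ hK, e]⟩

theorem exists_smul_ne {G : Type*} [Group G] {H : Subgroup G} (hH : H ≠ ⊤) :
    ∃ (g : G) (ω : G ⧸ H), g • ω ≠ ω := by
  by_contra! h
  refine hH (eq_top_iff.2 fun g _ => ?_)
  have := h g ((1 : G) : G ⧸ H)
  rw [MulAction.Quotient.smul_coe, smul_eq_mul, mul_one, eq_comm, QuotientGroup.eq] at this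
  simpa using this

end Cfsg.Agent.MinI
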