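import Cfsg.Agent.MinI.UMain
import Cfsg.Agent.MinI.Exist
import Cfsg.Agent.Herm.Matrix

/-!
Minimal index of the unitary groups of dimension at least five.
-/

set_option autoImplicit false

namespace Cfsg.Agent.MinI

open Module Cfsg.Agent.Herm Pointwise

variable {F V : Type*} [Field F] [AddCommGroup V] [Module F V] [FiniteDimensional F V]
  {σ : F →+* F} {B : V →ₛₗ[σ] V →ₗ[F] F} [Finite F] {q : ℕ} (hB : HF B) (hF : Nat.card F = q ^ 2)

omit [FiniteDimensional F V] [Finite F] in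
theorem ann_smul (ψ : AddChar F ℂ) (γ : SUG B) (A : AddSubgroup V) :
    ann (bAdd B) ψ (γ • A) = γ • ann (bAdd B) ψ A := by
  ext x
  obtain ⟨x, rfl⟩ : ∃ a, γ.1.1 a = x := ⟨_, su_apply_inv γ x⟩
  rw [su_mem_smul, mem_ann, mem_ann]
  refine ⟨fun h a ha => by simpa [bAdd_apply] using h _ (su_mem_smul.2 ha), fun h a ha => ?_⟩
  obtain ⟨a, rfl⟩ : ∃ b, γ.1.1 b = a := ⟨_, su_apply_inv γ a⟩
  simpa [bAdd_apply] using h _ (su_mem_smul.1 ha)

theorem u_ar9 {q Q r o o' o'' φ : ℕ} (hq : 2 ≤ q) (hQ : Q + 1 = q ^ 2) (hr : q ^ 3 ≤ r)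
    (ho : q * o + q + r ≤ r ^ 2 + q * r) (h1 : r ^ 2 + r ≤ q * o' + q + q * r)
    (h2 : r ^ 2 + r ≤ q * o'' + q + q * r) (h3 : o' + o'' ≤ φ) (h : Q * φ ≤ q ^ 2 * o) : False := by
  have h4 := Nat.mul_le_mul_left q h
  have h5 := Nat.mul_le_mul_left (Q * q) h3
  have h6 := Nat.mul_le_mul_left Q (Nat.add_le_add h1 h2)
  have h7 := Nat.mul_le_mul_left (q ^ 2) ho
  have h8 : 2 * Q * r ^ 2 + 2 * Q * r + q ^ 2 * q + q ^ 2 * r ≤
      q ^ 2 * r ^ 2 + q ^ 2 * q * r + 2 * Q * q + 2 * Q * q * r := by nlinarith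
  obtain ⟨x, rfl⟩ := Nat.exists_eq_add_of_le hr
  obtain ⟨t, rfl⟩ := Nat.exists_eq_add_of_le hq
  obtain rfl : Q = t ^ 2 + 4 * t + 3 := by nlinarith
  ring_nf at h8
  omega

include hB hF in
theorem good_bound (hk : 3 ≤ finrank F V) {D : AddSubgroup V} (hD : D ≠ ⊥) {φ : ℕ}
    (h1 : Nat.card (MulAction.orbit (SUG B) D) * Nat.card D ≤ φ)
    (h2 : (q ^ 2 - 1) * φ ≤ q ^ 2 * nz B 0) :
    q ^ 2 * nz B 0 ≤ (q ^ 2 - 1) * φ ∨ 4 * nv B 1 ≤ 3 * φ := by
  haveI : Finite V := Module.finite_of_finite F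
  have hq := two_le_of_card hF
  have hQ : q ^ 2 - 1 + 1 = q ^ 2 := Nat.sub_add_cancel (by nlinarith)
  obtain ⟨b1, b2⟩ := nz_bound hB hF
  have hr : q ^ 3 ≤ q ^ finrank F V := Nat.pow_le_pow_right (by omega) hk
  have hρ1 : ∀ x ∈ D, 1 ≤ Nat.card (thru B D x) := fun x hx =>
    Nat.card_pos_iff.2 ⟨⟨D, MulAction.mem_orbit_self _, hx⟩, inferInstance⟩
  have h0 := card_ne_zero_add (p := fun v => v ∈ D) D.zero_mem
  change _ = Nat.card D at h0
  have hm : ∀ c, Nat.card {v // (v ≠ 0 ∧ B v v = c) ∧ v ∈ D} ≤ Nat.card {v // v ≠ 0 ∧ v ∈ D} :=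
    fun c => Nat.card_le_card_of_injective (fun v => ⟨v.1, v.2.1.1, v.2.2⟩) fun v w e =>
      Subtype.ext (by simpa using e)
  obtain ⟨⟨d, hd⟩, hd0⟩ := AddSubgroup.ne_bot_iff_exists_ne_zero.1 hD
  replace hd0 : d ≠ 0 := by simpa using hd0
  have cov := fun x hx h0 => (Nat.le_mul_of_pos_right _ (hρ1 x hx)).trans (su_cover hB hk D h0)
  have same : ∀ x ∈ D, x ≠ 0 → B x x = B d d := fun x hx hx0 => by
    by_contra hne
    refine u_ar9 hq hQ hr b2 (b1 _ (hB.fix x)) (b1 _ (hB.fix d))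
      ((Nat.add_le_add (cov x hx hx0) (cov d hd hd0)).trans (le_trans ?_ h1)) h2
    rw [← mul_add]
    refine Nat.mul_le_mul_left _ (le_trans (Nat.add_le_add ?_ ?_) (card_add_le (X := D)
      (p := fun v => B v v = B x x) (r := fun v => B v v = B d d) fun v h h' => hne (h.symm.trans h'))) <;>
    exact Nat.card_le_card_of_injective (fun v => ⟨⟨v.1, v.2.2⟩, v.2.1.2⟩) fun v w e =>
      Subtype.ext (by simpa using e)
  have c1 := (cov d hd hd0).trans (Nat.mul_le_mul_left _ (hm _))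
  by_cases hc : B d d = 0
  · have inv : ∀ x ∈ D, x ≠ 0 → ∀ g : SUG B, g.1.1 x = x → g • D = D := fun x hx hx0 g hg => by
      by_contra hne
      haveI : Nontrivial (thru B D x) := ⟨⟨g • D, ⟨g, rfl⟩, hg ▸ su_mem_smul.2 hx⟩,
        ⟨D, MulAction.mem_orbit_self _, hx⟩, by simpa using hne⟩
      have := (Nat.mul_le_mul_left _ Finite.one_lt_card).trans (su_cover hB hk D hx0)
      refine u_ar9 hq hQ hr b2 (b1 _ (hB.fix x)) (b1 _ (hB.fix x)) (le_trans ?_ h1) h2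
      exact (by omega : _ ≤ _ * 2).trans (this.trans (Nat.mul_le_mul_left _ ((hm _).trans (by omega))))
    have iso : ∀ x ∈ D, B x x = 0 := fun x hx => by
      rcases eq_or_ne x 0 with rfl | h
      exacts [by simp, (same x hx h).trans hc]
    have perp : ∀ x ∈ D, ∀ y ∈ D, B x y = 0 := fun x hx y hy => by
      by_contra hb
      obtain ⟨p, rfl⟩ := exists_upt₀ hB (iso x hx) (ne_zero_of_b hb)
      have := p.dim hB
      haveI : Nontrivial p.P := Module.nontrivial_of_finrank_pos (R := F) (by omega)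
      obtain ⟨v, hv⟩ := (p.hf hB).exists_nonisotropic
      simpa [p.hu, p.up, hB.zero_symm (p.up _), hb, show B v v ≠ 0 from hv] using
        iso _ (ue_sub_mem hB p.hu (p.up v) (UPt.tro_tr hB v.1)
          (inv _ hx p.u_ne _ (hB.eich_apply_left _ _ _)) hy)
    have line : ∀ x ∈ D, ∃ c : F, c • d = x := fun x hx => by
      by_contra! hi
      obtain ⟨p, rfl, hp⟩ := exists_upt hB (iso x hx) hi (perp _ hx _ hd)
      have s1 : skw hB.toInv + σ (skw hB.toInv) = 0 := by simp [skw_map]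
      simpa [p.h1, hB.one_symm p.h1, skw_ne] using perp _ hx _ (ue_sub_mem hB (v := 0) (l := skw hB.toInv) p.hu' (by simp)
        (by simpa using s1) (inv _ hd hd0 _ (by
          rw [ut_apply hB p.hu' s1, p.u'p ⟨_, hp⟩]; simp)) hx)
    have h3 : Nat.card D ≤ q ^ 2 := by
      choose c hc using line
      exact hF ▸ Nat.card_le_card_of_injective (fun v : D => c v v.2) fun v w e =>
        Subtype.ext (by rw [← hc v v.2, ← hc w w.2]; exact congrArg (· • d) e)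
    left
    rw [hc] at c1
    refine (Nat.mul_le_mul_left _ c1).trans (le_trans ?_ (Nat.mul_le_mul_left _ h1))
    rw [← h0] at h3 ⊢
    nlinarith [Nat.mul_le_mul_left (Nat.card (MulAction.orbit (SUG B) D)) h3]
  · right
    have h3 := card_le_four (A := D) (((bAdd B).toFun d + (bAdd B).flip d).comp D.subtype) (d := ⟨d, hd⟩)
      (neg_ne_zero.2 hc) fun x x0 x1 => by
        have e1 := same _ x.2 (by simpa using x0)
        have e2 := same _ (D.add_mem hd x.2) fun e => x1 (Subtype.ext (eq_neg_of_add_eq_zero_right e))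
        simp only [map_add, LinearMap.add_apply] at e2
        show B d x + B x d = _
        linear_combination e2 - e1
    rw [nz_ne hB hc (hB.fix d)] at c1
    rw [← h0] at h3 h1
    nlinarith [Nat.mul_le_mul_left (Nat.card (MulAction.orbit (SUG B) D)) h3]

include hB hF in
theorem su_main {Ω : Type*} [MulAction (SUG B) Ω] [Finite Ω] [MulAction.IsPretransitive (SUG B) Ω]
    (hk : 5 ≤ finrank F V) (hn : (q ^ 2 - 1) * Nat.card Ω + (q ^ 2 - 1) ≤ nz B 0)
    (hnt : ∃ (g : SUG B) (ω : Ω), g • ω ≠ ω) (p : UPt B) :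
    3 * (q * Nat.card p.P) + 4 * nv p.B1 1 ≤ 3 * Nat.card Ω := by
  haveI : Finite V := Module.finite_of_finite F
  have hq := two_le_of_card hF
  have hd := p.dim hB
  obtain ⟨⟨ω₀, hω₀⟩, ω, hω, hA⟩ := p.exists_not_full hB hF hk hn hnt
  obtain ⟨ψ, hψ⟩ := exists_nontriv_char F
  obtain ⟨b1, b2⟩ := p.bad_orbit hB hF hk hn hω₀
  have hbad : Nat.card {x : Ω // ¬ UX hB x p.u} = q * Nat.card p.P := by
    rw [← b1]
    refine Nat.card_congr (Equiv.subtypeEquivRight fun x => ⟨b2 x, ?_⟩)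
    rintro ⟨g, rfl⟩
    rwa [← p.R_top, Heis.R_smul, p.R_top]
  have hsum : Nat.card {x : Ω // UX hB x p.u} + q * Nat.card p.P = Nat.card Ω := by
    classical
    rw [← hbad, ← Nat.card_sum]; exact Nat.card_congr (Equiv.sumCompl _)
  have hD := card_mul_card_ann _ ψ (bAdd_nd (p.hf hB) hψ)
  have h1 := card_mul_le_of_orbit (G := (p.heis hB).Q) {x : Ω | UX hB x p.u}
    (fun g x hx => by rwa [Set.mem_setOf, ← p.R_top, Heis.R_smul, p.R_top])
    (fun x => ann (bAdd p.B1) ψ ((p.heis hB).A x)) (fun g x _ => by rw [Heis.A_smul])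
    (Set.toFinite (MulAction.orbit (SUG p.B1) (ann (bAdd p.B1) ψ ((p.heis hB).A ω)))).toFinset
    (Nat.card (ann (bAdd p.B1) ψ ((p.heis hB).A ω))) fun X hX => by
      obtain ⟨γ, rfl⟩ := (Set.Finite.mem_toFinset _).1 hX
      obtain ⟨g, -, -, -, h⟩ := p.lift hB (Ω := Ω) γ
      have hR := (h ω).1.trans (p.R_top.2 hω)
      refine ⟨g • ω, p.R_top.1 hR, by simp only [(h ω).2, ann_smul], ?_⟩
      have e := (p.heis hB).card_orbit (g • ω)
      rw [hR, AddSubgroup.card_top, ← mul_assoc, ← hD ((p.heis hB).A ω), (h ω).2,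
        ← Nat.card_congr (γ.1.1.toEquiv.subtypeEquiv fun a => su_mem_smul.symm),
        mul_comm (Nat.card (MulAction.orbit _ _))] at e
      exact (Nat.eq_of_mul_eq_mul_left Nat.card_pos (Nat.eq_of_mul_eq_mul_right Nat.card_pos e)).ge
  rw [← Set.ncard_eq_toFinset_card, ← Nat.card_coe_set_eq] at h1
  have hnz := p.nz_eq hB hF
  have hpos : 0 < Nat.card {x : Ω // UX hB x p.u} := Nat.card_pos_iff.2 ⟨⟨ω, hω⟩, inferInstance⟩
  rw [← hsum] at hn
  rcases good_bound (p.hf hB) hF (by omega) (fun e => hA (eq_top_of_card_le (by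
    rw [← hD ((p.heis hB).A ω), e]; simp))) h1 (show _ * Nat.card {x : Ω // UX hB x p.u} ≤ _ by
      nlinarith) with h | h
  swap
  · change _ ≤ 3 * Nat.card {x : Ω // UX hB x p.u} at h
    omega
  exfalso
  change _ ≤ _ * Nat.card {x : Ω // UX hB x p.u} at h
  have e1 : nz B 0 = (q ^ 2 - 1) * (Nat.card Ω + 1) := by rw [← hsum]; nlinarith
  have e2 := double_count_eq (fun (v : {v // v ≠ 0 ∧ B v v = 0}) (x : Ω) => ¬ UX hB x v.1)
    (a := q * Nat.card p.P) (b := Nat.card {v | (v ≠ 0 ∧ B v v = 0) ∧ ¬ UX hB ω v}) (fun v => by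
      obtain ⟨g, hg⟩ := su_trans hB (by omega) p.u_ne v.2.1 (v.2.2.trans p.hu.symm)
      rw [← hbad, ← hg]
      exact (Nat.card_congr ((MulAction.toPerm g).subtypeEquiv fun x => (ux_iff g).not.symm)).symm)
    fun x => by
      rw [Nat.card_congr (Equiv.subtypeSubtypeEquivSubtypeInter _ fun v => ¬ UX hB x v)]
      have hr : ∀ (g : SUG B) v (y : Ω), ((v ≠ 0 ∧ B v v = 0) ∧ ¬ UX hB y v) →
          (g • v ≠ 0 ∧ B (g • v) (g • v) = 0) ∧ ¬ UX hB (g • y) (g • v) := fun g v y h =>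
        ⟨⟨fun e => h.1.1 ((UG.apply_eq_zero g.1).1 e), (UG.map_b g.1 v v).trans h.1.2⟩,
          (ux_iff g).not.2 h.2⟩
      exact le_antisymm (card_transport _ hr x ω) (card_transport _ hr ω x)
  obtain ⟨m, hm⟩ := sub_one_dvd_card (F := F) {v | (v ≠ 0 ∧ B v v = 0) ∧ ¬ UX hB ω v} (by simp)
    fun c hc v hv => ⟨⟨smul_ne_zero hc hv.1.1, by simp [hv.1.2]⟩, fun h => hv.2 (by
      simpa [hc] using h.smul (by simp [hv.1.2]) c⁻¹)⟩
  rw [hm, hF, show Nat.card {v // v ≠ 0 ∧ B v v = 0} = _ from e1, mul_assoc, mul_left_comm (Nat.card Ω)] at e2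
  have e3 := Nat.eq_of_mul_eq_mul_left (Nat.sub_pos_of_lt (by nlinarith)) e2
  have : Nat.card Ω ∣ q * Nat.card p.P :=
    (Nat.dvd_add_right (dvd_mul_right _ (q * Nat.card p.P))).1 ⟨m, by rw [← e3]; ring⟩
  have := Nat.le_of_dvd (Nat.mul_pos (by omega) Nat.card_pos) this
  omega

theorem psu_of_sug {n b : ℕ} (hn : 2 ≤ n) (h1 : ∀ H : Subgroup (SUG (sB hF n)), H ≠ ⊤ → b ≤ H.index)
    (h2 : ∃ K : Subgroup (SUG (sB hF n)), (∀ g : SUG (sB hF n), (∃ c : F, ∀ v : Fin n → F, g • v = c • v) → g ∈ K) ∧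
      K.index = b) :
    (∀ H : Subgroup (Cfsg.PSU n F q), H ≠ ⊤ → b ≤ H.index) ∧
      ∃ H : Subgroup (Cfsg.PSU n F q), H.index = b := by
  refine min_index_of_surj ((QuotientGroup.mk' _).comp (toSUG hF n).symm.toMonoidHom)
    ((QuotientGroup.mk'_surjective _).comp (toSUG hF n).symm.surjective) h1
    (h2.imp fun K h => ⟨fun g hg => h.1 g ?_, h.2⟩)
  obtain ⟨a, ha⟩ := ((hf_sB hF n).mem_center_SUG (by simpa) g).1
    ((Classical.SpMat.mem_center_congr (toSUG hF n).symm).1 ((QuotientGroup.eq_one_iff _).1 hg))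
  exact ⟨a.1, fun v => by change g.1.1 v = _; rw [ha]; rfl⟩

include hB in
theorem su_index (hk : 3 ≤ finrank F V) {w : V} (hw : w ≠ 0) {κ : ℕ}
    (hκ : Nat.card {l : F // l ≠ 0 ∧ σ l * l * B w w = B w w} = κ) :
    ∃ K : Subgroup (SUG B), (∀ g : SUG B, (∃ c : F, ∀ v : V, g • v = c • v) → g ∈ K) ∧
      K.index * κ = nz B (B w w) := by
  haveI : Finite V := Module.finite_of_finite F
  exact exists_index (G := SUG B) (F := F) {x | x ≠ 0 ∧ B x x = B w w} (by simp)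
    (fun g v h => ⟨fun e => h.1 ((UG.apply_eq_zero g.1).1 e), (UG.map_b g.1 v v).trans h.2⟩)
    (fun x hx y hy => su_trans hB hk hx.1 hy.1 (hy.2.trans hx.2.symm)) ⟨hw, rfl⟩ fun x hx => by
      rw [← hκ]
      exact Nat.card_congr (Equiv.subtypeEquivRight fun l => by
        simp [hx.1, hx.2, mul_assoc, mul_left_comm])

theorem psu_min {n b κ : ℕ} (hn : 5 ≤ n) {w : Fin n → F} (hw : w ≠ 0) (hκ0 : 0 < κ)
    (hκ : Nat.card {l : F // l ≠ 0 ∧ frob hF l * l * sB hF n w w = sB hF n w w} = κ)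
    (hb : b * κ = nz (sB hF n) (sB hF n w w)) (h1 : (q ^ 2 - 1) * b ≤ nz (sB hF n) 0)
    (h2 : ∀ m o : ℕ, (q : ℤ) * o = q ^ (2 * (n - 2)) - (-q) ^ (n - 2) →
      3 * (q * (q ^ (n - 2)) ^ 2) + 4 * o ≤ 3 * m → b ≤ m) :
    (∀ H : Subgroup (Cfsg.PSU n F q), H ≠ ⊤ → b ≤ H.index) ∧
      ∃ H : Subgroup (Cfsg.PSU n F q), H.index = b := by
  have hB := hf_sB hF n
  have hd : finrank F (Fin n → F) = n := by simp
  refine psu_of_sug hF (by omega) (fun H hH => ?_) ?_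
  · by_contra! hlt
    obtain ⟨e, f, h3, h4, h5⟩ := hB.exists_hyp_pair (by omega)
    let p : UPt (sB hF n) := ⟨e, f, h3, h4, h5⟩
    have hp : finrank F p.P = n - 2 := by have := p.dim hB; omega
    have := su_main hB hF (Ω := SUG (sB hF n) ⧸ H) (by omega) (by
      rw [← Subgroup.index_eq_card]
      exact (Nat.mul_le_mul_left _ hlt).trans h1) (exists_smul_ne hH) p
    rw [card_herm hF, hp, ← Subgroup.index_eq_card] at this
    exact hlt.not_ge (h2 _ _ (hp ▸ (p.hf hB).nv_one hF) this)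
  · obtain ⟨K, h3, h4⟩ := su_index hB (by omega) hw hκ
    exact ⟨K, h3, Nat.eq_of_mul_eq_mul_right hκ0 (h4.trans hb.symm)⟩

include hF in
theorem psu_min_iso {n s : ℕ} (hn : 5 ≤ n) (hs : (q : ℤ) * (s + 1) = q ^ (2 * n) + (-q) ^ n * (q - 1))
    (h2 : ∀ m o : ℕ, (q : ℤ) * o = q ^ (2 * (n - 2)) - (-q) ^ (n - 2) →
      3 * (q * (q ^ (n - 2)) ^ 2) + 4 * o ≤ 3 * m → s ≤ (q ^ 2 - 1) * m) :
    (∀ H : Subgroup (Cfsg.PSU n F q), H ≠ ⊤ → s / (q ^ 2 - 1) ≤ H.index) ∧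
      ∃ H : Subgroup (Cfsg.PSU n F q), H.index = s / (q ^ 2 - 1) := by
  have hB := hf_sB hF n
  have hq := two_le_of_card hF
  have hs' : nz (sB hF n) 0 = s := by
    have := hB.nv_zero hF
    rw [← nz_zero, Module.finrank_fin_fun, ← hs] at this
    have := mul_left_cancel₀ (show (q : ℤ) ≠ 0 by positivity) this
    omega
  obtain ⟨w, hw0, hw⟩ := hB.exists_isotropic (by simp; omega)
  have hdvd : q ^ 2 - 1 ∣ s := hs' ▸ hF ▸ sub_one_dvd_card {x | x ≠ 0 ∧ sB hF n x x = 0} (by simp)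
    fun c hc v hv => ⟨smul_ne_zero hc hv.1, by simp [hv.2]⟩
  refine psu_min hF hn hw0 (κ := q ^ 2 - 1) (Nat.sub_pos_of_lt (by nlinarith)) ?_
    (by rw [hw, hs', Nat.div_mul_cancel hdvd]) (by rw [hs', Nat.mul_div_cancel' hdvd])
    fun m o h h' => Nat.div_le_of_le_mul (h2 m o h h')
  have := card_ne_zero_add (p := fun _ : F => True) trivial
  rw [Nat.card_congr (Equiv.subtypeUnivEquiv fun _ : F => trivial), hF] at this
  simp only [hw, mul_zero]
  omega

end Cfsg.Agent.MinI
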