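import Mathlib

/-!
Counting tools for the minimal index of classical groups: annihilators, orbit counts,
Heisenberg-type subgroups acting on a finite set.
-/

set_option autoImplicit false

namespace Cfsg.Agent.MinI

open Finset

/-! ### Annihilators -/

section ann
variable {W W' Z : Type*} [AddCommGroup W] [AddCommGroup W'] [AddCommGroup Z]

/-- The annihilator of `A` for the pairing `χ ∘ b`. -/
def ann (b : W →+ W' →+ Z) (χ : AddChar Z ℂ) (A : AddSubgroup W) : AddSubgroup W' where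
  carrier := {w | ∀ a ∈ A, χ (b a w) = 1}
  zero_mem' a _ := by simp
  add_mem' {x y} hx hy a ha := by
    rw [map_add, AddChar.map_add_eq_mul, hx a ha, hy a ha, mul_one]
  neg_mem' {x} hx a ha := by
    rw [map_neg, AddChar.map_neg_eq_inv, hx a ha, inv_one]

theorem mem_ann {b : W →+ W' →+ Z} {χ : AddChar Z ℂ} {A : AddSubgroup W} {w : W'} :
    w ∈ ann b χ A ↔ ∀ a ∈ A, χ (b a w) = 1 := Iff.rfl

theorem card_mul_card_ann [Finite W] [Finite W'] (b : W →+ W' →+ Z) (χ : AddChar Z ℂ)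
    (hb : ∀ a, a ≠ 0 → ∃ w, χ (b a w) ≠ 1) (A : AddSubgroup W) :
    Nat.card A * Nat.card (ann b χ A) = Nat.card W' := by
  classical
  haveI := Fintype.ofFinite W
  haveI := Fintype.ofFinite W'
  have h1 : ∑ a : A, ∑ w : W', χ (b a w) = Fintype.card W' := by
    have : ∀ a : A, ∑ w : W', χ (b a w) = if a = 0 then (Fintype.card W' : ℂ) else 0 := by
      intro a
      have := AddChar.sum_eq_ite (χ.compAddMonoidHom (b a))
      simp only [AddChar.compAddMonoidHom_apply] at this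
      rw [this]
      by_cases ha : a = 0
      · subst ha
        rw [if_pos rfl, if_pos]
        ext w; simp
      · rw [if_neg ha, if_neg]
        intro h
        obtain ⟨w, hw⟩ := hb a (fun h => ha (Subtype.ext h))
        exact hw (by simpa using DFunLike.congr_fun h w)
    rw [Finset.sum_congr rfl fun a _ => this a]
    simp
  have h2 : ∑ w : W', ∑ a : A, χ (b a w) = (Nat.card (ann b χ A) : ℂ) * Fintype.card A := by
    have : ∀ w : W', ∑ a : A, χ (b a w) = if w ∈ ann b χ A then (Fintype.card A : ℂ) else 0 := by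
      intro w
      have := AddChar.sum_eq_ite (χ.compAddMonoidHom ((b.flip w).comp A.subtype))
      simp only [AddChar.compAddMonoidHom_apply, AddMonoidHom.comp_apply, AddMonoidHom.flip_apply,
        AddSubgroup.coe_subtype] at this
      rw [this]
      by_cases hw : w ∈ ann b χ A
      · rw [if_pos hw, if_pos]
        ext a; simpa using hw a a.2
      · rw [if_neg hw, if_neg]
        intro h
        exact hw fun a ha => by simpa using DFunLike.congr_fun h ⟨a, ha⟩
    rw [Finset.sum_congr rfl fun a _ => this a, ← Finset.sum_filter, Finset.sum_const,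
      nsmul_eq_mul, Nat.card_eq_fintype_card, Fintype.card_subtype (fun w => w ∈ ann b χ A)]
  rw [Finset.sum_comm, h2] at h1
  rw [Nat.card_eq_fintype_card (α := A), Nat.card_eq_fintype_card (α := W'), mul_comm]
  exact_mod_cast h1

theorem ann_ann [Finite W] [Finite W'] (b : W →+ W' →+ Z) (χ : AddChar Z ℂ)
    (hb : ∀ a, a ≠ 0 → ∃ w, χ (b a w) ≠ 1) (hb' : ∀ w, w ≠ 0 → ∃ a, χ (b a w) ≠ 1)
    (A : AddSubgroup W) : ann b.flip χ (ann b χ A) = A := by
  symm
  have h1 := card_mul_card_ann b χ hb A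
  have h2 := card_mul_card_ann b.flip χ hb' (ann b χ A)
  have h3 := card_mul_card_ann b χ hb ⊤
  have h4 := card_mul_card_ann b.flip χ hb' ⊤
  have e3 : Nat.card W ≤ Nat.card W' := by
    rw [← h3, AddSubgroup.card_top]; exact Nat.le_mul_of_pos_right _ Nat.card_pos
  have e4 : Nat.card W' ≤ Nat.card W := by
    rw [← h4, AddSubgroup.card_top]; exact Nat.le_mul_of_pos_right _ Nat.card_pos
  refine AddSubgroup.eq_of_le_of_card_ge (fun a ha w hw => hw a ha) ?_
  have hp : 0 < Nat.card (ann b χ A) := Nat.card_pos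
  have : Nat.card (ann b χ A) * Nat.card (ann b.flip χ (ann b χ A)) =
      Nat.card (ann b χ A) * Nat.card A := by rw [h2, mul_comm, h1]; omega
  exact (Nat.eq_of_mul_eq_mul_left hp this).le

theorem card_sq_le [Finite W] (b : W →+ W →+ Z) (χ : AddChar Z ℂ)
    (hb : ∀ a, a ≠ 0 → ∃ w, χ (b a w) ≠ 1) {A : AddSubgroup W}
    (hA : ∀ x ∈ A, ∀ y ∈ A, χ (b x y) = 1) : Nat.card A * Nat.card A ≤ Nat.card W := by
  rw [← card_mul_card_ann b χ hb A]
  exact Nat.mul_le_mul_left _ (AddSubgroup.card_le_of_le fun y hy x hx => hA x hx y hy)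

end ann

/-! ### Orbit counting -/

section orbit
variable {G Ω X : Type*} [Group G] [MulAction G Ω]

theorem card_mul_le_of_fib [Finite Ω] (T : Set Ω) (a : Ω → X) (S : Finset X) (k : ℕ)
    (h : ∀ x ∈ S, k ≤ Nat.card {ω // ω ∈ T ∧ a ω = x}) : S.card * k ≤ Nat.card T := by
  classical
  haveI := Fintype.ofFinite Ω
  have h1 : ∑ x ∈ S, (T.toFinset.filter fun ω => a ω = x).card ≤ T.toFinset.card := by
    rw [← Finset.card_biUnion]
    · exact Finset.card_le_card (Finset.biUnion_subset.2 fun x _ => Finset.filter_subset _ _)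
    · intro x _ y _ hxy
      rw [Function.onFun, Finset.disjoint_filter]
      intro ω _ h1 h2
      exact hxy (h1.symm.trans h2)
  rw [Nat.card_eq_card_toFinset]
  refine le_trans ?_ h1
  rw [← smul_eq_mul, ← Finset.sum_const]
  refine Finset.sum_le_sum fun x hx => (h x hx).trans (le_of_eq ?_)
  rw [Nat.card_eq_fintype_card, Fintype.card_subtype]
  congr 1
  ext ω; simp

/-- An invariant set is at least as large as (number of values of an invariant) × (orbit size). -/
theorem card_mul_le_of_orbit [Finite Ω] (T : Set Ω) (hT : ∀ (g : G), ∀ ω ∈ T, g • ω ∈ T)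
    (a : Ω → X) (ha : ∀ (g : G), ∀ ω ∈ T, a (g • ω) = a ω) (S : Finset X) (k : ℕ)
    (hS : ∀ x ∈ S, ∃ ω ∈ T, a ω = x ∧ k ≤ Nat.card (MulAction.orbit G ω)) :
    S.card * k ≤ Nat.card T := by
  refine card_mul_le_of_fib T a S k fun x hx => ?_
  obtain ⟨ω, hω, hx, hk⟩ := hS x hx
  refine hk.trans (Nat.card_le_card_of_injective
    (fun y : MulAction.orbit G ω => ⟨y.1, ?_⟩) fun y y' h => Subtype.ext (by simpa using h))
  obtain ⟨_, g, rfl⟩ := y
  exact ⟨hT g ω hω, (ha g ω hω).trans hx⟩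

theorem card_succ_mul_le_of_orbit [Finite Ω] (T : Set Ω) (hT : ∀ (g : G), ∀ ω ∈ T, g • ω ∈ T)
    (a : Ω → X) (ha : ∀ (g : G), ∀ ω ∈ T, a (g • ω) = a ω) (S : Finset X) (k : ℕ)
    (hS : ∀ x ∈ S, ∃ ω ∈ T, a ω = x) (hk : ∀ ω ∈ T, k ≤ Nat.card (MulAction.orbit G ω))
    {ω₁ ω₂ : Ω} (h₁ : ω₁ ∈ T) (h₂ : ω₂ ∈ T) (h : a ω₁ = a ω₂) (hn : ω₂ ∉ MulAction.orbit G ω₁) :
    (S.card + 1) * k ≤ Nat.card T := by
  classical
  have key := card_mul_le_of_orbit (G := G) T hT
    (fun ω => if ω ∈ MulAction.orbit G ω₂ then none else some (a ω)) (by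
      intro g ω hω
      have : g • ω ∈ MulAction.orbit G ω₂ ↔ ω ∈ MulAction.orbit G ω₂ :=
        ⟨fun h => by simpa using MulAction.mapsTo_smul_orbit g⁻¹ ω₂ h,
          fun h => MulAction.mapsTo_smul_orbit g ω₂ h⟩
      simp only [this, ha g ω hω]) (Finset.insertNone S) k (by
      intro x hx
      rcases x with _ | x
      · exact ⟨ω₂, h₂, by simp, hk _ h₂⟩
      · obtain ⟨ω, hω, hx⟩ := hS x (by simpa using hx)
        by_cases hh : ω ∈ MulAction.orbit G ω₂
        · obtain ⟨g, rfl⟩ := hh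
          refine ⟨ω₁, h₁, ?_, hk _ h₁⟩
          rw [if_neg, h, ← hx]
          · exact congrArg some (ha g ω₂ h₂).symm
          · intro h'
            exact hn (MulAction.mem_orbit_symm.1 h')
        · exact ⟨ω, hω, by rw [if_neg hh, hx], hk _ hω⟩)
  rwa [Finset.card_insertNone] at key

/-- The fixed-point-free trick: a centraliser of `s` that keeps the orbit fixes a point. -/
theorem exists_fix_of_fpf (Q : Subgroup G) [Finite Q] {s : G} (hs : ∀ h ∈ Q, s * h * s⁻¹ ∈ Q)
    (hf : ∀ h ∈ Q, s * h * s⁻¹ = h → h = 1) {ω : Ω} (hω : s • ω ∈ MulAction.orbit Q ω) :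
    ∃ ω' ∈ MulAction.orbit Q ω, s • ω' = ω' ∧
      ∀ g : G, g * s = s * g → g • ω' ∈ MulAction.orbit Q ω → g • ω' = ω' := by
  have inj : ∀ h ∈ Q, ∀ k ∈ Q, h⁻¹ * (s * h * s⁻¹) = k⁻¹ * (s * k * s⁻¹) → h = k := by
    intro h hh k hk e
    have := hf (h * k⁻¹) (Q.mul_mem hh (Q.inv_mem hk)) (by
      have e2 : s * h * s⁻¹ = h * (k⁻¹ * (s * k * s⁻¹)) := by rw [← e]; group
      calc s * (h * k⁻¹) * s⁻¹ = (s * h * s⁻¹) * (s * k * s⁻¹)⁻¹ := by group
        _ = h * k⁻¹ := by rw [e2]; group)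
    exact mul_inv_eq_one.1 this
  have surj : ∀ (A : Subgroup G), A ≤ Q → (∀ h ∈ A, s * h * s⁻¹ ∈ A) → ∀ y ∈ A,
      ∃ h ∈ A, h⁻¹ * (s * h * s⁻¹) = y := by
    intro A hA hsA y hy
    haveI : Finite A := Finite.of_injective _ (Subgroup.inclusion_injective hA)
    let φ : A → A := fun h => ⟨h.1⁻¹ * (s * h * s⁻¹), A.mul_mem (A.inv_mem h.2) (hsA _ h.2)⟩
    have : Function.Injective φ := fun h k e =>
      Subtype.ext (inj _ (hA h.2) _ (hA k.2) (congrArg Subtype.val e))
    obtain ⟨h, e⟩ := Finite.surjective_of_injective this ⟨y, hy⟩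
    exact ⟨h, h.2, congrArg Subtype.val e⟩
  obtain ⟨h₀, e₀⟩ := hω
  obtain ⟨h, hh, e⟩ := surj Q le_rfl hs _ (Q.inv_mem h₀.2)
  have e₀' : s • ω = (h₀ : G) • ω := e₀.symm
  have hfix : s • h • ω = h • ω := by
    have : s * h = h * (h₀ : G)⁻¹ * s := by rw [← e]; group
    rw [← mul_smul, this, mul_smul, e₀', mul_smul, inv_smul_smul]
  refine ⟨h • ω, ⟨⟨h, hh⟩, rfl⟩, hfix, fun g hg hgo => ?_⟩
  obtain ⟨k, ek⟩ := hgo
  have ek' : (k : G) • ω = g • h • ω := ek
  set ω' := h • ω with hω'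
  have hk : ((k : G) * h⁻¹) • ω' = g • ω' := by rw [mul_smul, hω', inv_smul_smul, ek']
  have hkQ : (k : G) * h⁻¹ ∈ Q := Q.mul_mem k.2 (Q.inv_mem hh)
  set k' := (k : G) * h⁻¹
  have hs' : s⁻¹ • ω' = ω' := by rw [inv_smul_eq_iff, hfix]
  have h1 : (k'⁻¹ * (s * k' * s⁻¹)) • ω' = ω' := by
    rw [mul_smul, mul_smul, mul_smul, hs', hk, ← mul_smul s, ← hg, mul_smul, hfix, ← hk,
      inv_smul_smul]
  obtain ⟨a, ha, ea⟩ := surj (Q ⊓ MulAction.stabilizer G ω') inf_le_left (by
    rintro x ⟨hx, hx'⟩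
    refine ⟨hs x hx, ?_⟩
    have hx'' : x • ω' = ω' := hx'
    show (s * x * s⁻¹) • ω' = ω'
    rw [mul_smul, mul_smul, hs', hx'', hfix]) _
    ⟨Q.mul_mem (Q.inv_mem hkQ) (hs _ hkQ), h1⟩
  have := inj _ ha.1 _ hkQ ea
  rw [← hk, ← this]
  exact ha.2

theorem card_range_mul {I : Type*} [Finite I] (φ : I → X) (k : ℕ)
    (h : ∀ i, Nat.card {j // φ j = φ i} = k) : Nat.card (Set.range φ) * k = Nat.card I := by
  classical
  haveI := Fintype.ofFinite (Set.range φ)
  rw [← Nat.card_congr (Equiv.sigmaFiberEquiv (Set.rangeFactorization φ)), Nat.card_sigma,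
    Finset.sum_congr rfl (g := fun _ => k)]
  · simp
  · rintro ⟨_, i, rfl⟩ _
    rw [← h i]
    exact Nat.card_congr (Equiv.subtypeEquivRight fun j => by simp [Subtype.ext_iff])

/-- The image of an additive family as a subgroup. -/
def addSub {A : Type*} [AddCommGroup A] (x : A → G) (hx : ∀ a b, x (a + b) = x a * x b) :
    Subgroup G where
  carrier := Set.range x
  mul_mem' := by rintro _ _ ⟨a, rfl⟩ ⟨b, rfl⟩; exact ⟨a + b, hx a b⟩
  one_mem' := ⟨0, by have := hx 0 0; simpa using this⟩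
  inv_mem' := by
    rintro _ ⟨a, rfl⟩
    have h0 : x 0 = 1 := by have := hx 0 0; simpa using this
    exact ⟨-a, eq_inv_of_mul_eq_one_left (by rw [← hx, neg_add_cancel, h0])⟩

/-- The additive stabiliser. -/
def addStab {A : Type*} [AddCommGroup A] (x : A → G) (hx : ∀ a b, x (a + b) = x a * x b)
    (ω : Ω) : AddSubgroup A where
  carrier := {a | x a • ω = ω}
  add_mem' {a b} ha hb := by
    show x (a + b) • ω = ω
    rw [hx, mul_smul, hb, ha]
  zero_mem' := by
    have h0 : x 0 = 1 := by have := hx 0 0; simpa using this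
    show x 0 • ω = ω
    rw [h0, one_smul]
  neg_mem' {a} ha := by
    have h0 : x 0 = 1 := by have := hx 0 0; simpa using this
    show x (-a) • ω = ω
    have ha' : x a • ω = ω := ha
    conv_lhs => rw [← ha', ← mul_smul, ← hx, neg_add_cancel, h0, one_smul]

theorem mem_addStab {A : Type*} [AddCommGroup A] {x : A → G} {hx : ∀ a b, x (a + b) = x a * x b}
    {ω : Ω} {a : A} : a ∈ addStab x hx ω ↔ x a • ω = ω := Iff.rfl

theorem addStab_smul {A : Type*} [AddCommGroup A] {x : A → G} {hx : ∀ a b, x (a + b) = x a * x b}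
    (g : addSub x hx) (ω : Ω) : addStab x hx (g • ω) = addStab x hx ω := by
  obtain ⟨_, b, rfl⟩ := g
  ext a
  show x a • x b • ω = x b • ω ↔ x a • ω = ω
  rw [← mul_smul, ← hx, add_comm, hx, mul_smul, smul_left_cancel_iff]

/-- Orbit size for an additive family. -/
theorem card_orbit_add {A : Type*} [AddCommGroup A] [Finite A] (x : A → G)
    (hx : ∀ a b, x (a + b) = x a * x b) (ω : Ω) :
    Nat.card (MulAction.orbit (addSub x hx) ω) * Nat.card (addStab x hx ω) = Nat.card A := by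
  have : MulAction.orbit (addSub x hx) ω = Set.range fun a => x a • ω := by
    ext y
    exact ⟨fun ⟨⟨_, a, rfl⟩, h⟩ => ⟨a, h⟩, fun ⟨a, h⟩ => ⟨⟨_, a, rfl⟩, h⟩⟩
  rw [this]
  refine card_range_mul _ _ fun a => Nat.card_congr ((Equiv.subRight a).subtypeEquiv fun b => ?_)
  show x b • ω = x a • ω ↔ x (b - a) • ω = ω
  conv_lhs => rw [show b = a + (b - a) by abel, hx, mul_smul, smul_left_cancel_iff]

end orbit

/-- A set of nonzero vectors closed under scalars has size divisible by `q - 1`. -/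
theorem sub_one_dvd_card {F V : Type*} [Field F] [Finite F] [AddCommGroup V] [Module F V]
    [Finite V] (S : Set V) (h0 : 0 ∉ S) (hS : ∀ c : F, c ≠ 0 → ∀ v ∈ S, c • v ∈ S) :
    Nat.card F - 1 ∣ Nat.card S := by
  classical
  let M : SubMulAction Fˣ V := ⟨S, fun c v hv => hS c c.ne_zero v hv⟩
  have e := MulAction.selfEquivSigmaOrbits Fˣ M
  have h1 : Nat.card S = Nat.card M := rfl
  haveI := Fintype.ofFinite (MulAction.orbitRel.Quotient Fˣ M)
  rw [h1, Nat.card_congr e, Nat.card_sigma]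
  refine Finset.dvd_sum fun o _ => ?_
  rw [← Nat.card_units]
  refine Dvd.intro 1 ?_
  rw [mul_one]
  refine (Nat.card_congr (Equiv.ofBijective
    (fun c : Fˣ => (⟨c • o.out, c, rfl⟩ : MulAction.orbit Fˣ o.out)) ⟨fun c d h => ?_, ?_⟩))
  · have h2 : (c : F) • ((o.out : M) : V) = (d : F) • ((o.out : M) : V) :=
      congrArg (fun x : MulAction.orbit Fˣ o.out => ((x : M) : V)) h
    have h3 : ((o.out : M) : V) ≠ 0 := fun h => h0 (h ▸ (o.out : M).2)
    exact Units.ext (smul_left_injective F h3 h2)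
  · rintro ⟨_, c, rfl⟩
    exact ⟨c, rfl⟩

end Cfsg.Agent.MinI
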