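import Cfsg.Agent.MinI.Basic

/-!
Heisenberg-type subgroups `Q = {e a * z t}` acting on a finite set.
-/

set_option autoImplicit false

namespace Cfsg.Agent.MinI

open Finset

/-- A parametrised subgroup `{e a * z t}` with central part `z` and commutator form `β`. -/
structure Heis (G W Z : Type*) [Group G] [AddCommGroup W] [AddCommGroup Z] where
  e : W → G
  z : Z → G
  β : W →+ W →+ Z
  z_add : ∀ s t, z (s + t) = z s * z t
  e_mul : ∀ a b, ∃ t, e a * e b = e (a + b) * z t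
  z_comm : ∀ a t, z t * e a = e a * z t
  e_comm : ∀ a b, e a * e b = e b * e a * z (β a b)

namespace Heis

variable {G W Z Ω : Type*} [Group G] [AddCommGroup W] [AddCommGroup Z] [MulAction G Ω]
  (h : Heis G W Z)

theorem z_zero : h.z 0 = 1 := by have := h.z_add 0 0; simpa using this

theorem z_neg (t : Z) : h.z (-t) = (h.z t)⁻¹ :=
  eq_inv_of_mul_eq_one_left (by rw [← h.z_add, neg_add_cancel, h.z_zero])

theorem z_z_comm (s t : Z) : h.z s * h.z t = h.z t * h.z s := by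
  rw [← h.z_add, add_comm, h.z_add]

theorem e_zero : ∃ t, h.e 0 = h.z t := by
  obtain ⟨t, ht⟩ := h.e_mul 0 0
  rw [add_zero] at ht
  exact ⟨t, mul_left_cancel ht⟩

theorem ez_mul (a b : W) : ∃ c, ∀ s t, h.e a * h.z s * (h.e b * h.z t) =
    h.e (a + b) * h.z (c + s + t) := by
  obtain ⟨c, hc⟩ := h.e_mul a b
  refine ⟨c, fun s t => ?_⟩
  rw [h.z_add, h.z_add, mul_assoc (h.e a), ← mul_assoc (h.z s), h.z_comm, ← mul_assoc,
    ← mul_assoc, hc]
  simp only [mul_assoc]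

theorem ez_inv (a : W) : ∃ c, ∀ s, (h.e a * h.z s)⁻¹ = h.e (-a) * h.z (c - s) := by
  obtain ⟨c, hc⟩ := h.ez_mul (-a) a
  obtain ⟨t, ht⟩ := h.e_zero
  refine ⟨-c - t, fun s => ?_⟩
  rw [eq_comm, eq_inv_iff_mul_eq_one, hc, neg_add_cancel, ht, ← h.z_add, ← h.z_zero]
  congr 1; abel

/-- The subgroup. -/
def Q : Subgroup G where
  carrier := {g | ∃ a t, h.e a * h.z t = g}
  mul_mem' := by
    rintro _ _ ⟨a, s, rfl⟩ ⟨b, t, rfl⟩
    obtain ⟨c, hc⟩ := h.ez_mul a b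
    exact ⟨_, _, (hc s t).symm⟩
  one_mem' := by
    obtain ⟨t, ht⟩ := h.e_zero
    exact ⟨0, -t, by rw [ht, ← h.z_add, add_neg_cancel, h.z_zero]⟩
  inv_mem' := by
    rintro _ ⟨a, s, rfl⟩
    obtain ⟨c, hc⟩ := h.ez_inv a
    exact ⟨_, _, (hc s).symm⟩

theorem mem_Q {g : G} : g ∈ h.Q ↔ ∃ a t, h.e a * h.z t = g := Iff.rfl

instance [Finite W] [Finite Z] : Finite h.Q :=
  Finite.of_surjective (fun p : W × Z => (⟨_, p.1, p.2, rfl⟩ : h.Q))
    (by rintro ⟨_, a, t, rfl⟩; exact ⟨(a, t), rfl⟩)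

/-- The stabiliser in the centre. -/
def R (ω : Ω) : AddSubgroup Z := addStab h.z h.z_add ω

theorem mem_R {ω : Ω} {t : Z} : t ∈ h.R ω ↔ h.z t • ω = ω := Iff.rfl

/-- The image of the stabiliser modulo the centre. -/
def A (ω : Ω) : AddSubgroup W where
  carrier := {a | ∃ t, (h.e a * h.z t) • ω = ω}
  add_mem' := by
    rintro a b ⟨s, hs⟩ ⟨t, ht⟩
    obtain ⟨c, hc⟩ := h.ez_mul a b
    exact ⟨_, by rw [← hc s t, mul_smul, ht, hs]⟩
  zero_mem' := by
    obtain ⟨t, ht⟩ := h.e_zero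
    exact ⟨-t, by rw [ht, ← h.z_add, add_neg_cancel, h.z_zero, one_smul]⟩
  neg_mem' := by
    rintro a ⟨s, hs⟩
    obtain ⟨c, hc⟩ := h.ez_inv a
    exact ⟨_, by rw [← hc s, inv_smul_eq_iff, hs]⟩

theorem mem_A {ω : Ω} {a : W} : a ∈ h.A ω ↔ ∃ t, (h.e a * h.z t) • ω = ω := Iff.rfl

theorem z_comm_Q {g : G} (hg : g ∈ h.Q) (t : Z) : h.z t * g = g * h.z t := by
  obtain ⟨a, s, rfl⟩ := hg
  rw [← mul_assoc, h.z_comm, mul_assoc, h.z_z_comm, mul_assoc]

theorem iso {ω : Ω} {a b : W} (ha : a ∈ h.A ω) (hb : b ∈ h.A ω) : h.β a b ∈ h.R ω := by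
  obtain ⟨s, hs⟩ := ha
  obtain ⟨t, ht⟩ := hb
  have e : h.e a * h.z s * (h.e b * h.z t) = h.e b * h.z t * (h.e a * h.z s) * h.z (h.β a b) := by
    have e1 : h.e a * h.z s * (h.e b * h.z t) = h.e a * h.e b * (h.z s * h.z t) := by
      rw [mul_assoc, ← mul_assoc (h.z s), h.z_comm]; simp only [mul_assoc]
    have e2 : h.e b * h.z t * (h.e a * h.z s) = h.e b * h.e a * (h.z s * h.z t) := by
      rw [mul_assoc, ← mul_assoc (h.z t), h.z_comm, h.z_z_comm s t]; simp only [mul_assoc]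
    rw [e1, e2, h.e_comm, ← h.z_add, mul_assoc, mul_assoc (h.e b * h.e a), h.z_z_comm]
  have e3 : (h.e a * h.z s * (h.e b * h.z t)) • ω =
    (h.e b * h.z t * (h.e a * h.z s) * h.z (h.β a b)) • ω := by rw [e]
  rw [mul_smul, ht, hs, ← h.z_comm_Q (h.Q.mul_mem ⟨_, _, rfl⟩ ⟨_, _, rfl⟩), mul_smul, mul_smul,
    hs, ht] at e3
  exact e3.symm

theorem R_smul_of {g : G} {l : Z → Z} (hg : ∀ t, g * h.z t * g⁻¹ = h.z (l t)) (ω : Ω) (t : Z) :
    l t ∈ h.R (g • ω) ↔ t ∈ h.R ω := by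
  rw [mem_R, mem_R, ← hg, mul_smul, mul_smul, inv_smul_smul, smul_left_cancel_iff]

theorem R_smul_comm {g : G} (hg : ∀ t, g * h.z t * g⁻¹ = h.z t) (ω : Ω) :
    h.R (g • ω) = h.R ω := by
  ext t; exact h.R_smul_of (l := id) hg ω t

theorem R_smul (g : h.Q) (ω : Ω) : h.R (g • ω) = h.R ω :=
  h.R_smul_comm (fun t => by rw [← h.z_comm_Q g.2, mul_inv_cancel_right]) ω

theorem A_smul_of {g : G} {l : Z → Z} (hl : Function.Surjective l)
    (hg : ∀ t, g * h.z t * g⁻¹ = h.z (l t)) {a b : W} {c : Z}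
    (hab : g * h.e a * g⁻¹ = h.e b * h.z c) (ω : Ω) : b ∈ h.A (g • ω) ↔ a ∈ h.A ω := by
  have key : ∀ t, (h.e b * h.z (c + l t)) • g • ω = g • (h.e a * h.z t) • ω := by
    intro t
    rw [h.z_add, ← mul_assoc, ← hab, ← hg, ← mul_smul, ← mul_smul]
    congr 1; group
  constructor
  · rintro ⟨t, ht⟩
    obtain ⟨s, hs⟩ := hl (t - c)
    refine ⟨s, ?_⟩
    rw [← smul_left_cancel_iff g, ← key, hs, add_sub_cancel, ht]
  · rintro ⟨t, ht⟩
    exact ⟨_, by rw [key, ht]⟩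

theorem A_smul (g : h.Q) (ω : Ω) : h.A (g • ω) = h.A ω := by
  ext a
  obtain ⟨g, hg⟩ := g
  obtain ⟨b, t, e⟩ := id hg
  refine h.A_smul_of (l := id) (c := h.β b a) Function.surjective_id
    (fun t => by rw [← h.z_comm_Q hg, mul_inv_cancel_right]; rfl) ?_ ω
  show g * h.e a * g⁻¹ = _
  rw [← e, mul_inv_eq_iff_eq_mul]
  rw [mul_assoc, h.z_comm, ← mul_assoc, h.e_comm, mul_assoc (h.e a) (h.z _),
    ← mul_assoc (h.z _), h.z_comm]
  simp only [mul_assoc]

theorem card_orbit [Finite W] [Finite Z] (ω : Ω) :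
    Nat.card (MulAction.orbit h.Q ω) * (Nat.card (h.A ω) * Nat.card (h.R ω)) =
      Nat.card W * Nat.card Z := by
  have : MulAction.orbit h.Q ω = Set.range fun p : W × Z => (h.e p.1 * h.z p.2) • ω := by
    ext y
    exact ⟨fun ⟨⟨_, a, t, rfl⟩, h⟩ => ⟨(a, t), h⟩, fun ⟨p, h⟩ => ⟨⟨_, p.1, p.2, rfl⟩, h⟩⟩
  rw [this, ← Nat.card_prod W Z]
  refine card_range_mul _ _ fun p => ?_
  obtain ⟨a, s⟩ := p
  choose c hc using h.ez_mul
  obtain ⟨d, hd⟩ := h.ez_inv a
  choose τ hτ using fun x : h.A ω => x.2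
  have key : ∀ b t, (h.e b * h.z t) • ω = (h.e a * h.z s) • ω ↔
      (h.e (-a + b) * h.z (c (-a) b + (d - s) + t)) • ω = ω := by
    intro b t
    rw [← hc, ← hd, mul_smul (_⁻¹), inv_smul_eq_iff]
  have key2 : ∀ (x : h.A ω) t, (h.e x * h.z t) • ω = ω ↔ t - τ x ∈ h.R ω := by
    intro x t
    rw [mem_R]
    conv_lhs => rw [show t = τ x + (t - τ x) by abel, h.z_add, ← mul_assoc,
      ← h.z_comm_Q ⟨_, _, rfl⟩, mul_smul, hτ]
  rw [← Nat.card_prod]
  refine Nat.card_congr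
    { toFun := fun p => (⟨-a + p.1.1, _, (key _ _).1 p.2⟩,
        ⟨c (-a) p.1.1 + (d - s) + p.1.2 - τ ⟨-a + p.1.1, _, (key _ _).1 p.2⟩,
          (key2 _ _).1 ((key _ _).1 p.2)⟩)
      invFun := fun y => ⟨(a + y.1, y.2 + τ y.1 - c (-a) (a + y.1) - (d - s)), by
        rw [key]
        simp only [neg_add_cancel_left]
        rw [key2]
        convert y.2.2 using 1
        abel⟩
      left_inv := fun p => by
        ext
        · simp
        · simp only [add_neg_cancel_left]; abel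
      right_inv := fun y => by
        ext
        · simp
        · simp only [neg_add_cancel_left, Subtype.coe_eta]; abel }

end Heis

/-! ### Scalar multiples of a proper additive subgroup of a finite field -/

section field
variable {K : Type*} [Field K] [Finite K]

/-- A nontrivial additive character trivial on a proper subgroup. -/
theorem exists_char {Z : Type*} [AddCommGroup Z] [Finite Z] {R : AddSubgroup Z} (hR : R ≠ ⊤) :
    ∃ χ : AddChar Z ℂ, (∀ t ∈ R, χ t = 1) ∧ ∃ t, χ t ≠ 1 := by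
  obtain ⟨t, ht⟩ : ∃ t, t ∉ R := by
    by_contra! hh
    exact hR (eq_top_iff.2 fun t _ => hh t)
  have : (QuotientAddGroup.mk t : Z ⧸ R) ≠ 0 := by simpa using ht
  obtain ⟨χ, hχ⟩ := AddChar.exists_apply_ne_zero.2 this
  refine ⟨χ.compAddMonoidHom (QuotientAddGroup.mk' R), fun s hs => ?_, t, hχ⟩
  have : (QuotientAddGroup.mk s : Z ⧸ R) = 0 := by simpa using hs
  simp [this]

/-- `l • R` as a preimage. -/
def scal (l : K) (R : AddSubgroup K) : AddSubgroup K := R.comap (AddMonoidHom.mulLeft l)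

omit [Finite K] in
theorem mem_scal {l t : K} {R : AddSubgroup K} : t ∈ scal l R ↔ l * t ∈ R := Iff.rfl

theorem exists_scal_count {R : AddSubgroup K} (hR : R ≠ ⊤) :
    ∃ S : Finset (AddSubgroup K), (∀ X ∈ S, ∃ l, l ≠ 0 ∧ X = scal l R) ∧
      Nat.card K * Nat.card R ≤ S.card * Nat.card K ∧
      (R ≠ ⊥ → (Nat.card K + 1) * Nat.card R ≤ S.card * Nat.card K) := by
  classical
  haveI := Fintype.ofFinite K
  obtain ⟨χ, hχ, t₀, ht₀⟩ := exists_char hR
  have hnd : ∀ a : K, a ≠ 0 → ∃ w, χ (AddMonoidHom.mul a w) ≠ 1 := fun a ha =>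
    ⟨a⁻¹ * t₀, by simpa [ha] using ht₀⟩
  set S : Finset (AddSubgroup K) := (univ.filter fun l : K => l ≠ 0).image fun l => scal l R
  have hcard : ∀ X ∈ S, Nat.card X = Nat.card R := by
    intro X hX
    obtain ⟨l, hl, rfl⟩ := Finset.mem_image.1 hX
    have hl : l ≠ 0 := by simpa using hl
    exact Nat.card_congr ((Equiv.mulLeft₀ l hl).subtypeEquiv fun a => Iff.rfl)
  set r := Nat.card (ann AddMonoidHom.mul χ R)
  have hr : Nat.card R * r = Nat.card K := card_mul_card_ann _ χ hnd R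
  have hRp : 0 < Nat.card R := Nat.card_pos
  have h1 : Nat.card K - 1 ≤ S.card * (r - 1) := by
    have : (univ.erase (0 : K)) ⊆ S.biUnion fun X =>
        (univ.filter fun a => a ∈ ann AddMonoidHom.mul χ X).erase 0 := by
      intro l hl
      have hl : l ≠ 0 := by simpa using hl
      refine Finset.mem_biUnion.2 ⟨scal l R, Finset.mem_image.2 ⟨l, by simpa using hl, rfl⟩, ?_⟩
      simp only [Finset.mem_erase, Finset.mem_filter, Finset.mem_univ, true_and]
      exact ⟨hl, fun a ha => hχ _ (by simpa [mem_scal, mul_comm] using ha)⟩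
    have h2 := (Finset.card_le_card this).trans (Finset.card_biUnion_le_card_mul _ _ (r - 1) (by
      intro X hX
      rw [Finset.card_erase_of_mem (by simp), ← Fintype.card_subtype, ← Nat.card_eq_fintype_card]
      have := card_mul_card_ann _ χ hnd X
      rw [hcard X hX, ← hr] at this
      rw [Nat.eq_of_mul_eq_mul_left hRp this]))
    rwa [Finset.card_erase_of_mem (Finset.mem_univ _), Finset.card_univ,
      ← Nat.card_eq_fintype_card] at h2
  have hmem : R ∈ S := Finset.mem_image.2 ⟨1, by simp, by ext; simp [mem_scal]⟩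
  have hS1 : 1 ≤ S.card := Finset.card_pos.2 ⟨R, hmem⟩
  have hrp : 1 ≤ r := Nat.card_pos
  have hK : 1 ≤ Nat.card K := Nat.card_pos
  have h3 : Nat.card K - 1 + S.card ≤ S.card * r := by
    obtain ⟨r', hr'⟩ := Nat.exists_eq_add_of_le' hrp
    rw [hr'] at h1 ⊢
    simp only [Nat.add_sub_cancel] at h1
    nlinarith
  refine ⟨S, fun X hX => ?_, ?_, fun hb => ?_⟩
  · obtain ⟨l, hl, rfl⟩ := Finset.mem_image.1 hX
    exact ⟨l, by simpa using hl, rfl⟩
  · rw [← hr, mul_comm (Nat.card R) r, ← mul_assoc]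
    exact Nat.mul_le_mul_right _ (by rw [mul_comm r, hr]; omega)
  · have hS2 : 2 ≤ S.card := by
      obtain ⟨⟨a, ha⟩, ha0⟩ := AddSubgroup.ne_bot_iff_exists_ne_zero.1 hb
      have ha0 : a ≠ 0 := fun h => ha0 (Subtype.ext h)
      have ht1 : t₀ ∉ R := fun h => ht₀ (hχ _ h)
      have ht0 : t₀ ≠ 0 := fun h => ht1 (h ▸ R.zero_mem)
      refine Finset.one_lt_card.2 ⟨R, hmem, scal (t₀ * a⁻¹) R,
        Finset.mem_image.2 ⟨_, by simp [ht0, ha0], rfl⟩, fun e => ht1 ?_⟩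
      rw [e, mem_scal] at ha
      simpa [ha0] using ha
    rw [← hr, mul_comm (Nat.card R) r, ← mul_assoc]
    exact Nat.mul_le_mul_right _ (by rw [mul_comm r, hr]; omega)

end field

namespace Heis

variable {G W K Ω : Type*} [Group G] [AddCommGroup W] [Field K] [MulAction G Ω]
  [Finite W] [Finite K] [Finite Ω] (h : Heis G W K)

/-- Points with the same central stabiliser and the same size of `A`. -/
def T (ω : Ω) : Set Ω := {x | h.R x = h.R ω ∧ Nat.card (h.A x) = Nat.card (h.A ω)}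

omit [Finite W] [Finite K] [Finite Ω] in
theorem T_smul (ω : Ω) (g : h.Q) : ∀ x ∈ h.T ω, g • x ∈ h.T ω := fun x hx =>
  ⟨(h.R_smul g x).trans hx.1, by rw [h.A_smul g x]; exact hx.2⟩

/-- The points not fixed by the centre. -/
def Bad (Ω : Type*) [MulAction G Ω] : Set Ω := {x | h.R x ≠ ⊤}

omit [Finite W] in
theorem torus_count (ht : ∀ l : K, l ≠ 0 → ∃ g : G, ∀ t, g * h.z t * g⁻¹ = h.z (l * t)) {ω : Ω}
    (hω : h.R ω ≠ ⊤) : Nat.card K * Nat.card (h.R ω) * Nat.card (h.T ω) ≤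
        Nat.card (h.Bad Ω) * Nat.card K ∧ (h.R ω ≠ ⊥ →
      (Nat.card K + 1) * Nat.card (h.R ω) * Nat.card (h.T ω) ≤ Nat.card (h.Bad Ω) * Nat.card K) := by
  obtain ⟨S, hS, h1, h2⟩ := exists_scal_count hω
  have key : S.card * Nat.card (h.T ω) ≤ Nat.card (h.Bad Ω) := by
    refine card_mul_le_of_fib _ (fun x : Ω => h.R x) S _ fun X hX => ?_
    obtain ⟨l, hl, rfl⟩ := hS X hX
    obtain ⟨g, hg⟩ := ht l hl
    have hR : ∀ x ∈ h.T ω, h.R (g⁻¹ • x) = scal l (h.R ω) := by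
      intro x hx
      ext t
      rw [mem_scal, ← hx.1, ← h.R_smul_of hg (g⁻¹ • x), smul_inv_smul]
    refine Nat.card_le_card_of_injective (fun x : h.T ω => ⟨g⁻¹ • x.1, ?_, hR _ x.2⟩)
      fun x y e => Subtype.ext (by simpa using e)
    show _ ≠ ⊤
    rw [hR _ x.2]
    intro e
    refine hω (eq_top_iff.2 fun t _ => ?_)
    have : l⁻¹ * t ∈ scal l (h.R ω) := e ▸ AddSubgroup.mem_top _
    simpa [mem_scal, hl] using this
  constructor
  · calc _ ≤ S.card * Nat.card K * Nat.card (h.T ω) := Nat.mul_le_mul_right _ h1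
      _ = S.card * Nat.card (h.T ω) * Nat.card K := by ring
      _ ≤ _ := Nat.mul_le_mul_right _ key
  · intro hb
    calc _ ≤ S.card * Nat.card K * Nat.card (h.T ω) := Nat.mul_le_mul_right _ (h2 hb)
      _ = S.card * Nat.card (h.T ω) * Nat.card K := by ring
      _ ≤ _ := Nat.mul_le_mul_right _ key

omit [Finite Ω] in
theorem card_orbit_T {ω x : Ω} (hx : x ∈ h.T ω) :
    Nat.card (MulAction.orbit h.Q x) = Nat.card (MulAction.orbit h.Q ω) := by
  have h1 := h.card_orbit x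
  rw [hx.1, hx.2, ← h.card_orbit ω] at h1
  exact Nat.eq_of_mul_eq_mul_right (Nat.mul_pos Nat.card_pos Nat.card_pos) h1

theorem aux_count {ω : Ω} {c m : ℕ} (h1 : c * Nat.card (h.R ω) * Nat.card (h.T ω) ≤
    Nat.card (h.Bad Ω) * Nat.card K) (h2 : m * Nat.card (MulAction.orbit h.Q ω) ≤ Nat.card (h.T ω)) :
    c * m * Nat.card W ≤ Nat.card (h.Bad Ω) * Nat.card (h.A ω) := by
  have h3 := h.card_orbit ω
  refine Nat.le_of_mul_le_mul_right ?_ (Nat.card_pos (α := K))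
  calc c * m * Nat.card W * Nat.card K
      = c * Nat.card (h.R ω) * (m * Nat.card (MulAction.orbit h.Q ω)) * Nat.card (h.A ω) := by
        rw [mul_assoc (c * m), ← h3]; ring
    _ ≤ c * Nat.card (h.R ω) * Nat.card (h.T ω) * Nat.card (h.A ω) := by gcongr
    _ ≤ Nat.card (h.Bad Ω) * Nat.card K * Nat.card (h.A ω) := by gcongr
    _ = _ := by ring

/-- The master inequality. -/
theorem master (ht : ∀ l : K, l ≠ 0 → ∃ g : G, ∀ t, g * h.z t * g⁻¹ = h.z (l * t)) {ω : Ω}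
    (hω : h.R ω ≠ ⊤) (S : Finset (AddSubgroup W)) (hS : ∀ X ∈ S, ∃ x ∈ h.T ω, h.A x = X) :
    Nat.card K * S.card * Nat.card W ≤ Nat.card (h.Bad Ω) * Nat.card (h.A ω) ∧
    (h.R ω ≠ ⊥ → (Nat.card K + 1) * S.card * Nat.card W ≤ Nat.card (h.Bad Ω) * Nat.card (h.A ω)) ∧
    (∀ x ∈ h.T ω, ∀ y ∈ h.T ω, h.A x = h.A y → y ∉ MulAction.orbit h.Q x →
      Nat.card K * (S.card + 1) * Nat.card W ≤ Nat.card (h.Bad Ω) * Nat.card (h.A ω)) := by
  obtain ⟨h1, h2⟩ := h.torus_count ht hω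
  have h3 : S.card * Nat.card (MulAction.orbit h.Q ω) ≤ Nat.card (h.T ω) :=
    card_mul_le_of_orbit (G := h.Q) _ (h.T_smul ω) (fun x => h.A x)
      (fun g x _ => h.A_smul g x) S _ fun X hX => by
        obtain ⟨x, hx, e⟩ := hS X hX
        exact ⟨x, hx, e, (h.card_orbit_T hx).ge⟩
  refine ⟨h.aux_count h1 h3, fun hb => h.aux_count (h2 hb) h3, fun x hx y hy e hn => ?_⟩
  exact h.aux_count h1 (card_succ_mul_le_of_orbit (G := h.Q) _ (h.T_smul ω) (fun x => h.A x)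
      (fun g x _ => h.A_smul g x) S _ hS (fun x hx => (h.card_orbit_T hx).ge) hx hy e hn)

end Heis

end Cfsg.Agent.MinI
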