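import Cfsg.Agent.MinI.OGrp2

/-!
The group generated by Eichler maps acting on a small finite set: global counts.
-/

set_option autoImplicit false

namespace Cfsg.Agent.MinI

open QuadraticMap Module Cfsg.Agent.Orth

theorem double_count {X Y : Type*} [Finite X] [Finite Y] (r : X → Y → Prop) {a b : ℕ}
    (ha : ∀ x, a ≤ Nat.card {y // r x y}) (hb : ∀ y, Nat.card {x // r x y} ≤ b) :
    Nat.card X * a ≤ Nat.card Y * b := by
  classical
  haveI := Fintype.ofFinite X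
  haveI := Fintype.ofFinite Y
  rw [Nat.card_eq_fintype_card, Nat.card_eq_fintype_card, ← Finset.card_univ, ← Finset.card_univ]
  refine Finset.card_mul_le_card_mul r (fun x _ => (ha x).trans (le_of_eq ?_))
    fun y _ => le_trans (le_of_eq ?_) (hb y)
  · rw [Nat.card_eq_fintype_card, Fintype.card_subtype]; rfl
  · rw [Nat.card_eq_fintype_card, Fintype.card_subtype]; rfl

theorem double_count_eq {X Y : Type*} [Finite X] [Finite Y] (r : X → Y → Prop) {a b : ℕ}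
    (ha : ∀ x, Nat.card {y // r x y} = a) (hb : ∀ y, Nat.card {x // r x y} = b) :
    Nat.card X * a = Nat.card Y * b :=
  le_antisymm (double_count r (fun x => (ha x).ge) fun y => (hb y).le)
    (double_count (fun y x => r x y) (fun y => (hb y).ge) fun x => (ha x).le)

theorem card_add_le {X : Type*} [Finite X] {p r : X → Prop} (h : ∀ x, p x → ¬ r x) :
    Nat.card {x // p x} + Nat.card {x // r x} ≤ Nat.card X := by
  rw [← Nat.card_sum]
  refine Nat.card_le_card_of_injective (Sum.elim Subtype.val Subtype.val) ?_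
  rintro (x | x) (y | y) e
  · rw [Subtype.ext e]
  · exact absurd ((show x.1 = y.1 from e) ▸ y.2) (h _ x.2)
  · exact absurd ((show x.1 = y.1 from e).symm ▸ x.2) (h _ y.2)
  · rw [Subtype.ext e]

theorem card_ne_zero_add {X : Type*} [Finite X] [Zero X] {p : X → Prop} (h : p 0) :
    Nat.card {x // x ≠ 0 ∧ p x} + 1 = Nat.card {x // p x} := by
  classical
  rw [← Finite.card_option]
  refine Nat.card_congr (Equiv.ofBijective (fun x => x.elim ⟨0, h⟩ fun y => ⟨y.1, y.2.2⟩) ⟨?_, ?_⟩)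
  · rintro (_ | x) (_ | y) e
    · rfl
    · exact absurd (congrArg Subtype.val e).symm y.2.1
    · exact absurd (congrArg Subtype.val e) x.2.1
    · rw [Subtype.ext (show x.1 = y.1 from congrArg (fun z : {x // p x} => z.1) e)]
  · rintro ⟨x, hx⟩
    by_cases h0 : x = 0
    · exact ⟨none, Subtype.ext h0.symm⟩
    · exact ⟨some ⟨x, h0, hx⟩, rfl⟩

variable {F V : Type*} [Field F] [AddCommGroup V] [Module F V] {Q : QuadraticForm F V}
  {Ω : Type*} [MulAction (eichGroup Q) Ω]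

/-- All Eichler maps with centre `u` fix `ω`. -/
def Full (Q : QuadraticForm F V) {Ω : Type*} [MulAction (eichGroup Q) Ω] (u : V) (ω : Ω) : Prop :=
  ∀ t, polar Q u t = 0 → rho Q u t • ω = ω
/-- Only the trivial Eichler map with centre `u` fixes `ω`. -/
def Reg (Q : QuadraticForm F V) {Ω : Type*} [MulAction (eichGroup Q) Ω] (u : V) (ω : Ω) : Prop :=
  ∀ t, polar Q u t = 0 → rho Q u t • ω = ω → t ∈ Submodule.span F {u}
/-- Only long root elements with centre `u` fix `ω`. -/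
def SolI (Q : QuadraticForm F V) {Ω : Type*} [MulAction (eichGroup Q) Ω] (u : V) (ω : Ω) : Prop :=
  ∀ t, polar Q u t = 0 → rho Q u t • ω = ω → Q t = 0

theorem Full.smul {u : V} {ω : Ω} (h : Full Q u ω) (g : eichGroup Q) : Full Q (g.1.1 u) (g • ω) := by
  intro t ht
  rw [← OG.apply_inv_self g.1 t, rho_smul_iff]
  exact h _ (by rw [OG.polar_inv_right, ht])

theorem Reg.smul {u : V} {ω : Ω} (h : Reg Q u ω) (g : eichGroup Q) : Reg Q (g.1.1 u) (g • ω) := by
  intro t ht h'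
  rw [← OG.apply_inv_self g.1 t, rho_smul_iff] at h'
  obtain ⟨c, hc⟩ := Submodule.mem_span_singleton.1 (h _ (by rw [OG.polar_inv_right, ht]) h')
  exact Submodule.mem_span_singleton.2 ⟨c, by rw [← map_smul, hc, OG.apply_inv_self]⟩

theorem SolI.smul {u : V} {ω : Ω} (h : SolI Q u ω) (g : eichGroup Q) : SolI Q (g.1.1 u) (g • ω) := by
  intro t ht h'
  rw [← OG.apply_inv_self g.1 t, rho_smul_iff] at h'
  rw [← OG.map_Q (g.1)⁻¹ t]
  exact h _ (by rw [OG.polar_inv_right, ht]) h'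

theorem eg_inv_apply (g : eichGroup Q) (x : V) : (g⁻¹).1.1 (g.1.1 x) = x := OG.inv_apply_self g.1 x
theorem eg_apply_inv (g : eichGroup Q) (x : V) : g.1.1 ((g⁻¹).1.1 x) = x := OG.apply_inv_self g.1 x

theorem Full.scal {u : V} (hu : Q u = 0) {ω : Ω} (h : Full Q u ω) (c : F) (hc : c ≠ 0) :
    Full Q (c • u) ω := by
  intro t ht
  rw [p_smul_left, mul_eq_zero, or_iff_right hc] at ht
  rw [rho_smul_left hu ht]
  exact h _ (by rw [p_smul_right, ht, mul_zero])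

namespace Pt
variable (p : Pt Q)

theorem rho_decomp {t : V} (ht : polar Q p.u t = 0) :
    ∃ (a : p.P) (c : F), t = a + c • p.u ∧ rho Q p.u t = rho Q p.u a := by
  obtain ⟨a, ha⟩ := p.decomp ht
  exact ⟨a, _, ha, by rw [ha, rho_add_smul p.qu (p.up a)]⟩

theorem full_iff (ω : Ω) : Full Q p.u ω ↔ p.B ω = ⊤ := by
  refine ⟨fun h => eq_top_iff.2 fun t _ => h _ (p.up t), fun h t ht => ?_⟩
  obtain ⟨a, c, -, e⟩ := p.rho_decomp ht
  rw [e, ← p.mem_B, h]; trivial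

theorem reg_iff (ω : Ω) : Reg Q p.u ω ↔ p.B ω = ⊥ := by
  refine ⟨fun h => eq_bot_iff.2 fun t ht => ?_, fun h t ht ht' => ?_⟩
  · obtain ⟨c, hc⟩ := Submodule.mem_span_singleton.1 (h _ (p.up t) ht)
    have := p.u'p t
    rw [← hc, p_smul_right, polar_comm, p.uu', mul_one] at this
    exact Subtype.ext (by rw [← hc, this, zero_smul]; rfl)
  · obtain ⟨a, c, e', e⟩ := p.rho_decomp ht
    rw [e, ← p.mem_B, h, AddSubgroup.mem_bot] at ht'
    rw [e', ht']
    exact Submodule.mem_span_singleton.2 ⟨c, by simp⟩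

theorem solI_of (ω : Ω) (h : ∀ t ∈ p.B ω, p.Q1 t = 0) : SolI Q p.u ω := by
  intro t ht ht'
  obtain ⟨a, c, e', e⟩ := p.rho_decomp ht
  rw [e, ← p.mem_B] at ht'
  have : Q a = 0 := h a ht'
  rw [e', q_add, q_smul, p.qu, this, p_smul_right, polar_comm, p.up]; ring

end Pt

variable [Finite F] [FiniteDimensional F V] [Finite Ω]

omit [Finite Ω] in
theorem exists_map_sing (hQ : ND Q) (hn : 5 ≤ finrank F V) {u u' : V} (hu0 : u ≠ 0) (hu : Q u = 0)
    (hu0' : u' ≠ 0) (hu' : Q u' = 0) : ∃ g : eichGroup Q, g.1.1 u = u' :=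
  (exists_fix_map (Q := Q) (ι := LinearMap.id) (fun _ => rfl) hQ hn hu0 hu0'
    (hu.trans hu'.symm)).imp fun _ h => h.1

theorem rel_count (hQ : ND Q) (hn : 5 ≤ finrank F V) [MulAction.IsPretransitive (eichGroup Q) Ω]
    (r : V → Ω → Prop) (hr : ∀ u ω, r u ω → ∀ g : eichGroup Q, r (g.1.1 u) (g • ω)) {u : V}
    (hu0 : u ≠ 0) (hu : Q u = 0) (ω : Ω) : Nat.card {x // x ≠ 0 ∧ Q x = 0} * Nat.card {y // r u y} =
      Nat.card Ω * Nat.card {x // (x ≠ 0 ∧ Q x = 0) ∧ r x ω} := by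
  haveI := Module.finite_of_finite F (M := V)
  refine double_count_eq (fun (x : {x // x ≠ 0 ∧ Q x = 0}) (y : Ω) => r x.1 y) (fun x => ?_)
    fun y => ?_
  · obtain ⟨g, hg⟩ := exists_map_sing hQ hn hu0 hu x.2.1 x.2.2
    refine Nat.card_congr ((MulAction.toPerm g⁻¹).subtypeEquiv fun y => ⟨fun h => ?_, fun h => ?_⟩)
    · have := hr _ _ h g⁻¹
      rwa [← hg, eg_inv_apply] at this
    · have := hr _ _ h g
      rwa [hg, MulAction.toPerm_apply, smul_inv_smul] at this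
  · obtain ⟨g, hg⟩ := MulAction.exists_smul_eq (eichGroup Q) y ω
    exact Nat.card_congr
      { toFun := fun x => ⟨g.1.1 x.1.1, ⟨by simpa using x.1.2.1, by simpa using x.1.2.2⟩,
          hg ▸ hr _ _ x.2 g⟩
        invFun := fun x => ⟨⟨(g⁻¹).1.1 x.1, by simpa using x.2.1.1,
          (OG.map_Q _ _).trans x.2.1.2⟩, by
          have := hr _ _ x.2.2 g⁻¹
          rwa [inv_smul_eq_iff.2 hg.symm] at this⟩
        left_inv := fun x => Subtype.ext (Subtype.ext (eg_inv_apply g _))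
        right_inv := fun x => Subtype.ext (eg_apply_inv g _) }

omit [Finite Ω] in
theorem Pt.exists_bad (hQ : ND Q) (hn : 7 ≤ finrank F V) (hnt : ∃ (g : eichGroup Q) (ω : Ω), g • ω ≠ ω)
    (p : Pt Q) {v : p.P} (hv0 : v ≠ 0) (hv : p.Q1 v = 0) : ∃ ω : Ω, ¬ TG F (p.B ω) v := by
  by_contra! h
  have hd := p.dim hQ
  have h1 : ∀ w, w ≠ 0 → p.Q1 w = 0 → ∀ ω : Ω, TG F (p.B ω) w := fun w hw0 hw =>
    eich_ind (p.nd hQ) (by omega) (fun w => ∀ ω : Ω, TG F (p.B ω) w) (fun s t x hs ht hx ω c => by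
      rw [← map_smul, ← smul_inv_smul (rho Q s t) ω, p.B_eich _ hs ht]
      exact hx _ c) hv0 hw0 (hv.trans hw.symm) h
  have h2 : ∀ ω : Ω, Full Q p.u ω := fun ω => (p.full_iff ω).2 (Typed.eq_top (p.nd hQ) (by omega)
    fun w hw => by
      by_cases hw0 : w = 0
      · intro c; simp [hw0]
      · exact h1 w hw0 hw ω)
  obtain ⟨⟨g, hg⟩, ω, hω⟩ := hnt
  refine hω ?_
  clear hω
  induction hg using Subgroup.closure_induction generalizing ω with
  | mem x hx =>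
    obtain ⟨u, t, rfl⟩ := hx
    change rho Q u t • ω = ω
    by_cases hc : Q u = 0 ∧ polar Q u t = 0
    · by_cases hu0 : u = 0
      · rw [show rho Q u t = 1 from eg_ext fun x => by
          rw [rho_apply hc.1 hc.2, eichLin_apply, hu0]; simp, one_smul]
      · obtain ⟨g, hg⟩ := exists_map_sing hQ (by omega) p.u_ne p.qu hu0 hc.1
        have := (h2 (g⁻¹ • ω)).smul g
        rw [hg, smul_inv_smul] at this
        exact this t hc.2
    · rw [show rho Q u t = 1 from Subtype.ext (eich_of_not hc), one_smul]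
  | one => exact one_smul _ ω
  | mul x y hx hy h1 h2 =>
    change ((⟨x, hx⟩ : eichGroup Q) * ⟨y, hy⟩) • ω = ω
    rw [mul_smul, h2, h1]
  | inv x hx h1 =>
    change (⟨x, hx⟩ : eichGroup Q)⁻¹ • ω = ω
    rw [inv_smul_eq_iff, h1]

theorem Pt.line (hQ : ND Q) (hn : 7 ≤ finrank F V)
    (hΩ : Nat.card Ω < (Nat.card F + 2) * Nat.card F ^ (finrank F V - 3)) (p : Pt Q) (r : Pt p.Q1)
    {ω : Ω} (hω : ¬ TG F (p.B ω) r.u) :
    (Nat.card F + 1) * Nat.card F ^ (finrank F V - 3) ≤ Nat.card {x : Ω // ¬ TG F (p.B x) r.u} ∧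
    (((TS p.Q1 (p.B ω) r.u ∨ TN p.Q1 (p.B ω) r.u) ∧ (∃ x : Ω, TS p.Q1 (p.B x) r.u) ∧
      ∃ x : Ω, TN p.Q1 (p.B x) r.u) ∨
    (TT p.Q1 (p.B ω) r.u ∧ (4 ≤ Nat.card F → ∃ (x : Ω) (a t : V), a ≠ 0 ∧ Q a = 0 ∧
      polar Q a t = 0 ∧ Q t ≠ 0 ∧ rho Q a t • x = x))) := by
  haveI := Module.finite_of_finite F (M := r.P)
  have d1 := p.dim hQ
  have d2 := r.dim (p.nd hQ)
  have hQ' := r.nd (p.nd hQ)
  have hbad : ∀ x : Ω, (p.frame r).heis.R x ≠ ⊤ ↔ ¬ TG F (p.B x) r.u := fun x =>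
    not_congr (AddSubgroup.eq_top_iff' _)
  have e3 : finrank F V - 3 = finrank F r.P + 1 := by omega
  rw [e3] at hΩ ⊢
  obtain ⟨hR, l1, l2, l3⟩ := (p.frame r).line hQ hQ' (by omega) hn hΩ ((hbad ω).2 hω)
  refine ⟨l1.trans (le_of_eq (Nat.card_congr (Equiv.subtypeEquivRight hbad))), ?_⟩
  have k1 : ∀ (x : Ω) (α : Fin 2 → F), (p.frame r).heis.R x = ⊥ → α 0 ≠ 0 → α 1 = 0 →
      (∀ y, y ∈ (p.frame r).heis.A x ↔ ∃ a, y = tens α a) → TS p.Q1 (p.B x) r.u :=
    fun x α h1 h2 h3 h4 => p.ts_of r h1 fun a => (h4 _).2 ⟨(α 0)⁻¹ • a, by simp [tens, h2, h3]⟩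
  have k2 : ∀ (x : Ω) (α : Fin 2 → F), (p.frame r).heis.R x = ⊥ → α 1 ≠ 0 →
      (∀ y, y ∈ (p.frame r).heis.A x ↔ ∃ a, y = tens α a) → TN p.Q1 (p.B x) r.u :=
    fun x α h1 h2 h4 => p.tn_of r h1 fun a ha => by
      obtain ⟨b, hb⟩ := (h4 _).1 ha
      simp only [tens, Prod.mk.injEq] at hb
      rw [hb.1, (smul_eq_zero.1 hb.2.symm).resolve_left h2, smul_zero]
  refine l3.imp (fun ⟨⟨α, hα, h1⟩, h2⟩ => ⟨?_, ?_, ?_⟩) fun ⟨h1, Y, h2, h3, h4⟩ => ⟨?_, fun hq => ?_⟩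
  · by_cases h : α 1 = 0
    · exact Or.inl (k1 ω α hR (fun h' => hα (by ext i; fin_cases i <;> simpa)) h h1)
    · exact Or.inr (k2 ω α hR h h1)
  · obtain ⟨x, a, b⟩ := h2 ![1, 0] (by simp)
    exact ⟨x, k1 x _ a (by simp) (by simp) b⟩
  · obtain ⟨x, a, b⟩ := h2 ![0, 1] (by simp)
    exact ⟨x, k2 x _ a (by simp) b⟩
  · exact p.tt_of r (by omega) hR h2 h3 fun a => by simp [h4]
  set f := p.frame r
  set h := f.heis
  obtain ⟨μ, hμ0, hμ1⟩ : ∃ μ : F, μ ≠ 0 ∧ μ ^ 2 ≠ 1 := by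
    classical
    haveI := Fintype.ofFinite F
    by_contra! hh
    have : (Finset.univ : Finset F) ⊆ {0, 1, -1} := fun x _ => by
      by_cases hx : x = 0
      · simp [hx]
      · simp [sq_eq_one_iff.1 (hh x hx)]
    have := (Finset.card_le_card this).trans Finset.card_le_three
    rw [Finset.card_univ, ← Nat.card_eq_fintype_card] at this
    omega
  have hμ2 : μ - 1 ≠ 0 := fun e => hμ1 (by rw [sub_eq_zero.1 e, one_pow])
  obtain ⟨s, s1, s2, s3⟩ := f.exists_scal hμ0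
  have sz : ∀ t, s * h.z t * s⁻¹ = h.z (μ ^ 2 * t) := fun t => by
    rw [f.conj_z, s1, s2, rho_smul_left f.qu (by simp only [f.S]; ring), smul_smul, smul_smul,
      f.heis_z]
    congr 2; ring
  have se : ∀ x, s * h.e x * s⁻¹ = h.e (μ • x) * h.z 0 := fun x => by
    rw [f.conj_e, s1, s2, s3, s3, rho_smul_left f.qu (f.uι _), rho_smul_left f.qv (f.vι _),
      h.z_zero, mul_one, f.heis_e]
    simp
  have hsurj : Function.Surjective fun t : F => μ ^ 2 * t :=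
    mul_left_surjective₀ (pow_ne_zero 2 hμ0)
  have hsR : h.R (s • ω) = ⊥ := eq_bot_iff.2 fun t ht => by
    obtain ⟨t, rfl⟩ := hsurj t
    have := (h.R_smul_of sz ω t).1 ht
    rw [hR, AddSubgroup.mem_bot] at this
    simp [this]
  have hsA : h.A (s • ω) = h.A ω := by
    ext x
    have := h.A_smul_of hsurj sz (se (μ⁻¹ • x)) ω
    rw [smul_smul, mul_inv_cancel₀ hμ0, one_smul] at this
    rw [this, h4, h4]
    simp [Y.smul_mem_iff (inv_ne_zero hμ0)]
  obtain ⟨ω', hω', -, hfix⟩ := exists_fix_of_fpf h.Q (s := s) (by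
    rintro _ ⟨a, t, rfl⟩
    refine ⟨μ • a, μ ^ 2 * t, ?_⟩
    rw [← sz, ← mul_one (h.e _), ← h.z_zero, ← se]; group) (by
    rintro _ ⟨a, t, rfl⟩ e
    have e1 : h.e (μ • a) * h.z (μ ^ 2 * t) = h.e a * h.z t := by
      rw [← e, ← sz, ← mul_one (h.e (μ • a)), ← h.z_zero, ← se]; group
    have e2 : ∀ (a : r.P × r.P) t, polar Q f.v' ((h.e a * h.z t).1.1 f.u') = -t ∧
        (∀ b, polar Q (f.ι b) ((h.e a * h.z t).1.1 f.u') = -polar r.Q1 b a.1) ∧
        ∀ b, polar Q (f.ι b) ((h.e a * h.z t).1.1 f.v') = -polar r.Q1 b a.2 := fun a t => by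
      simp only [h, f.heis_e, f.heis_z, eg_mul, rho_apply f.qu (f.uι _), rho_apply f.qv (f.vι _),
        rho_apply f.qu (f.usv _)]
      simp only [f.S]
      refine ⟨by ring, fun b => by ring, fun b => by ring⟩
    obtain ⟨a1, a2, a3⟩ := e2 (μ • a) (μ ^ 2 * t)
    obtain ⟨b1, b2, b3⟩ := e2 a t
    rw [e1] at a1 a2 a3
    have t0 : t = 0 := by
      have : (μ ^ 2 - 1) * t = 0 := by linear_combination a1 - b1
      exact (mul_eq_zero.1 this).resolve_left (sub_ne_zero.2 hμ1)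
    have c1 : a.1 = 0 := hQ' _ fun b => mul_left_cancel₀ hμ2 (by
      have := (a2 b).symm.trans (b2 b)
      rw [Prod.smul_fst, p_smul_right, polar_comm] at this
      linear_combination -this)
    have c2 : a.2 = 0 := hQ' _ fun b => mul_left_cancel₀ hμ2 (by
      have := (a3 b).symm.trans (b3 b)
      rw [Prod.smul_snd, p_smul_right, polar_comm] at this
      linear_combination -this)
    rw [t0, h.z_zero, f.heis_e, c1, c2, map_zero, rho_zero, rho_zero]; simp) (l2 _ hsR hsA)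
  obtain ⟨⟨a, ha⟩, ha0⟩ := (finrank_pos_iff_exists_ne_zero (R := F) (M := Y)).1 (by omega)
  have ha0 : a ≠ 0 := fun e => ha0 (Subtype.ext e)
  obtain ⟨t, ht, ht'⟩ : ∃ t, polar r.Q1 a t = 0 ∧ r.Q1 t ≠ 0 := by
    by_contra! hh
    have := hQ'.two_mul_finrank_le (W := perp r.Q1 (Submodule.span F {a}))
      fun w hw => hh w (mem_perp_singleton.1 hw)
    have := hQ'.finrank_perp_singleton ha0
    omega
  obtain ⟨g1, g2⟩ := f.eich_spec (h2 a ha) ht
  obtain ⟨k, rfl⟩ := hω'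
  refine ⟨_, f.ι a, f.ι t, fun e => ha0 (Subtype.ext (Subtype.ext e)), (f.hι a).trans (h2 a ha),
    (f.ιι a t).trans ht, by rwa [f.hι], hfix _ ?_ (l2 _ ?_ ?_)⟩
  · rw [eq_comm, ← mul_inv_eq_iff_eq_mul, rho_conj, s3, s3]
  · rw [h.R_smul_comm g1, h.R_smul, hR]
  · have hY : ∀ t, polar r.Q1 a t = 0 → ∀ y ∈ Y, eichLin r.Q1 a t y ∈ Y := fun t _ y hy => by
      rw [eichLin_apply, h2.polar ha hy]
      simpa using Y.add_mem hy (Y.smul_mem _ ha)
    have ht2 : polar r.Q1 a (-t) = 0 := by rw [polar_neg_right, ht, neg_zero]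
    ext x
    have := h.A_smul_of (l := id) Function.surjective_id g1 (g2 (dE r.Q1 a (-t) x)) (k • ω)
    rw [h.A_smul, h4] at this
    simp only [dE_apply, eichLin_mul (h2 a ha) ht ht2, add_neg_cancel, eichLin_zero] at this
    rw [this, h4]
    refine ⟨fun H => ?_, fun H => ⟨hY _ ht2 _ H.1, hY _ ht2 _ H.2⟩⟩
    simpa only [eichLin_mul (h2 a ha) ht ht2, add_neg_cancel, eichLin_zero] using
      And.intro (hY _ ht _ H.1) (hY _ ht _ H.2)

end Cfsg.Agent.MinI
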