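import Cfsg.Agent.MinI.Heis
import Cfsg.Agent.MinI.OMain

/-!
More on Heisenberg-type subgroups: fixed points modulo the centre, covering counts.
-/

set_option autoImplicit false

namespace Cfsg.Agent.MinI

open Finset

namespace Heis

variable {G W Z Ω : Type*} [Group G] [AddCommGroup W] [AddCommGroup Z] [MulAction G Ω]
  (h : Heis G W Z)

theorem mem_orbit {ω x : Ω} : x ∈ MulAction.orbit h.Q ω ↔ ∃ a t, (h.e a * h.z t) • ω = x :=
  ⟨fun ⟨⟨_, a, t, e⟩, hx⟩ => ⟨a, t, by rw [e]; exact hx⟩, fun ⟨a, t, e⟩ => ⟨⟨_, a, t, rfl⟩, e⟩⟩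

theorem ez_z (a : W) (s t : Z) (ω : Ω) :
    (h.e a * h.z (s + t)) • ω = h.z s • (h.e a * h.z t) • ω := by
  rw [← mul_smul, ← mul_assoc, h.z_comm, h.z_add, mul_assoc]

theorem sub_mem_A {ω : Ω} {a b : W} {s t : Z}
    (e : (h.e a * h.z s) • ω = (h.e b * h.z t) • ω) : a - b ∈ h.A ω := by
  obtain ⟨d, hd⟩ := h.ez_inv b
  obtain ⟨c, hc⟩ := h.ez_mul (-b) a
  exact ⟨_, by rw [sub_eq_neg_add, ← hc, ← hd t, mul_smul, e, inv_smul_smul]⟩

theorem smul_eq_of_sub_mem {ω : Ω} {a b : W} (hab : a - b ∈ h.A ω) (s t : Z) :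
    ∃ c, (h.e a * h.z s) • ω = h.z c • (h.e b * h.z t) • ω := by
  obtain ⟨τ, hτ⟩ := hab
  obtain ⟨c, hc⟩ := h.ez_mul b (a - b)
  refine ⟨s - (c + t + τ), ?_⟩
  conv_rhs => rw [← hτ, ← mul_smul (h.e b * h.z t), hc, ← h.ez_z, add_sub_cancel, sub_add_cancel]

theorem smul_eq_of_mem {ω : Ω} {a : W} (ha : a ∈ h.A ω) (s : Z) :
    ∃ c, (h.e a * h.z s) • ω = h.z c • ω := by
  obtain ⟨τ, hτ⟩ := ha
  exact ⟨s - τ, by conv_rhs => rw [← hτ, ← h.ez_z, sub_add_cancel]⟩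

/-- A point of the orbit which is fixed modulo the centre by the centraliser of `s`. -/
theorem fix_mod {s : G} (hs : ∀ t, ∃ t', s * h.z t * s⁻¹ = h.z t') {θ : W → W}
    (he : ∀ a, ∃ c, s * h.e a * s⁻¹ = h.e (θ a) * h.z c) {ω : Ω}
    (hsur : ∀ w, ∃ a, θ a + w = a) (hinj : ∀ a, θ a - a ∈ h.A ω → a ∈ h.A ω)
    (hω : s • ω ∈ MulAction.orbit h.Q ω) :
    ∃ ω' ∈ MulAction.orbit h.Q ω, ∀ g : G, g * s = s * g → (∀ t, g * h.z t * g⁻¹ = h.z t) →
      g • ω' ∈ MulAction.orbit h.Q ω' → ∃ c, g • ω' = h.z c • ω' := by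
  have key : ∀ a t (x : Ω), ∃ c, s • (h.e a * h.z t) • x = (h.e (θ a) * h.z c) • s • x := by
    intro a t x
    obtain ⟨c, hc⟩ := he a
    obtain ⟨t', ht⟩ := hs t
    refine ⟨c + t', ?_⟩
    rw [h.z_add, ← mul_assoc, ← hc, ← ht, ← mul_smul, ← mul_smul]
    congr 1; group
  obtain ⟨w, t, hw⟩ := h.mem_orbit.1 hω
  obtain ⟨a, ha⟩ := hsur w
  refine ⟨(h.e a * h.z 0) • ω, h.mem_orbit.2 ⟨_, _, rfl⟩, fun g hg hz hgo => ?_⟩
  have hA : h.A ((h.e a * h.z 0) • ω) = h.A ω := h.A_smul ⟨_, a, 0, rfl⟩ ω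
  have h1 : ∃ c, s • (h.e a * h.z 0) • ω = h.z c • (h.e a * h.z 0) • ω := by
    obtain ⟨c, hc⟩ := key a 0 ω
    obtain ⟨d, hd⟩ := h.ez_mul (θ a) w
    rw [hc, ← hw, ← mul_smul, hd, ha]
    exact h.smul_eq_of_sub_mem (by simp) _ _
  generalize (h.e a * h.z 0) • ω = x at *
  obtain ⟨c, hc⟩ := h1
  obtain ⟨b, u, hb⟩ := h.mem_orbit.1 hgo
  obtain ⟨d, hd⟩ := key b u x
  have h2 : (h.e (θ b) * h.z (d + c)) • x = (h.e b * h.z (c + u)) • x := by
    rw [h.z_add, ← mul_assoc, mul_smul, ← hc, ← hd, hb, ← mul_smul, ← hg, mul_smul, hc, h.ez_z, hb,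
      ← mul_smul, ← mul_smul, mul_inv_eq_iff_eq_mul.1 (hz c)]
  rw [← hb]
  exact h.smul_eq_of_mem (hA ▸ hinj b (hA ▸ h.sub_mem_A h2)) u

theorem conj_smul {g k : G} (hg : ∀ t, g * h.z t * g⁻¹ = h.z t) (hk : ∀ t, k * h.z t * k⁻¹ = h.z t)
    {ω : Ω} {c d : Z} (h1 : g • ω = h.z c • ω) (h2 : k • ω = h.z d • ω) :
    (k * g * k⁻¹) • ω = h.z c • ω := by
  have h3 : k⁻¹ • ω = h.z (-d) • ω := by
    rw [inv_smul_eq_iff, ← mul_smul, mul_inv_eq_iff_eq_mul.1 (hk _), mul_smul, h2, h.z_neg,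
      inv_smul_smul]
  rw [mul_smul, mul_smul, h3, ← mul_smul g, mul_inv_eq_iff_eq_mul.1 (hg _), mul_smul, h1,
    ← mul_smul (h.z _), ← h.z_add, ← mul_smul, mul_inv_eq_iff_eq_mul.1 (hk _), mul_smul, h2,
    ← mul_smul, ← h.z_add]
  congr 2; abel

end Heis

section field
variable {K : Type*} [Field K] [Finite K]

theorem card_sq_ge (K : Type*) [Field K] [Finite K] :
    Nat.card K ≤ 2 * Nat.card {a : K // a ≠ 0 ∧ IsSquare a} + 1 ∧
      ((2 : K) = 0 → Nat.card K ≤ Nat.card {a : K // a ≠ 0 ∧ IsSquare a} + 1) := by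
  have h0 := card_ne_zero_add (p := fun _ : K => True) trivial
  rw [Nat.card_congr (Equiv.subtypeUnivEquiv fun _ : K => trivial)] at h0
  constructor
  · have := double_count (fun (x : {x : K // x ≠ 0 ∧ True}) (a : {a : K // a ≠ 0 ∧ IsSquare a}) =>
      x.1 * x.1 = a.1) (a := 1) (b := 2) (fun x => ?_) fun a => ?_
    · omega
    · haveI : Nonempty {a : {a : K // a ≠ 0 ∧ IsSquare a} // x.1 * x.1 = a.1} :=
        ⟨⟨⟨_, mul_ne_zero x.2.1 x.2.1, ⟨_, rfl⟩⟩, rfl⟩⟩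
      exact Nat.card_pos
    · obtain ⟨a, ha, r, rfl⟩ := a
      classical
      refine le_trans (Nat.card_le_card_of_injective
        (fun x => if x.1.1 = r then (0 : Fin 2) else 1) fun x y e => ?_) (by simp)
      have hx := mul_self_eq_mul_self_iff.1 x.2
      have hy := mul_self_eq_mul_self_iff.1 y.2
      refine Subtype.ext (Subtype.ext ?_)
      by_cases h1 : x.1.1 = r <;> by_cases h2 : y.1.1 = r <;> simp_all
  · intro h2
    haveI : CharP K 2 := CharTwo.of_one_ne_zero_of_two_eq_zero one_ne_zero h2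
    rw [← h0]
    exact Nat.add_le_add_right (Nat.card_congr (Equiv.subtypeEquivRight fun a => and_congr_right
      fun _ => by simpa using FiniteField.isSquare_of_char_two (ringChar.eq K 2) a)).le 1

theorem exists_scal_sq {R : AddSubgroup K} (hR : R ≠ ⊤) (hq : 3 ≤ Nat.card K) :
    ∃ S : Finset (AddSubgroup K), (∀ X ∈ S, ∃ l, l ≠ 0 ∧ X = scal (l ^ 2) R) ∧
      (Nat.card K + 3) * Nat.card R ≤ 2 * S.card * Nat.card K ∧
      ((2 : K) = 0 → Nat.card K * Nat.card R ≤ S.card * Nat.card K ∧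
        (R ≠ ⊥ → (Nat.card K + 2) * Nat.card R ≤ S.card * Nat.card K)) := by
  classical
  haveI := Fintype.ofFinite K
  obtain ⟨χ, hχ, t₀, ht₀⟩ := exists_char hR
  have hnd : ∀ a : K, a ≠ 0 → ∃ w, χ (AddMonoidHom.mul a w) ≠ 1 := fun a ha =>
    ⟨a⁻¹ * t₀, by simpa [ha] using ht₀⟩
  set S : Finset (AddSubgroup K) := (univ.filter fun l : K => l ≠ 0).image fun l => scal (l ^ 2) R
  have hcard : ∀ X ∈ S, Nat.card X = Nat.card R := by
    intro X hX
    obtain ⟨l, hl, rfl⟩ := Finset.mem_image.1 hX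
    have hl : l ≠ 0 := by simpa using hl
    exact Nat.card_congr ((Equiv.mulLeft₀ _ (pow_ne_zero 2 hl)).subtypeEquiv fun a => Iff.rfl)
  set r := Nat.card (ann AddMonoidHom.mul χ R)
  have hr : Nat.card R * r = Nat.card K := card_mul_card_ann _ χ hnd R
  have hRp : 0 < Nat.card R := Nat.card_pos
  have h1 : Nat.card {a : K // a ≠ 0 ∧ IsSquare a} * 1 ≤ Nat.card S * (r - 1) := by
    refine double_count (fun a X => a.1 ∈ ann AddMonoidHom.mul χ X.1) (fun a => ?_) fun X => ?_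
    · obtain ⟨a, ha, l, rfl⟩ := a
      haveI : Nonempty {X : S // l * l ∈ ann AddMonoidHom.mul χ X.1} :=
        ⟨⟨⟨scal (l ^ 2) R, Finset.mem_image.2 ⟨l, by simpa using ha, rfl⟩⟩, fun a ha =>
          hχ _ (by simpa [mem_scal, mul_comm, sq] using ha)⟩⟩
      exact Nat.card_pos
    · have := card_mul_card_ann _ χ hnd X.1
      rw [hcard X.1 X.2, ← hr] at this
      have h3 := card_ne_zero_add (p := fun a => a ∈ ann AddMonoidHom.mul χ X.1) (zero_mem _)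
      have h4 := Nat.eq_of_mul_eq_mul_left hRp this
      refine le_trans (Nat.card_le_card_of_injective (β := {a : K // a ≠ 0 ∧ a ∈ ann AddMonoidHom.mul χ X.1})
        (fun a => ⟨a.1.1, a.1.2.1, a.2⟩) fun a b e => Subtype.ext (Subtype.ext (by simpa using e))) ?_
      change _ = Nat.card (ann AddMonoidHom.mul χ X.1) at h3
      omega
  rw [Nat.card_eq_finsetCard] at h1
  have hS1 : 1 ≤ S.card := Finset.card_pos.2 ⟨R, Finset.mem_image.2 ⟨1, by simp, by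
    ext; simp [mem_scal]⟩⟩
  obtain ⟨r', hr'⟩ := Nat.exists_eq_add_of_le' (show 1 ≤ r from Nat.card_pos)
  obtain ⟨h2, h3⟩ := card_sq_ge K
  rw [hr'] at h1 hr
  simp only [Nat.add_sub_cancel] at h1
  have hb : R ≠ ⊥ → 2 * (r' + 1) ≤ Nat.card K := fun hb => by
    rw [← hr]
    exact Nat.mul_le_mul_right _ ((AddSubgroup.one_lt_card_iff_ne_bot R).2 hb)
  have hb' : R = ⊥ → r' + 1 = Nat.card K := fun hb => by rw [← hr, hb]; simp
  have fin : ∀ a b, a ≤ b * (r' + 1) → a * Nat.card R ≤ b * Nat.card K := fun a b hab => by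
    rw [← hr, mul_comm (Nat.card R), ← mul_assoc]; exact Nat.mul_le_mul_right _ hab
  refine ⟨S, fun X hX => ?_, fin _ _ ?_, fun h2 => ⟨fin _ _ ?_, fun hn => fin _ _ ?_⟩⟩
  · obtain ⟨l, hl, rfl⟩ := Finset.mem_image.1 hX
    exact ⟨l, by simpa using hl, rfl⟩
  · by_cases hn : R = ⊥
    · have := hb' hn; nlinarith
    · have := hb hn
      have : 2 ≤ S.card := by by_contra; nlinarith
      nlinarith
  · have := h3 h2; nlinarith
  · have := h3 h2
    have := hb hn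
    have : 3 ≤ S.card := by by_contra; nlinarith
    nlinarith

end field

namespace Heis

variable {G W K Ω : Type*} [Group G] [AddCommGroup W] [Field K] [MulAction G Ω]
  [Finite W] [Finite K] [Finite Ω] (h : Heis G W K)

omit [Finite W] [Finite K] in
theorem scal_count {ω : Ω} (hω : h.R ω ≠ ⊤) (S : Finset (AddSubgroup K))
    (hS : ∀ X ∈ S, ∃ l, l ≠ 0 ∧ X = scal l (h.R ω) ∧ ∃ g : G, ∀ t, g * h.z t * g⁻¹ = h.z (l * t)) :
    S.card * Nat.card (h.T ω) ≤ Nat.card (h.Bad Ω) := by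
  refine card_mul_le_of_fib _ (fun x : Ω => h.R x) S _ fun X hX => ?_
  obtain ⟨l, hl, rfl, g, hg⟩ := hS X hX
  have hR : ∀ x ∈ h.T ω, h.R (g⁻¹ • x) = scal l (h.R ω) := by
    intro x hx
    ext t
    rw [mem_scal, ← hx.1, ← h.R_smul_of hg (g⁻¹ • x), smul_inv_smul]
  refine Nat.card_le_card_of_injective (fun x : h.T ω => ⟨g⁻¹ • x.1, ?_, hR _ x.2⟩)
    fun x y e => Subtype.ext (by simpa using e)
  show _ ≠ ⊤
  rw [hR _ x.2]
  intro e
  refine hω (eq_top_iff.2 fun t _ => ?_)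
  have : l⁻¹ * t ∈ scal l (h.R ω) := e ▸ AddSubgroup.mem_top _
  simpa [mem_scal, hl] using this

omit [Finite W] in
theorem sq_count (ht : ∀ l : K, l ≠ 0 → ∃ g : G, ∀ t, g * h.z t * g⁻¹ = h.z (l ^ 2 * t)) {ω : Ω}
    (hω : h.R ω ≠ ⊤) (hq : 3 ≤ Nat.card K) :
    (Nat.card K + 3) * Nat.card (h.R ω) * Nat.card (h.T ω) ≤ 2 * Nat.card Ω * Nat.card K ∧
    ((2 : K) = 0 → Nat.card K * Nat.card (h.R ω) * Nat.card (h.T ω) ≤ Nat.card Ω * Nat.card K ∧
      (h.R ω ≠ ⊥ →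
        (Nat.card K + 2) * Nat.card (h.R ω) * Nat.card (h.T ω) ≤ Nat.card Ω * Nat.card K)) := by
  obtain ⟨S, hS, h1, h2⟩ := exists_scal_sq hω hq
  have key := (h.scal_count hω S fun X hX => by
    obtain ⟨l, hl, e⟩ := hS X hX
    exact ⟨_, pow_ne_zero 2 hl, e, ht l hl⟩).trans (Finite.card_subtype_le _)
  have fin : ∀ a b, a ≤ b * S.card * Nat.card K →
      a * Nat.card (h.T ω) ≤ b * Nat.card Ω * Nat.card K := fun a b hab =>
    calc _ ≤ b * S.card * Nat.card K * Nat.card (h.T ω) := Nat.mul_le_mul_right _ hab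
      _ = b * (S.card * Nat.card (h.T ω)) * Nat.card K := by ring
      _ ≤ _ := by gcongr
  refine ⟨fin _ _ h1, fun h => ⟨?_, fun hb => ?_⟩⟩
  · simpa using fin _ 1 (by simpa using (h2 h).1)
  · simpa using fin _ 1 (by simpa using (h2 h).2 hb)

/-- A `Q`-invariant subset of `T` is at least one or two orbits. -/
theorem orbit_le {ω : Ω} (U : Set Ω) (hU : ∀ g : h.Q, ∀ x ∈ U, g • x ∈ U) (hT : U ⊆ h.T ω)
    (hω : ω ∈ U) : Nat.card (MulAction.orbit h.Q ω) ≤ Nat.card U ∧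
      ∀ y ∈ U, y ∉ MulAction.orbit h.Q ω → 2 * Nat.card (MulAction.orbit h.Q ω) ≤ Nat.card U := by
  constructor
  · simpa using card_mul_le_of_orbit (G := h.Q) U hU (fun _ => ()) (fun _ _ _ => rfl) {()} _
      fun _ _ => ⟨ω, hω, rfl, le_rfl⟩
  · intro y hy hn
    simpa using card_succ_mul_le_of_orbit (G := h.Q) U hU (fun _ => ()) (fun _ _ _ => rfl) {()} _
      (fun _ _ => ⟨ω, hω, rfl⟩) (fun x hx => (h.card_orbit_T (hT hx)).ge) hω hy rfl hn

end Heis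

theorem cover_count {G Ω X : Type*} [Group G] [MulAction G Ω] [Finite Ω] [Finite X] (T : Set Ω)
    (O : Set X) (P : X → Ω → Prop) {w : X}
    (htr : ∀ w' ∈ O, ∃ g : G, ∀ x ∈ T, P w x → g • x ∈ T ∧ P w' (g • x)) {m : ℕ}
    (hm : ∀ x ∈ T, Nat.card {w' // w' ∈ O ∧ P w' x} ≤ m) :
    Nat.card O * Nat.card {x | x ∈ T ∧ P w x} ≤ Nat.card T * m := by
  refine double_count (fun (w' : O) (x : T) => P w'.1 x.1) (fun w' => ?_) fun x => ?_
  · obtain ⟨g, hg⟩ := htr _ w'.2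
    exact Nat.card_le_card_of_injective (fun x => ⟨⟨g • x.1, (hg _ x.2.1 x.2.2).1⟩,
      (hg _ x.2.1 x.2.2).2⟩) fun x y e => Subtype.ext (by simpa using e)
  · exact (Nat.card_congr (Equiv.subtypeSubtypeEquivSubtypeInter _ fun w' => P w' x.1)).le.trans
      (hm _ x.2)

end Cfsg.Agent.MinI
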