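import Cfsg.Agent.MinI.Basic
import Cfsg.Agent.Classical.SL2Basic
import Cfsg.Agent.Classical.SLBasic

/-!
A subring of `M₂(F)` meeting `SL₂(F)` in a subgroup of index at most `q + 1` contains a full line
of nilpotent matrices (apart from one exception for `q = 2`).
-/

set_option autoImplicit false

namespace Cfsg.Agent.MinI

open Matrix MatrixGroups

variable {F : Type*} [Field F]

theorem perp_two {u φ ψ : Fin 2 → F} (hu : u ≠ 0) (hφ : φ ≠ 0) (h1 : φ ⬝ᵥ u = 0)
    (h2 : ψ ⬝ᵥ u = 0) : ∃ c : F, ψ = c • φ := by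
  simp only [dotProduct, Fin.sum_univ_two] at h1 h2
  have hd : φ 0 * ψ 1 - φ 1 * ψ 0 = 0 := by
    by_contra hd
    apply hu
    ext i
    fin_cases i
    · show u 0 = 0
      exact mul_left_cancel₀ hd (by linear_combination ψ 1 * h1 - φ 1 * h2)
    · show u 1 = 0
      exact mul_left_cancel₀ hd (by linear_combination φ 0 * h2 - ψ 0 * h1)
  by_cases h0 : φ 0 = 0
  · have h1' : φ 1 ≠ 0 := fun h => hφ (by ext i; fin_cases i <;> simpa)
    refine ⟨ψ 1 / φ 1, ?_⟩
    ext i
    fin_cases i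
    · simp; field_simp; linear_combination -hd
    · simp; field_simp
  · refine ⟨ψ 0 / φ 0, ?_⟩
    ext i
    fin_cases i
    · simp; field_simp
    · simp; field_simp; linear_combination hd

theorem exists_perp_two (u : Fin 2 → F) (hu : u ≠ 0) : ∃ φ : Fin 2 → F, φ ≠ 0 ∧ φ ⬝ᵥ u = 0 := by
  refine ⟨![-u 1, u 0], fun h => hu ?_, by simp [dotProduct, Fin.sum_univ_two]; ring⟩
  have h0 := congrFun h 0
  have h1 := congrFun h 1
  ext i; fin_cases i
  · simpa using h1
  · simpa using h0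

theorem eq_vecMulVec {u φ : Fin 2 → F} (hu : u ≠ 0) (hφ : φ ≠ 0) (h1 : φ ⬝ᵥ u = 0)
    {M : Matrix (Fin 2) (Fin 2) F} (h : M *ᵥ u = 0) : ∃ w, M = vecMulVec w φ := by
  choose c hc using fun i => perp_two (ψ := M i) hu hφ h1 (congrFun h i)
  exact ⟨c, by ext i j; rw [vecMulVec_apply]; exact congrFun (hc i) j⟩

theorem vmv_mulVec (u φ x : Fin 2 → F) : vecMulVec u φ *ᵥ x = (φ ⬝ᵥ x) • u := by
  ext i; simp [vecMulVec_apply, mulVec, dotProduct, Fin.sum_univ_two]; ring

theorem mul_vmv (M : Matrix (Fin 2) (Fin 2) F) (u φ : Fin 2 → F) :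
    M * vecMulVec u φ = vecMulVec (M *ᵥ u) φ := by
  ext i j; simp only [vecMulVec_apply, mulVec, dotProduct, Fin.sum_univ_two, mul_apply]; ring

theorem vmv_smul (c : F) (u φ : Fin 2 → F) : vecMulVec (c • u) φ = c • vecMulVec u φ := by
  ext i j; simp [vecMulVec_apply]; ring

theorem stab_form {u φ : Fin 2 → F} (hu : u ≠ 0) (hφ : φ ≠ 0) (h1 : φ ⬝ᵥ u = 0) (g : SL(2, F))
    (hg : g.1 *ᵥ u = u) : ∃ c : F, g.1 = 1 + c • vecMulVec u φ := by
  obtain ⟨w, hw⟩ := eq_vecMulVec (M := g.1 - 1) hu hφ h1 (by rw [sub_mulVec, hg]; simp)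
  have hd : (g.1 - 1 + 1).det = 1 := by rw [sub_add_cancel]; exact g.2
  rw [hw, det_fin_two] at hd
  simp only [Matrix.add_apply, vecMulVec_apply, one_apply_eq, ne_eq, zero_ne_one, not_false_eq_true,
    one_apply_ne, add_zero, one_ne_zero] at hd
  obtain ⟨c, hc⟩ := perp_two (u := φ) (φ := u) (ψ := w) hφ hu (by rwa [dotProduct_comm])
    (by simp only [dotProduct, Fin.sum_univ_two]; linear_combination hd)
  exact ⟨c, by rw [← vmv_smul, ← hc, ← hw]; abel⟩

variable (E : Subring (Matrix (Fin 2) (Fin 2) F))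

/-- `E u`. -/
def orbE (u : Fin 2 → F) : AddSubgroup (Fin 2 → F) :=
  E.toAddSubgroup.map (mulVec.addMonoidHomLeft u)

/-- Multiples of a matrix lying in `E`. -/
def lineE (N : Matrix (Fin 2) (Fin 2) F) : AddSubgroup F :=
  E.toAddSubgroup.comap ((smulAddHom F _).flip N)

variable {E}

theorem mem_orbE {u x : Fin 2 → F} : x ∈ orbE E u ↔ ∃ M ∈ E, M *ᵥ u = x := Iff.rfl

theorem mem_lineE {N : Matrix (Fin 2) (Fin 2) F} {c : F} : c ∈ lineE E N ↔ c • N ∈ E := Iff.rfl

theorem card_le_orb [Finite F] (K : Subgroup SL(2, F)) (hK : ∀ g ∈ K, g.1 ∈ E) {u φ : Fin 2 → F}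
    (hu : u ≠ 0) (hφ : φ ≠ 0) (h1 : φ ⬝ᵥ u = 0) :
    Nat.card K ≤ (Nat.card (orbE E u) - 1) * Nat.card (lineE E (vecMulVec u φ)) := by
  classical
  rw [← card_range_mul (fun g : K => g.1.1 *ᵥ u) (Nat.card {g : K // g.1.1 *ᵥ u = u})]
  · refine Nat.mul_le_mul ?_ ?_
    · haveI := Fintype.ofFinite (orbE E u)
      have : Nat.card {x : orbE E u // x ≠ 0} = Nat.card (orbE E u) - 1 := by
        rw [Nat.card_eq_fintype_card, Nat.card_eq_fintype_card, Fintype.card_subtype_compl]; simp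
      rw [← this]
      refine Nat.card_le_card_of_injective (fun x => ⟨⟨x.1, ?_⟩, ?_⟩)
        fun x y e => Subtype.ext (by simpa using e)
      · obtain ⟨_, g, rfl⟩ := x
        exact ⟨_, hK _ g.2, rfl⟩
      · obtain ⟨_, g, rfl⟩ := x
        intro e
        have e' : g.1.1 *ᵥ u = 0 := congrArg Subtype.val e
        exact hu (Matrix.eq_zero_of_mulVec_eq_zero (by rw [g.1.2]; exact one_ne_zero) e')
    · choose c hc using fun g : {g : K // g.1.1 *ᵥ u = u} => stab_form hu hφ h1 g.1.1 g.2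
      refine Nat.card_le_card_of_injective (fun g => ⟨c g, ?_⟩) fun g g' e => ?_
      · rw [mem_lineE, show c g • vecMulVec u φ = g.1.1.1 - 1 by rw [hc]; abel]
        exact E.sub_mem (hK _ g.1.2) E.one_mem
      · have e' : c g = c g' := congrArg Subtype.val e
        exact Subtype.ext (Subtype.ext (Subtype.ext (by rw [hc, hc, e'])))
  · intro g
    refine Nat.card_congr ((Equiv.mulLeft g⁻¹).subtypeEquiv fun k => ?_)
    show _ ↔ (g⁻¹ * k).1.1 *ᵥ u = u
    have e1 : (g⁻¹ * k).1.1 *ᵥ u = (g⁻¹).1.1 *ᵥ (k.1.1 *ᵥ u) := by rw [mulVec_mulVec]; rfl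
    have e2 : ∀ x, (g⁻¹).1.1 *ᵥ (g.1.1 *ᵥ x) = x := fun x => by
      rw [mulVec_mulVec, show (g⁻¹).1.1 * g.1.1 = (g⁻¹ * g).1.1 from rfl, inv_mul_cancel]; simp
    have e3 : ∀ x, g.1.1 *ᵥ ((g⁻¹).1.1 *ᵥ x) = x := fun x => by
      rw [mulVec_mulVec, show g.1.1 * (g⁻¹).1.1 = (g * g⁻¹).1.1 from rfl, mul_inv_cancel]; simp
    rw [e1]
    exact ⟨fun h => by rw [h, e2], fun h => by rw [← e3 (k.1.1 *ᵥ u), h]⟩

theorem eq_top_of_card_le {A : Type*} [AddGroup A] [Finite A] {S : AddSubgroup A}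
    (h : Nat.card A ≤ Nat.card S) : S = ⊤ :=
  AddSubgroup.eq_of_le_of_card_ge le_top (by rwa [AddSubgroup.card_top])

theorem eq_top_of_lt_two_mul {A : Type*} [AddGroup A] [Finite A] {S : AddSubgroup A}
    (h : Nat.card A < 2 * Nat.card S) : S = ⊤ := by
  have := S.index_mul_card
  rw [← AddSubgroup.index_eq_one]
  have h0 : S.index ≠ 0 := AddSubgroup.index_ne_zero_of_finite
  by_contra h1
  have : 2 ≤ S.index := by omega
  nlinarith

theorem sq_le_of_subring [Finite F] {S : AddSubgroup F} (hm : ∀ a ∈ S, ∀ b ∈ S, a * b ∈ S)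
    (hS : S ≠ ⊤) : Nat.card S * Nat.card S ≤ Nat.card F := by
  obtain ⟨θ, hθ⟩ : ∃ t, t ∉ S := by
    by_contra! hh
    exact hS (eq_top_iff.2 fun t _ => hh t)
  rw [← Nat.card_prod]
  refine Nat.card_le_card_of_injective (fun p => p.1.1 + p.2.1 * θ) ?_
  rintro ⟨a, b⟩ ⟨a', b'⟩ e
  simp only at e
  by_cases hb : b = b'
  · subst hb
    rw [Subtype.ext (add_right_cancel e)]
  · exfalso
    have hb' : (b : F) - b' ≠ 0 := fun h => hb (Subtype.ext (sub_eq_zero.1 h))
    have : Function.Injective fun x : S => (⟨(b - b') * x, hm _ (S.sub_mem b.2 b'.2) _ x.2⟩ : S) :=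
      fun x y h => Subtype.ext (mul_left_cancel₀ hb' (congrArg Subtype.val h))
    obtain ⟨x, hx⟩ := Finite.surjective_of_injective this (a' - a)
    have hx' : ((b : F) - b') * x = a' - a := congrArg Subtype.val hx
    have : θ = x := mul_left_cancel₀ hb' (by rw [hx']; linear_combination e)
    exact hθ (this ▸ x.2)

theorem line_of_small [Finite F] (K : Subgroup SL(2, F)) (hK : ∀ g ∈ K, g.1 ∈ E)
    (hc : Nat.card F * (Nat.card F - 1) ≤ Nat.card K) {u φ : Fin 2 → F}
    (hu : u ≠ 0) (hφ : φ ≠ 0) (h1 : φ ⬝ᵥ u = 0) (hs : Nat.card (orbE E u) ≤ Nat.card F) (c : F) :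
    c • vecMulVec u φ ∈ E := by
  have h2 := hc.trans ((card_le_orb K hK hu hφ h1).trans
    (Nat.mul_le_mul_right _ (Nat.sub_le_sub_right hs 1)))
  have hq : 1 < Nat.card F := Finite.one_lt_card
  rw [mul_comm] at h2
  have := eq_top_of_card_le (Nat.le_of_mul_le_mul_left h2 (by omega))
  rw [← mem_lineE, this]; trivial

theorem line_of_nil [Finite F] (K : Subgroup SL(2, F)) (hK : ∀ g ∈ K, g.1 ∈ E)
    (hc : Nat.card F * (Nat.card F - 1) ≤ Nat.card K) {u φ : Fin 2 → F}
    (hu : u ≠ 0) (hφ : φ ≠ 0) (h1 : φ ⬝ᵥ u = 0) (hn : vecMulVec u φ ∈ E) (c : F) :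
    c • vecMulVec u φ ∈ E := by
  set S := lineE E (vecMulVec u φ)
  set W := orbE E u
  have hW : ∀ M ∈ E, ∀ x ∈ W, M *ᵥ x ∈ W := by
    rintro M hM _ ⟨N, hN, rfl⟩
    exact ⟨M * N, E.mul_mem hM hN, (mulVec_mulVec u M N).symm⟩
  have hS1 : ∀ s : F, s • u ∈ W → s ∈ S := by
    rintro s ⟨M, hM, e⟩
    have e' : M *ᵥ u = s • u := e
    rw [mem_lineE, ← vmv_smul, ← e', ← mul_vmv]
    exact E.mul_mem hM hn
  have hS2 : ∀ s ∈ S, ∀ x ∈ W, (s * (φ ⬝ᵥ x)) • u ∈ W := fun s hs x hx => by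
    have := hW _ (mem_lineE.1 hs) x hx
    rwa [smul_mulVec, vmv_mulVec, smul_smul] at this
  by_cases hw : ∀ x ∈ W, φ ⬝ᵥ x = 0
  · refine line_of_small K hK hc hu hφ h1 ?_ c
    choose d hd using fun x : W => perp_two (u := φ) (φ := u) (ψ := x) hφ hu
      (by rwa [dotProduct_comm]) (by rw [dotProduct_comm]; exact hw _ x.2)
    exact Nat.card_le_card_of_injective d fun x y e => Subtype.ext (by rw [hd, hd, e])
  push Not at hw
  obtain ⟨w, hw, hw0⟩ := hw
  have inj : Function.Injective fun s : S => (⟨s * (φ ⬝ᵥ w), hS1 _ (hS2 _ s.2 _ hw)⟩ : S) :=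
    fun x y h => Subtype.ext (mul_right_cancel₀ hw0 (congrArg Subtype.val h))
  have surj : ∀ s ∈ S, ∃ t ∈ S, t * (φ ⬝ᵥ w) = s := fun s hs => by
    obtain ⟨t, ht⟩ := Finite.surjective_of_injective inj ⟨s, hs⟩
    exact ⟨t, t.2, congrArg Subtype.val ht⟩
  have hS3 : ∀ s ∈ S, s • u ∈ W := fun s hs => by
    obtain ⟨t, ht, rfl⟩ := surj s hs
    exact hS2 t ht w hw
  have hS4 : ∀ x ∈ W, φ ⬝ᵥ x ∈ S := fun x hx => by
    simpa using hS1 _ (hS2 1 (by simpa [S, mem_lineE] using hn) x hx)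
  have hm : ∀ a ∈ S, ∀ b ∈ S, a * b ∈ S := fun a ha b hb => by
    obtain ⟨t, ht, rfl⟩ := surj b hb
    obtain ⟨M, hM, e⟩ := hw
    have e' : M *ᵥ u = w := e
    have := hW M hM _ (hS3 t ht)
    rw [mulVec_smul, e'] at this
    have h2 := hS1 _ (hS2 a ha _ this)
    rwa [dotProduct_smul, smul_eq_mul] at h2
  by_contra hcon
  have hS : S ≠ ⊤ := fun h => hcon (by rw [← mem_lineE]; show c ∈ S; rw [h]; trivial)
  have h2 := sq_le_of_subring hm hS
  have h3 : Nat.card W ≤ Nat.card S * Nat.card S := by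
    rw [← Nat.card_prod]
    choose t ht ht' using fun x : W => surj _ (hS4 _ x.2)
    have hx : ∀ x : W, x.1 - t x • w ∈ W := fun x => by
      obtain ⟨M, hM, e⟩ := hw
      have e' : M *ᵥ u = w := e
      have := hW M hM _ (hS3 _ (ht x))
      rw [mulVec_smul, e'] at this
      exact W.sub_mem x.2 this
    choose d hd using fun x : W => perp_two (u := φ) (φ := u) (ψ := x.1 - t x • w) hφ hu
      (by rwa [dotProduct_comm]) (by
        rw [dotProduct_comm, dotProduct_sub, dotProduct_smul, smul_eq_mul, ht', sub_self])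
    refine Nat.card_le_card_of_injective
      (fun x => (⟨t x, ht x⟩, ⟨d x, hS1 _ (hd x ▸ hx x)⟩)) fun x y e => Subtype.ext ?_
    have e1 : t x = t y := congrArg (fun p : S × S => p.1.1) e
    have e2 : d x = d y := congrArg (fun p : S × S => p.2.1) e
    rw [← sub_add_cancel x.1 (t x • w), hd, e1, e2, ← hd, sub_add_cancel]
  have h4 := hc.trans (card_le_orb K hK hu hφ h1)
  have h5 : Nat.card S < Nat.card F :=
    lt_of_not_ge fun h => hS (eq_top_of_card_le h)
  have h6 : 0 < Nat.card S := Nat.card_pos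
  have h7 : 0 < Nat.card W := Nat.card_pos
  change _ ≤ (Nat.card W - 1) * Nat.card S at h4
  generalize Nat.card S = s at *
  generalize Nat.card W = k at *
  generalize Nat.card F = q at *
  obtain ⟨k, rfl⟩ := Nat.exists_eq_add_of_le' h7
  obtain ⟨q, rfl⟩ := Nat.exists_eq_add_of_le' (h6.trans h5)
  simp only [Nat.add_sub_cancel, Nat.succ_eq_add_one, zero_add] at *
  nlinarith

theorem sl2_lemma [Finite F] (K : Subgroup SL(2, F)) (hK : ∀ g ∈ K, g.1 ∈ E)
    (hi : K.index ≤ Nat.card F + 1) :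
    (∃ u φ : Fin 2 → F, u ≠ 0 ∧ φ ≠ 0 ∧ φ ⬝ᵥ u = 0 ∧ ∀ c : F, c • vecMulVec u φ ∈ E) ∨
      (Nat.card F = 2 ∧ !![0, 1; 1, 1] ∈ E) := by
  classical
  have hq : 1 < Nat.card F := Finite.one_lt_card
  have hc : Nat.card F * (Nat.card F - 1) ≤ Nat.card K := by
    have h1 := K.index_mul_card
    rw [Classical.SLBasic.card_SL_two] at h1
    have h2 : Nat.card F ^ 2 - 1 = (Nat.card F + 1) * (Nat.card F - 1) := by
      rw [← Nat.sq_sub_sq]
    refine Nat.le_of_mul_le_mul_left ?_ (Nat.succ_pos (Nat.card F))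
    calc _ = K.index * Nat.card K := by rw [h1, h2, Nat.succ_eq_add_one]; ring
      _ ≤ _ := Nat.mul_le_mul_right _ hi
  by_cases hA : ∃ M ∈ E, M ≠ 0 ∧ M.det = 0
  · left
    obtain ⟨M, hM, hM0, hd⟩ := hA
    obtain ⟨u, hu, hMu⟩ := Matrix.exists_mulVec_eq_zero_iff.2 hd
    obtain ⟨φ, hφ, h1⟩ := exists_perp_two u hu
    obtain ⟨w, rfl⟩ := eq_vecMulVec hu hφ h1 hMu
    have hw : w ≠ 0 := by rintro rfl; exact hM0 (by ext i j; simp [vecMulVec_apply])
    by_cases hx : ∃ x ∈ orbE E w, x ≠ 0 ∧ φ ⬝ᵥ x = 0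
    · obtain ⟨_, ⟨N, hN, rfl⟩, hx0, hx⟩ := hx
      refine ⟨_, φ, hx0, hφ, hx, line_of_nil K hK hc hx0 hφ hx ?_⟩
      have := E.mul_mem hN hM
      rwa [mul_vmv] at this
    · push Not at hx
      obtain ⟨ψ, hψ, h2⟩ := exists_perp_two w hw
      refine ⟨w, ψ, hw, hψ, h2, line_of_small K hK hc hw hψ h2 ?_⟩
      refine Nat.card_le_card_of_injective (fun x => φ ⬝ᵥ x.1) fun x y e => ?_
      by_contra hne
      refine hx _ ((orbE E w).sub_mem x.2 y.2) (fun h => hne (Subtype.ext (sub_eq_zero.1 h))) ?_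
      rw [dotProduct_sub]; exact sub_eq_zero.2 e
  push Not at hA
  right
  have hdg : ∀ g : K, g.1.1.det = 1 := fun g => g.1.2
  have hcE : Nat.card E ≤ Nat.card F ^ 2 := by
    have : Nat.card (Fin 2 → F) = Nat.card F ^ 2 := by simp [Nat.card_fun]
    rw [← this]
    refine Nat.card_le_card_of_injective (fun M => M.1 *ᵥ ![1, 0]) fun M N e => ?_
    by_contra hne
    refine hA _ (E.sub_mem M.2 N.2) (fun h => hne (Subtype.ext (sub_eq_zero.1 h))) ?_
    exact Matrix.exists_mulVec_eq_zero_iff.1 ⟨![1, 0], by simp, by rw [sub_mulVec]; exact sub_eq_zero.2 e⟩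
  have hdet : ∀ M ∈ E, M ≠ 0 → M.det = 1 := by
    intro M hM hM0
    by_contra hd
    have : Nat.card (Option (K ⊕ K)) ≤ Nat.card E := by
      refine Nat.card_le_card_of_injective (fun x => x.elim 0 (Sum.elim
        (fun g => ⟨g.1.1, hK _ g.2⟩) fun g => ⟨g.1.1 * M, E.mul_mem (hK _ g.2) hM⟩)) ?_
      have hdM := hA M hM hM0
      have hinv : IsUnit M := (Matrix.isUnit_iff_isUnit_det _).2 (Ne.isUnit hdM)
      rintro (_ | g | g) (_ | g' | g') e
      all_goals first | rfl | have e' := congrArg (fun x : E => x.1.det) e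
      all_goals simp only [Option.elim_none, Option.elim_some, Sum.elim_inl, Sum.elim_inr,
        ZeroMemClass.coe_zero, det_mul, hdg, one_mul, det_zero] at e'
      · exact absurd e' zero_ne_one
      · exact absurd e'.symm hdM
      · exact absurd e' one_ne_zero
      · rw [show g = g' from Subtype.ext (Subtype.ext (congrArg (fun x : E => x.1) e))]
      · exact absurd e'.symm hd
      · exact absurd e' hdM
      · exact absurd e' hd
      · rw [show g = g' from Subtype.ext (Subtype.ext (hinv.mul_right_cancel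
          (congrArg (fun x : E => x.1) e)))]
    rw [Finite.card_option, Nat.card_sum] at this
    generalize Nat.card F = q at *
    obtain ⟨q, rfl⟩ := Nat.exists_eq_add_of_le' hq.le
    simp only [Nat.add_sub_cancel] at hc
    nlinarith
  have htr : ∀ M ∈ E, M ≠ 0 → M ≠ -1 → M 0 0 + M 1 1 = -1 := by
    intro M hM h0 h1
    have e1 := hdet M hM h0
    have e2 := hdet _ (E.add_mem hM E.one_mem) (fun h => h1 (eq_neg_of_add_eq_zero_left h))
    rw [det_fin_two] at e1 e2
    simp only [Matrix.add_apply, one_apply_eq, ne_eq, zero_ne_one, not_false_eq_true,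
      one_apply_ne, add_zero, one_ne_zero] at e2
    linear_combination e2 - e1
  have hcE2 : Nat.card K + 1 ≤ Nat.card E := by
    rw [← Finite.card_option]
    refine Nat.card_le_card_of_injective (fun x => x.elim 0 (fun g => ⟨g.1.1, hK _ g.2⟩)) ?_
    rintro (_ | g) (_ | g') e
    all_goals first | rfl | have e' := congrArg (fun x : E => x.1.det) e
    all_goals simp only [Option.elim_none, Option.elim_some,
        ZeroMemClass.coe_zero, hdg, det_zero] at e'
    · exact absurd e' zero_ne_one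
    · exact absurd e' one_ne_zero
    · rw [show g = g' from Subtype.ext (Subtype.ext (congrArg (fun x : E => x.1) e))]
  haveI := Fintype.ofFinite E
  have hex : ∀ s : Finset E, s.card < Nat.card E → ∃ x, x ∉ s := fun s hs => by
    by_contra! hh
    rw [Finset.eq_univ_of_forall hh, Finset.card_univ, Nat.card_eq_fintype_card] at hs
    exact lt_irrefl _ hs
  have h3 : 2 < Nat.card E := by
    generalize Nat.card F = q at *
    obtain ⟨q, rfl⟩ := Nat.exists_eq_add_of_le' hq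
    simp only [Nat.succ_eq_add_one, Nat.add_succ_sub_one] at hc
    nlinarith
  obtain ⟨M, hM⟩ := hex {0, -1} (lt_of_le_of_lt Finset.card_le_two h3)
  simp only [Finset.mem_insert, Finset.mem_singleton, not_or, Subtype.ext_iff] at hM
  have hM1 := htr _ M.2 hM.1 hM.2
  have hq2 : Nat.card F = 2 := by
    by_contra hne
    have h4 : 4 < Nat.card E := by
      generalize Nat.card F = q at *
      obtain ⟨q, rfl⟩ := Nat.exists_eq_add_of_le' (show 3 ≤ q by omega)
      simp only [Nat.succ_eq_add_one, Nat.add_succ_sub_one] at hc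
      nlinarith
    obtain ⟨N, hN⟩ := hex {0, -1, -M, -1 - M} (lt_of_le_of_lt Finset.card_le_four h4)
    simp only [Finset.mem_insert, Finset.mem_singleton, not_or, Subtype.ext_iff] at hN
    have hN1 := htr _ N.2 hN.1 hN.2.1
    have hN2 := htr _ (E.add_mem M.2 N.2) (fun h => hN.2.2.1 (eq_neg_of_add_eq_zero_right h))
      (fun h => hN.2.2.2 (eq_sub_of_add_eq' h))
    simp only [Matrix.add_apply] at hN2
    exact one_ne_zero (α := F) (by linear_combination hM1 + hN1 - hN2)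
  refine ⟨hq2, ?_⟩
  have hF : ∀ a : F, a ≠ 0 → a = 1 := fun a ha => by
    obtain ⟨b, hb, hb'⟩ := (Nat.card_eq_two_iff' (0 : F)).1 hq2
    rw [hb' a ha, hb' 1 one_ne_zero]
  have h2 : (1 : F) + 1 = 0 := by
    by_contra h
    have := hF _ h
    simp at this
  have hd := hdet _ M.2 hM.1
  rw [det_fin_two] at hd
  have had : M.1 0 0 * M.1 1 1 = 0 := by
    by_contra h
    have a1 := hF _ (left_ne_zero_of_mul h)
    have a2 := hF _ (right_ne_zero_of_mul h)
    rw [a1, a2, h2] at hM1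
    simp at hM1
  have hbc : M.1 0 1 * M.1 1 0 ≠ 0 := fun h => by
    rw [had, h] at hd; simp at hd
  have b1 := hF _ (left_ne_zero_of_mul hbc)
  have b2 := hF _ (right_ne_zero_of_mul hbc)
  by_cases ha : M.1 0 0 = 0
  · have : M.1 = !![0, 1; 1, 1] := by
      ext i j; fin_cases i <;> fin_cases j <;> simp [ha, b1, b2]
      linear_combination hM1 - ha - h2
    exact this ▸ M.2
  · have ha' := hF _ ha
    have : M.1 + 1 = !![0, 1; 1, 1] := by
      ext i j; fin_cases i <;> fin_cases j <;> simp [ha', b1, b2, h2]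
      linear_combination hM1 - ha' - h2
    exact this ▸ E.add_mem M.2 E.one_mem

end Cfsg.Agent.MinI
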