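import Cfsg.Agent.MinI.Basic
import Cfsg.Agent.MinI.SL2
import Cfsg.Agent.Orth.Omega
import Cfsg.Agent.Orth.Finite
import Cfsg.Agent.Classical.LS

/-!
Additive subgroups of a quadratic space: the local analysis at a singular point.
-/

set_option autoImplicit false

namespace Cfsg.Agent.MinI

open QuadraticMap Module Cfsg.Agent.Orth

variable {F V : Type*} [Field F] [AddCommGroup V] [Module F V] {Q : QuadraticForm F V}

theorem mem_span_symm {x y : V} (hx : x ≠ 0) (h : x ∈ Submodule.span F {y}) :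
    y ∈ Submodule.span F {x} := by
  obtain ⟨c, rfl⟩ := Submodule.mem_span_singleton.1 h
  have hc : c ≠ 0 := left_ne_zero_of_smul hx
  exact Submodule.mem_span_singleton.2 ⟨c⁻¹, by rw [smul_smul, inv_mul_cancel₀ hc, one_smul]⟩

variable [FiniteDimensional F V] [Finite F]

theorem exists_sing_orth_two (hQ : ND Q) (hn : 5 ≤ finrank F V) (x y : V) :
    ∃ s, s ≠ 0 ∧ Q s = 0 ∧ polar Q x s = 0 ∧ polar Q y s = 0 := by
  have h1 := hQ.finrank_perp_add (Submodule.span F {x, y})
  have h2 := finrank_span_pair_le (F := F) x y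
  obtain ⟨s, hs0, hs⟩ := exists_singular (Q.restrict (perp Q (Submodule.span F {x, y}))) (by omega)
  exact ⟨s, fun h => hs0 (Subtype.ext h), hs, mem_perp_pair.1 s.2⟩

theorem exists_sing_perp (hQ : ND Q) (hn : 5 ≤ finrank F V) {w₁ w₂ : V} (h1 : w₁ ≠ 0)
    (h2 : w₂ ∉ Submodule.span F {w₁}) :
    ∃ v, Q v = 0 ∧ polar Q v w₁ = 0 ∧ polar Q v w₂ = 1 ∧ v ∉ Submodule.span F {w₁} := by
  suffices h : ∃ v, Q v = 0 ∧ polar Q v w₁ = 0 ∧ polar Q v w₂ ≠ 0 ∧ v ∉ Submodule.span F {w₁} by
    obtain ⟨v, a, b, c, d⟩ := h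
    refine ⟨(polar Q v w₂)⁻¹ • v, by rw [q_smul, a, mul_zero], by rw [p_smul_left, b, mul_zero],
      by rw [p_smul_left, inv_mul_cancel₀ c], fun h => d ?_⟩
    rwa [Submodule.smul_mem_iff _ (inv_ne_zero c)] at h
  obtain ⟨y₀, hy₀⟩ := hQ.exists_polar_one h1
  obtain ⟨s, hs0, hs, hs1, hs2⟩ := exists_sing_orth_two hQ hn w₁ y₀
  have hsn : s ∉ Submodule.span F {w₁} := by
    intro h
    obtain ⟨c, rfl⟩ := Submodule.mem_span_singleton.1 h
    rw [p_smul_right, polar_comm, hy₀, mul_one] at hs2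
    exact hs0 (by rw [hs2, zero_smul])
  by_cases h3 : polar Q s w₂ = 0
  swap
  · exact ⟨s, hs, by rwa [polar_comm], h3, hsn⟩
  obtain ⟨y₁, a1, b1⟩ := hQ.exists_orth_polar_one _ hsn
  obtain ⟨y₂, a2, b2⟩ := hQ.exists_orth_polar_one _ h2
  have a1' := a1 w₁ (Submodule.mem_span_singleton_self _)
  have a2' := a2 w₁ (Submodule.mem_span_singleton_self _)
  obtain ⟨y, e1, e2, e3⟩ : ∃ y, polar Q w₁ y = 0 ∧ polar Q s y ≠ 0 ∧ polar Q w₂ y ≠ 0 := by
    by_cases c1 : polar Q s y₂ = 0
    · by_cases c2 : polar Q w₂ y₁ = 0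
      · exact ⟨y₁ + y₂, by simp [a1', a2'], by simp [c1, b1], by simp [c2, b2]⟩
      · exact ⟨y₁, a1', by simp [b1], c2⟩
    · exact ⟨y₂, a2', c1, by simp [b2]⟩
  refine ⟨y - (Q y / polar Q s y) • s, ?_, ?_, ?_, fun h => ?_⟩
  · rw [q_sub, q_smul, hs, p_smul_right, polar_comm Q y s]; field_simp; ring
  · rw [polar_sub_left, p_smul_left, polar_comm Q y, e1, polar_comm Q s w₁, hs1]; ring
  · rw [polar_sub_left, p_smul_left, h3, polar_comm Q y]; simpa using e3
  · obtain ⟨c, hc⟩ := Submodule.mem_span_singleton.1 h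
    have := congrArg (polar Q s) hc
    rw [p_smul_right, polar_comm Q s, hs1, polar_sub_right, p_smul_right, p_self, hs] at this
    exact e2 (by linear_combination -this)

omit [Finite F] in
theorem exists_notMem_span (hn : 2 ≤ finrank F V) (w : V) : ∃ y, y ∉ Submodule.span F {w} := by
  by_contra! h
  have h1 : Submodule.span F {w} = ⊤ := eq_top_iff.2 fun y _ => h y
  have h2 : finrank F (Submodule.span F {w}) ≤ 1 := by
    simpa using finrank_span_le_card (R := F) ({w} : Set V)
  rw [h1, finrank_top] at h2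
  omega

/-- Eichler maps are transitive on nonzero vectors of given norm. -/
theorem eich_ind (hQ : ND Q) (hn : 5 ≤ finrank F V) (P : V → Prop)
    (hP : ∀ s t x, Q s = 0 → polar Q s t = 0 → P x → P (eichLin Q s t x)) {w w' : V} (hw : w ≠ 0)
    (hw' : w' ≠ 0) (h : Q w = Q w') (h0 : P w) : P w' := by
  have step : ∀ w w' : V, w ≠ 0 → w' ∉ Submodule.span F {w} → Q w = Q w' → P w → P w' := by
    intro w w' hw hn' h h0
    have e1 : w - w' ≠ 0 := fun e => hn' (sub_eq_zero.1 e ▸ Submodule.mem_span_singleton_self _)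
    have e2 : w ∉ Submodule.span F {w - w'} := fun e => hn' (by
      have := mem_span_symm hw e
      simpa using Submodule.sub_mem _ (Submodule.mem_span_singleton_self w) this)
    obtain ⟨s, hs, a, b, -⟩ := exists_sing_perp hQ hn e1 e2
    have := hP s (w - w') w hs a h0
    convert this using 1
    rw [eichLin_apply, b, q_sub, polar_sub_left, p_self, polar_comm Q w', ← h]
    match_scalars <;> ring
  by_cases hs : w' ∈ Submodule.span F {w}
  swap
  · exact step w w' hw hs h h0
  obtain ⟨y, hy⟩ := hQ.exists_polar_one hw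
  obtain ⟨y', hy'⟩ := exists_notMem_span (F := F) (by omega : 2 ≤ finrank F V) w
  obtain ⟨s, hs0, a, b, c⟩ := exists_sing_perp hQ hn hw hy'
  obtain ⟨t, ht, ht'⟩ := hQ.exists_orth_polar_one (Submodule.span F {s}) (u := w)
    fun e => c (mem_span_symm hw e)
  have ht1 := ht s (Submodule.mem_span_singleton_self _)
  have e : eichLin Q s t w = w + s := by
    rw [eichLin_apply, a, polar_comm Q t, ht']; simp
  have h1 := hP s t w hs0 ht1 h0
  rw [e] at h1
  have hQ1 : Q (w + s) = Q w := by rw [q_add, hs0, polar_comm, a]; ring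
  have hn1 : w + s ∉ Submodule.span F {w} := fun e => c (by
    simpa using Submodule.sub_mem _ e (Submodule.mem_span_singleton_self w))
  refine step (w + s) w' (fun e => hn1 (e ▸ Submodule.zero_mem _)) (fun e => hn1 ?_)
    (hQ1.trans h) h1
  exact Submodule.span_le.2 (by simpa using hs) (mem_span_symm hw' e)

/-! ### Cardinalities -/

omit [FiniteDimensional F V] [Finite F] in
/-- `B ∩ v^⊥`. -/
def capPerp (Q : QuadraticForm F V) (B : AddSubgroup V) (v : V) : AddSubgroup V :=
  B ⊓ (Q.polarBilin v).toAddMonoidHom.ker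

omit [FiniteDimensional F V] [Finite F] in
theorem mem_capPerp {B : AddSubgroup V} {v t : V} :
    t ∈ capPerp Q B v ↔ t ∈ B ∧ polar Q v t = 0 := Iff.rfl

theorem card_eq_range_mul_ker {A C : Type*} [AddGroup A] [AddGroup C] (φ : A →+ C)
    (B : AddSubgroup A) : Nat.card B = Nat.card (B.map φ) * Nat.card (B ⊓ φ.ker : AddSubgroup A) := by
  rw [← AddSubgroup.card_mul_index ((φ.comp B.subtype).ker), AddSubgroup.index_ker, mul_comm,
    AddMonoidHom.range_comp, AddSubgroup.range_subtype]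
  congr 1
  exact Nat.card_congr
    { toFun := fun x => ⟨x.1.1, x.1.2, x.2⟩
      invFun := fun x => ⟨⟨x.1, x.2.1⟩, x.2.2⟩
      left_inv := fun _ => rfl
      right_inv := fun _ => rfl }

theorem card_le_capPerp (B : AddSubgroup V) (v : V) :
    Nat.card B ≤ Nat.card F * Nat.card (capPerp Q B v) := by
  rw [card_eq_range_mul_ker (Q.polarBilin v).toAddMonoidHom B]
  exact Nat.mul_le_mul_right _ (AddSubgroup.card_le_card_addGroup _)

theorem card_eq_pow (V : Type*) [AddCommGroup V] [Module F V] [FiniteDimensional F V] :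
    Nat.card V = Nat.card F ^ finrank F V := Module.natCard_eq_pow_finrank

theorem card_perp (hQ : ND Q) {v : V} (hv : v ≠ 0) :
    Nat.card F * Nat.card {t // polar Q v t = 0} = Nat.card F ^ finrank F V := by
  rw [← hQ.finrank_perp_singleton hv, pow_succ', ← card_eq_pow]
  congr 1
  exact Nat.card_congr (Equiv.subtypeEquivRight fun t => mem_perp_singleton.symm)

/-- The polar form as a biadditive map. -/
def pol (Q : QuadraticForm F V) : V →+ V →+ F :=
  AddMonoidHom.mk' (fun x => (Q.polarBilin x).toAddMonoidHom) fun x y => by ext; simp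

omit [FiniteDimensional F V] [Finite F] in
@[simp] theorem pol_apply (x y : V) : pol Q x y = polar Q x y := rfl

theorem eq_zero_of_char {K : Type*} [Field K] {χ : AddChar K ℂ} (hχ : ∃ t, χ t ≠ 1) {a : K}
    (h : ∀ c, χ (c * a) = 1) : a = 0 := by
  by_contra ha
  obtain ⟨t, ht⟩ := hχ
  exact ht (by simpa [ha] using h (t * a⁻¹))

omit [Finite F] in
theorem pol_nd (hQ : ND Q) {χ : AddChar F ℂ} (hχ : ∃ t, χ t ≠ 1) (a : V) (ha : a ≠ 0) :
    ∃ w, χ (pol Q a w) ≠ 1 := by
  obtain ⟨y, hy⟩ := hQ.exists_polar_one ha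
  obtain ⟨t, ht⟩ := hχ
  exact ⟨t • y, by rwa [pol_apply, p_smul_right, hy, mul_one]⟩

theorem exists_nontriv_char (K : Type*) [Field K] [Finite K] : ∃ χ : AddChar K ℂ, ∃ t, χ t ≠ 1 :=
  (AddChar.exists_apply_ne_zero.2 (one_ne_zero (α := K))).imp fun _ h => ⟨1, h⟩

/-! ### The types of a singular vector relative to `B` -/

section types
variable (Q) (B : AddSubgroup V) (v : V)

/-- The whole line lies in `B`. -/
def TG (F : Type*) {V : Type*} [Field F] [AddCommGroup V] [Module F V] (B : AddSubgroup V)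
  (v : V) : Prop := ∀ c : F, c • v ∈ B
/-- `B ∩ v^⊥` is a complement to `F v` in `v^⊥`. -/
def TS : Prop := (∀ c : F, c • v ∈ B → c = 0) ∧ ∀ t, polar Q v t = 0 → ∃ c : F, t + c • v ∈ B
/-- `B ∩ v^⊥ = 0`. -/
def TN : Prop := ∀ t ∈ B, polar Q v t = 0 → t = 0
/-- The triality type. -/
def TT : Prop := finrank F V = 6 ∧ (∀ c : F, c • v ∈ B → c = 0) ∧
  Nat.card (capPerp Q B v) = Nat.card F ^ 2 ∧ ∀ t ∈ B, polar Q v t = 0 → Q t = 0

/-- Every singular vector has one of the four types. -/
def Typed : Prop := ∀ v, v ≠ 0 → Q v = 0 → TG F B v ∨ TS Q B v ∨ TN Q B v ∨ TT Q B v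

end types

variable {B : AddSubgroup V}

theorem TS.card (hQ : ND Q) {v : V} (hv0 : v ≠ 0) (hv : Q v = 0) (h : TS Q B v) :
    Nat.card F * (Nat.card F * Nat.card (capPerp Q B v)) = Nat.card F ^ finrank F V := by
  rw [← card_perp hQ hv0, ← Nat.card_prod]
  congr 1
  refine Nat.card_congr (Equiv.ofBijective (fun p => ⟨p.2.1 + p.1 • v, ?_⟩) ⟨?_, ?_⟩)
  · rw [polar_add_right, (mem_capPerp.1 p.2.2).2, p_smul_right, p_self, hv]; ring
  · rintro ⟨c, t⟩ ⟨c', t'⟩ e
    have e' : t.1 + c • v = t'.1 + c' • v := congrArg Subtype.val e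
    have : c - c' = 0 := h.1 _ (by
      rw [show (c - c') • v = t'.1 - t.1 by rw [sub_smul]; linear_combination (norm := abel) e']
      exact B.sub_mem t'.2.1 t.2.1)
    obtain rfl := sub_eq_zero.1 this
    rw [Subtype.ext (add_right_cancel e')]
  · rintro ⟨t, ht⟩
    obtain ⟨c, hc⟩ := h.2 t ht
    exact ⟨(-c, ⟨_, mem_capPerp.2
      ⟨hc, by rw [polar_add_right, ht, p_smul_right, p_self, hv]; ring⟩⟩), by simp⟩

theorem capPerp_le (B : AddSubgroup V) (v : V) : Nat.card (capPerp Q B v) ≤ Nat.card B := by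
  haveI := Module.finite_of_finite F (M := V)
  exact AddSubgroup.card_le_of_le (inf_le_left : capPerp Q B v ≤ B)

theorem TS.le (hQ : ND Q) {k : ℕ} (hn : k + 2 ≤ finrank F V) {v : V} (hv0 : v ≠ 0) (hv : Q v = 0)
    (h : TS Q B v) : Nat.card F ^ k ≤ Nat.card B := by
  refine le_trans ?_ (capPerp_le (Q := Q) B v)
  have h1 := h.card hQ hv0 hv
  have hq : 0 < Nat.card F := Nat.card_pos
  refine Nat.le_of_mul_le_mul_left (Nat.le_of_mul_le_mul_left ?_ hq) hq
  rw [h1, ← pow_succ', ← pow_succ']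
  exact Nat.pow_le_pow_right hq hn

theorem TN.le {v : V} (h : TN Q B v) : Nat.card B ≤ Nat.card F := by
  have := card_le_capPerp (Q := Q) B v
  rwa [show capPerp Q B v = ⊥ from eq_bot_iff.2 fun t ht => h t ht.1 ht.2, AddSubgroup.card_bot,
    mul_one] at this

theorem TT.le {v : V} (h : TT Q B v) : Nat.card B ≤ Nat.card F ^ 3 := by
  have := card_le_capPerp (Q := Q) B v
  rwa [h.2.2.1, ← pow_succ'] at this

theorem TT.ge {v : V} (h : TT Q B v) : Nat.card F ^ 2 ≤ Nat.card B := by
  rw [← h.2.2.1]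
  exact capPerp_le B v

theorem Typed.eq_bot (hQ : ND Q) (hn : 5 ≤ finrank F V) (hB : Typed Q B) {v : V}
    (h : TN Q B v) : B = ⊥ := by
  haveI := Module.finite_of_finite F (M := V)
  have hq : 1 < Nat.card F := Finite.one_lt_card
  have h1 := h.le
  have h2 : Nat.card F < Nat.card F ^ 2 := by nlinarith
  refine eq_bot_iff.2 fun b hb => ?_
  by_contra hb0
  obtain ⟨y, hy⟩ := exists_notMem_span (F := F) (by omega : 2 ≤ finrank F V) b
  obtain ⟨s, hs, a, -, c⟩ := exists_sing_perp hQ hn hb0 hy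
  have hs0 : s ≠ 0 := fun e => c (e ▸ Submodule.zero_mem _)
  rcases hB s hs0 hs with h' | h' | h' | h'
  · have : Nat.card (Option F) ≤ Nat.card B := by
      refine Nat.card_le_card_of_injective (fun x => x.elim ⟨b, hb⟩ fun c => ⟨c • s, h' c⟩) ?_
      have key : ∀ x : F, b ≠ x • s := fun x e =>
        c (mem_span_symm hb0 (Submodule.mem_span_singleton.2 ⟨x, e.symm⟩))
      rintro (_ | x) (_ | y) e
      · rfl
      · exact absurd (congrArg Subtype.val e) (key y)
      · exact absurd (congrArg Subtype.val e).symm (key x)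
      · rw [smul_left_injective F hs0 (congrArg Subtype.val e)]
    rw [Finite.card_option] at this
    omega
  · have := h'.le (k := 2) hQ (by omega) hs0 hs
    omega
  · exact hb0 (h' b hb a)
  · have := h'.ge
    omega

theorem Typed.eq_top (hQ : ND Q) (hn : 3 ≤ finrank F V) (h : ∀ v, Q v = 0 → TG F B v) : B = ⊤ := by
  obtain ⟨e, he0, he⟩ := exists_singular Q hn
  exact eq_top_iff.2 fun v _ => hQ.singular_induction he0 he (· ∈ B)
    (fun v hv => by simpa using h v hv 1) (fun v w => B.add_mem) v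

theorem Typed.hyper (hQ : ND Q) (hn : 5 ≤ finrank F V) (hB : Typed Q B) {v : V} (hv0 : v ≠ 0)
    (hv : Q v = 0) (h : TS Q B v) : ∃ w, w ≠ 0 ∧ ∀ t, t ∈ B ↔ polar Q w t = 0 := by
  haveI := Module.finite_of_finite F (M := V)
  have hq : 1 < Nat.card F := Finite.one_lt_card
  obtain ⟨χ, hχ⟩ := exists_nontriv_char F
  set D := ann (pol Q) χ B
  have hD := card_mul_card_ann (pol Q) χ (pol_nd hQ hχ) B
  have h1 : Nat.card F ≤ Nat.card D := by
    have h2 := card_le_capPerp (Q := Q) B v
    have h3 := h.card hQ hv0 hv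
    rw [← card_eq_pow, ← hD] at h3
    have h4 : 0 < Nat.card B := Nat.card_pos
    nlinarith
  obtain ⟨⟨w, hw⟩, hw0⟩ := AddSubgroup.ne_bot_iff_exists_ne_zero.1 (show D ≠ ⊥ from fun e => by
    rw [e, AddSubgroup.card_bot] at h1; omega)
  have hw0 : w ≠ 0 := fun e => hw0 (Subtype.ext e)
  have hle : D ≤ (Submodule.span F {w}).toAddSubgroup := by
    intro w₂ hw₂
    by_contra hn'
    obtain ⟨s, hs, a, b, c⟩ := exists_sing_perp hQ hn hw0 hn'
    have hs0 : s ≠ 0 := fun e => c (e ▸ Submodule.zero_mem _)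
    rcases hB s hs0 hs with h' | h' | h' | h'
    · exact one_ne_zero (eq_zero_of_char hχ (a := 1) fun x => by
        simpa [p_smul_left, b] using hw₂ _ (h' x))
    · refine c (mem_span_symm hw0 ?_)
      rw [← hQ.perp_perp (Submodule.span F {s}), mem_perp]
      intro t ht
      refine eq_zero_of_char hχ fun x => ?_
      obtain ⟨d, hd⟩ := h'.2 (x • t) (by rw [p_smul_right, mem_perp_singleton.1 ht, mul_zero])
      simpa [p_smul_left, a] using hw _ hd
    · have := h.le (k := 1) hQ (by omega) hv0 hv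
      rw [hB.eq_bot hQ hn h', AddSubgroup.card_bot, pow_one] at this
      omega
    · have h5 := h.le (k := 4) hQ h'.1.ge hv0 hv
      have h6 := h'.le
      have := Nat.pow_lt_pow_right hq (show 3 < 4 by norm_num)
      omega
  have hDeq : D = (Submodule.span F {w}).toAddSubgroup := by
    refine AddSubgroup.eq_of_le_of_card_ge hle (le_trans (le_of_eq ?_) h1)
    show Nat.card (Submodule.span F {w}) = _
    rw [card_eq_pow (F := F), finrank_span_singleton hw0, pow_one]
  refine ⟨w, hw0, fun t => ?_⟩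
  rw [← ann_ann (pol Q) χ (pol_nd hQ hχ) (fun a ha => by
    simpa only [pol_apply, polar_comm Q a] using pol_nd hQ hχ a ha) B, mem_ann]
  change (∀ a ∈ D, _) ↔ _
  rw [hDeq]
  constructor
  · intro H
    refine eq_zero_of_char hχ fun x => ?_
    simpa [p_smul_right, polar_comm Q t] using
      H (x • w) (Submodule.mem_span_singleton.2 ⟨x, rfl⟩)
  · intro H a ha
    obtain ⟨x, rfl⟩ := Submodule.mem_span_singleton.1 ha
    simp [p_smul_right, polar_comm Q t, H]

theorem Typed.solid (hQ : ND Q) (hB : Typed Q B) {v : V} (h : TT Q B v) :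
    (∀ t ∈ B, Q t = 0) ∧ (∀ c : F, ∀ t ∈ B, c • t ∈ B) ∧ Nat.card B = Nat.card F ^ 3 := by
  haveI := Module.finite_of_finite F (M := V)
  have hq : 1 < Nat.card F := Finite.one_lt_card
  have hn : 5 ≤ finrank F V := by rw [h.1]; norm_num
  obtain ⟨χ, hχ⟩ := exists_nontriv_char F
  have h3 := h.le
  have h2 := h.ge
  have hlt : ∀ {a b}, a < b → Nat.card F ^ a < Nat.card F ^ b := Nat.pow_lt_pow_right hq
  have hty : ∀ s, s ≠ 0 → Q s = 0 → TG F B s ∨ TT Q B s := by
    intro s hs0 hs
    rcases hB s hs0 hs with h' | h' | h' | h'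
    · exact Or.inl h'
    · have := h'.le (k := 4) hQ h.1.ge hs0 hs
      have := hlt (show 3 < 4 by norm_num)
      omega
    · have := h'.le
      have := hlt (show 1 < 2 by norm_num)
      rw [pow_one] at this
      omega
    · exact Or.inr h'
  have hs : ∀ t ∈ B, Q t = 0 := by
    intro b hb
    by_contra hb0
    have hb1 : b ≠ 0 := ne_zero_of_Q_ne_zero hb0
    have hle : ann (pol Q) χ B ≤ (Submodule.span F {b}).toAddSubgroup := by
      intro w hw
      by_contra hn'
      obtain ⟨s, hs, a, b', c⟩ := exists_sing_perp hQ hn hb1 hn'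
      rcases hty s (fun e => c (e ▸ Submodule.zero_mem _)) hs with h' | h'
      · exact one_ne_zero (eq_zero_of_char hχ (a := 1) fun x => by
          simpa [p_smul_left, b'] using hw _ (h' x))
      · exact hb0 (h'.2.2.2 b hb a)
    have h4 := AddSubgroup.card_le_of_le hle
    have h5 := card_mul_card_ann (pol Q) χ (pol_nd hQ hχ) B
    change _ ≤ Nat.card (Submodule.span F {b}) at h4
    rw [card_eq_pow (F := F) (Submodule.span F {b}), finrank_span_singleton hb1, pow_one] at h4
    rw [card_eq_pow (F := F) V, h.1] at h5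
    have := hlt (show 3 + 1 < 6 by norm_num)
    have := Nat.mul_le_mul h3 h4
    rw [← pow_succ] at this
    omega
  have hc : ∀ c : F, ∀ t ∈ B, c • t ∈ B := by
    intro c t ht
    by_cases ht0 : t = 0
    · simp [ht0]
    rcases hty t ht0 (hs t ht) with h' | h'
    · exact h' c
    · exact absurd (h'.2.1 1 (by simpa using ht)) one_ne_zero
  refine ⟨hs, hc, ?_⟩
  obtain ⟨⟨b, hb⟩, hb0⟩ := AddSubgroup.ne_bot_iff_exists_ne_zero.1 (show B ≠ ⊥ from fun e => by
    rw [e, AddSubgroup.card_bot] at h2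
    have := hlt (show 0 < 2 by norm_num)
    rw [pow_zero] at this; omega)
  have hb0 : b ≠ 0 := fun e => hb0 (Subtype.ext e)
  obtain ⟨y, hy, hy0⟩ := hQ.exists_hyp hb0 (hs b hb)
  rcases hty y (by rintro rfl; simp at hy) hy0 with h' | h'
  · have := hs _ (B.add_mem hb (h' 1))
    rw [one_smul, q_add, hs b hb, hy0, hy] at this
    simp at this
  · rw [card_eq_range_mul_ker (Q.polarBilin y).toAddMonoidHom B]
    change _ * Nat.card (capPerp Q B y) = _
    rw [h'.2.2.1, show B.map (Q.polarBilin y).toAddMonoidHom = ⊤ from eq_top_iff.2 fun c _ =>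
      ⟨c • b, hc c b hb, by simp [p_smul_right, polar_comm Q y, hy]⟩, AddSubgroup.card_top,
      ← pow_succ']

end Cfsg.Agent.MinI
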