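import Cfsg.Agent.MinI.OLine2
import Cfsg.Agent.MinI.Heis

/-!
The group generated by Eichler maps acting on a small finite set: the analysis at a line.
-/

set_option autoImplicit false

namespace Cfsg.Agent.MinI

open QuadraticMap Module Cfsg.Agent.Orth Matrix

variable {F V : Type*} [Field F] [AddCommGroup V] [Module F V] {Q : QuadraticForm F V}

/-- Eichler maps as elements of the group they generate. -/
noncomputable def rho (Q : QuadraticForm F V) (u v : V) : eichGroup Q :=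
  ⟨eich Q u v, eich_mem_eichGroup u v⟩

theorem rho_apply {u v : V} (hu : Q u = 0) (huv : polar Q u v = 0) (x : V) :
    (rho Q u v).1.1 x = eichLin Q u v x := by
  rw [eichLin_apply]; exact eich_apply hu huv x

theorem eg_ext {g h : eichGroup Q} (H : ∀ x, g.1.1 x = h.1.1 x) : g = h := Subtype.ext (OG.ext H)

theorem eg_mul (g h : eichGroup Q) (x : V) : (g * h).1.1 x = g.1.1 (h.1.1 x) := rfl

theorem rho_conj (g : eichGroup Q) (u v : V) :
    g * rho Q u v * g⁻¹ = rho Q (g.1.1 u) (g.1.1 v) := Subtype.ext (eich_conj g.1 u v)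

theorem rho_add {u v w : V} (hu : Q u = 0) (huv : polar Q u v = 0) (huw : polar Q u w = 0) :
    rho Q u (v + w) = rho Q u v * rho Q u w := Subtype.ext (eich_mul hu huv huw).symm

theorem rho_zero (u : V) : rho Q u 0 = 1 := by
  by_cases h : Q u = 0
  · exact eg_ext fun x => by rw [rho_apply h (by simp), eichLin_zero]; rfl
  · exact Subtype.ext (eich_of_not fun h' => h h'.1)

theorem rho_add_smul {u v : V} (hu : Q u = 0) (huv : polar Q u v = 0) (a : F) :
    rho Q u (v + a • u) = rho Q u v := Subtype.ext (eich_add_smul_self hu huv a)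

theorem rho_smul_left {u v : V} (hu : Q u = 0) (huv : polar Q u v = 0) (a : F) :
    rho Q (a • u) v = rho Q u (a • v) := Subtype.ext (eich_smul_left hu huv a)

theorem rho_smul_iff {Ω : Type*} [MulAction (eichGroup Q) Ω] (g : eichGroup Q) (u v : V) (ω : Ω) :
    rho Q (g.1.1 u) (g.1.1 v) • g • ω = g • ω ↔ rho Q u v • ω = ω := by
  rw [← rho_conj, mul_smul, mul_smul, inv_smul_smul, smul_left_cancel_iff]

section emb
variable {W : Type*} [AddCommGroup W] [Module F W] {Q' : QuadraticForm F W} {ι : W →ₗ[F] V}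

theorem eichLin_emb (hι : ∀ a, Q (ι a) = Q' a) (s t a : W) :
    eichLin Q (ι s) (ι t) (ι a) = ι (eichLin Q' s t a) := by
  simp only [eichLin_apply, polar_of_isom ι hι, hι, map_sub, map_add, map_smul]

theorem exists_fix_map [Finite F] [FiniteDimensional F W] (hι : ∀ a, Q (ι a) = Q' a) (hQ' : ND Q')
    (hn : 5 ≤ finrank F W) {w w' : W} (hw : w ≠ 0) (hw' : w' ≠ 0) (h : Q' w = Q' w') :
    ∃ g : eichGroup Q, g.1.1 (ι w) = ι w' ∧ ∀ x, (∀ a, polar Q (ι a) x = 0) → g.1.1 x = x := by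
  refine eich_ind hQ' hn (fun y => ∃ g : eichGroup Q, g.1.1 (ι w) = ι y ∧
    ∀ x, (∀ a, polar Q (ι a) x = 0) → g.1.1 x = x) ?_ hw hw' h ⟨1, rfl, fun _ _ => rfl⟩
  rintro s t y hs ht ⟨g, hg, hg'⟩
  have e1 : Q (ι s) = 0 := by rw [hι, hs]
  have e2 : polar Q (ι s) (ι t) = 0 := by rw [polar_of_isom ι hι, ht]
  refine ⟨rho Q (ι s) (ι t) * g, ?_, fun x hx => ?_⟩
  · rw [eg_mul, hg, rho_apply e1 e2, eichLin_emb hι]
  · rw [eg_mul, hg' x hx, rho_apply e1 e2, eichLin_apply, hx, hx]; simp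

end emb

/-- Two orthogonal hyperbolic pairs with an isometric embedding into their perp. -/
structure Frame (Q : QuadraticForm F V) {W : Type*} [AddCommGroup W] [Module F W]
    (Q' : QuadraticForm F W) where
  u : V
  v : V
  u' : V
  v' : V
  ι : W →ₗ[F] V
  qu : Q u = 0
  qv : Q v = 0
  qu' : Q u' = 0
  qv' : Q v' = 0
  uu' : polar Q u u' = 1
  vv' : polar Q v v' = 1
  uv : polar Q u v = 0
  uv' : polar Q u v' = 0
  u'v : polar Q u' v = 0
  u'v' : polar Q u' v' = 0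
  hι : ∀ a, Q (ι a) = Q' a
  uι : ∀ a, polar Q u (ι a) = 0
  vι : ∀ a, polar Q v (ι a) = 0
  u'ι : ∀ a, polar Q u' (ι a) = 0
  v'ι : ∀ a, polar Q v' (ι a) = 0

namespace Frame

variable {W : Type*} [AddCommGroup W] [Module F W] {Q' : QuadraticForm F W} (f : Frame Q Q')

theorem uu : polar Q f.u f.u = 0 := by rw [p_self, f.qu, mul_zero]
theorem vv : polar Q f.v f.v = 0 := by rw [p_self, f.qv, mul_zero]
theorem u'u' : polar Q f.u' f.u' = 0 := by rw [p_self, f.qu', mul_zero]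
theorem v'v' : polar Q f.v' f.v' = 0 := by rw [p_self, f.qv', mul_zero]
theorem u'u : polar Q f.u' f.u = 1 := by rw [polar_comm, f.uu']
theorem v'v : polar Q f.v' f.v = 1 := by rw [polar_comm, f.vv']
theorem vu : polar Q f.v f.u = 0 := by rw [polar_comm, f.uv]
theorem v'u : polar Q f.v' f.u = 0 := by rw [polar_comm, f.uv']
theorem vu' : polar Q f.v f.u' = 0 := by rw [polar_comm, f.u'v]
theorem v'u' : polar Q f.v' f.u' = 0 := by rw [polar_comm, f.u'v']
theorem ιu (a : W) : polar Q (f.ι a) f.u = 0 := by rw [polar_comm, f.uι]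
theorem ιv (a : W) : polar Q (f.ι a) f.v = 0 := by rw [polar_comm, f.vι]
theorem ιu' (a : W) : polar Q (f.ι a) f.u' = 0 := by rw [polar_comm, f.u'ι]
theorem ιv' (a : W) : polar Q (f.ι a) f.v' = 0 := by rw [polar_comm, f.v'ι]
theorem ιι (a b : W) : polar Q (f.ι a) (f.ι b) = polar Q' a b := polar_of_isom f.ι f.hι a b
theorem usv (c : F) : polar Q f.u (c • f.v) = 0 := by rw [p_smul_right, f.uv, mul_zero]
theorem usv' (c : F) : polar Q f.u (c • f.v') = 0 := by rw [p_smul_right, f.uv', mul_zero]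
theorem vsu' (c : F) : polar Q f.v (c • f.u') = 0 := by rw [p_smul_right, f.vu', mul_zero]
theorem u'sv' (c : F) : polar Q f.u' (c • f.v') = 0 := by rw [p_smul_right, f.u'v', mul_zero]

theorem S : (∀ u v x, eichLin Q u v x =
      x + (polar Q v x - Q v * polar Q u x) • u - polar Q u x • v) ∧
    (∀ x y z, polar Q (x + y) z = polar Q x z + polar Q y z) ∧
    (∀ x y z, polar Q x (y + z) = polar Q x y + polar Q x z) ∧
    (∀ x y z, polar Q (x - y) z = polar Q x z - polar Q y z) ∧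
    (∀ x y z, polar Q x (y - z) = polar Q x y - polar Q x z) ∧
    (∀ (a : F) x y, polar Q (a • x) y = a * polar Q x y) ∧
    (∀ (a : F) x y, polar Q x (a • y) = a * polar Q x y) ∧
    (∀ (a : F) x, Q (a • x) = a ^ 2 * Q x) ∧ (∀ x y, Q (x + y) = Q x + Q y + polar Q x y) ∧
    (∀ a b, f.ι (a + b) = f.ι a + f.ι b) ∧ (∀ (c : F) a, f.ι (c • a) = c • f.ι a) ∧
    polar Q f.u f.u = 0 ∧ polar Q f.v f.v = 0 ∧ polar Q f.u' f.u' = 0 ∧ polar Q f.v' f.v' = 0 ∧
    polar Q f.u' f.u = 1 ∧ polar Q f.v' f.v = 1 ∧ polar Q f.v f.u = 0 ∧ polar Q f.v' f.u = 0 ∧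
    polar Q f.v f.u' = 0 ∧ polar Q f.v' f.u' = 0 ∧ (∀ a, polar Q (f.ι a) f.u = 0) ∧
    (∀ a, polar Q (f.ι a) f.v = 0) ∧ (∀ a, polar Q (f.ι a) f.u' = 0) ∧
    (∀ a, polar Q (f.ι a) f.v' = 0) ∧ (∀ a b, polar Q (f.ι a) (f.ι b) = polar Q' a b) ∧
    Q f.u = 0 ∧ Q f.v = 0 ∧ Q f.u' = 0 ∧ Q f.v' = 0 ∧ polar Q f.u f.u' = 1 ∧
    polar Q f.v f.v' = 1 ∧ polar Q f.u f.v = 0 ∧ polar Q f.u f.v' = 0 ∧ polar Q f.u' f.v = 0 ∧
    polar Q f.u' f.v' = 0 ∧ (∀ a, Q (f.ι a) = Q' a) ∧ (∀ a, polar Q f.u (f.ι a) = 0) ∧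
    (∀ a, polar Q f.v (f.ι a) = 0) ∧ (∀ a, polar Q f.u' (f.ι a) = 0) ∧
    (∀ a, polar Q f.v' (f.ι a) = 0) :=
  ⟨eichLin_apply, polar_add_left Q, polar_add_right Q, polar_sub_left Q, polar_sub_right Q,
    p_smul_left Q, p_smul_right Q, q_smul Q, q_add Q, f.ι.map_add, f.ι.map_smul, f.uu, f.vv, f.u'u',
    f.v'v', f.u'u, f.v'v, f.vu, f.v'u, f.vu', f.v'u', f.ιu, f.ιv, f.ιu', f.ιv', f.ιι, f.qu, f.qv,
    f.qu', f.qv', f.uu', f.vv', f.uv, f.uv', f.u'v, f.u'v', f.hι, f.uι, f.vι, f.u'ι, f.v'ι⟩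

theorem swap_uv (a b : W) : rho Q f.v (f.ι b) * rho Q f.u (f.ι a) =
    rho Q f.u (f.ι a) * rho Q f.v (f.ι b) * rho Q f.u (polar Q' a b • f.v) := by
  refine eg_ext fun x => ?_
  simp only [eg_mul, rho_apply f.qu (f.uι _), rho_apply f.qv (f.vι _), rho_apply f.qu (f.usv _)]
  simp only [f.S]
  rw [polar_comm Q' b a]
  match_scalars <;> ring

theorem z_comm_v (b : W) (t : F) : rho Q f.u (t • f.v) * rho Q f.v (f.ι b) =
    rho Q f.v (f.ι b) * rho Q f.u (t • f.v) := by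
  refine eg_ext fun x => ?_
  simp only [eg_mul, rho_apply f.qv (f.vι _), rho_apply f.qu (f.usv _)]
  simp only [f.S]
  match_scalars <;> ring

theorem z_comm_u (a : W) (t : F) : rho Q f.u (t • f.v) * rho Q f.u (f.ι a) =
    rho Q f.u (f.ι a) * rho Q f.u (t • f.v) := by
  rw [← rho_add f.qu (f.usv _) (f.uι _), ← rho_add f.qu (f.uι _) (f.usv _), add_comm]

theorem e_mul' (x y : W × W) : rho Q f.u (f.ι x.1) * rho Q f.v (f.ι x.2) *
    (rho Q f.u (f.ι y.1) * rho Q f.v (f.ι y.2)) = rho Q f.u (f.ι (x + y).1) *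
      rho Q f.v (f.ι (x + y).2) * rho Q f.u (polar Q' y.1 x.2 • f.v) := by
  rw [Prod.fst_add, Prod.snd_add, map_add, map_add, rho_add f.qu (f.uι _) (f.uι _),
    rho_add f.qv (f.vι _) (f.vι _), mul_assoc, ← mul_assoc (rho Q f.v _), f.swap_uv]
  simp only [mul_assoc, f.z_comm_v]

/-- The unipotent radical of the line stabiliser. -/
noncomputable def heis : Heis (eichGroup Q) (W × W) F where
  e x := rho Q f.u (f.ι x.1) * rho Q f.v (f.ι x.2)
  z t := rho Q f.u (t • f.v)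
  β := AddMonoidHom.mk' (fun x => AddMonoidHom.mk'
      (fun y => polar Q' y.1 x.2 - polar Q' y.2 x.1) fun y z => by simp; ring) fun x z => by
        ext; simp; ring
  z_add s t := by rw [add_smul, rho_add f.qu (f.usv _) (f.usv _)]
  e_mul x y := ⟨_, f.e_mul' x y⟩
  z_comm x t := by rw [← mul_assoc, f.z_comm_u, mul_assoc, f.z_comm_v, mul_assoc]
  e_comm x y := by
    rw [f.e_mul', f.e_mul', add_comm y x, mul_assoc (_ * _), ← rho_add f.qu (f.usv _) (f.usv _),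
      ← add_smul]
    simp [polar_comm Q' y.2]

theorem heis_e (x : W × W) : f.heis.e x = rho Q f.u (f.ι x.1) * rho Q f.v (f.ι x.2) := rfl
theorem heis_z (t : F) : f.heis.z t = rho Q f.u (t • f.v) := rfl
theorem heis_β (x y : W × W) : f.heis.β x y = polar Q' y.1 x.2 - polar Q' y.2 x.1 := rfl

theorem conj_e (g : eichGroup Q) (x : W × W) : g * f.heis.e x * g⁻¹ =
    rho Q (g.1.1 f.u) (g.1.1 (f.ι x.1)) * rho Q (g.1.1 f.v) (g.1.1 (f.ι x.2)) := by
  rw [← rho_conj, ← rho_conj, heis_e]; group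

theorem conj_z (g : eichGroup Q) (t : F) : g * f.heis.z t * g⁻¹ =
    rho Q (g.1.1 f.u) (t • g.1.1 f.v) := by rw [heis_z, rho_conj, map_smul]

theorem upper_spec (c : F) : ∃ g : eichGroup Q, (∀ t, g * f.heis.z t * g⁻¹ = f.heis.z t) ∧
    ∀ x, ∃ k, g * f.heis.e x * g⁻¹ = f.heis.e (mact !![1, c; 0, 1] x) * f.heis.z k := by
  have e1 : (rho Q f.u (c • f.v')).1.1 f.u = f.u := by
    rw [rho_apply f.qu (f.usv' _)]; simp only [f.S]; module
  have e2 : (rho Q f.u (c • f.v')).1.1 f.v = f.v + c • f.u := by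
    rw [rho_apply f.qu (f.usv' _)]; simp only [f.S]; module
  have e3 : ∀ a, (rho Q f.u (c • f.v')).1.1 (f.ι a) = f.ι a := fun a => by
    rw [rho_apply f.qu (f.usv' _)]; simp only [f.S]; module
  refine ⟨rho Q f.u (c • f.v'), fun t => ?_, fun x => ⟨c * Q' x.2, ?_⟩⟩
  · rw [conj_z, e1, e2, smul_add, smul_smul, rho_add_smul f.qu (f.usv _), heis_z]
  · rw [conj_e, e1, e2, e3, e3, heis_e, heis_z]
    refine eg_ext fun y => ?_
    have h1 : Q (f.v + c • f.u) = 0 := by simp only [f.S]; ring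
    have h2 : polar Q (f.v + c • f.u) (f.ι x.2) = 0 := by simp only [f.S]; ring
    simp only [eg_mul, rho_apply f.qu (f.uι _), rho_apply f.qv (f.vι _), rho_apply f.qu (f.usv _),
      rho_apply h1 h2, mact_apply, of_apply, cons_val', cons_val_zero, cons_val_one,
      cons_val_fin_one, one_smul, zero_smul, zero_add]
    simp only [f.S]
    simp only [p_self]
    match_scalars <;> ring

theorem lower_spec (c : F) : ∃ g : eichGroup Q, (∀ t, g * f.heis.z t * g⁻¹ = f.heis.z t) ∧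
    ∀ x, ∃ k, g * f.heis.e x * g⁻¹ = f.heis.e (mact !![1, 0; c, 1] x) * f.heis.z k := by
  have e1 : (rho Q f.v (c • f.u')).1.1 f.u = f.u + c • f.v := by
    rw [rho_apply f.qv (f.vsu' _)]; simp only [f.S]; module
  have e2 : (rho Q f.v (c • f.u')).1.1 f.v = f.v := by
    rw [rho_apply f.qv (f.vsu' _)]; simp only [f.S]; module
  have e3 : ∀ a, (rho Q f.v (c • f.u')).1.1 (f.ι a) = f.ι a := fun a => by
    rw [rho_apply f.qv (f.vsu' _)]; simp only [f.S]; module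
  have h1 : Q (f.u + c • f.v) = 0 := by simp only [f.S]; ring
  refine ⟨rho Q f.v (c • f.u'), fun t => ?_, fun x => ⟨c * Q' x.1, ?_⟩⟩
  · rw [conj_z, e1, e2, heis_z]
    refine eg_ext fun y => ?_
    have h2 : polar Q (f.u + c • f.v) (t • f.v) = 0 := by simp only [f.S]; ring
    simp only [rho_apply f.qu (f.usv _), rho_apply h1 h2]
    simp only [f.S]
    match_scalars <;> ring
  · rw [conj_e, e1, e2, e3, e3, heis_e, heis_z]
    refine eg_ext fun y => ?_
    have h2 : polar Q (f.u + c • f.v) (f.ι x.1) = 0 := by simp only [f.S]; ring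
    simp only [eg_mul, rho_apply f.qu (f.uι _), rho_apply f.qv (f.vι _), rho_apply f.qu (f.usv _),
      rho_apply h1 h2, mact_apply, of_apply, cons_val', cons_val_zero, cons_val_one,
      cons_val_fin_one, one_smul, zero_smul, add_zero]
    simp only [f.S]
    simp only [p_self]
    match_scalars <;> ring

theorem eich_spec {s t : W} (hs : Q' s = 0) (ht : polar Q' s t = 0) :
    (∀ c, rho Q (f.ι s) (f.ι t) * f.heis.z c * (rho Q (f.ι s) (f.ι t))⁻¹ = f.heis.z c) ∧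
    ∀ x, rho Q (f.ι s) (f.ι t) * f.heis.e x * (rho Q (f.ι s) (f.ι t))⁻¹ =
      f.heis.e (dE Q' s t x) * f.heis.z 0 := by
  have h1 : Q (f.ι s) = 0 := by rw [f.hι, hs]
  have h2 : polar Q (f.ι s) (f.ι t) = 0 := by rw [f.ιι, ht]
  have e1 : (rho Q (f.ι s) (f.ι t)).1.1 f.u = f.u := by
    rw [rho_apply h1 h2]; simp only [f.S]; module
  have e2 : (rho Q (f.ι s) (f.ι t)).1.1 f.v = f.v := by
    rw [rho_apply h1 h2]; simp only [f.S]; module
  refine ⟨fun c => by rw [conj_z, e1, e2, heis_z], fun x => ?_⟩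
  rw [conj_e, e1, e2, rho_apply h1 h2, rho_apply h1 h2, eichLin_emb f.hι, eichLin_emb f.hι,
    Heis.z_zero, mul_one]
  rfl

theorem exists_scal {μ : F} (hμ : μ ≠ 0) : ∃ s : eichGroup Q, s.1.1 f.u = μ • f.u ∧
    s.1.1 f.v = μ • f.v ∧ ∀ a, s.1.1 (f.ι a) = f.ι a := by
  have hx : ∀ c : F, (rho Q f.u (c • f.v)).1.1 f.u = f.u ∧ (rho Q f.u (c • f.v)).1.1 f.v = f.v ∧
      (rho Q f.u (c • f.v)).1.1 f.u' = f.u' - c • f.v ∧
      (rho Q f.u (c • f.v)).1.1 f.v' = f.v' + c • f.u ∧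
      ∀ a, (rho Q f.u (c • f.v)).1.1 (f.ι a) = f.ι a := fun c => by
    refine ⟨?_, ?_, ?_, ?_, fun a => ?_⟩ <;> rw [rho_apply f.qu (f.usv _)] <;>
      simp only [f.S] <;> module
  have hy : ∀ c : F, (rho Q f.u' (c • f.v')).1.1 f.u = f.u - c • f.v' ∧
      (rho Q f.u' (c • f.v')).1.1 f.v = f.v + c • f.u' ∧
      (rho Q f.u' (c • f.v')).1.1 f.u' = f.u' ∧ (rho Q f.u' (c • f.v')).1.1 f.v' = f.v' ∧
      ∀ a, (rho Q f.u' (c • f.v')).1.1 (f.ι a) = f.ι a := fun c => by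
    refine ⟨?_, ?_, ?_, ?_, fun a => ?_⟩ <;> rw [rho_apply f.qu' (f.u'sv' _)] <;>
      simp only [f.S] <;> module
  refine ⟨rho Q f.u (μ • f.v) * rho Q f.u' (μ⁻¹ • f.v') * rho Q f.u (μ • f.v) *
    (rho Q f.u ((-1 : F) • f.v) * rho Q f.u' ((-1 : F) • f.v') * rho Q f.u ((-1 : F) • f.v)),
    ?_, ?_, fun a => ?_⟩
  all_goals simp only [eg_mul, hx, hy, map_add, map_sub, map_smul]
  all_goals match_scalars <;> field_simp <;> ring

theorem torus [Finite F] [FiniteDimensional F V] (hQ : ND Q) (hn : 7 ≤ finrank F V) (l : F)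
    (hl : l ≠ 0) : ∃ g : eichGroup Q, ∀ t, g * f.heis.z t * g⁻¹ = f.heis.z (l * t) := by
  have hu : f.u ∈ perp Q (Submodule.span F {f.v, f.v'}) := mem_perp_pair.2 ⟨f.vu, f.v'u⟩
  have hu0 : (⟨f.u, hu⟩ : perp Q (Submodule.span F {f.v, f.v'})) ≠ 0 := fun e => by
    have : f.u = 0 := congrArg Subtype.val e
    simpa [this] using f.uu'
  have := hQ.finrank_perp_hyp f.qv f.qv' f.vv'
  obtain ⟨g, hg, hg'⟩ := exists_fix_map (Q := Q) (ι := Submodule.subtype _) (fun _ => rfl)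
    (hQ.nd_perp_hyp f.qv f.qv' f.vv') (by omega) hu0 (smul_ne_zero hl hu0)
    (by rw [q_smul]; simp [f.qu])
  refine ⟨g, fun t => ?_⟩
  rw [conj_z, show g.1.1 f.u = l • f.u from hg, hg' f.v fun a => by
    rw [polar_comm]; exact (mem_perp_pair.1 a.2).1, rho_smul_left f.qu (f.usv _), smul_smul, heis_z]

end Frame

end Cfsg.Agent.MinI
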