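import Cfsg.Agent.MinI.OGrp
import Cfsg.Agent.Orth.Fix

/-!
The group generated by Eichler maps acting on a small finite set: lines and points.
-/

set_option autoImplicit false

namespace Cfsg.Agent.MinI

open QuadraticMap Module Cfsg.Agent.Orth Matrix MatrixGroups

variable {F V : Type*} [Field F] [AddCommGroup V] [Module F V] {Q : QuadraticForm F V}
  {Ω : Type*} [MulAction (eichGroup Q) Ω]

theorem Heis.comap_mem {G W K Ω : Type*} [Group G] [AddCommGroup W] [Field K] [MulAction G Ω]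
    (h : Heis G W K) [Finite W] {g : G} (hg : ∀ t, g * h.z t * g⁻¹ = h.z t) {φ : W →+ W}
    (hφ : Function.Injective φ) (he : ∀ x, ∃ k, g * h.e x * g⁻¹ = h.e (φ x) * h.z k) {ω x : Ω}
    (hx : x ∈ h.T ω) : g⁻¹ • x ∈ h.T ω ∧ h.A (g⁻¹ • x) = (h.A x).comap φ := by
  have e : h.A (g⁻¹ • x) = (h.A x).comap φ := by
    ext a
    obtain ⟨k, hk⟩ := he a
    rw [← h.A_smul_of (l := id) Function.surjective_id hg hk, smul_inv_smul]
    rfl
  refine ⟨⟨?_, ?_⟩, e⟩
  · rw [← hx.1, ← h.R_smul_comm hg (g⁻¹ • x), smul_inv_smul]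
  · rw [e, ← hx.2]
    exact Nat.card_congr ((Equiv.ofBijective φ
      (Finite.injective_iff_bijective.1 hφ)).subtypeEquiv fun a => Iff.rfl)

attribute [local instance] slAct

theorem Frame.line {W : Type*} [AddCommGroup W] [Module F W] {Q' : QuadraticForm F W}
    (f : Frame Q Q') [Finite F] [FiniteDimensional F V] [FiniteDimensional F W] [Finite Ω]
    (hQ : ND Q) (hQ' : ND Q') (hd : finrank F W + 4 = finrank F V) (hn : 7 ≤ finrank F V)
    (hΩ : Nat.card Ω < (Nat.card F + 2) * Nat.card F ^ (finrank F W + 1)) {ω : Ω}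
    (hω : f.heis.R ω ≠ ⊤) :
    f.heis.R ω = ⊥ ∧ (Nat.card F + 1) * Nat.card F ^ (finrank F W + 1) ≤ Nat.card (f.heis.Bad Ω) ∧
    (∀ x, f.heis.R x = ⊥ → f.heis.A x = f.heis.A ω → x ∈ MulAction.orbit f.heis.Q ω) ∧
    (((∃ α : Fin 2 → F, α ≠ 0 ∧ ∀ x, x ∈ f.heis.A ω ↔ ∃ a, x = tens α a) ∧
      ∀ α : Fin 2 → F, α ≠ 0 → ∃ ω' : Ω, f.heis.R ω' = ⊥ ∧ ∀ x, x ∈ f.heis.A ω' ↔ ∃ a, x = tens α a) ∨
    (finrank F W = 4 ∧ ∃ Y : Submodule F W, Sing Q' Y ∧ finrank F Y = 2 ∧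
        ∀ x, x ∈ f.heis.A ω ↔ x.1 ∈ Y ∧ x.2 ∈ Y)) := by
  classical
  haveI := Module.finite_of_finite F (M := W)
  set h := f.heis
  set q := Nat.card F with hq
  have hq1 : 1 < q := Finite.one_lt_card
  set S := (Set.toFinite (h.A '' h.T ω)).toFinset
  have hS : ∀ X, X ∈ S ↔ ∃ x ∈ h.T ω, h.A x = X := fun X => by simp [S]
  have hωT : ω ∈ h.T ω := ⟨rfl, rfl⟩
  have hA : h.A ω ∈ S := (hS _).2 ⟨ω, hωT, rfl⟩
  have hinj : ∀ g : SL(2, F), Function.Injective (mact (V := W) g.1) := fun g =>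
    Function.LeftInverse.injective (mact_inv_mact g)
  have hEl : ElemClosed F S := by
    intro X hX c
    obtain ⟨x, hx, rfl⟩ := (hS X).1 hX
    obtain ⟨g, hg, hg'⟩ := f.upper_spec c
    obtain ⟨k, hk, hk'⟩ := f.lower_spec c
    obtain ⟨a1, a2⟩ := h.comap_mem hg (hinj (Classical.SL2Basic.upper c)) hg' hx
    obtain ⟨b1, b2⟩ := h.comap_mem hk (hinj (Classical.SL2Basic.lower c)) hk' hx
    exact ⟨(hS _).2 ⟨_, a1, a2⟩, (hS _).2 ⟨_, b1, b2⟩⟩
  have hEi : EichClosed Q' S := by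
    intro X hX s t hs ht
    obtain ⟨x, hx, rfl⟩ := (hS X).1 hX
    obtain ⟨hg, hg'⟩ := f.eich_spec hs ht
    have ht2 : polar Q' s (-t) = 0 := by rw [polar_neg_right, ht, neg_zero]
    obtain ⟨a1, a2⟩ := h.comap_mem hg (φ := dE Q' s t) (Function.LeftInverse.injective
      (g := dE Q' s (-t)) fun y => by simp [dE_apply, eichLin_mul hs ht2 ht, eichLin_zero])
      (fun y => ⟨_, hg' y⟩) hx
    exact (hS _).2 ⟨_, a1, a2⟩
  obtain ⟨χ, hχ, hχ'⟩ := exists_char hω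
  obtain ⟨m1, m2, m3⟩ := h.master (f.torus hQ hn) hω S fun X hX => (hS X).1 hX
  have hB : Nat.card (h.Bad Ω) ≤ Nat.card Ω := Finite.card_subtype_le _
  rw [Nat.card_prod, card_eq_pow (F := F) W, ← hq] at m1 m2 m3
  rw [pow_succ] at hΩ ⊢
  set m := q ^ finrank F W with hm
  have hm0 : 0 < m := by positivity
  have hA0 : 0 < Nat.card (h.A ω) := Nat.card_pos
  obtain ⟨l1, l2, l3⟩ := line_lemma hQ' (by omega) hχ' hEl hEi hA
    (fun x hx y hy => by
      have := hχ _ (h.iso hy hx)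
      rwa [f.heis_β] at this) (by
      refine Nat.lt_of_mul_lt_mul_left (a := m * q) ?_
      calc m * q * (S.card * m) = q * S.card * (m * m) := by ring
        _ ≤ Nat.card Ω * Nat.card (h.A ω) := m1.trans (Nat.mul_le_mul_right _ hB)
        _ < (q + 2) * (m * q) * Nat.card (h.A ω) := Nat.mul_lt_mul_of_pos_right hΩ hA0
        _ = _ := by ring)
  rw [← hq, ← hm] at l2
  rw [← hq] at l1
  rw [l2] at m1 m2 m3
  have hR : h.R ω = ⊥ := by
    by_contra hb
    have := m2 hb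
    rw [← mul_assoc] at this
    have := Nat.le_of_mul_le_mul_right this hm0
    have : (q + 1) * (q + 1) * m ≤ (q + 1) * S.card * m := by gcongr
    nlinarith
  refine ⟨hR, ?_, fun x hx hx' => ?_, ?_⟩
  · rw [← mul_assoc] at m1
    have := Nat.le_of_mul_le_mul_right m1 hm0
    have : q * (q + 1) * m ≤ q * S.card * m := by gcongr
    nlinarith
  · by_contra hn'
    have := m3 ω hωT x ⟨hx.trans hR.symm, by rw [hx']⟩ hx'.symm hn'
    rw [← mul_assoc] at this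
    have := Nat.le_of_mul_le_mul_right this hm0
    have : q * (q + 1 + 1) * m ≤ q * (S.card + 1) * m := by gcongr
    nlinarith
  · refine l3.imp_left fun ⟨α, hα, hα'⟩ => ⟨⟨α, hα, hα'⟩, fun β hβ => ?_⟩
    obtain ⟨g, hg⟩ := exists_sl_mulVec hα hβ
    obtain ⟨x, hx, e⟩ := (hS _).1 (hEl.smul_mem g _ hA)
    refine ⟨x, hx.1.trans hR, fun y => ?_⟩
    have key : ∀ a : W, mact g.1 (tens α a) = tens β a := fun a => by
      rw [← hg]
      ext <;> simp [mact_apply, tens, mulVec, dotProduct, add_smul, smul_smul]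
    rw [e, mem_slsmul, hα']
    refine exists_congr fun a => ⟨fun H => ?_, fun H => ?_⟩
    · rw [← key, ← H]
      have := mact_inv_mact g⁻¹ y
      rw [inv_inv] at this
      exact this.symm
    · rw [H, ← key, mact_inv_mact]

/-- A hyperbolic pair. -/
structure Pt (Q : QuadraticForm F V) where
  u : V
  u' : V
  qu : Q u = 0
  qu' : Q u' = 0
  uu' : polar Q u u' = 1

namespace Pt

variable (p : Pt Q)

/-- The perp of the pair. -/
abbrev P : Submodule F V := perp Q (Submodule.span F {p.u, p.u'})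
/-- The restricted form. -/
abbrev Q1 : QuadraticForm F p.P := Q.restrict p.P

theorem up (t : p.P) : polar Q p.u t = 0 := (mem_perp_pair.1 t.2).1
theorem u'p (t : p.P) : polar Q p.u' t = 0 := (mem_perp_pair.1 t.2).2

theorem u_ne : p.u ≠ 0 := fun e => by simpa [e] using p.uu'

theorem hx (a b : p.P) : rho Q p.u (a + b : p.P) = rho Q p.u a * rho Q p.u b :=
  rho_add p.qu (p.up a) (p.up b)

/-- The stabiliser in the unipotent radical of the point stabiliser. -/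
noncomputable def B (ω : Ω) : AddSubgroup p.P := addStab (fun t : p.P => rho Q p.u t) p.hx ω

theorem mem_B {ω : Ω} {t : p.P} : t ∈ p.B ω ↔ rho Q p.u t • ω = ω := Iff.rfl

/-- The frame of a second hyperbolic pair. -/
def frame (r : Pt p.Q1) : Frame Q r.Q1 where
  u := p.u
  v := r.u
  u' := p.u'
  v' := r.u'
  ι := p.P.subtype.comp r.P.subtype
  qu := p.qu
  qv := r.qu
  qu' := p.qu'
  qv' := r.qu'
  uu' := p.uu'
  vv' := r.uu'
  uv := p.up _
  uv' := p.up _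
  u'v := p.u'p _
  u'v' := p.u'p _
  hι _ := rfl
  uι _ := p.up _
  vι a := r.up a
  u'ι _ := p.u'p _
  v'ι a := r.u'p a

theorem decomp {t : V} (ht : polar Q p.u t = 0) : ∃ a : p.P, t = a + polar Q p.u' t • p.u :=
  ⟨⟨_, hyp_proj_mem p.qu p.qu' p.uu' t⟩, by simp [ht]⟩

theorem mem_R (r : Pt p.Q1) (ω : Ω) (c : F) : c ∈ (p.frame r).heis.R ω ↔ c • r.u ∈ p.B ω := Iff.rfl

theorem mem_A (r : Pt p.Q1) (ω : Ω) (a : r.P) :
    (a, 0) ∈ (p.frame r).heis.A ω ↔ ∃ c : F, a.1 + c • r.u ∈ p.B ω := by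
  refine exists_congr fun c => ?_
  rw [mem_B, p.hx, Frame.heis_e, map_zero, rho_zero, mul_one]
  rfl

theorem ts_of (r : Pt p.Q1) {ω : Ω} (hR : (p.frame r).heis.R ω = ⊥)
    (h : ∀ a, (a, 0) ∈ (p.frame r).heis.A ω) : TS p.Q1 (p.B ω) r.u := by
  refine ⟨fun c hc => ?_, fun t ht => ?_⟩
  · rwa [← p.mem_R, hR] at hc
  · obtain ⟨a, ha⟩ := r.decomp ht
    obtain ⟨c, hc⟩ := (p.mem_A r ω a).1 (h a)
    refine ⟨c - polar p.Q1 r.u' t, ?_⟩
    convert hc using 1
    conv_lhs => rw [ha]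
    simp only [p_smul_right, polar_add_right, r.u'p, polar_comm _ r.u' r.u, r.uu']
    module

theorem tn_of (r : Pt p.Q1) {ω : Ω} (hR : (p.frame r).heis.R ω = ⊥)
    (h : ∀ a, (a, 0) ∈ (p.frame r).heis.A ω → a = 0) : TN p.Q1 (p.B ω) r.u := by
  intro t ht ht'
  obtain ⟨a, ha⟩ := r.decomp ht'
  have := h a ((p.mem_A r ω a).2 ⟨_, ha ▸ ht⟩)
  rw [this, ZeroMemClass.coe_zero, zero_add] at ha
  rw [ha, ← p.mem_R, hR, AddSubgroup.mem_bot] at ht
  rw [ha, ht, zero_smul]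

theorem tt_of [Finite F] [FiniteDimensional F V] (r : Pt p.Q1) (hd : finrank F p.P = 6) {ω : Ω}
    (hR : (p.frame r).heis.R ω = ⊥) {Y : Submodule F r.P} (hY : Sing r.Q1 Y) (h2 : finrank F Y = 2)
    (h : ∀ a, (a, 0) ∈ (p.frame r).heis.A ω ↔ a ∈ Y) : TT p.Q1 (p.B ω) r.u := by
  have h0 : ∀ c : F, c • r.u ∈ p.B ω → c = 0 := fun c hc => by rwa [← p.mem_R, hR] at hc
  refine ⟨hd, h0, ?_, fun t ht ht' => ?_⟩
  · rw [← h2, ← card_eq_pow (F := F) Y]
    choose a ha using fun t : capPerp p.Q1 (p.B ω) r.u => r.decomp (mem_capPerp.1 t.2).2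
    refine Nat.card_congr (Equiv.ofBijective (fun t => ⟨a t, (h _).1 ((p.mem_A r ω _).2
      ⟨_, ha t ▸ (mem_capPerp.1 t.2).1⟩)⟩) ⟨fun t t' e => Subtype.ext ?_, fun y => ?_⟩)
    · have e' : a t = a t' := congrArg Subtype.val e
      have := h0 (polar p.Q1 r.u' t - polar p.Q1 r.u' t') (by
        convert (p.B ω).sub_mem (mem_capPerp.1 t.2).1 (mem_capPerp.1 t'.2).1 using 1
        conv_rhs => rw [ha t, ha t', e']
        module)
      rw [ha t, ha t', e', sub_eq_zero.1 this]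
    · obtain ⟨c, hc⟩ := (p.mem_A r ω _).1 ((h _).2 y.2)
      let t : capPerp p.Q1 (p.B ω) r.u := ⟨_, mem_capPerp.2 ⟨hc, by
        rw [polar_add_right, r.up, p_smul_right, p_self, r.qu]; ring⟩⟩
      refine ⟨t, Subtype.ext (Subtype.ext ?_)⟩
      have := ha t
      simp only [t, p_smul_right, polar_add_right, r.u'p, polar_comm _ r.u' r.u, r.uu', zero_add,
        mul_one, add_left_inj] at this
      exact this.symm
  · obtain ⟨a, ha⟩ := r.decomp ht'
    have := hY a ((h a).1 ((p.mem_A r ω a).2 ⟨_, ha ▸ ht⟩))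
    rw [ha, q_add, q_smul, r.qu, p_smul_right, polar_comm p.Q1 a.1, r.up]
    simpa using this

theorem B_eich (ω : Ω) {s t : p.P} (hs : p.Q1 s = 0) (ht : polar p.Q1 s t = 0) (a : p.P) :
    eichLin p.Q1 s t a ∈ p.B (rho Q s t • ω) ↔ a ∈ p.B ω := by
  have h2 : polar Q s t = 0 := by simpa using ht
  have h1 : Q s = 0 := hs
  rw [mem_B, mem_B, ← rho_smul_iff (rho Q s t) p.u a ω, rho_apply h1 h2, rho_apply h1 h2]
  have := eichLin_emb (Q := Q) (Q' := p.Q1) (ι := p.P.subtype) (fun _ => rfl) s t a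
  simp only [Submodule.subtype_apply] at this
  rw [this, eichLin_apply s.1 t.1 p.u, polar_comm Q t.1, p.up, polar_comm Q s.1, p.up]
  simp

end Pt

theorem exists_pt [FiniteDimensional F V] (hQ : ND Q) {u : V} (hu0 : u ≠ 0) (hu : Q u = 0) :
    ∃ p : Pt Q, p.u = u := by
  obtain ⟨y, hy, hy'⟩ := hQ.exists_hyp hu0 hu
  exact ⟨⟨u, y, hu, hy', hy⟩, rfl⟩

theorem Pt.nd [FiniteDimensional F V] (hQ : ND Q) (p : Pt Q) : ND p.Q1 :=
  hQ.nd_perp_hyp p.qu p.qu' p.uu'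

theorem Pt.dim [FiniteDimensional F V] (hQ : ND Q) (p : Pt Q) : finrank F p.P + 2 = finrank F V :=
  hQ.finrank_perp_hyp p.qu p.qu' p.uu'

theorem Pt.nv_eq [Finite F] [FiniteDimensional F V] (hQ : ND Q) (p : Pt Q) (c : F) :
    nv Q c = (Nat.card F - 1) * Nat.card F ^ finrank F p.P + Nat.card F * nv p.Q1 c := by
  haveI := Module.finite_of_finite F (M := p.P)
  obtain ⟨e⟩ := hQ.iso_hyp_perp p.qu p.qu' p.uu'
  rw [← nv_iso e, nv_hyp_prod, card_eq_pow (F := F) p.P]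

end Cfsg.Agent.MinI
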