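import Cfsg.Agent.MinI.SL2

/-!
`SL₂(F)` acting on additive subgroups of `V × V`.
-/

set_option autoImplicit false

namespace Cfsg.Agent.MinI

open Matrix MatrixGroups Cfsg.Agent.Classical

variable {F V : Type*} [Field F] [AddCommGroup V] [Module F V]

/-- A matrix acting on `V × V`. -/
def mact (M : Matrix (Fin 2) (Fin 2) F) : V × V →+ V × V :=
  AddMonoidHom.mk' (fun x => (M 0 0 • x.1 + M 0 1 • x.2, M 1 0 • x.1 + M 1 1 • x.2)) fun x y => by
    ext <;> simp <;> abel

theorem mact_apply (M : Matrix (Fin 2) (Fin 2) F) (x : V × V) :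
    mact M x = (M 0 0 • x.1 + M 0 1 • x.2, M 1 0 • x.1 + M 1 1 • x.2) := rfl

theorem mact_mul (M N : Matrix (Fin 2) (Fin 2) F) (x : V × V) :
    mact (M * N) x = mact M (mact N x) := by
  ext <;> simp only [mact_apply, mul_apply, Fin.sum_univ_two] <;> module

theorem mact_one (x : V × V) : mact (1 : Matrix (Fin 2) (Fin 2) F) x = x := by
  ext <;> simp [mact_apply]

theorem mact_add (M N : Matrix (Fin 2) (Fin 2) F) (x : V × V) :
    mact (M + N) x = mact M x + mact N x := by
  ext <;> simp only [mact_apply, Matrix.add_apply, Prod.fst_add, Prod.snd_add] <;> module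

theorem mact_neg (M : Matrix (Fin 2) (Fin 2) F) (x : V × V) : mact (-M) x = -mact M x := by
  ext <;> simp only [mact_apply, Matrix.neg_apply, Prod.fst_neg, Prod.snd_neg] <;> module

/-- The matrices preserving `X`. -/
def matE (F : Type*) {V : Type*} [Field F] [AddCommGroup V] [Module F V]
    (X : AddSubgroup (V × V)) : Subring (Matrix (Fin 2) (Fin 2) F) where
  carrier := {M | ∀ x ∈ X, mact M x ∈ X}
  mul_mem' {M N} hM hN x hx := by rw [mact_mul]; exact hM _ (hN x hx)
  one_mem' x hx := by rwa [mact_one]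
  add_mem' {M N} hM hN x hx := by rw [mact_add]; exact X.add_mem (hM x hx) (hN x hx)
  zero_mem' x _ := by
    rw [show mact (0 : Matrix (Fin 2) (Fin 2) F) x = 0 by ext <;> simp [mact_apply]]
    exact X.zero_mem
  neg_mem' {M} hM x hx := by rw [mact_neg]; exact X.neg_mem (hM x hx)

/-- The action of `SL₂` on subgroups. -/
@[reducible] def slAct (F V : Type*) [Field F] [AddCommGroup V] [Module F V] :
    MulAction SL(2, F) (AddSubgroup (V × V)) where
  smul g X := X.comap (mact (g⁻¹).1)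
  one_smul X := by
    ext x
    show mact ((1 : SL(2, F))⁻¹).1 x ∈ X ↔ _
    rw [inv_one]
    exact (mact_one (F := F) x).symm ▸ Iff.rfl
  mul_smul g h X := by
    ext x
    show mact ((g * h)⁻¹).1 x ∈ X ↔ mact (h⁻¹).1 (mact (g⁻¹).1 x) ∈ X
    rw [_root_.mul_inv_rev, ← mact_mul]
    rfl

attribute [local instance] slAct

theorem mem_slsmul {g : SL(2, F)} {X : AddSubgroup (V × V)} {x : V × V} :
    x ∈ g • X ↔ mact (g⁻¹).1 x ∈ X := Iff.rfl

theorem mact_inv_mact (g : SL(2, F)) (x : V × V) : mact (g⁻¹).1 (mact g.1 x) = x := by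
  rw [← mact_mul, show (g⁻¹).1 * g.1 = (g⁻¹ * g).1 from rfl, inv_mul_cancel]
  exact mact_one x

/-- `u ⊗ y`. -/
def tens (u : Fin 2 → F) (y : V) : V × V := (u 0 • y, u 1 • y)
/-- `det (u, x)`. -/
def ev (u : Fin 2 → F) (x : V × V) : V := u 0 • x.2 - u 1 • x.1

/-- Invariance under the root group fixing `u`. -/
def RInv (u : Fin 2 → F) (X : AddSubgroup (V × V)) : Prop :=
  ∀ c : F, ∀ x ∈ X, tens u (c • ev u x) ∈ X

/-- `X = Y × Y`. -/
def IsProd (F : Type*) {V : Type*} [Field F] [AddCommGroup V] [Module F V]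
    (X : AddSubgroup (V × V)) : Prop :=
  ∃ Y : Submodule F V, ∀ x, x ∈ X ↔ x.1 ∈ Y ∧ x.2 ∈ Y

theorem IsProd.smul_eq {X : AddSubgroup (V × V)} (h : IsProd F X) (g : SL(2, F)) : g • X = X := by
  obtain ⟨Y, hY⟩ := h
  have key : ∀ (M : Matrix (Fin 2) (Fin 2) F), ∀ x ∈ X, mact M x ∈ X := fun M x hx => by
    rw [hY] at hx ⊢
    exact ⟨Y.add_mem (Y.smul_mem _ hx.1) (Y.smul_mem _ hx.2),
      Y.add_mem (Y.smul_mem _ hx.1) (Y.smul_mem _ hx.2)⟩
  ext x
  refine ⟨fun hx => ?_, key _ x⟩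
  have := key g.1 _ hx
  rwa [← inv_inv g, inv_inv g⁻¹, mact_inv_mact] at this

theorem IsProd.of_smul {X : AddSubgroup (V × V)} {g : SL(2, F)} (h : IsProd F (g • X)) :
    IsProd F X := by
  have := h.smul_eq g⁻¹
  rw [inv_smul_smul] at this
  rwa [← this] at h

theorem RInv.smul {u : Fin 2 → F} {X : AddSubgroup (V × V)} (h : RInv u X) (g : SL(2, F)) :
    RInv (g.1 *ᵥ u) (g • X) := by
  intro c x hx
  have hd := SL2Basic.det_eq g
  have := h c _ hx
  rw [mem_slsmul]
  convert this using 1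
  have e0 := SL2Basic.inv_apply00 g
  have e1 := SL2Basic.inv_apply01 g
  have e2 := SL2Basic.inv_apply10 g
  have e3 := SL2Basic.inv_apply11 g
  change (g⁻¹).1 0 0 = g.1 1 1 at e0
  change (g⁻¹).1 0 1 = -g.1 0 1 at e1
  change (g⁻¹).1 1 0 = -g.1 1 0 at e2
  change (g⁻¹).1 1 1 = g.1 0 0 at e3
  change g.1 0 0 * g.1 1 1 - g.1 0 1 * g.1 1 0 = 1 at hd
  ext <;> simp only [mact_apply, tens, ev, e0, e1, e2, e3, mulVec, dotProduct,
    Fin.sum_univ_two] <;> match_scalars
  · linear_combination (c * u 0 * (g.1 0 0 * u 0 + g.1 0 1 * u 1)) * hd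
  · linear_combination (-c * u 0 * (g.1 1 0 * u 0 + g.1 1 1 * u 1)) * hd
  · linear_combination (c * u 1 * (g.1 0 0 * u 0 + g.1 0 1 * u 1)) * hd
  · linear_combination (-c * u 1 * (g.1 1 0 * u 0 + g.1 1 1 * u 1)) * hd

theorem RInv.isProd {u u' : Fin 2 → F} {X : AddSubgroup (V × V)} (h : RInv u X) (h' : RInv u' X)
    (hd : u 0 * u' 1 - u 1 * u' 0 ≠ 0) : IsProd F X := by
  have k1 : ∀ (c : F) y, tens u y ∈ X → tens u' (c • y) ∈ X := fun c y hy => by
    convert h' (-c / (u 0 * u' 1 - u 1 * u' 0)) _ hy using 2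
    simp only [ev, tens]; match_scalars; field_simp; ring
  have k2 : ∀ (c : F) y, tens u' y ∈ X → tens u (c • y) ∈ X := fun c y hy => by
    convert h (c / (u 0 * u' 1 - u 1 * u' 0)) _ hy using 2
    simp only [ev, tens]; match_scalars; field_simp
  let Y : Submodule F V :=
    { carrier := {y | tens u y ∈ X}
      add_mem' := fun {a b} ha hb => by
        convert X.add_mem ha hb using 1
        simp [tens]
      zero_mem' := by
        show tens u 0 ∈ X
        convert X.zero_mem using 1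
        simp [tens]
      smul_mem' := fun c y hy => by
        have := k2 c _ (k1 1 y hy)
        rwa [one_smul] at this }
  refine ⟨Y, fun x => ⟨fun hx => ?_, fun hx => ?_⟩⟩
  · have a1 : ev u x ∈ Y := by
      have := h 1 x hx
      rwa [one_smul] at this
    have a2 : ev u' x ∈ Y := by
      have := k2 1 _ (h' 1 x hx)
      rwa [one_smul, one_smul] at this
    constructor
    · convert Y.add_mem (Y.smul_mem (u' 0 / (u 0 * u' 1 - u 1 * u' 0)) a1)
        (Y.smul_mem (-u 0 / (u 0 * u' 1 - u 1 * u' 0)) a2) using 1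
      simp only [ev]; match_scalars
      all_goals first | ring1 | linear_combination -div_self hd
    · convert Y.add_mem (Y.smul_mem (u' 1 / (u 0 * u' 1 - u 1 * u' 0)) a1)
        (Y.smul_mem (-u 1 / (u 0 * u' 1 - u 1 * u' 0)) a2) using 1
      simp only [ev]; match_scalars
      all_goals first | ring1 | linear_combination -div_self hd
  · have a1 : tens u _ ∈ X := Y.add_mem (Y.smul_mem (u' 1 / (u 0 * u' 1 - u 1 * u' 0)) hx.1)
      (Y.smul_mem (-u' 0 / (u 0 * u' 1 - u 1 * u' 0)) hx.2)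
    have a2 := k1 1 _ (Y.add_mem (Y.smul_mem (-u 1 / (u 0 * u' 1 - u 1 * u' 0)) hx.1)
      (Y.smul_mem (u 0 / (u 0 * u' 1 - u 1 * u' 0)) hx.2))
    convert X.add_mem a1 a2 using 1
    ext <;> simp only [tens, Prod.fst_add, Prod.snd_add] <;> match_scalars <;> field_simp <;> ring

theorem exists_sl_mulVec {u p : Fin 2 → F} (hu : u ≠ 0) (hp : p ≠ 0) :
    ∃ g : SL(2, F), g.1 *ᵥ u = p := by
  have key : ∀ p : Fin 2 → F, p ≠ 0 → ∃ g : SL(2, F), g.1 *ᵥ ![1, 0] = p := by
    intro p hp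
    by_cases h0 : p 0 = 0
    · have h1 : p 1 ≠ 0 := fun h => hp (by ext i; fin_cases i <;> simpa)
      refine ⟨⟨!![p 0, -(p 1)⁻¹; p 1, 0], by simp [det_fin_two, h1]⟩, ?_⟩
      ext i; fin_cases i <;> simp [mulVec, dotProduct]
    · refine ⟨⟨!![p 0, 0; p 1, (p 0)⁻¹], by simp [det_fin_two, h0]⟩, ?_⟩
      ext i; fin_cases i <;> simp [mulVec, dotProduct]
  obtain ⟨g, hg⟩ := key u hu
  obtain ⟨k, hk⟩ := key p hp
  refine ⟨k * g⁻¹, ?_⟩
  rw [← hg, mulVec_mulVec, show (k * g⁻¹).1 * g.1 = (k * g⁻¹ * g).1 from rfl, inv_mul_cancel_right,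
    hk]

/-- Closure under the elementary matrices. -/
def ElemClosed (F : Type*) {V : Type*} [Field F] [AddCommGroup V] [Module F V]
    (S : Finset (AddSubgroup (V × V))) : Prop :=
  ∀ X ∈ S, ∀ c : F, X.comap (mact !![1, c; 0, 1]) ∈ S ∧ X.comap (mact !![1, 0; c, 1]) ∈ S

theorem ElemClosed.smul_mem {S : Finset (AddSubgroup (V × V))} (h : ElemClosed F S) (g : SL(2, F)) :
    ∀ X ∈ S, g • X ∈ S := by
  let H : Subgroup SL(2, F) :=
    { carrier := {g | ∀ X, X ∈ S ↔ g • X ∈ S}
      mul_mem' := fun {a b} ha hb X => by rw [mul_smul, ← ha, ← hb]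
      one_mem' := fun X => by rw [one_smul]
      inv_mem' := fun {a} ha X => by rw [ha (a⁻¹ • X), smul_inv_smul] }
  have h1 : ∀ c : F, ∀ X ∈ S, (SL2Basic.upper c)⁻¹ • X ∈ S := fun c X hX => by
    convert (h X hX c).1 using 1
    ext x; rw [mem_slsmul, inv_inv]; rfl
  have h2 : ∀ c : F, ∀ X ∈ S, (SL2Basic.lower c)⁻¹ • X ∈ S := fun c X hX => by
    convert (h X hX c).2 using 1
    ext x; rw [mem_slsmul, inv_inv]; rfl
  have : H = ⊤ := by
    refine SL2Basic.eq_top_of_upper_lower H (fun c X => ⟨fun hX => ?_, fun hX => ?_⟩)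
      (fun c X => ⟨fun hX => ?_, fun hX => ?_⟩)
    · convert h1 (-c) X hX using 2
      rw [eq_inv_iff_mul_eq_one, ← SL2Basic.upper_add, add_neg_cancel, SL2Basic.upper_zero]
    · simpa using h1 c _ hX
    · convert h2 (-c) X hX using 2
      rw [eq_inv_iff_mul_eq_one, ← SL2Basic.lower_add, add_neg_cancel, SL2Basic.lower_zero]
    · simpa using h2 c _ hX
  intro X hX
  exact ((this ▸ Subgroup.mem_top g : g ∈ H) X).1 hX

/-- The trichotomy for a member of a small closed family. -/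
theorem ElemClosed.cases [Finite F] {S : Finset (AddSubgroup (V × V))} (h : ElemClosed F S)
    (hS : S.card ≤ Nat.card F + 1) {A : AddSubgroup (V × V)} (hA : A ∈ S) :
    (∃ u : Fin 2 → F, u ≠ 0 ∧ RInv u A) ∨
      (Nat.card F = 2 ∧ ∀ x ∈ A, (x.2, x.1 + x.2) ∈ A) := by
  have hi : (MulAction.stabilizer SL(2, F) A).index ≤ Nat.card F + 1 := by
    rw [MulAction.index_stabilizer]
    refine le_trans ?_ hS
    rw [← Set.ncard_coe_finset]
    exact Set.ncard_le_ncard (by rintro _ ⟨g, rfl⟩; exact h.smul_mem g A hA) S.finite_toSet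
  rcases sl2_lemma (E := matE F A) _ (fun g hg x hx => by
    have hg' : g • A = A := hg
    rw [← hg', mem_slsmul, mact_inv_mact]
    exact hx) hi with ⟨u, φ, hu, hφ, h1, h2⟩ | ⟨h1, h2⟩
  · refine Or.inl ⟨u, hu, fun c x hx => ?_⟩
    obtain ⟨k, hk⟩ := perp_two (ψ := ![-u 1, u 0]) hu hφ h1
      (by simp [dotProduct, Fin.sum_univ_two]; ring)
    have k0 : -u 1 = k * φ 0 := congrFun hk 0
    have k1 : u 0 = k * φ 1 := congrFun hk 1
    convert h2 (c * k) x hx using 1
    ext <;> simp only [mact_apply, tens, ev, Matrix.smul_apply, vecMulVec_apply, smul_eq_mul] <;>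
      match_scalars
    · linear_combination c * u 0 * k1
    · linear_combination c * u 0 * k0
    · linear_combination c * u 1 * k1
    · linear_combination c * u 1 * k0
  · refine Or.inr ⟨h1, fun x hx => ?_⟩
    convert h2 x hx using 1
    simp [mact_apply]

theorem ElemClosed.unique [Finite F] {S : Finset (AddSubgroup (V × V))} (h : ElemClosed F S)
    (hS : S.card ≤ Nat.card F + 1) {A : AddSubgroup (V × V)} (hA : A ∈ S) {u : Fin 2 → F}
    (hu : u ≠ 0) (hi : RInv u A) (hp : ¬ IsProd F A) :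
    Nat.card F + 1 ≤ S.card ∧ ∀ X ∈ S, RInv u X → X = A := by
  classical
  haveI := Fintype.ofFinite F
  obtain ⟨u', hu'⟩ : ∃ u' : Fin 2 → F, u 0 * u' 1 - u 1 * u' 0 = 1 := by
    by_cases h0 : u 0 = 0
    · have h1 : u 1 ≠ 0 := fun h => hu (by ext i; fin_cases i <;> simpa)
      exact ⟨![-(u 1)⁻¹, 0], by simp [h1]⟩
    · exact ⟨![0, (u 0)⁻¹], by simp [h0]⟩
  have hp0 : ∀ c : F, u' + c • u ≠ 0 := fun c e => by
    have e0 : u' 0 + c * u 0 = 0 := congrFun e 0
    have e1 : u' 1 + c * u 1 = 0 := congrFun e 1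
    exact one_ne_zero (α := F) (by linear_combination u 0 * e1 - u 1 * e0 - hu')
  choose g hg using fun c : F => exists_sl_mulVec hu (hp0 c)
  have hgi : ∀ c, RInv (u' + c • u) (g c • A) := fun c => hg c ▸ hi.smul (g c)
  have k1 : ∀ c, ¬ RInv u (g c • A) := fun c hc => hp (hc.isProd (hgi c) (by
    simp only [Pi.add_apply, Pi.smul_apply, smul_eq_mul]
    rw [show u 0 * (u' 1 + c * u 1) - u 1 * (u' 0 + c * u 0) = 1 by linear_combination hu']
    exact one_ne_zero)).of_smul
  let φ : Option F → AddSubgroup (V × V) := fun x => x.elim A fun c => g c • A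
  have hφ : Function.Injective φ := by
    rintro (_ | c) (_ | d) e
    · rfl
    · exact absurd ((show A = g d • A from e) ▸ hi) (k1 d)
    · exact absurd ((show g c • A = A from e).symm ▸ hi) (k1 c)
    · by_contra hne
      have hne' : c - d ≠ 0 := fun h => hne (by rw [sub_eq_zero.1 h])
      have e' : g c • A = g d • A := e
      refine hp ((hgi c).isProd (e' ▸ hgi d) ?_).of_smul
      simp only [Pi.add_apply, Pi.smul_apply, smul_eq_mul]
      rwa [show (u' 0 + c * u 0) * (u' 1 + d * u 1) - (u' 1 + c * u 1) * (u' 0 + d * u 0) = c - d by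
        linear_combination (c - d) * hu']
  have hsub : Finset.univ.image φ ⊆ S := by
    intro X hX
    obtain ⟨x, -, rfl⟩ := Finset.mem_image.1 hX
    rcases x with _ | c
    · exact hA
    · exact h.smul_mem _ _ hA
  have hc : (Finset.univ.image φ).card = Nat.card F + 1 := by
    rw [Finset.card_image_of_injective _ hφ]; simp
  refine ⟨hc ▸ Finset.card_le_card hsub, fun X hX hXi => ?_⟩
  rw [← Finset.eq_of_subset_of_card_le hsub (by omega)] at hX
  obtain ⟨x, -, rfl⟩ := Finset.mem_image.1 hX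
  rcases x with _ | c
  · rfl
  · exact absurd hXi (k1 c)

end Cfsg.Agent.MinI
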