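import Cfsg.Agent.MinI.OAlg
import Cfsg.Agent.MinI.Tens
import Cfsg.Agent.Orth.Hyp

/-!
The local analysis at a totally singular line.
-/

set_option autoImplicit false

namespace Cfsg.Agent.MinI

open QuadraticMap Module Cfsg.Agent.Orth Matrix

variable {F V : Type*} [Field F] [AddCommGroup V] [Module F V] {Q : QuadraticForm F V}

/-- The diagonal action of an Eichler map. -/
def dE (Q : QuadraticForm F V) (s t : V) : V × V →+ V × V :=
  (eichLin Q s t).toAddMonoidHom.prodMap (eichLin Q s t).toAddMonoidHom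

theorem dE_apply (s t : V) (x : V × V) : dE Q s t x = (eichLin Q s t x.1, eichLin Q s t x.2) := rfl

/-- Closure under Eichler maps. -/
def EichClosed (Q : QuadraticForm F V) (S : Finset (AddSubgroup (V × V))) : Prop :=
  ∀ X ∈ S, ∀ s t, Q s = 0 → polar Q s t = 0 → X.comap (dE Q s t) ∈ S

theorem eichLin_left {s t : V} (hs : Q s = 0) (ht : polar Q s t = 0) : eichLin Q s t s = s := by
  rw [eichLin_apply, p_self, hs, polar_comm, ht]; simp

variable [FiniteDimensional F V] [Finite F]

theorem exists_sing_notMem (hQ : ND Q) (hn : 3 ≤ finrank F V) {Y : Submodule F V} (hY : Y ≠ ⊤) :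
    ∃ s, Q s = 0 ∧ s ∉ Y := by
  by_contra! h
  obtain ⟨e, he0, he⟩ := exists_singular Q hn
  exact hY (eq_top_iff.2 fun v _ => hQ.singular_induction he0 he (· ∈ Y) h (fun v w => Y.add_mem) v)

theorem inv_iso_bot (hQ : ND Q) (hn : 3 ≤ finrank F V) {Y : Submodule F V}
    (h1 : ∀ x ∈ Y, ∀ y ∈ Y, polar Q x y = 0)
    (h2 : ∀ s t, Q s = 0 → polar Q s t = 0 → ∀ y ∈ Y, eichLin Q s t y ∈ Y) : Y = ⊥ := by
  refine eq_bot_iff.2 fun w hw => ?_
  by_contra hw0
  obtain ⟨s, hs, hsw⟩ := exists_sing_notMem hQ hn (Y := perp Q (Submodule.span F {w})) fun e => by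
    have := hQ.finrank_perp_singleton hw0
    rw [e, finrank_top] at this
    omega
  rw [mem_perp_singleton, polar_comm] at hsw
  have hs0 : s ≠ 0 := by rintro rfl; simp at hsw
  have hle : perp Q (Submodule.span F {s}) ≤ Submodule.span F {s} := by
    intro t ht
    rw [← hQ.perp_perp (Submodule.span F {s}), mem_perp]
    intro t' ht'
    rw [mem_perp_singleton] at ht ht'
    have := h1 _ (Y.sub_mem (h2 s t' hs ht' w hw) hw) _ (Y.sub_mem (h2 s t hs ht w hw) hw)
    have e : ∀ t, eichLin Q s t w - w = (polar Q t w - Q t * polar Q s w) • s - polar Q s w • t :=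
      fun t => by rw [eichLin_apply]; abel
    rw [e, e, polar_sub_left, polar_sub_right, polar_sub_right, p_smul_left, p_smul_left,
      p_smul_left, p_smul_left, p_smul_right, p_smul_right, p_smul_right, p_smul_right, p_self, hs,
      ht, polar_comm Q t' s, ht'] at this
    simpa [hsw] using this
  have h3 := Submodule.finrank_mono hle
  have h4 := hQ.finrank_perp_singleton hs0
  rw [finrank_span_singleton hs0] at h3
  omega

theorem eich_orbit (hQ : ND Q) {s : V} (hs0 : s ≠ 0) (hs : Q s = 0) (A : AddSubgroup (V × V))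
    {k : ℕ} (hk : Nat.card {t // polar Q s t = 0 ∧ A.comap (dE Q s t) = A} ≤ Nat.card F * k) :
    ∃ O : Finset (AddSubgroup (V × V)), (∀ X ∈ O, ∃ t, polar Q s t = 0 ∧ X = A.comap (dE Q s t)) ∧
      Nat.card F ^ finrank F V ≤ O.card * (Nat.card F ^ 2 * k) := by
  classical
  haveI := Module.finite_of_finite F (M := V)
  let φ : {t // polar Q s t = 0} → AddSubgroup (V × V) := fun t => A.comap (dE Q s t)
  have key := card_range_mul φ (Nat.card {t // polar Q s t = 0 ∧ A.comap (dE Q s t) = A}) (by
    rintro ⟨t₀, ht₀⟩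
    have e : ∀ t, polar Q s t = 0 → (A.comap (dE Q s t) = A.comap (dE Q s t₀) ↔
        A.comap (dE Q s (t - t₀)) = A) := by
      intro t ht
      have ht1 : polar Q s (t - t₀) = 0 := by rw [polar_sub_right, ht, ht₀, sub_zero]
      have ht2 : polar Q s (-t₀) = 0 := by rw [polar_neg_right, ht₀, neg_zero]
      constructor
      · intro h
        ext x
        have := SetLike.ext_iff.1 h (dE Q s (-t₀) x)
        simp only [AddSubgroup.mem_comap, dE_apply, eichLin_mul hs ht ht2,
          eichLin_mul hs ht₀ ht2, add_neg_cancel, eichLin_zero, ← sub_eq_add_neg] at this ⊢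
        exact this
      · intro h
        ext x
        have := SetLike.ext_iff.1 h (dE Q s t₀ x)
        simp only [AddSubgroup.mem_comap, dE_apply, eichLin_mul hs ht1 ht₀, sub_add_cancel]
          at this ⊢
        exact this
    exact Nat.card_congr
      { toFun := fun t => ⟨t.1.1 - t₀, by rw [polar_sub_right, t.1.2, ht₀, sub_zero],
          (e _ t.1.2).1 t.2⟩
        invFun := fun t => ⟨⟨t.1 + t₀, by rw [polar_add_right, t.2.1, ht₀, add_zero]⟩,
          (e _ (by rw [polar_add_right, t.2.1, ht₀, add_zero])).2 (by simpa using t.2.2)⟩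
        left_inv := fun t => by simp
        right_inv := fun t => by simp })
  refine ⟨(Set.toFinite (Set.range φ)).toFinset, fun X hX => ?_, ?_⟩
  · obtain ⟨t, rfl⟩ := (Set.Finite.mem_toFinset _).1 hX
    exact ⟨t, t.2, rfl⟩
  · rw [← card_perp hQ hs0, ← key, ← Set.ncard_eq_toFinset_card, Nat.card_coe_set_eq]
    calc _ ≤ Nat.card F * ((Set.range φ).ncard * (Nat.card F * k)) := by gcongr
      _ = _ := by ring

theorem card_prod_eq {A : AddSubgroup (V × V)} {Y : Submodule F V}
    (hY : ∀ x, x ∈ A ↔ x.1 ∈ Y ∧ x.2 ∈ Y) : Nat.card A = Nat.card F ^ (2 * finrank F Y) := by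
  rw [two_mul, pow_add, ← card_eq_pow, ← Nat.card_prod]
  exact Nat.card_congr
    { toFun := fun x => (⟨x.1.1, ((hY _).1 x.2).1⟩, ⟨x.1.2, ((hY _).1 x.2).2⟩)
      invFun := fun y => ⟨(y.1, y.2), (hY _).2 ⟨y.1.2, y.2.2⟩⟩
      left_inv := fun _ => rfl
      right_inv := fun _ => rfl }

theorem line_prod (hQ : ND Q) (hn : 3 ≤ finrank F V) {S : Finset (AddSubgroup (V × V))}
    (hE : EichClosed Q S) {A : AddSubgroup (V × V)} (hA : A ∈ S) {Y : Submodule F V}
    (hY : ∀ x, x ∈ A ↔ x.1 ∈ Y ∧ x.2 ∈ Y) (hi : ∀ x ∈ Y, ∀ y ∈ Y, polar Q x y = 0)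
    (hb : S.card * Nat.card F ^ finrank F V < (Nat.card F + 2) * Nat.card A) :
    Nat.card F + 1 ≤ S.card ∧ finrank F V = 4 ∧ Sing Q Y ∧ finrank F Y = 2 := by
  classical
  haveI := Module.finite_of_finite F (M := V)
  have hq : 1 < Nat.card F := Finite.one_lt_card
  rw [card_prod_eq hY] at hb
  have hle : Y ≤ perp Q Y := fun y hy => mem_perp.2 fun x hx => hi x hx y hy
  have h1 := hQ.finrank_perp_add Y
  have h2 := Submodule.finrank_mono hle
  have hS1 : 1 ≤ S.card := Finset.card_pos.2 ⟨A, hA⟩
  have hstab : ∀ s t, A.comap (dE Q s t) = A → ∀ y ∈ Y, eichLin Q s t y ∈ Y := fun s t h y hy => by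
    have : (y, y) ∈ A.comap (dE Q s t) := h.symm ▸ (hY _).2 ⟨hy, hy⟩
    exact ((hY _).1 this).1
  have h3 : finrank F V = 2 * finrank F Y := by
    by_contra hne
    obtain ⟨j, hj⟩ : ∃ j, finrank F V = 2 * finrank F Y + (j + 1) := ⟨finrank F V - 2 * finrank F Y - 1, by omega⟩
    rw [hj, pow_add, mul_comm (_ ^ _), ← mul_assoc] at hb
    have hb' := Nat.lt_of_mul_lt_mul_right hb
    have : Nat.card F ≤ Nat.card F ^ (j + 1) := Nat.le_self_pow (by omega) _
    have hS : S.card ≤ 1 := by nlinarith
    have hY0 : Y = ⊥ := inv_iso_bot hQ hn hi fun s t hs ht =>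
      hstab s t (Finset.card_le_one.1 hS _ (hE A hA s t hs ht) _ hA)
    rw [hY0, finrank_bot] at hj
    have : Nat.card F ^ 3 ≤ Nat.card F ^ (j + 1) := Nat.pow_le_pow_right hq.le (by omega)
    have : Nat.card F ^ 3 = Nat.card F * Nat.card F * Nat.card F := by ring
    nlinarith
  have hpe : perp Q Y = Y := (Submodule.eq_of_le_of_finrank_le hle (by omega)).symm
  rw [← h3] at hb
  have hS : S.card ≤ Nat.card F + 1 := Nat.lt_succ_iff.1 (Nat.lt_of_mul_lt_mul_right hb)
  have hw : ∀ s, s ∉ Y → ∃ w ∈ Y, polar Q s w = 1 := fun s hs => by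
    by_contra! h
    refine hs (hpe ▸ mem_perp'.2 fun w hw => ?_)
    by_contra h0
    exact h _ (Y.smul_mem (polar Q s w)⁻¹ hw) (by rw [p_smul_right, inv_mul_cancel₀ h0])
  have hst : ∀ s t w, w ∈ Y → polar Q s w = 1 → A.comap (dE Q s t) = A →
      t - (polar Q t w - Q t) • s ∈ Y := fun s t w hw h1 h => by
    have := Y.sub_mem hw (hstab s t h w hw)
    rw [eichLin_apply, h1] at this
    convert this using 1
    module
  have horb : ∀ s, Q s = 0 → s ∉ Y → ∃ O ⊆ S, (∀ X ∈ O, (s, 0) ∉ X) ∧
      Nat.card F ^ finrank F Y ≤ O.card * Nat.card F := by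
    intro s hs hsY
    obtain ⟨w, hw, hw1⟩ := hw s hsY
    have hs0 : s ≠ 0 := fun e => hsY (e ▸ Y.zero_mem)
    obtain ⟨O, hO, hO'⟩ := eich_orbit hQ hs0 hs A (k := Nat.card (capPerp Q Y.toAddSubgroup s)) (by
      rw [← Nat.card_prod]
      refine Nat.card_le_card_of_injective (fun t => (polar Q t w - Q t,
        ⟨_, mem_capPerp.2 ⟨hst s t w hw hw1 t.2.2, ?_⟩⟩)) fun t t' e => Subtype.ext ?_
      · rw [polar_sub_right, p_smul_right, p_self, hs, t.2.1]; ring
      · have e1 := congrArg Prod.fst e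
        have e2 := congrArg (fun x => x.2.1) e
        simp only at e1 e2
        rw [e1] at e2
        exact sub_left_inj.1 e2)
    refine ⟨O, fun X hX => ?_, fun X hX => ?_, ?_⟩
    · obtain ⟨t, ht, rfl⟩ := hO X hX
      exact hE A hA s t hs ht
    · obtain ⟨t, ht, rfl⟩ := hO X hX
      rw [AddSubgroup.mem_comap, dE_apply, hY, eichLin_left hs ht]
      exact fun h => hsY h.1
    · have h5 := card_eq_range_mul_ker (Q.polarBilin s).toAddMonoidHom Y.toAddSubgroup
      rw [show Y.toAddSubgroup.map (Q.polarBilin s).toAddMonoidHom = ⊤ from eq_top_iff.2 fun c _ =>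
        ⟨c • w, Y.smul_mem c hw, by simp [p_smul_right, hw1]⟩, AddSubgroup.card_top] at h5
      change Nat.card Y = _ * Nat.card (capPerp Q Y.toAddSubgroup s) at h5
      rw [card_eq_pow (F := F)] at h5
      rw [h3, two_mul, pow_add] at hO'
      refine Nat.le_of_mul_le_mul_right ?_ (show 0 < Nat.card F ^ finrank F Y by positivity)
      calc _ ≤ _ := hO'
        _ = _ := by rw [h5]; ring
  obtain ⟨s, hs, hsY⟩ := exists_sing_notMem hQ hn (Y := Y) fun e => by
    rw [e, finrank_top] at h3; omega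
  obtain ⟨O, hO1, hO2, hO3⟩ := horb s hs hsY
  have hk : finrank F Y = 2 := by
    by_contra hne
    have h5 : Nat.card F ^ 3 ≤ Nat.card F ^ finrank F Y := Nat.pow_le_pow_right hq.le (by omega)
    have h6 := Finset.card_le_card hO1
    have : Nat.card F ^ 3 = Nat.card F * Nat.card F * Nat.card F := by ring
    nlinarith
  have hsing : Sing Q Y := by
    intro w' hw'
    by_contra hQw
    have hw0 : w' ≠ 0 := ne_zero_of_Q_ne_zero hQw
    have h2 : (2 : F) = 0 := by
      have := hi w' hw' w' hw'
      rw [p_self] at this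
      exact (mul_eq_zero.1 this).resolve_right hQw
    obtain ⟨y, hy, hyY⟩ : ∃ y, polar Q w' y = 0 ∧ y ∉ Y := by
      by_contra! h
      have := Submodule.finrank_mono (show perp Q (Submodule.span F {w'}) ≤ Y from
        fun y hy => h y (mem_perp_singleton.1 hy))
      have := hQ.finrank_perp_singleton hw0
      omega
    obtain ⟨μ, hμ⟩ := FiniteField.isSquare_of_char_two (F := F)
      (CharP.ringChar_of_prime_eq_zero Nat.prime_two h2) (Q y / Q w')
    have hs' : Q (y + μ • w') = 0 := by
      rw [q_add, q_smul, p_smul_right, polar_comm, hy, _root_.sq, ← hμ]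
      field_simp
      linear_combination Q y * h2
    have hsY' : y + μ • w' ∉ Y := fun h => hyY (by simpa using Y.sub_mem h (Y.smul_mem μ hw'))
    have hsw : polar Q (y + μ • w') w' = 0 := by
      rw [polar_add_left, p_smul_left, hi w' hw' w' hw', polar_comm, hy]; ring
    generalize y + μ • w' = s' at hs' hsY' hsw
    obtain ⟨w, hw, hw1⟩ := hw s' hsY'
    have hs0 : s' ≠ 0 := fun e => hsY' (e ▸ Y.zero_mem)
    have hcap : Y ⊓ perp Q (Submodule.span F {s'}) = Submodule.span F {w'} := by
      symm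
      refine Submodule.eq_of_le_of_finrank_le (Submodule.span_le.2 (by
        simpa using ⟨hw', mem_perp_singleton.2 hsw⟩)) ?_
      rw [finrank_span_singleton hw0]
      have : Y ⊓ perp Q (Submodule.span F {s'}) < Y := lt_of_le_of_ne inf_le_left fun e => by
        have : w ∈ Y ⊓ perp Q (Submodule.span F {s'}) := e.symm ▸ hw
        have := mem_perp_singleton.1 this.2
        rw [hw1] at this
        exact one_ne_zero this
      have := Submodule.finrank_lt_finrank_of_lt this
      omega
    obtain ⟨O', hO, hO'⟩ := eich_orbit hQ hs0 hs' A (k := 1) (by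
      rw [mul_one]
      refine Nat.card_le_card_of_injective (fun t => polar Q t w - Q t) fun t t' e => Subtype.ext ?_
      have key : ∀ t : {t // polar Q s' t = 0 ∧ A.comap (dE Q s' t) = A},
          t.1 = (polar Q t w - Q t) • s' := by
        intro t
        have m1 := hst s' t w hw hw1 t.2.2
        have m2 : t.1 - (polar Q t w - Q t) • s' ∈ Submodule.span F {w'} := hcap ▸ ⟨m1,
          mem_perp_singleton.2 (by rw [polar_sub_right, p_smul_right, p_self, hs', t.2.1]; ring)⟩
        obtain ⟨ν, hν⟩ := Submodule.mem_span_singleton.1 m2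
        have e1 : t.1 = ν • w' + (polar Q t w - Q t) • s' := by rw [hν]; abel
        have e2 : Q t = ν ^ 2 * Q w' := by
          conv_lhs => rw [e1, q_add, q_smul, q_smul, hs', p_smul_left, p_smul_right,
            polar_comm Q w', hsw]
          ring
        have e3 : polar Q t w = polar Q t w - Q t := by
          conv_lhs => rw [e1, polar_add_left, p_smul_left, p_smul_left, hi w' hw' w hw, hw1]
          ring
        have e4 : ν = 0 := by
          have : ν ^ 2 * Q w' = 0 := by linear_combination e3 - e2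
          exact pow_eq_zero_iff (two_ne_zero) |>.1 ((mul_eq_zero.1 this).resolve_right hQw)
        rw [e4, zero_smul, zero_add] at e1
        exact e1
      rw [key t, key t']
      exact congrArg (· • s') e)
    have h6 : O'.card ≤ S.card := Finset.card_le_card fun X hX => by
      obtain ⟨t, ht, rfl⟩ := hO X hX
      exact hE A hA s' t hs' ht
    rw [h3, hk, mul_one, show 2 * 2 = 2 + 2 from rfl, pow_add] at hO'
    have := Nat.le_of_mul_le_mul_right hO' (by positivity)
    nlinarith
  refine ⟨?_, by omega, hsing, hk⟩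
  rw [hk, _root_.sq] at hO3
  have hO4 := Nat.le_of_mul_le_mul_right hO3 (by omega)
  obtain ⟨s', t', h1', h2', hne⟩ : ∃ s' t', Q s' = 0 ∧ polar Q s' t' = 0 ∧
      ∃ y ∈ Y, eichLin Q s' t' y ∉ Y := by
    by_contra! h
    rw [inv_iso_bot hQ hn hi h, finrank_bot] at hk
    omega
  obtain ⟨y, hy, hyY⟩ := hne
  obtain ⟨O', a1, a2, a3⟩ := horb _ (by rw [eichLin_Q h1' h2', hsing y hy]) hyY
  rw [hk, _root_.sq] at a3
  have a4 := Nat.le_of_mul_le_mul_right a3 (by omega)
  have ht2 : polar Q s' (-t') = 0 := by rw [polar_neg_right, h2', neg_zero]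
  have a5 : A.comap (dE Q s' (-t')) ∉ O' := fun h => a2 _ h (by
    rw [AddSubgroup.mem_comap, dE_apply, hY, eichLin_mul h1' ht2 h2', neg_add_cancel, eichLin_zero]
    exact ⟨hy, by simp⟩)
  have := Finset.card_le_card (Finset.insert_subset (hE A hA s' _ h1' ht2) a1)
  rw [Finset.card_insert_of_notMem a5] at this
  omega

theorem line_tens (hQ : ND Q) (hn : 3 ≤ finrank F V) {χ : AddChar F ℂ} (hχ : ∃ t, χ t ≠ 1)
    {A : AddSubgroup (V × V)} {u : Fin 2 → F} (hu : u ≠ 0) (hi : RInv u A)
    (hiso : ∀ x ∈ A, ∀ y ∈ A, χ (polar Q x.1 y.2 - polar Q x.2 y.1) = 1)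
    (hE : ∀ s t, Q s = 0 → polar Q s t = 0 → A.comap (dE Q s t) = A)
    (hb : Nat.card F ^ finrank F V < 2 * Nat.card A) : ∀ x, x ∈ A ↔ ∃ a, x = tens u a := by
  haveI := Module.finite_of_finite F (M := V)
  have h1 : Submodule.span F (ev u '' (A : Set (V × V))) = ⊥ := by
    refine inv_iso_bot hQ hn (fun x hx y hy => ?_) fun s t hs ht y hy => ?_
    · induction hx using Submodule.span_induction with
      | mem x hx =>
        induction hy using Submodule.span_induction with
        | mem y hy =>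
          obtain ⟨x, hx, rfl⟩ := hx
          obtain ⟨y, hy, rfl⟩ := hy
          refine eq_zero_of_char hχ fun c => ?_
          convert hiso _ (hi c x hx) y hy using 2
          simp only [tens, p_smul_left]
          rw [show ev u y = u 0 • y.2 - u 1 • y.1 from rfl, polar_sub_right, p_smul_right,
            p_smul_right]
          ring
        | zero => simp
        | add a b _ _ ha hb => rw [polar_add_right, ha, hb, add_zero]
        | smul c a _ ha => rw [p_smul_right, ha, mul_zero]
      | zero => simp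
      | add a b _ _ ha hb => rw [polar_add_left, ha, hb, add_zero]
      | smul c a _ ha => rw [p_smul_left, ha, mul_zero]
    · induction hy using Submodule.span_induction with
      | mem y hy =>
        obtain ⟨y, hy, rfl⟩ := hy
        refine Submodule.subset_span ⟨dE Q s t y, (hE s t hs ht).ge hy, ?_⟩
        simp [ev, dE_apply]
      | zero => simp
      | add a b _ _ ha hb => rw [map_add]; exact Submodule.add_mem _ ha hb
      | smul c a _ ha => rw [map_smul]; exact Submodule.smul_mem _ _ ha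
  have h2 : ∀ x ∈ A, ∃ a, x = tens u a := fun x hx => by
    have : ev u x = 0 := by
      rw [← Submodule.mem_bot F, ← h1]; exact Submodule.subset_span ⟨x, hx, rfl⟩
    have e : u 0 • x.2 = u 1 • x.1 := sub_eq_zero.1 this
    by_cases h0 : u 0 = 0
    · have h1 : u 1 ≠ 0 := fun h => hu (by ext i; fin_cases i <;> simpa)
      refine ⟨(u 1)⁻¹ • x.2, Prod.ext ?_ (by simp [tens, h1])⟩
      rw [h0, zero_smul, eq_comm, smul_eq_zero] at e
      simp [tens, h0, e.resolve_left h1]
    · refine ⟨(u 0)⁻¹ • x.1, Prod.ext (by simp [tens, h0]) ?_⟩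
      simp only [tens]
      rw [smul_comm, ← e, smul_smul, inv_mul_cancel₀ h0, one_smul]
  let τ : V →+ V × V := AddMonoidHom.mk' (tens u) fun a b => by simp [tens]
  have h3 : A.comap τ = ⊤ := by
    refine eq_top_of_lt_two_mul (lt_of_lt_of_le (card_eq_pow (F := F) V ▸ hb)
      (Nat.mul_le_mul_left _ ?_))
    refine Nat.card_le_card_of_surjective (fun a : A.comap τ => (⟨τ a, a.2⟩ : A)) fun x => ?_
    obtain ⟨a, ha⟩ := h2 x x.2
    exact ⟨⟨a, show tens u a ∈ A from ha ▸ x.2⟩, Subtype.ext ha.symm⟩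
  refine fun x => ⟨h2 x, ?_⟩
  rintro ⟨a, rfl⟩
  exact (h3 ▸ AddSubgroup.mem_top a : a ∈ A.comap τ)

end Cfsg.Agent.MinI
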