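import Cfsg.Agent.MinI.OLine

/-!
The local analysis at a totally singular line, conclusion.
-/

set_option autoImplicit false

namespace Cfsg.Agent.MinI

open QuadraticMap Module Cfsg.Agent.Orth Matrix

variable {F V : Type*} [Field F] [AddCommGroup V] [Module F V] {Q : QuadraticForm F V}

theorem eq_one_of_card_two (hq : Nat.card F = 2) {a : F} (ha : a ≠ 0) : a = 1 := by
  obtain ⟨b, -, hb'⟩ := (Nat.card_eq_two_iff' (0 : F)).1 hq
  rw [hb' a ha, hb' 1 one_ne_zero]

theorem zero_or_one (hq : Nat.card F = 2) (a : F) : a = 0 ∨ a = 1 :=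
  (eq_or_ne a 0).imp_right (eq_one_of_card_two hq)

theorem two_eq_zero_of_card_two (hq : Nat.card F = 2) : (2 : F) = 0 := by
  by_contra h
  have := eq_one_of_card_two hq h
  exact one_ne_zero (α := F) (by linear_combination this)

variable [FiniteDimensional F V] [Finite F]

theorem no_J (hQ : ND Q) (hn : 3 ≤ finrank F V) (hq : Nat.card F = 2) (J : V →ₗ[F] V)
    (hJ : ∀ a, J (J a) = a + J a) (hs : ∀ a b, polar Q a (J b) = polar Q (J a) b)
    (h0 : ∀ a, polar Q a (J a) = 0)
    (hE : ∀ s t, Q s = 0 → polar Q s t = 0 → (∀ a, eichLin Q s t (J a) = J (eichLin Q s t a)) ∨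
      ∀ a, eichLin Q s t (J a) = J (eichLin Q s t (a + J a))) : False := by
  have h2 := two_eq_zero_of_card_two hq
  have hv : ∀ v : V, v + v = 0 := fun v => by rw [← two_smul F v, h2, zero_smul]
  have hpp : ∀ v, polar Q v v = 0 := fun v => by rw [p_self, h2, zero_mul]
  have hind : ∀ (s : V) (k : F), J s = k • s → s = 0 := fun s k h => by
    have e := hJ s
    rcases zero_or_one hq k with rfl | rfl
    · rw [zero_smul] at h
      rw [h, map_zero, add_zero] at e
      exact e.symm
    · rw [one_smul] at h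
      rw [h, h, hv] at e
      exact e
  have hS : ∀ s t, s ≠ 0 → Q s = 0 → polar Q s t = 0 →
      (∀ a, eichLin Q s t (J a) = J (eichLin Q s t (a + J a))) → polar Q t (J s) = 1 := by
    intro s t hs0 hs' ht h
    by_contra hne
    have e0 : polar Q t (J s) = 0 := (zero_or_one hq _).resolve_right hne
    have e1 : eichLin Q s t (J s) = J s := by rw [eichLin_apply, e0, h0]; simp
    have := h s
    rw [map_add, eichLin_left hs' ht, e1, map_add, hJ, add_comm s, ← add_assoc, hv, zero_add] at this
    exact hs0 (hind s 1 (by rw [this, one_smul]))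
  have hQJ : ∀ s, s ≠ 0 → Q s = 0 → Q (J s) = 1 := by
    intro s hs0 hs'
    by_contra hne
    have e0 : Q (J s) = 0 := (zero_or_one hq _).resolve_right hne
    rcases hE s (J s) hs' (h0 s) with h | h
    · obtain ⟨x, hx⟩ := hQ.exists_polar_one hs0
      have := h x
      rw [eichLin_apply, eichLin_apply, e0, hx, hs s x, map_sub, map_add, map_smul, map_smul,
        hJ] at this
      refine hs0 (hind s (polar Q (J s) (J x) + 1) ?_)
      have e := hv (J s)
      have e' := hv (polar Q (J s) x • J s)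
      linear_combination (norm := module) e - e' - this
    · have := hS s _ hs0 hs' (h0 s) h
      rw [hpp] at this
      exact zero_ne_one this
  have hT : ∀ s t, s ≠ 0 → Q s = 0 → polar Q s t = 0 → t ∉ Submodule.span F {s, J s} →
      polar Q t (J s) = 1 ∧ Q t = 0 := by
    intro s t hs0 hs' ht hn'
    rcases hE s t hs' ht with h | h
    · exfalso
      obtain ⟨x, hx, hx'⟩ := hQ.exists_orth_polar_one (Submodule.span F {s}) (u := t)
        fun e => hn' (Submodule.span_mono (by simp) e)
      have := h x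
      rw [eichLin_apply, eichLin_apply, hx s (Submodule.mem_span_singleton_self _), hx'] at this
      simp only [mul_zero, sub_zero, one_smul, zero_smul, map_add] at this
      rcases zero_or_one hq (polar Q s (J x)) with e | e
      · rw [e] at this
        exact hs0 (hind s (polar Q t (J x)) (by linear_combination (norm := module) -this))
      · rw [e] at this
        refine hn' (Submodule.mem_span_pair.2 ⟨polar Q t (J x) - Q t, -1, ?_⟩)
        linear_combination (norm := module) this
    · have e := hS s t hs0 hs' ht h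
      refine ⟨e, ?_⟩
      have e1 : eichLin Q s t t = t := by rw [eichLin_apply, hpp, ht]; simp
      have e2 : eichLin Q s t (J t) = J t - Q t • s - t := by
        rw [eichLin_apply, h0, hs, polar_comm, e]; module
      have := h t
      rw [map_add, e1, e2, map_add, map_sub, map_sub, map_smul, hJ] at this
      by_contra hne
      rw [eq_one_of_card_two hq hne] at this
      exact hs0 (hind s 1 (by linear_combination (norm := module) this + hv t))
  obtain ⟨s, hs0, hs'⟩ := exists_singular Q hn
  obtain ⟨t, ht, htn⟩ : ∃ t, polar Q s t = 0 ∧ t ∉ Submodule.span F {s, J s} := by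
    by_contra! h
    have e1 := Submodule.finrank_mono (show perp Q (Submodule.span F {s}) ≤ _ from
      fun y hy => h y (mem_perp_singleton.1 hy))
    have e2 := hQ.finrank_perp_singleton hs0
    have e3 := finrank_span_pair_le (F := F) s (J s)
    obtain ⟨k, hk⟩ := hQ.even_finrank_of_char_two h2
    omega
  obtain ⟨a1, a2⟩ := hT s t hs0 hs' ht htn
  have htn' : t + J s ∉ Submodule.span F {s, J s} := fun h => htn (by
    simpa using Submodule.sub_mem _ h (Submodule.subset_span (by simp : J s ∈ {s, J s})))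
  obtain ⟨-, a3⟩ := hT s (t + J s) hs0 hs' (by rw [polar_add_right, ht, h0, add_zero]) htn'
  have b1 := hQJ t (fun e => htn (e ▸ Submodule.zero_mem _)) a2
  have b2 := hQJ (t + J s) (fun e => htn' (by rw [e]; exact Submodule.zero_mem _)) a3
  rw [map_add, hJ, q_add, q_add, b1, hs', hQJ s hs0 hs', h0, ← hs, ← hJ, hJ (J s), hJ,
    polar_add_right, polar_add_right, a1, polar_comm, ht] at b2
  exact one_ne_zero (α := F) (by linear_combination 2 * h2 - b2)

theorem line_two (hQ : ND Q) (hn : 3 ≤ finrank F V) (hq : Nat.card F = 2) {χ : AddChar F ℂ}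
    (hχ : ∃ t, χ t ≠ 1) {S : Finset (AddSubgroup (V × V))} (hS : ElemClosed F S)
    (hE : EichClosed Q S) {A : AddSubgroup (V × V)} (hA : A ∈ S)
    (hiso : ∀ x ∈ A, ∀ y ∈ A, χ (polar Q x.1 y.2 - polar Q x.2 y.1) = 1)
    (hb : S.card * Nat.card F ^ finrank F V < 4 * Nat.card A) (h3 : S.card ≤ 3)
    (hJ : ∀ x ∈ A, (x.2, x.1 + x.2) ∈ A) : RInv (![1, 0] : Fin 2 → F) A := by
  classical
  haveI := Module.finite_of_finite F (M := V)
  by_contra hcon
  have h2 := two_eq_zero_of_card_two hq
  have hv : ∀ v : V, v + v = 0 := fun v => by rw [← two_smul F v, h2, zero_smul]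
  have hz : ∀ a : F, χ a = 1 → a = 0 := fun a ha => eq_zero_of_char hχ fun c => by
    rcases zero_or_one hq c with rfl | rfl <;> simp [ha]
  let T : AddSubgroup (V × V) → AddSubgroup (V × V) := fun X => X.comap (mact !![(1 : F), 1; 0, 1])
  have hT : ∀ X x, x ∈ T X ↔ (x.1 + x.2, x.2) ∈ X := fun X x => by
    simp [T, mact_apply]
  have hTT : ∀ X, T (T X) = X := fun X => by
    ext x; rw [hT, hT]; simp [add_assoc, hv]
  have hTA : T A ≠ A := fun e => hcon fun c x hx => by
    rcases zero_or_one hq c with rfl | rfl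
    · simpa [tens] using show ((0 : V), (0 : V)) ∈ A from A.zero_mem
    · have := A.sub_mem ((hT A x).1 (e.symm ▸ hx)) hx
      convert this using 1
      ext <;> simp [tens, ev]
  have hTE : ∀ s t, T (A.comap (dE Q s t)) = (T A).comap (dE Q s t) := fun s t => by
    ext x; simp [hT, dE_apply]
  have hcase : ∀ s t, Q s = 0 → polar Q s t = 0 →
      A.comap (dE Q s t) = A ∨ A.comap (dE Q s t) = T A := by
    intro s t hs ht
    by_contra! h
    have hsub : ({A, T A, A.comap (dE Q s t), T (A.comap (dE Q s t))} : Finset _) ⊆ S := by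
      simp only [Finset.insert_subset_iff, Finset.singleton_subset_iff]
      exact ⟨hA, (hS A hA 1).1, hE A hA s t hs ht, (hS _ (hE A hA s t hs ht) 1).1⟩
    have := Finset.card_le_card hsub
    rw [Finset.card_insert_of_notMem, Finset.card_insert_of_notMem, Finset.card_pair] at this
    · omega
    · intro e
      rw [hTE] at e
      refine hTA (AddSubgroup.comap_injective (f := dE Q s t) (fun x => ⟨dE Q s (-t) x, ?_⟩) e.symm)
      have ht2 : polar Q s (-t) = 0 := by rw [polar_neg_right, ht, neg_zero]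
      simp [dE_apply, eichLin_mul hs ht ht2, eichLin_zero]
    · simp only [Finset.mem_insert, Finset.mem_singleton, not_or]
      exact ⟨h.2.symm, fun e => h.1 (by rw [← hTT (A.comap _), ← e, hTT])⟩
    · simp only [Finset.mem_insert, Finset.mem_singleton, not_or]
      exact ⟨hTA.symm, h.1.symm, fun e => h.2 (by rw [← hTT (A.comap _), ← e])⟩
  let Y : Submodule F V :=
    { carrier := {a | (a, 0) ∈ A}
      add_mem' := fun {a b} ha hb => by simpa using A.add_mem ha hb
      zero_mem' := A.zero_mem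
      smul_mem' := fun c a ha => by
        rcases zero_or_one hq c with rfl | rfl
        · rw [zero_smul]; exact A.zero_mem
        · rwa [one_smul] }
  have hYm : ∀ a, a ∈ Y ↔ (a, 0) ∈ A := fun _ => Iff.rfl
  have hY : Y = ⊥ := by
    refine inv_iso_bot hQ hn (fun x hx y hy => hz _ ?_) fun s t hs ht y hy => ?_
    · simpa using hiso _ hx _ (hJ _ hy)
    · have : (y, 0) ∈ A.comap (dE Q s t) := by
        rcases hcase s t hs ht with e | e <;> rw [e]
        · exact hy
        · rw [hT]; simpa [hYm] using hy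
      simpa [dE_apply, hYm] using this
  have hinj : ∀ b, (0, b) ∈ A → b = 0 := fun b hb => by
    have : b ∈ Y := by simpa [hv, hYm] using hJ _ (hJ _ hb)
    simpa [hY] using this
  have hsurj : A.map (AddMonoidHom.fst V V) = ⊤ := by
    refine eq_top_of_lt_two_mul ?_
    have e1 := card_eq_range_mul_ker (AddMonoidHom.fst V V) A
    rw [show A ⊓ (AddMonoidHom.fst V V).ker = ⊥ from eq_bot_iff.2 fun x hx => by
      obtain ⟨a, b⟩ := x
      obtain rfl : a = 0 := hx.2
      rw [hinj b hx.1]; rfl, AddSubgroup.card_bot, mul_one] at e1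
    have e2 : 2 ≤ S.card := Finset.one_lt_card.2 ⟨A, hA, T A, (hS A hA 1).1, hTA.symm⟩
    rw [← e1, card_eq_pow (F := F)]
    nlinarith
  choose J hJA using fun a => show ∃ b, (a, b) ∈ A by
    obtain ⟨x, hx, rfl⟩ : a ∈ A.map (AddMonoidHom.fst V V) := hsurj ▸ AddSubgroup.mem_top a
    exact ⟨x.2, hx⟩
  have huniq : ∀ a b, (a, b) ∈ A → b = J a := fun a b h =>
    sub_eq_zero.1 (hinj _ (by simpa using A.sub_mem h (hJA a)))
  let J' : V →ₗ[F] V :=
    { toFun := J
      map_add' := fun a b => (huniq _ _ (A.add_mem (hJA a) (hJA b))).symm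
      map_smul' := fun c a => by
        rcases zero_or_one hq c with rfl | rfl
        · simpa using (huniq 0 0 A.zero_mem).symm
        · simp }
  refine no_J hQ hn hq J' (fun a => (huniq _ _ (hJ _ (hJA a))).symm)
    (fun a b => sub_eq_zero.1 (hz _ (hiso _ (hJA a) _ (hJA b)))) (fun a => ?_) fun s t hs ht => ?_
  · have := hz _ (hiso _ (hJA a) _ (hJ _ (hJA a)))
    show polar Q a (J a) = 0
    simpa [p_self, h2] using this
  · refine (hcase s t hs ht).imp (fun e a => huniq _ _ (e.ge (hJA a))) fun e a => huniq _ _ ?_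
    have : (a + J a, J a) ∈ T A := by rw [hT]; simpa [add_assoc, hv] using hJA a
    exact e.ge this

/-- The line lemma. -/
theorem line_lemma (hQ : ND Q) (hn : 3 ≤ finrank F V) {χ : AddChar F ℂ}
    (hχ : ∃ t, χ t ≠ 1) {S : Finset (AddSubgroup (V × V))} (hS : ElemClosed F S)
    (hE : EichClosed Q S) {A : AddSubgroup (V × V)} (hA : A ∈ S)
    (hiso : ∀ x ∈ A, ∀ y ∈ A, χ (polar Q x.1 y.2 - polar Q x.2 y.1) = 1)
    (hb : S.card * Nat.card F ^ finrank F V < (Nat.card F + 2) * Nat.card A) :
    Nat.card F + 1 ≤ S.card ∧ Nat.card A = Nat.card F ^ finrank F V ∧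
      ((∃ u : Fin 2 → F, u ≠ 0 ∧ ∀ x, x ∈ A ↔ ∃ a, x = tens u a) ∨
      (finrank F V = 4 ∧ ∃ Y : Submodule F V, Sing Q Y ∧ finrank F Y = 2 ∧
        ∀ x, x ∈ A ↔ x.1 ∈ Y ∧ x.2 ∈ Y)) := by
  haveI := Module.finite_of_finite F (M := V)
  have hq : 1 < Nat.card F := Finite.one_lt_card
  have hAm : Nat.card A ≤ Nat.card F ^ finrank F V := by
    let b : V × V →+ V × V →+ F := AddMonoidHom.mk' (fun x => AddMonoidHom.mk'
      (fun y => polar Q x.1 y.2 - polar Q x.2 y.1) fun y z => by simp; ring) fun x z => by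
        ext; simp; ring
    have := card_sq_le b χ (fun a ha => by
      by_cases h1 : a.1 = 0
      · obtain ⟨w, hw⟩ := pol_nd hQ hχ a.2 fun h2 => ha (Prod.ext h1 h2)
        exact ⟨(-w, 0), by simpa [b] using hw⟩
      · obtain ⟨w, hw⟩ := pol_nd hQ hχ a.1 h1
        exact ⟨(0, w), by simpa [b] using hw⟩) hiso
    rw [Nat.card_prod, card_eq_pow (F := F) V] at this
    exact Nat.mul_self_le_mul_self_iff.1 this
  have hS1 : S.card ≤ Nat.card F + 1 :=
    Nat.lt_succ_iff.1 (Nat.lt_of_mul_lt_mul_right (hb.trans_le (Nat.mul_le_mul_left _ hAm)))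
  by_cases hp : IsProd F A
  · obtain ⟨Y, hY⟩ := hp
    obtain ⟨a1, a2, a3, a4⟩ := line_prod hQ hn hE hA hY (fun x hx y hy => eq_zero_of_char hχ fun c => by
      simpa [p_smul_left] using hiso (c • x, 0) ((hY _).2 ⟨Y.smul_mem c hx, Y.zero_mem⟩) (0, y)
        ((hY _).2 ⟨Y.zero_mem, hy⟩)) hb
    exact ⟨a1, by rw [card_prod_eq hY, a2, a4], Or.inr ⟨a2, Y, a3, a4, hY⟩⟩
  obtain ⟨u, hu, hi⟩ : ∃ u : Fin 2 → F, u ≠ 0 ∧ RInv u A := by
    rcases hS.cases hS1 hA with h | ⟨h1, h2⟩
    · exact h
    · exact ⟨_, by simp, line_two hQ hn h1 hχ hS hE hA hiso (by rwa [h1] at hb ⊢) (by omega) h2⟩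
  obtain ⟨a1, a2⟩ := hS.unique hS1 hA hu hi hp
  have a3 := line_tens hQ hn hχ hu hi hiso (fun s t hs ht => a2 _ (hE A hA s t hs ht)
    fun c x hx => by
      have := hi c _ hx
      simpa [tens, ev, dE_apply] using this) (by nlinarith)
  refine ⟨a1, ?_, Or.inl ⟨u, hu, a3⟩⟩
  refine le_antisymm hAm ?_
  rw [← card_eq_pow]
  refine Nat.card_le_card_of_injective (fun a => ⟨tens u a, (a3 _).2 ⟨a, rfl⟩⟩) fun a b e => ?_
  have e' : tens u a = tens u b := congrArg Subtype.val e
  by_contra hne
  refine hu (funext fun i => ?_)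
  fin_cases i
  · by_contra h; exact hne (smul_right_injective V h (congrArg Prod.fst e'))
  · by_contra h; exact hne (smul_right_injective V h (congrArg Prod.snd e'))

end Cfsg.Agent.MinI
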