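import Cfsg.Agent.MinI.Heis2
import Cfsg.Agent.Classical.SpSimple

/-!
The unipotent radical of a point stabiliser in a symplectic group.
-/

set_option autoImplicit false

namespace Cfsg.Agent.MinI

open Module Cfsg.Agent.Classical.SpWitt

variable {F V : Type*} [Field F] [AddCommGroup V] [Module F V] {B : LinearMap.BilinForm F V}

theorem alt_swap (hA : B.IsAlt) {x y : V} {c : F} (h : B x y = c) : B y x = -c := by
  rw [← h, hA.neg_eq]

theorem alt_zero (hA : B.IsAlt) {x y : V} (h : B x y = 0) : B y x = 0 := by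
  rw [alt_swap hA h, neg_zero]

/-- The map `u ↦ u + B u x • a + B u a • x`. -/
def spE (hA : B.IsAlt) (x a : V) : SG B := tv hA (x + a) 1 * tv hA x (-1) * tv hA a (-1)

section
variable (hA : B.IsAlt)

theorem spE_apply {x a : V} (h : B x a = 0) (u : V) :
    (spE hA x a).1 u = u + B u x • a + B u a • x := by
  simp only [spE, SG.mul_apply, tv_apply, map_add, map_smul, LinearMap.add_apply,
    LinearMap.smul_apply, h, alt_zero hA h, hA.self_eq_zero, smul_eq_mul]
  module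

theorem spE_conj (g : SG B) (x a : V) : g * spE hA x a * g⁻¹ = spE hA (g.1 x) (g.1 a) := by
  simp only [spE, ← conj_tv, ← map_add]; group

theorem spE_symm {x a : V} (h : B x a = 0) : spE hA x a = spE hA a x :=
  SG.ext fun u => by rw [spE_apply hA h, spE_apply hA (alt_zero hA h)]; abel

theorem spE_smul {x a : V} (h : B x a = 0) (c : F) : spE hA (c • x) a = spE hA x (c • a) :=
  SG.ext fun u => by
    rw [spE_apply hA (by simp [h]), spE_apply hA (by simp [h])]
    simp only [map_smul, smul_eq_mul]; module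

theorem spE_mul {x a b : V} (h : B x a = 0) (h' : B x b = 0) :
    spE hA x a * spE hA x b = spE hA x (a + b) * tv hA x (B b a) :=
  SG.ext fun u => by
    simp only [SG.mul_apply, spE_apply hA h, spE_apply hA h', tv_apply,
      spE_apply hA (show B x (a + b) = 0 by simp [h, h']), map_add, map_smul, LinearMap.add_apply,
      LinearMap.smul_apply, h, h', alt_zero hA h, alt_zero hA h', hA.self_eq_zero, smul_eq_mul]
    module

theorem tv_comm {x y : V} (h : B x y = 0) (s t : F) :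
    tv hA x s * tv hA y t = tv hA y t * tv hA x s := by
  rw [← mul_inv_eq_iff_eq_mul, conj_tv, tv_apply, alt_zero hA h]; simp

theorem tv_spE {x a y : V} (h : B x a = 0) (h1 : B x y = 0) (h2 : B a y = 0) (t : F) :
    tv hA y t * spE hA x a = spE hA x a * tv hA y t := by
  rw [← mul_inv_eq_iff_eq_mul, spE_conj, tv_apply, tv_apply, h1, h2]; simp

theorem tv_line {x y : V} (h : B x y = 0) (μ c : F) :
    tv hA (y + μ • x) c = tv hA y c * (spE hA x ((c * μ) • y) * tv hA x (c * μ ^ 2)) :=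
  SG.ext fun u => by
    simp only [SG.mul_apply, tv_apply, spE_apply hA (show B x ((c * μ) • y) = 0 by simp [h]),
      map_add, map_smul, LinearMap.add_apply, LinearMap.smul_apply, h, alt_zero hA h,
      hA.self_eq_zero, smul_eq_mul]
    module

end

/-- A hyperbolic pair. -/
structure SPt (B : LinearMap.BilinForm F V) where
  x : V
  x' : V
  hx : B x x' = 1

namespace SPt

variable (p : SPt B)

/-- The complement of the hyperbolic pair. -/
def P : Submodule F V where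
  carrier := {v | B p.x v = 0 ∧ B p.x' v = 0}
  add_mem' := fun ha hb => by simp [ha.1, ha.2, hb.1, hb.2]
  zero_mem' := by simp
  smul_mem' := fun c v hv => by simp [hv.1, hv.2]

theorem x_ne : p.x ≠ 0 := fun e => by simpa [e] using p.hx

/-- The form on the complement. -/
def b : p.P →+ p.P →+ F :=
  AddMonoidHom.mk' (fun a => AddMonoidHom.mk' (fun c => B a c) (by simp)) (by intro a c; ext; simp)

theorem b_apply (a c : p.P) : p.b a c = B a c := rfl

variable (hA : B.IsAlt)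

/-- The unipotent radical. -/
def heis : Heis (SG B) p.P F where
  e a := spE hA p.x a
  z t := tv hA p.x t
  β := p.b.flip - p.b
  z_add := tv_add hA p.x
  e_mul a c := ⟨_, spE_mul hA a.2.1 c.2.1⟩
  z_comm a t := tv_spE hA a.2.1 (hA.self_eq_zero _) (alt_zero hA a.2.1) t
  e_comm a c := by
    rw [spE_mul hA a.2.1 c.2.1, spE_mul hA c.2.1 a.2.1, mul_assoc, ← tv_add, add_comm c.1]
    simp [b_apply]

theorem heis_β (a c : p.P) : (p.heis hA).β a c = 2 * B c a := by
  show B c a - B a c = _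
  rw [← hA.neg_eq c.1 a.1]; ring

include hA in
theorem decomp (v : V) : ∃ a : p.P, v = a + B v p.x' • p.x + B p.x v • p.x' :=
  ⟨⟨v - B v p.x' • p.x - B p.x v • p.x', by simp [p.hx, hA.self_eq_zero], by
    simp [alt_swap hA p.hx, hA.self_eq_zero, hA.neg_eq]⟩, by
    dsimp only; abel⟩

include hA in
theorem card_P : Nat.card V = Nat.card p.P * Nat.card F ^ 2 := by
  rw [sq, ← Nat.card_prod, ← Nat.card_prod]
  refine (Nat.card_congr (Equiv.ofBijective (fun y : p.P × F × F => y.1.1 + y.2.1 • p.x + y.2.2 • p.x')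
    ⟨fun y z e => ?_, fun v => (p.decomp hA v).elim fun a ha => ⟨(a, _, _), ha.symm⟩⟩)).symm
  have e1 := congrArg (B p.x) e
  have e2 := congrArg (B p.x') e
  simp only [map_add, map_smul, y.1.2.1, z.1.2.1, y.1.2.2, z.1.2.2, p.hx, alt_swap hA p.hx,
    hA.self_eq_zero, smul_eq_mul] at e1 e2
  have h1 : y.2.1 = z.2.1 := by linear_combination -e2
  have h2 : y.2.2 = z.2.2 := by linear_combination e1
  simp only [h1, h2, add_left_inj] at e
  exact Prod.ext (Subtype.ext e) (Prod.ext h1 h2)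

include hA in
theorem notMem_span {w u : p.P} (hu : ∀ c : F, c • w ≠ u) :
    u.1 ∉ Submodule.span F {p.x, p.x', w.1} := by
  intro h
  obtain ⟨a, b, c, e⟩ := Submodule.mem_span_triple.1 h
  have e1 := congrArg (B p.x) e
  have e2 := congrArg (B p.x') e
  simp only [map_add, map_smul, u.2.1, w.2.1, u.2.2, w.2.2, p.hx, alt_swap hA p.hx,
    hA.self_eq_zero, smul_eq_mul] at e1 e2
  have h1 : a = 0 := by linear_combination -e2
  have h2 : b = 0 := by linear_combination e1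
  exact hu c (Subtype.ext (by simpa [h1, h2] using e))

include hA in
theorem exists_diag {l : F} (hl : l ≠ 0) :
    ∃ s : SG B, s.1 p.x = l • p.x ∧ s.1 p.x' = l⁻¹ • p.x' ∧ ∀ a : p.P, s.1 a = a := by
  refine ⟨tv hA p.x' ((1 - l) / l) * tv hA p.x (-1) * tv hA p.x' (l - 1) * tv hA p.x l⁻¹,
    ?_, ?_, fun a => ?_⟩ <;>
    simp only [SG.mul_apply, tv_apply, map_add, map_smul, LinearMap.add_apply, LinearMap.smul_apply,
      p.hx, alt_swap hA p.hx, hA.self_eq_zero, smul_eq_mul]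
  · match_scalars <;> field_simp <;> ring
  · match_scalars <;> field_simp <;> ring
  · simp [alt_zero hA a.2.1, alt_zero hA a.2.2]

variable [FiniteDimensional F V] (hB : B.Nondegenerate)
include hA hB

theorem witt {w u v : p.P} (hu : ∀ c : F, c • w ≠ u) (hv : ∀ c : F, c • w ≠ v)
    (h : B w u = B w v) : ∃ g : SG B, g.1 p.x = p.x ∧ g.1 p.x' = p.x' ∧ g.1 w = w ∧ g.1 u = v := by
  obtain ⟨g, -, h1, h2⟩ := witt_step hB hA ⊤ (fun _ _ => trivial) _ (p.notMem_span hA hu)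
    (p.notMem_span hA hv) fun y hy => by
      obtain ⟨a, b, c, rfl⟩ := Submodule.mem_span_triple.1 hy
      simp [u.2.1, u.2.2, v.2.1, v.2.2, h]
  exact ⟨g, h1 _ (Submodule.subset_span (by simp)), h1 _ (Submodule.subset_span (by simp)),
    h1 _ (Submodule.subset_span (by simp)), h2⟩

theorem witt₀ {u v : p.P} (hu : u ≠ 0) (hv : v ≠ 0) :
    ∃ g : SG B, g.1 p.x = p.x ∧ g.1 p.x' = p.x' ∧ g.1 u = v := by
  obtain ⟨g, h1, h2, -, h3⟩ := p.witt hA hB (w := 0) (u := u) (v := v) (by simpa using hu.symm)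
    (by simpa using hv.symm) (by simp)
  exact ⟨g, h1, h2, h3⟩

theorem orth_one {w u : p.P} (hu : ∀ c : F, c • w ≠ u) : ∃ y : p.P, B w y = 0 ∧ B u y = 1 := by
  obtain ⟨y, h1, h2⟩ := exists_orth_one hB hA.isRefl _ (p.notMem_span hA hu)
  exact ⟨⟨y, h1 _ (Submodule.subset_span (by simp)), h1 _ (Submodule.subset_span (by simp))⟩,
    h1 _ (Submodule.subset_span (by simp)), h2⟩

theorem one {u : p.P} (hu : u ≠ 0) : ∃ y : p.P, B u y = 1 :=
  (p.orth_one hA hB (w := 0) (by simpa using hu.symm)).imp fun _ h => h.2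

theorem b_nd {χ : AddChar F ℂ} (hχ : ∃ t, χ t ≠ 1) (a : p.P) (ha : a ≠ 0) :
    ∃ w, χ (p.b a w) ≠ 1 := by
  obtain ⟨y, hy⟩ := p.one hA hB ha
  obtain ⟨t, ht⟩ := hχ
  exact ⟨t • y, by simpa [b_apply, hy] using ht⟩

theorem b_nd' {χ : AddChar F ℂ} (hχ : ∃ t, χ t ≠ 1) (a : p.P) (ha : a ≠ 0) :
    ∃ w, χ (p.b w a) ≠ 1 := by
  obtain ⟨y, hy⟩ := p.one hA hB ha
  obtain ⟨t, ht⟩ := hχ
  exact ⟨-t • y, by simpa [b_apply, alt_swap hA hy] using ht⟩

end SPt

theorem exists_spt [FiniteDimensional F V] (hA : B.IsAlt) (hB : B.Nondegenerate) {x y : V}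
    (h : ∀ c : F, c • y ≠ x) (hxy : B x y = 0) : ∃ p : SPt B, p.x = x ∧ y ∈ p.P := by
  obtain ⟨x', h1, h2⟩ := exists_orth_one hB hA.isRefl (Submodule.span F {y}) (u := x)
    (by simpa [Submodule.mem_span_singleton] using h)
  exact ⟨⟨x, x', h2⟩, rfl, hxy, alt_zero hA (h1 _ (Submodule.mem_span_singleton_self _))⟩

namespace SPt

variable (p : SPt B) (hA : B.IsAlt) {Ω : Type*} [MulAction (SG B) Ω]

/-- The annihilator of `A`. -/
def D (χ : AddChar F ℂ) (ω : Ω) : AddSubgroup p.P := ann p.b χ ((p.heis hA).A ω)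

theorem mem_D {χ : AddChar F ℂ} {ω : Ω} {d : p.P} :
    d ∈ p.D hA χ ω ↔ ∀ a ∈ (p.heis hA).A ω, χ (B a d) = 1 := Iff.rfl

theorem conj_z {g : SG B} {l : F} (h1 : g.1 p.x = l • p.x) (t : F) :
    g * (p.heis hA).z t * g⁻¹ = (p.heis hA).z (l ^ 2 * t) := by
  show g * tv hA _ _ * _ = tv hA _ _
  rw [conj_tv, h1, tv_smul]

theorem map_mem {g : SG B} {l : F} (hl : l ≠ 0) (h1 : g.1 p.x = l • p.x)
    (h2 : g.1 p.x' = l⁻¹ • p.x') (a : p.P) : g.1 a ∈ p.P ∧ g⁻¹.1 a ∈ p.P := by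
  have e1 := SG.map g p.x a
  have e2 := SG.map g p.x' a
  have e3 := SG.map g p.x (g⁻¹.1 a)
  have e4 := SG.map g p.x' (g⁻¹.1 a)
  simp only [h1, h2, SG.apply_inv, map_smul, LinearMap.smul_apply, a.2.1, a.2.2, smul_eq_mul,
    mul_zero, mul_eq_zero, hl, inv_eq_zero, false_or] at e1 e2 e3 e4
  exact ⟨⟨e1, e2⟩, e3.symm, e4.symm⟩

theorem act {g : SG B} {l : F} (hl : l ≠ 0) (h1 : g.1 p.x = l • p.x)
    (h2 : g.1 p.x' = l⁻¹ • p.x') (χ : AddChar F ℂ) (y : Ω) :
    Nat.card ((p.heis hA).A (g • y)) = Nat.card ((p.heis hA).A y) ∧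
    (∀ a c : p.P, l • g.1 a = c → (c ∈ (p.heis hA).A (g • y) ↔ a ∈ (p.heis hA).A y)) ∧
    ∀ a c : p.P, g.1 a = l • c.1 → (c ∈ p.D hA χ (g • y) ↔ a ∈ p.D hA χ y) := by
  have key : ∀ a c : p.P, l • g.1 a = c →
      (c ∈ (p.heis hA).A (g • y) ↔ a ∈ (p.heis hA).A y) := fun a c e =>
    (p.heis hA).A_smul_of (c := 0) (mul_left_surjective₀ (pow_ne_zero 2 hl)) (p.conj_z hA h1) (by
      rw [Heis.z_zero, mul_one]
      show g * spE hA _ _ * _ = spE hA _ _
      rw [spE_conj, h1, spE_smul hA (p.map_mem hl h1 h2 a).1.1, e]) y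
  let φ : p.P ≃ p.P :=
    { toFun := fun a => l • ⟨_, (p.map_mem hl h1 h2 a).1⟩
      invFun := fun a => l⁻¹ • ⟨_, (p.map_mem hl h1 h2 a).2⟩
      left_inv := fun a => Subtype.ext (by simp [SG.inv_apply, hl])
      right_inv := fun a => Subtype.ext (by simp [SG.apply_inv, hl]) }
  refine ⟨(Nat.card_congr (φ.subtypeEquiv fun a => (key a _ rfl).symm)).symm, key, fun a c e => ?_⟩
  have e' : ∀ a' : p.P, B (φ a') c = B a' a := fun a' => by
    rw [← SG.map g a' a, e]; simp [φ]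
  rw [mem_D, mem_D, φ.surjective.forall]
  exact forall_congr' fun a' => by rw [key a' _ rfl, e']

theorem act_T {g : SG B} {l : F} (hl : l ≠ 0) (h1 : g.1 p.x = l • p.x)
    (h2 : g.1 p.x' = l⁻¹ • p.x') {ω y : Ω}
    (hR : ∀ t, l ^ 2 * t ∈ (p.heis hA).R ω ↔ t ∈ (p.heis hA).R ω) (hy : y ∈ (p.heis hA).T ω) :
    g • y ∈ (p.heis hA).T ω := by
  refine ⟨AddSubgroup.ext fun t => ?_, (p.act hA hl h1 h2 1 y).1.trans hy.2⟩
  obtain ⟨s, rfl⟩ := mul_left_surjective₀ (pow_ne_zero 2 hl) t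
  rw [(p.heis hA).R_smul_of (p.conj_z hA h1), hy.1, hR]

end SPt

end Cfsg.Agent.MinI
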