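import Cfsg.Agent.MinI.SpN

/-!
A symplectic group over a field with at least three elements acting on a small set.
-/

set_option autoImplicit false

namespace Cfsg.Agent.MinI

open Module Cfsg.Agent.Classical.SpWitt

variable {F V : Type*} [Field F] [AddCommGroup V] [Module F V] {B : LinearMap.BilinForm F V}
  {Ω : Type*} [MulAction (SG B) Ω]

/-- The stabiliser of `ω` covers the unipotent radical at `x` modulo its centre. -/
def SFull (hA : B.IsAlt) (ω : Ω) (x : V) : Prop :=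
  ∀ a, B x a = 0 → ∃ t, (spE hA x a * tv hA x t) • ω = ω

section
variable {hA : B.IsAlt} {ω : Ω}

theorem SPt.full (p : SPt B) (h : (p.heis hA).A ω = ⊤) : SFull hA ω p.x := fun a ha => by
  obtain ⟨b, e⟩ := p.decomp hA a
  obtain ⟨t, ht⟩ := h.ge (AddSubgroup.mem_top b)
  refine ⟨t - 2 * B a p.x', ?_⟩
  rw [← ht]
  congr 1
  generalize B a p.x' = c at e
  rw [ha, zero_smul, add_zero] at e
  refine SG.ext fun u => ?_
  simp only [SPt.heis, SG.mul_apply, tv_apply, spE_apply hA ha, spE_apply hA b.2.1]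
  simp only [e, map_add, map_smul, LinearMap.add_apply, LinearMap.smul_apply, b.2.1,
    hA.self_eq_zero, smul_eq_mul]
  module

theorem fix_sub {g a b : SG B} (h1 : (g * a) • ω = ω) (h2 : (g * b) • ω = ω) : (b⁻¹ * a) • ω = ω := by
  rw [mul_smul, inv_smul_eq_iff, ← smul_left_cancel_iff g, ← mul_smul, ← mul_smul, h1, h2]

variable [FiniteDimensional F V] (hB : B.Nondegenerate)
include hB

theorem SFull.move {x y : V} (h : SFull hA ω x) (hy : B x y = 0) (hi : ∀ c : F, c • x ≠ y) (μ : F) :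
    ∃ g : SG B, g • ω = ω ∧ g.1 x = x ∧ g.1 y = y + μ • x := by
  obtain ⟨a, a1, a2⟩ := exists_orth_one hB hA.isRefl (Submodule.span F {x}) (u := y)
    (by simpa [Submodule.mem_span_singleton] using hi)
  have a3 : B x (μ • a) = 0 := by simp [a1 _ (Submodule.mem_span_singleton_self _)]
  obtain ⟨t, ht⟩ := h _ a3
  exact ⟨_, ht, by simp [tv_apply, spE_apply hA a3, hA.self_eq_zero, a3],
    by simp [tv_apply, spE_apply hA a3, alt_zero hA hy, a2]⟩

variable [Finite F]

theorem SFull.not_perp (hq : 3 ≤ Nat.card F) {x y : V} (h : SFull hA ω x) (hx : ¬ SX hA ω x)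
    (hy : B x y = 0) (h0 : y ≠ 0) : ¬ SX hA ω y := fun hs => hx <| by
  by_cases hi : ∃ c : F, c • x = y
  · obtain ⟨c, rfl⟩ := hi
    exact hs.of_smul (left_ne_zero_of_smul h0)
  have key : ∀ μ, SX hA ω (y + μ • x) := fun μ => by
    obtain ⟨g, g1, -, g2⟩ := h.move hB hy (not_exists.1 hi) μ
    exact g2 ▸ hs.fix g1
  obtain ⟨ν, ν0, ν1⟩ := exists_ne_two hq (0 : F) 1
  intro c
  have e1 := hs.line hy (key 1) (c / (ν - 1))
  have e2 := hs.line hy (key ν) (c / (ν - 1) / ν)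
  rw [div_mul_cancel₀ _ ν0] at e2
  rw [mul_one] at e1
  have := fix_sub e2 e1
  rwa [← tv_neg, ← tv_add, show -(c / (ν - 1) * 1 ^ 2) + c / (ν - 1) / ν * ν ^ 2 = c by
    field_simp [sub_ne_zero.2 ν1]; ring] at this

theorem SPt.exists_pair (p : SPt B) (hA : B.IsAlt) (h : 1 < Nat.card p.P) :
    ∃ a b : p.P, B a b = 1 := by
  haveI := (Finite.one_lt_card_iff_nontrivial.1 h : Nontrivial p.P)
  obtain ⟨a, ha⟩ := exists_ne (0 : p.P)
  exact ⟨a, p.one hA hB ha⟩

theorem SFull.eq_zero (hq : 3 ≤ Nat.card F) (hd : ∀ p : SPt B, 1 < Nat.card p.P) {x w : V}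
    (h : SFull hA ω x) (hx : ¬ SX hA ω x) (hw : SX hA ω w) : w = 0 := by
  by_contra h0
  have h1 : B x w ≠ 0 := fun e => h.not_perp hB hq hx e h0 hw
  let p : SPt B := ⟨x, (B x w)⁻¹ • w, by simp [h1]⟩
  have hw' : SX hA ω p.x' := hw.smul _
  have key : ∀ a : p.P, a ≠ 0 → SX hA ω (p.x' - a) := by
    intro a ha
    obtain ⟨t, ht⟩ := h a a.2.1
    have e := hw'.fix ht
    rw [show (spE hA x a * tv hA x t).1 p.x' = p.x' - a - t • p.x by
      change (spE hA p.x a * tv hA p.x t).1 p.x' = _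
      simp only [SG.mul_apply, tv_apply, spE_apply hA a.2.1, map_add, map_smul,
        LinearMap.add_apply, LinearMap.smul_apply, a.2.1, a.2.2, alt_swap hA p.hx, hA.self_eq_zero,
        smul_eq_mul]
      module] at e
    rcases eq_or_ne t 0 with rfl | ht0
    · simpa using e
    refine absurd (e.add_of_ne hw' (by simpa [alt_zero hA a.2.2, hA.self_eq_zero, p.hx]) (-1))
      (h.not_perp hB hq hx (show B p.x _ = 0 by simp [a.2.1, hA.self_eq_zero]) fun e => ht0 ?_)
    simpa [a.2.2, hA.self_eq_zero, alt_swap hA p.hx] using congrArg (B p.x') e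
  obtain ⟨a, b, hab⟩ := p.exists_pair hB hA (hd p)
  refine h.not_perp hB hq hx (show B p.x _ = 0 by simp [a.2.1, b.2.1]) (fun e => ?_)
    ((key a (by rintro rfl; simp at hab)).add_of_ne (key b (by rintro rfl; simp at hab))
      (by simp [hab, alt_zero hA a.2.2, b.2.2, hA.self_eq_zero]) (-1))
  simpa [hab, hA.self_eq_zero] using congrArg (B a) e

theorem not_all_full (hq : 4 ≤ Nat.card F) (h2 : (2 : F) = 0) (p : SPt B) (hd : 1 < Nat.card p.P)
    (h : ∀ x, x ≠ 0 → SFull hA ω x ∧ ¬ SX hA ω x) : False := by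
  have hA' : ∀ x y : V, x ≠ 0 → B x y = 0 → (∀ c : F, c • x ≠ y) → ∀ α γ, γ ≠ 0 →
      (tv hA x α * tv hA y γ) • ω = ω → ∀ β, (spE hA x (β • y) * tv hA x (β ^ 2 / γ)) • ω = ω := by
    intro x y hx hxy hi α γ hγ e β
    obtain ⟨g, g1, g2, g3⟩ := (h x hx).1.move hB hxy hi (β / γ)
    have : (g * (tv hA x α * tv hA y γ) * g⁻¹) • ω = ω := by
      rw [mul_smul, mul_smul, inv_smul_eq_iff.2 g1.symm, e, g1]
    rw [← conj_mul, conj_tv, conj_tv, g2, g3, tv_line hA hxy, ← mul_assoc, mul_smul,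
      ← eq_inv_smul_iff, inv_smul_eq_iff.2 e.symm] at this
    rwa [show γ * (β / γ) = β by field_simp, show γ * (β / γ) ^ 2 = β ^ 2 / γ by field_simp] at this
  have hC : ∀ x y : V, y ≠ 0 → B x y = 0 → ∀ (β : F) t, (spE hA x (β • y) * tv hA x t) • ω = ω →
      ∃ g, (tv hA y g * tv hA x t) • ω = ω := by
    intro x y hy hxy β t e
    obtain ⟨g, hg⟩ := (h y hy).1 (β • x) (by simp [alt_zero hA hxy])
    rw [spE_symm hA (by simp [alt_zero hA hxy]), spE_smul hA hxy] at hg
    exact ⟨-g, by rw [tv_neg]; exact fix_sub e hg⟩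
  have hB' : ∀ x y : V, B x y = 0 → (∀ c : F, c • x ≠ y) → (∀ c : F, c • y ≠ x) → ∀ α γ,
      (tv hA x α * tv hA y γ) • ω = ω → γ = 0 := by
    intro x y hxy hi hi' α γ e
    have hx : x ≠ 0 := fun e => hi' 0 (by simp [e])
    have hy : y ≠ 0 := fun e => hi 0 (by simp [e])
    by_contra hγ
    have key : ∀ β, β ≠ 0 → ∀ δ, (spE hA y (δ • x) * tv hA y (δ ^ 2 / (β ^ 2 / γ))) • ω = ω := by
      intro β hβ
      obtain ⟨g, hg⟩ := hC x y hy hxy _ _ (hA' x y hx hxy hi α γ hγ e β)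
      exact hA' y x hy (alt_zero hA hxy) hi' _ _ (by simp [hβ, hγ]) hg
    obtain ⟨ν, ν0, ν1⟩ := Classical.SpMat.exists_sq_ne_one (F := F) hq
    haveI : CharP F 2 := CharTwo.of_one_ne_zero_of_two_eq_zero one_ne_zero h2
    refine (h y hy).2 fun c => ?_
    obtain ⟨δ, hδ⟩ := FiniteField.isSquare_of_char_two (ringChar.eq F 2) (c * ν ^ 2 / (γ * (ν ^ 2 - 1)))
    have := fix_sub (key 1 one_ne_zero δ) (key ν ν0 δ)
    rwa [← tv_neg, ← tv_add, sq δ, ← hδ, show -(c * ν ^ 2 / (γ * (ν ^ 2 - 1)) / (ν ^ 2 / γ)) +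
      c * ν ^ 2 / (γ * (ν ^ 2 - 1)) / (1 ^ 2 / γ) = c by
        field_simp [sub_ne_zero.2 ν1]; ring] at this
  have ind : ∀ y : p.P, y ≠ 0 → (∀ c : F, c • y.1 ≠ p.x) ∧ ∀ c : F, c • p.x ≠ y := fun y hy =>
    ⟨fun c e => by simpa [y.2.2, alt_swap hA p.hx] using congrArg (B p.x') e, fun c e => by
      have : c = 0 := by simpa [y.2.2, alt_swap hA p.hx] using congrArg (B p.x') e
      exact hy (Subtype.ext (by simp [← e, this]))⟩
  have key : ∀ y : p.P, y ≠ 0 → spE hA p.x y • ω = ω := by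
    intro y hy
    obtain ⟨t, ht⟩ := (h _ p.x_ne).1 y y.2.1
    obtain ⟨g, hg⟩ := hC p.x y (by simpa) y.2.1 1 t (by simpa)
    simpa [hB' _ _ (alt_zero hA y.2.1) (ind y hy).1 (ind y hy).2 _ _ hg, tv_zero] using ht
  obtain ⟨a, b, hab⟩ := p.exists_pair hB hA hd
  have ha : a ≠ 0 := by rintro rfl; simp at hab
  have e : _ • ω = _ • ω := congrArg (· • ω) (spE_mul hA a.2.1 b.2.1)
  rw [mul_smul, key b (by rintro rfl; simp at hab), key a ha, mul_smul, ← inv_smul_eq_iff,
    ← Submodule.coe_add, inv_smul_eq_iff.2 (key (a + b) fun e => by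
      simpa [hab, hA.self_eq_zero] using congrArg (fun y : p.P => B a y) e).symm] at e
  have := hB' _ _ (alt_zero hA a.2.1) (ind a ha).1 (ind a ha).2 0 _ (by rw [tv_zero, one_mul, ← e])
  rw [alt_swap hA hab] at this
  simp at this

end

theorem card_transport {G X Ω : Type*} [Group G] [MulAction G X] [MulAction G Ω] [Finite X]
    [MulAction.IsPretransitive G Ω] (r : X → Ω → Prop) (hr : ∀ (g : G) x ω, r x ω → r (g • x) (g • ω))
    (ω ω' : Ω) : Nat.card {x // r x ω} ≤ Nat.card {x // r x ω'} := by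
  obtain ⟨g, rfl⟩ := MulAction.exists_smul_eq G ω ω'
  exact Nat.card_le_card_of_injective (fun x => ⟨g • x.1, hr g _ _ x.2⟩)
    fun x y e => Subtype.ext (by simpa using e)

section main
variable [Finite F] [FiniteDimensional F V] [Finite Ω] (hA : B.IsAlt) (hB : B.Nondegenerate)
  (hq : 3 ≤ Nat.card F) (hn : (Nat.card F - 1) * Nat.card Ω + 1 < Nat.card V)
  (hd : ∀ p : SPt B, 1 < Nat.card p.P)
  (h3 : ∀ p : SPt B, 4 ≤ Nat.card F ∨ Nat.card F ^ 2 < Nat.card p.P)
include hB hq hn hd h3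

theorem SPt.norm' (p : SPt B) {ω : Ω} (hω : ¬ SX hA ω p.x) :
    ∃ k ∈ (p.heis hA).Q,
      (∀ a ∈ (p.heis hA).A ω, SX hA (k • ω) a.1 ∧ ∀ c : F, spE hA p.x (c • a.1) • k • ω = k • ω) ∧
      ((∀ a : p.P, SX hA (k • ω) a.1) ∨ ∃ w ∈ (p.heis hA).A ω, w ≠ 0 ∧
        ∀ a : p.P, B w a = 0 → ∃ c : F, c • w = a) := by
  have key : ∀ p : SPt B, ¬ SX hA ω p.x → (p.heis hA).A ω ≠ ⊤ → _ := fun p h h' =>
    p.norm hA hB hq (by rw [mul_comm _ (Nat.card p.P), ← p.card_P hA]; exact hn) (mt p.R_top.1 h)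
      (h3 p) h'
  suffices hT : (p.heis hA).A ω ≠ ⊤ by
    obtain ⟨_, ⟨⟨k, hk⟩, rfl⟩, h⟩ := key p hω hT
    exact ⟨k, hk, h⟩
  intro hT
  have h0 := fun w => (p.full hT).eq_zero (w := w) hB hq hd hω
  obtain ⟨a, b, hab⟩ := p.exists_pair hB hA (hd p)
  have h2 : (2 : F) = 0 := by
    by_contra h2
    refine hω fun c => ?_
    have := (p.heis hA).iso (ω := ω) (a := b) (b := (c / 2) • a) (hT.ge trivial) (hT.ge trivial)
    rwa [SPt.heis_β, show 2 * B ((c / 2) • a : p.P) b = c by simp [hab]; field_simp] at this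
  refine not_all_full (hA := hA) (ω := ω) hB (four_le_of_two h2 hq) h2 p (hd p) fun x hx => ?_
  refine ⟨?_, fun h => hx (h0 x h)⟩
  obtain ⟨r, rfl, -⟩ := exists_spt hA hB (x := x) (y := 0) (by simpa using hx.symm) (by simp)
  refine r.full (by_contra fun hT => ?_)
  obtain ⟨_, ⟨k, rfl⟩, h4, h5⟩ := key r (fun h => hx (h0 _ h)) hT
  obtain ⟨w, hw, hw'⟩ : ∃ w : r.P, w ≠ 0 ∧ SX hA (k.1 • ω) w.1 := by
    rcases h5 with h | ⟨w, h, h', -⟩
    · obtain ⟨a, b, hab⟩ := r.exists_pair hB hA (hd r)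
      exact ⟨a, by rintro rfl; simp at hab, h a⟩
    · exact ⟨w, h', (h4 w h).1⟩
  have := hw'.map k.1⁻¹
  rw [inv_smul_smul] at this
  simpa [hw] using h0 _ this

theorem SX.add {ω : Ω} {y y' : V} (h : SX hA ω y) (h' : SX hA ω y') : SX hA ω (y + y') := by
  by_cases h0 : B y y' = 0
  swap
  · simpa using h.add_of_ne h' h0 1
  by_contra hc
  obtain ⟨p, e, hy⟩ := exists_spt hA hB (x := y + y') (y := y) (fun c e => hc (e ▸ h.smul c))
    (by simp [alt_zero hA h0, hA.self_eq_zero])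
  rw [← e] at hc
  have h1 : SX hA ω (y + (-1 : F) • p.x) := by simpa [e] using h'.smul (-1)
  obtain ⟨k, hk, h2, -⟩ := p.norm' hA hB hq hn hd h3 hc
  obtain ⟨h4, h5⟩ := h2 ⟨y, hy⟩ ⟨_, by simpa [SPt.heis] using h.line hy.1 h1 (-1)⟩
  obtain ⟨k1, k2⟩ := p.Q_apply hA hk
  obtain ⟨γ, hγ⟩ := k2 y hy.1
  have key : ∀ β : F, SX hA (k • ω) (y + β • p.x) → β = 0 := by
    intro β hβ
    by_contra hβ0
    refine hc fun c => ?_
    have := h4.line hy.1 hβ (c / β ^ 2)
    rw [mul_smul, ← eq_inv_smul_iff, inv_smul_eq_iff.2 (h5 _).symm, div_mul_cancel₀ _ (pow_ne_zero 2 hβ0),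
      ← mul_smul] at this
    erw [(p.heis hA).z_comm_Q hk] at this
    rwa [mul_smul, smul_left_cancel_iff] at this
  have e1 := key γ (hγ ▸ h.map k)
  have e2 := key (γ - 1) (by
    convert h1.map k using 1
    simp [hγ, k1, sub_eq_add_neg, add_assoc, add_smul])
  simp [e1] at e2

include hA in
theorem sp_main [MulAction.IsPretransitive (SG B) Ω] (hnt : ∃ (g : SG B) (ω : Ω), g • ω ≠ ω) :
    False := by
  haveI : Finite V := Module.finite_of_finite F
  have hV := card_ne_zero_add (p := fun _ : V => True) trivial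
  rw [Nat.card_congr (Equiv.subtypeUnivEquiv fun _ : V => trivial)] at hV
  have hF := card_ne_zero_add (p := fun _ : F => True) trivial
  rw [Nat.card_congr (Equiv.subtypeUnivEquiv fun _ : F => trivial)] at hF
  simp only [and_true] at hV hF
  obtain ⟨g₀, ω, hg⟩ := hnt
  obtain ⟨x₁, hx₁⟩ : ∃ x, ¬ SX hA ω x := by
    by_contra! h
    exact hg ((eq_top_of_tv hB hA (MulAction.stabilizer _ ω) h).ge (Subgroup.mem_top g₀))
  have spt : ∀ x, x ≠ 0 → ∃ p : SPt B, p.x = x := fun x hx =>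
    (exists_spt hA hB (x := x) (y := 0) (by simpa using hx.symm) (by simp)).imp fun _ h => h.1
  obtain ⟨u, hu0, hu⟩ : ∃ u, u ≠ 0 ∧ SX hA ω u := by
    obtain ⟨r, rfl⟩ := spt x₁ fun e => hx₁ (e ▸ sx_zero)
    obtain ⟨k, -, h4, h5⟩ := r.norm' hA hB hq hn hd h3 hx₁
    obtain ⟨w, hw, hw'⟩ : ∃ w : r.P, w ≠ 0 ∧ SX hA (k • ω) w.1 := by
      rcases h5 with h | ⟨w, h, h', -⟩
      · obtain ⟨a, b, hab⟩ := r.exists_pair hB hA (hd r)
        exact ⟨a, by rintro rfl; simp at hab, h a⟩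
      · exact ⟨w, h', (h4 w h).1⟩
    exact ⟨k⁻¹.1 w, by simpa using hw, by simpa using hw'.map k⁻¹⟩
  obtain ⟨x, hx, hxu⟩ : ∃ x, ¬ SX hA ω x ∧ B x u ≠ 0 := by
    obtain ⟨y, hy⟩ := exists_one hB hA.isRefl hu0
    by_contra! h
    have h1 : SX hA ω y := by_contra fun h' => by simpa [alt_swap hA hy] using h y h'
    have h2 : SX hA ω (x₁ + y) := by_contra fun h' => by
      simpa [alt_swap hA hy, h x₁ hx₁] using h _ h'
    exact hx₁ (by simpa using h2.add hA hB hq hn hd h3 (h1.smul (-1)))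
  obtain ⟨p, rfl⟩ := spt x fun e => hx (e ▸ sx_zero)
  obtain ⟨k, hk, h4, h5⟩ := p.norm' hA hB hq hn hd h3 hx
  obtain ⟨k1, -⟩ := p.Q_apply hA hk
  replace hx : ¬ SX hA (k • ω) p.x := fun h => hx (by
    have := h.map k⁻¹
    rwa [inv_smul_smul, ← k1, SG.inv_apply] at this)
  replace hu := hu.map k
  rw [← SG.map k, k1] at hxu
  generalize k.1 u = u at hu hxu
  generalize k • ω = ω' at *
  let X : Submodule F V :=
    { carrier := {v | SX hA ω' v}
      add_mem' := fun h h' => h.add hA hB hq hn hd h3 h'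
      zero_mem' := sx_zero
      smul_mem' := fun c v h => h.smul c }
  have cov : ∀ (P : V → Ω → Prop) (w : V) (j m : ℕ), (∀ (g : SG B) x ω, P x ω → P (g • x) (g • ω)) →
      w ≠ 0 → j ≤ Nat.card {x | P w x} → Nat.card {v // v ≠ 0 ∧ P v ω'} ≤ m →
      (Nat.card V - 1) * j ≤ Nat.card Ω * m := by
    intro P w j m hP hw hj hm
    have := cover_count (G := SG B) (Set.univ : Set Ω) {v | v ≠ 0} P (w := w) (m := m) (fun v hv =>
      (witt_one hB hA hw hv).imp fun g hg y _ h => ⟨trivial, hg ▸ hP g _ _ h⟩) fun y _ =>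
      (card_transport (G := SG B) (fun v y => v ≠ 0 ∧ P v y) (fun g v y h =>
        ⟨by simpa [SG.smul_def] using h.1, hP g _ _ h.2⟩) y ω').trans hm
    simp only [Set.mem_univ, true_and, Nat.card_univ] at this
    rw [← hV, Nat.add_sub_cancel]
    exact (Nat.mul_le_mul_left _ hj).trans this
  rcases h5 with h | ⟨w, hw, hw0, h⟩
  · obtain ⟨y, y1, y2⟩ := exists_orth_one hB hA.isRefl X (u := p.x) hx
    have key : ∀ v, (∀ u, SX hA ω' u → B u v = 0) → B p.x v = 0 → v = 0 := by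
      intro v hv h0
      obtain ⟨a, e⟩ := p.decomp hA v
      have ha : a = 0 := by_contra fun ha => by
        obtain ⟨b, hb⟩ := p.one hA hB ha
        have := hv b (h b)
        rw [e] at this
        simp [alt_swap hA hb, alt_zero hA b.2.1, h0] at this
      have := hv u hu
      rw [e] at this ⊢
      simp [ha, h0, alt_swap hA rfl (x := p.x) (y := u), hxu] at this ⊢
      exact Or.inl this
    have := cov (fun v y => ∀ u, SX hA y u → B u v = 0) y 1 (Nat.card F - 1) (fun g v y h u hu => by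
        rw [← SG.apply_inv g u, SG.smul_def, SG.map]
        exact h _ (by simpa using hu.map g⁻¹)) (by rintro rfl; simp at y2)
      (Nat.card_pos_iff.2 ⟨⟨ω', y1⟩, inferInstance⟩) (by
        rw [← hF, Nat.add_sub_cancel]
        exact Nat.card_le_card_of_injective (fun v => ⟨B p.x v.1, fun e => v.2.1 (key _ v.2.2 e)⟩)
          fun v v' e => Subtype.ext (sub_eq_zero.1 (key _ (fun u hu => by simp [v.2.2 u hu, v'.2.2 u hu])
            (by simpa [sub_eq_zero] using e))))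
    rw [mul_comm (Nat.card Ω)] at this
    omega
  obtain ⟨h6, h7⟩ := h4 w hw
  have hwx : ∀ v, SX hA ω' v → B w v = 0 := fun v hv => by
    have := X.sub_mem (X.sub_mem (hv.fix (h7 1)) hv) (h6.smul (B v p.x))
    rw [one_smul, spE_apply hA w.2.1, show v + B v p.x • w.1 + B v w • p.x - v - B v p.x • w.1 =
      B v w • p.x by abel] at this
    exact alt_zero hA (by_contra fun h0 => hx (SX.of_smul this h0))
  obtain ⟨w', hw'⟩ := p.one hA hB hw0
  have hX : Nat.card {v // SX hA ω' v} ≤ Nat.card F ^ 2 := by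
    rw [sq, ← Nat.card_prod]
    refine Nat.card_le_card_of_injective (fun v => (B p.x v.1, B v.1 w')) fun v v' e => ?_
    obtain ⟨e1, e2⟩ := Prod.ext_iff.1 e
    have h8 := X.sub_mem v.2 v'.2
    refine Subtype.ext (sub_eq_zero.1 ?_)
    replace e1 : B p.x (v.1 - v'.1) = 0 := by simpa [sub_eq_zero] using e1
    replace e2 : B (v.1 - v'.1) w' = 0 := by simpa [sub_eq_zero] using e2
    generalize v.1 - v'.1 = z at *
    obtain ⟨a, e⟩ := p.decomp hA z
    have h9 := hwx z h8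
    generalize B z p.x' = c at e
    rw [e1, zero_smul, add_zero] at e
    subst e
    obtain ⟨d, rfl⟩ := h a (by simpa [alt_zero hA w.2.1] using h9)
    have : d = 0 := by simpa [hw', w'.2.1] using e2
    simp only [this, zero_smul, Submodule.coe_zero, zero_add] at h8 ⊢
    exact by_contra fun h0 => hx (SX.of_smul h8 (left_ne_zero_of_smul h0))
  obtain ⟨r, hr⟩ := spt w (by simpa)
  obtain ⟨a, ha⟩ := r.decomp hA u
  rw [hr, hwx u hu, zero_smul, add_zero] at ha
  have ha0 : a ≠ 0 := by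
    rintro rfl
    rw [ha] at hxu
    simp [w.2.1] at hxu
  have hP : Nat.card r.P = Nat.card F ^ 2 := by
    have := (p.card_P hA).symm.trans (r.card_P hA)
    rw [← Nat.eq_of_mul_eq_mul_right (pow_pos (by omega) 2) this]
    exact le_antisymm (p.card_le_sq hA hB hw0 h) (p.sq_le_card hA hB hw0)
  have h8 := cover_count (G := SG B) {y : Ω | SX hA y w.1} {b : r.P | b ≠ 0} (fun b y => SX hA y b.1)
    (w := a) (m := Nat.card F - 1) (fun b hb => by
      obtain ⟨g, g1, -, g2⟩ := r.witt₀ hA hB ha0 hb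
      exact ⟨g, fun y h h' => ⟨by simpa [← hr, g1] using SX.map h g, g2 ▸ h'.map g⟩⟩) fun y hy => by
      have e1 := card_ne_zero_add (p := fun b : r.P => SX hA y b.1) sx_zero
      have e2 := (card_transport (G := SG B) (fun v y => SX hA y v) (fun g v y h => h.map g) y ω').trans hX
      have e3 : Nat.card (F × {b : r.P // SX hA y b.1}) ≤ Nat.card {v // SX hA y v} :=
        Nat.card_le_card_of_injective (fun c => ⟨c.2.1.1 + c.1 • w.1,
          c.2.2.add hA hB hq hn hd h3 (SX.smul hy _)⟩) fun c d e => by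
          have e := congrArg Subtype.val e
          have e' := congrArg (B r.x') e
          simp only [← hr, map_add, map_smul, c.2.1.2.2, d.2.1.2.2, alt_swap hA r.hx, smul_eq_mul,
            zero_add, mul_neg, mul_one, neg_inj] at e'
          simp only [e', add_left_inj] at e
          exact Prod.ext e' (Subtype.ext (Subtype.ext e))
      rw [Nat.card_prod] at e3
      have := Nat.le_of_mul_le_mul_left (e3.trans (e2.trans_eq (sq _))) (by omega)
      exact Nat.le_sub_one_of_lt (Nat.lt_of_succ_le (e1.le.trans this))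
  have h9 := card_ne_zero_add (p := fun _ : r.P => True) trivial
  rw [Nat.card_congr (Equiv.subtypeUnivEquiv fun _ : r.P => trivial), hP] at h9
  simp only [and_true] at h9
  have h10 : 1 ≤ Nat.card {y | y ∈ {y : Ω | SX hA y w.1} ∧ SX hA y a.1} :=
    Nat.card_pos_iff.2 ⟨⟨ω', h6, by
      rw [eq_sub_of_add_eq ha.symm]; exact X.sub_mem hu (h6.smul (B u r.x'))⟩, inferInstance⟩
  have h11 := cov (fun v y => SX hA y v) w (Nat.card F + 1) (Nat.card F ^ 2 - 1)
    (fun g v y h => h.map g) (by simpa) (by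
      have := (Nat.le_mul_of_pos_right _ h10).trans h8
      change Nat.card {b : r.P // b ≠ 0} ≤ _ at this
      refine Nat.le_of_mul_le_mul_right (le_trans ?_ this) (by omega)
      rw [← Nat.sq_sub_sq _ 1]; omega) (by
      have := card_ne_zero_add (p := fun v => SX hA ω' v) sx_zero
      omega)
  rw [show Nat.card F ^ 2 - 1 = (Nat.card F - 1) * (Nat.card F + 1) by
    rw [mul_comm, ← Nat.sq_sub_sq, one_pow], ← mul_assoc, mul_comm (Nat.card Ω)] at h11
  have := Nat.le_of_mul_le_mul_right h11 (by omega)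
  omega

end main

end Cfsg.Agent.MinI
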