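import Cfsg.Agent.MinI.SpT

/-!
Normal form of the stabiliser at a bad point; the subspace of good points.
-/

set_option autoImplicit false

namespace Cfsg.Agent.MinI

open Module Cfsg.Agent.Classical.SpWitt

variable {F V : Type*} [Field F] [AddCommGroup V] [Module F V] {B : LinearMap.BilinForm F V}
  {Ω : Type*} [MulAction (SG B) Ω]

/-- All transvections with centre `v` fix `ω`. -/
def SX (hA : B.IsAlt) (ω : Ω) (v : V) : Prop := ∀ c, tv hA v c • ω = ω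

section
variable {hA : B.IsAlt} {ω : Ω} {v : V}

theorem SX.smul (h : SX hA ω v) (a : F) : SX hA ω (a • v) := fun c => by rw [tv_smul]; exact h _

theorem SX.of_smul {a : F} (h : SX hA ω (a • v)) (ha : a ≠ 0) : SX hA ω v := by
  simpa [ha] using h.smul a⁻¹

theorem SX.map (h : SX hA ω v) (g : SG B) : SX hA (g • ω) (g.1 v) := fun c => by
  rw [← conj_tv, ← mul_smul, inv_mul_cancel_right, mul_smul, h]

theorem SX.fix (h : SX hA ω v) {g : SG B} (hg : g • ω = ω) : SX hA ω (g.1 v) := hg ▸ h.map g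

theorem sx_zero : SX hA ω (0 : V) := fun c => by rw [tv_zero_vec, one_smul]

theorem SX.add_of_ne {w : V} (h : SX hA ω v) (h' : SX hA ω w) (hvw : B v w ≠ 0) (a : F) :
    SX hA ω (v + a • w) := by
  simpa [tv_apply, hvw] using h.fix (h' (a / B v w))

theorem SPt.R_top (p : SPt B) : (p.heis hA).R ω = ⊤ ↔ SX hA ω p.x :=
  ⟨fun h c => h.ge (AddSubgroup.mem_top c), fun h => eq_top_iff.2 fun c _ => h c⟩

theorem SX.line {x y : V} {μ : F} (h : B x y = 0) (hy : SX hA ω y) (hz : SX hA ω (y + μ • x))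
    (c : F) : (spE hA x ((c * μ) • y) * tv hA x (c * μ ^ 2)) • ω = ω := by
  have := hz c
  rwa [tv_line hA h, mul_smul, ← eq_inv_smul_iff, ← tv_neg, hy] at this

end

namespace SPt

variable (p : SPt B) (hA : B.IsAlt)

theorem Q_apply {g : SG B} (hg : g ∈ (p.heis hA).Q) :
    g.1 p.x = p.x ∧ ∀ y, B p.x y = 0 → ∃ c : F, g.1 y = y + c • p.x := by
  obtain ⟨a, t, rfl⟩ := hg
  refine ⟨?_, fun y hy => ⟨B y a, ?_⟩⟩
  · simp [heis, tv_apply, spE_apply hA a.2.1, hA.self_eq_zero, a.2.1]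
  · simp [heis, tv_apply, spE_apply hA a.2.1, alt_zero hA hy]

include hA in
theorem comm_diag {s g : SG B} {l : F} (s1 : s.1 p.x = l • p.x) (s2 : s.1 p.x' = l⁻¹ • p.x')
    (s3 : ∀ a : p.P, s.1 a = a) (h1 : g.1 p.x = p.x) (h2 : g.1 p.x' = p.x') : g * s = s * g :=
  SG.ext fun u => by
    obtain ⟨a, e⟩ := p.decomp hA u
    rw [e]
    simp [s1, s2, s3, h1, h2, s3 ⟨_, (p.map_mem (g := g) one_ne_zero (by simpa) (by simpa) a).1⟩]

variable [Finite F] [FiniteDimensional F V] [Finite Ω] (hB : B.Nondegenerate) (hq : 3 ≤ Nat.card F)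
  (hn : (Nat.card F - 1) * Nat.card Ω + 1 < Nat.card F ^ 2 * Nat.card p.P)
  {ω : Ω} (hω : (p.heis hA).R ω ≠ ⊤)
include hB hq hn hω

theorem norm (h3 : 4 ≤ Nat.card F ∨ Nat.card F ^ 2 < Nat.card p.P) (hT : (p.heis hA).A ω ≠ ⊤) :
    ∃ ω' ∈ MulAction.orbit (p.heis hA).Q ω,
      (∀ a ∈ (p.heis hA).A ω, SX hA ω' a.1 ∧ ∀ c : F, spE hA p.x (c • a.1) • ω' = ω') ∧
      ((∀ a : p.P, SX hA ω' a.1) ∨ ∃ w ∈ (p.heis hA).A ω, w ≠ 0 ∧
        ∀ a : p.P, B w a = 0 → ∃ c : F, c • w = a) := by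
  obtain ⟨χ, hχ⟩ := exists_nontriv_char F
  obtain ⟨w, hD, hw⟩ : ∃ w ∈ p.D hA χ ω, w ≠ 0 := by
    by_contra! h
    exact hT (eq_top_iff.2 fun a _ => (p.mem_A_iff hA hB hχ).2 fun d hd => by simp [h d hd])
  have cs : (p.D hA χ ω = ⊤ ∧ ∀ a, a ∈ (p.heis hA).A ω ↔ a = 0) ∨
      ((∀ a, a ∈ (p.heis hA).A ω ↔ B w a = 0) ∧ (∀ a : p.P, B w a = 0 → ∃ c : F, c • w = a) ∧
        ∀ a, a ∈ p.D hA χ ω ↔ B w a = 0) := by
    by_cases h : p.D hA χ ω = ⊤
    · refine Or.inl ⟨h, fun a => ⟨fun ha => by_contra fun h0 => ?_, fun e => e ▸ zero_mem _⟩⟩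
      obtain ⟨d, hd⟩ := p.b_nd hA hB hχ a h0
      exact hd ((p.mem_A_iff hA hB hχ).1 ha d (h ▸ trivial))
    · obtain ⟨h1, h2⟩ := p.beta hA hB hχ hq hn hω hw hD h
      refine Or.inr ⟨h1, h2, fun a => ⟨fun ha => ?_, fun ha b hb => ?_⟩⟩
      · obtain ⟨c, rfl⟩ := p.D_le hA hB hχ hq hn hω hw hD h ha
        simp [hA.self_eq_zero]
      · obtain ⟨c, rfl⟩ := h2 a ha
        simp [b_apply, alt_zero hA ((h1 b).1 hb)]
  have hDs : ∀ (c : F), ∀ d ∈ p.D hA χ ω, c • d ∈ p.D hA χ ω := fun c d hd => by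
    rcases cs with h | h
    · exact h.1 ▸ trivial
    · rw [h.2.2] at hd ⊢; simp [hd]
  have hAD : ∀ a ∈ (p.heis hA).A ω, a ∈ p.D hA χ ω := fun a ha => by
    rcases cs with h | h
    · exact h.1 ▸ trivial
    · rwa [h.2.2, ← h.1]
  obtain ⟨l, l0, l1, lR⟩ : ∃ l : F, l ≠ 0 ∧ l ≠ 1 ∧
      ∀ t, l ^ 2 * t ∈ (p.heis hA).R ω ↔ t ∈ (p.heis hA).R ω := by
    by_cases h2 : (2 : F) = 0
    · obtain ⟨l, l0, l1⟩ := exists_ne_two hq (0 : F) 1
      exact ⟨l, l0, l1, by simp [(p.two_count hA hB hχ hq hn hω h2 hw hD).1, l0]⟩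
    · exact ⟨-1, by simp, fun e => h2 (by linear_combination -e), by simp⟩
  obtain ⟨s, s1, s2, s3⟩ := p.exists_diag hA l0
  have l2 : l - 1 ≠ 0 := sub_ne_zero.2 l1
  obtain ⟨ω', ho, hf⟩ := (p.heis hA).fix_mod (s := s) (fun t => ⟨_, p.conj_z hA s1 t⟩)
    (θ := fun a => l • a) (fun a => ⟨0, by
      rw [Heis.z_zero, mul_one]
      show s * spE hA _ _ * _ = spE hA _ _
      rw [spE_conj, s1, s3, spE_smul hA a.2.1]; rfl⟩) (ω := ω)
    (fun w => ⟨-(l - 1)⁻¹ • w, by match_scalars; field_simp; ring⟩) (fun a ha => by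
      rw [show l • a - a = (l - 1) • a by module] at ha
      rcases cs with h | h
      · simpa [h.2, l2] using ha
      · simpa [h.1, l2] using ha)
    (p.uniq hA hB hχ hq hn hω hw hD (p.act_T hA l0 s1 s2 lR ⟨rfl, rfl⟩)
      (((p.act hA l0 s1 s2 χ ω).2.2 (l • w) w (by simp [s3])).2 (hDs l w hD)))
  obtain ⟨k, hk⟩ := id ho
  have hR : (p.heis hA).R ω' = (p.heis hA).R ω := by rw [← hk, Heis.R_smul]
  have hA' : (p.heis hA).A ω' = (p.heis hA).A ω := by rw [← hk, Heis.A_smul]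
  have hD' : p.D hA χ ω' = p.D hA χ ω := by rw [D, hA', D]
  have cz : ∀ g : SG B, g.1 p.x = p.x → ∀ t, g * (p.heis hA).z t * g⁻¹ = (p.heis hA).z t :=
    fun g h t => by simpa using p.conj_z hA (g := g) (l := 1) (by simpa) t
  have hF : ∀ g : SG B, g.1 p.x = p.x → g.1 p.x' = p.x' → ∀ a c : p.P, c ≠ 0 → a ∈ p.D hA χ ω →
      c ∈ p.D hA χ ω → g.1 a = c → ∃ t, g • ω' = (p.heis hA).z t • ω' :=
    fun g h1 h2 a c hc ha hc' e => hf g (p.comm_diag hA s1 s2 s3 h1 h2) (cz g h1)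
      (p.inv hA hB hχ hq hn (hR ▸ hω) h1 h2 hc (hD' ▸ ha) (hD' ▸ hc') e).1
  have tx : ∀ (y : p.P) c, (tv hA y.1 c).1 p.x = p.x := fun y c => by simp [tv_apply, y.2.1]
  have hT1 : ∀ y ∈ p.D hA χ ω, y ≠ 0 → ∀ μ, ∃ t, tv hA y.1 μ • ω' = (p.heis hA).z t • ω' :=
    fun y hy h0 μ => hF _ (tx y μ) (by simp [tv_apply, y.2.2]) y y h0 hy hy
      (by simp [tv_apply, hA.self_eq_zero])
  have hT2 : ∀ y ∈ p.D hA χ ω, ∀ y' ∈ p.D hA χ ω, y ≠ 0 → y' ≠ 0 → ∀ μ t,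
      tv hA y.1 μ • ω' = (p.heis hA).z t • ω' → tv hA y'.1 μ • ω' = (p.heis hA).z t • ω' := by
    intro y hy y' hy' h0 h0' μ t h
    obtain ⟨g, g1, g2, g3⟩ := p.witt₀ hA hB h0 h0'
    obtain ⟨d, hd⟩ := hF g g1 g2 y y' h0' hy hy' g3
    rw [← g3, ← conj_tv]
    exact (p.heis hA).conj_smul (cz _ (tx y μ)) (cz g g1) h hd
  have K : ∀ y ∈ p.D hA χ ω, SX hA ω' y.1 := by
    intro y hy
    rcases eq_or_ne y 0 with rfl | h0
    · exact sx_zero
    by_cases h4 : 4 ≤ Nat.card F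
    · obtain ⟨ν, ν0, ν1⟩ := Classical.SpMat.exists_sq_ne_one (F := F) h4
      intro c
      obtain ⟨t, ht⟩ := hT1 y hy h0 (c / (ν ^ 2 - 1))
      have := hT2 y hy _ (hDs ν y hy) h0 (smul_ne_zero ν0 h0) _ _ ht
      rw [← ht, Submodule.coe_smul, tv_smul, show ν ^ 2 * (c / (ν ^ 2 - 1)) = c / (ν ^ 2 - 1) + c by
        field_simp [sub_ne_zero.2 ν1]; ring, tv_add, mul_smul] at this
      exact (smul_left_cancel_iff _).1 this
    have hM := h3.resolve_left h4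
    have hD1 := (cs.resolve_right fun h => (p.card_le_sq hA hB hw h.2.1).not_gt hM).1
    obtain ⟨y', y1, y2⟩ : ∃ a : p.P, B y a = 0 ∧ ∀ c : F, c • y ≠ a := by
      by_contra! h
      exact (p.card_le_sq hA hB h0 h).not_gt hM
    have h2 : (2 : F) ≠ 0 := fun h => h4 (four_le_of_two h hq)
    intro c
    obtain ⟨t, ht⟩ := hT1 y hy h0 (c / 2)
    have ha : ∀ v : p.P, v ≠ 0 → tv hA v.1 (c / 2) • ω' = (p.heis hA).z t • ω' :=
      fun v hv => hT2 y hy v (hD1 ▸ trivial) h0 hv _ _ ht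
    have hb : ∀ u v : p.P, u ≠ 0 → v ≠ 0 → (tv hA u.1 (c / 2) * tv hA v.1 (c / 2)) • ω' =
        (p.heis hA).z (t + t) • ω' := fun u v hu hv => by
      rw [mul_smul, ha v hv, ← mul_smul, mul_inv_eq_iff_eq_mul.1 (cz _ (tx u _) t), mul_smul,
        ha u hu, ← mul_smul, ← Heis.z_add]
    have n1 : y' ≠ 0 := fun e => y2 0 (by simp [e])
    have e1 := hb (y + y') (y - y') (fun e => y2 (-1) (by simpa [neg_eq_iff_add_eq_zero] using e))
      (fun e => y2 1 (by simpa [sub_eq_zero] using e))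
    have e2 : tv hA (y + y' : p.P).1 (c / 2) * tv hA (y - y' : p.P).1 (c / 2) =
        tv hA y.1 (c / 2) * tv hA y.1 (c / 2) * (tv hA y'.1 (c / 2) * tv hA y'.1 (c / 2)) :=
      SG.ext fun u => by
        simp only [SG.mul_apply, tv_apply, Submodule.coe_add, Submodule.coe_sub, map_add, map_sub,
          map_smul, LinearMap.add_apply, LinearMap.sub_apply, LinearMap.smul_apply, y1,
          alt_zero hA y1, hA.self_eq_zero, smul_eq_mul]
        module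
    rw [e2, mul_smul, hb y' y' n1 n1, ← mul_smul,
      mul_inv_eq_iff_eq_mul.1 (cz _ (by rw [SG.mul_apply, tx, tx]) _), mul_smul,
      smul_left_cancel_iff, ← tv_add, show c / 2 + c / 2 = c by field_simp; ring] at e1
    exact e1
  refine ⟨ω', ho, fun a ha => ⟨K a (hAD a ha), fun c => ?_⟩, cs.imp (fun h a => K a (h.1.ge trivial))
    fun h => ⟨w, by simp [h.1, hA.self_eq_zero], hw, h.2.1⟩⟩
  have E0 : spE hA p.x 0 = 1 := SG.ext fun u => by simp [spE_apply hA]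
  rcases eq_or_ne a 0 with rfl | h0
  · simp [E0]
  obtain ⟨τ, hτ⟩ := hA' ▸ ha
  have key : ∀ ν : F, ν ≠ 0 → (spE hA p.x (ν • a.1) * tv hA p.x τ) • ω' = ω' := by
    intro ν hν
    obtain ⟨g, g1, g2, g3⟩ := p.witt₀ hA hB h0 (smul_ne_zero hν h0)
    obtain ⟨d, hd⟩ := hF g g1 g2 a _ (smul_ne_zero hν h0) (hAD a ha) (hDs ν a (hAD a ha)) g3
    have := (p.heis hA).conj_smul (c := 0) (cz _ (p.Q_apply hA ⟨a, τ, rfl⟩).1) (cz g g1)
      (by rw [hτ, Heis.z_zero, one_smul]) hd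
    rw [Heis.z_zero, one_smul, ← conj_mul] at this
    change (g * spE hA _ _ * _ * (g * tv hA _ _ * _)) • ω' = ω' at this
    rwa [spE_conj, conj_tv, g1, g3] at this
  obtain ⟨ν, ν0, ν1⟩ := exists_ne_two hq (0 : F) (-1)
  have hz : tv hA p.x τ • ω' = ω' := by
    have e : spE hA p.x ((1 : F) • a.1) * tv hA p.x τ * (spE hA p.x (ν • a.1) * tv hA p.x τ) =
        tv hA p.x τ * (spE hA p.x ((1 + ν) • a.1) * tv hA p.x τ) :=
      SG.ext fun u => by
        have : ∀ c : F, B p.x (c • a.1) = 0 := by simp [a.2.1]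
        simp only [SG.mul_apply, tv_apply, spE_apply hA (this _),
          map_add, map_smul, LinearMap.add_apply, LinearMap.smul_apply, a.2.1,
          alt_zero hA a.2.1, hA.self_eq_zero, smul_eq_mul]
        module
    have : _ • ω' = _ • ω' := congrArg (· • ω') e
    rw [mul_smul, mul_smul (tv hA p.x τ), key ν ν0, key 1 one_ne_zero,
      key (1 + ν) fun e => ν1 (by linear_combination e)] at this
    exact this.symm
  rcases eq_or_ne c 0 with rfl | hc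
  · simp [E0]
  · simpa [mul_smul, hz] using key c hc

end SPt

end Cfsg.Agent.MinI
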