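import Cfsg.Agent.MinI.SpG
import Cfsg.Agent.MinI.SL2
import Cfsg.Agent.Classical.SpMat

/-!
Local analysis at a point for a symplectic group acting on a small set.
-/

set_option autoImplicit false

namespace Cfsg.Agent.MinI

open Module Cfsg.Agent.Classical.SpWitt

variable {F V : Type*} [Field F] [AddCommGroup V] [Module F V] {B : LinearMap.BilinForm F V}
  [Finite F] [FiniteDimensional F V] {Ω : Type*} [MulAction (SG B) Ω] [Finite Ω]

theorem exists_ne_two {X : Type*} [Finite X] (h : 3 ≤ Nat.card X) (a b : X) : ∃ c, c ≠ a ∧ c ≠ b := by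
  classical
  haveI := Fintype.ofFinite X
  obtain ⟨c, -, hc⟩ := Finset.exists_mem_notMem_of_card_lt_card (s := {a, b}) (t := Finset.univ)
    (Finset.card_le_two.trans_lt (by rwa [Finset.card_univ, ← Nat.card_eq_fintype_card]))
  exact ⟨c, by simpa using hc⟩

theorem sp_ar1 {q n M d r t : ℕ} (hq : 3 ≤ q) (hn : (q - 1) * n + 1 < q ^ 2 * M) (h3 : q ^ 2 ≤ M)
    (hd : 0 < d) (h1 : 2 * ((M - 1) * d * q) ≤ r * t * (d - 1)) (h2 : (q + 3) * r * t ≤ 2 * n * q) :
    False := by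
  obtain ⟨d, rfl⟩ := Nat.exists_eq_add_of_le' hd
  obtain ⟨q, rfl⟩ := Nat.exists_eq_add_of_le' hq
  obtain ⟨M, rfl⟩ := Nat.exists_eq_add_of_le' (show 1 ≤ M by nlinarith)
  simp only [Nat.add_sub_cancel, show q + 3 - 1 = q + 2 from rfl] at *
  have h5 : (q + 6) * (2 * (M * (d + 1) * (q + 3))) ≤ 2 * n * (q + 3) * d := by
    calc _ ≤ (q + 6) * (r * t * d) := Nat.mul_le_mul_left _ h1
      _ = (q + 3 + 3) * r * t * d := by ring
      _ ≤ _ := Nat.mul_le_mul_right _ h2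
  have h6 : (q + 6) * M * (d + 1) ≤ n * (d + 1) :=
    Nat.le_of_mul_le_mul_left (c := 2 * (q + 3)) (by nlinarith) (by omega)
  have h7 := Nat.mul_le_mul_left (q + 2) (Nat.le_of_mul_le_mul_right h6 (by omega))
  nlinarith

theorem sp_ar2 {q n M d r t : ℕ} (hq : 4 ≤ q) (hn : (q - 1) * n + 1 < q ^ 2 * M) (h3 : q ^ 2 ≤ M)
    (hd : 0 < d) (h1 : (M - 1) * d * q ≤ r * t * (d - 1)) :
    ¬ (q + 2) * r * t ≤ n * q ∧ (q * r * t ≤ n * q → q < 2 * d) := by
  obtain ⟨d, rfl⟩ := Nat.exists_eq_add_of_le' hd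
  obtain ⟨q, rfl⟩ := Nat.exists_eq_add_of_le' hq
  obtain ⟨M, rfl⟩ := Nat.exists_eq_add_of_le' (show 1 ≤ M by nlinarith)
  simp only [Nat.add_sub_cancel, show q + 4 - 1 = q + 3 from rfl] at *
  have h7 : (q + 3) * n * d ≤ (q + 4) ^ 2 * (M + 1) * d := Nat.mul_le_mul_right _ (by omega)
  have key : ∀ k, k * r * t ≤ n * (q + 4) →
      (q + 3) * (k * M * (d + 1)) ≤ (q + 4) ^ 2 * (M + 1) * d := by
    intro k hk
    refine le_trans ?_ h7
    rw [mul_assoc (q + 3)]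
    refine Nat.mul_le_mul_left _ (Nat.le_of_mul_le_mul_left (c := q + 4) ?_ (by omega))
    calc _ = k * (M * (d + 1) * (q + 4)) := by ring
      _ ≤ k * (r * t * d) := Nat.mul_le_mul_left _ h1
      _ = k * r * t * d := by ring
      _ ≤ n * (q + 4) * d := Nat.mul_le_mul_right _ hk
      _ = _ := by ring
  have h4 : q ^ 2 + 8 * q + 15 ≤ M := by nlinarith
  refine ⟨fun h6 => ?_, fun h5 => ?_⟩
  · have h8 := key _ h6
    have h9 : (q + 4) ^ 2 * (M + 1) ≤ (q + 3) * ((q + 4 + 2) * M) := by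
      nlinarith [Nat.zero_le (q * M)]
    nlinarith [Nat.mul_le_mul_right d h9]
  · by_contra! hb
    have h8 := key _ h5
    have h9 : d * ((q + 4) * M + (q + 4) ^ 2) < (q + 3) * (q + 4) * M := by
      have : 2 * d ≤ q + 2 := by omega
      nlinarith [Nat.mul_le_mul_right ((q + 4) * M + (q + 4) ^ 2) this,
        Nat.mul_le_mul_left ((q + 4) ^ 2) h4, Nat.zero_le (q ^ 4), Nat.zero_le (q ^ 3)]
    nlinarith

theorem four_le_of_two {K : Type*} [Field K] [Finite K] (h2 : (2 : K) = 0) (hq : 3 ≤ Nat.card K) :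
    4 ≤ Nat.card K := by
  haveI := Fintype.ofFinite K
  haveI : CharP K 2 := CharTwo.of_one_ne_zero_of_two_eq_zero one_ne_zero h2
  have := FiniteField.even_card_of_char_two (ringChar.eq K 2)
  rw [← Nat.card_eq_fintype_card] at this
  omega

namespace SPt

variable (p : SPt B) (hA : B.IsAlt) (hB : B.Nondegenerate) {χ : AddChar F ℂ} (hχ : ∃ t, χ t ≠ 1)

instance : Finite p.P := Module.finite_of_finite F

include hB hχ

omit [Finite Ω] in
theorem card_D (ω : Ω) : Nat.card ((p.heis hA).A ω) * Nat.card (p.D hA χ ω) = Nat.card p.P :=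
  card_mul_card_ann _ χ (p.b_nd hA hB hχ) _

omit [Finite Ω] in
theorem mem_A_iff {ω : Ω} {a : p.P} :
    a ∈ (p.heis hA).A ω ↔ ∀ d ∈ p.D hA χ ω, χ (B a d) = 1 := by
  conv_lhs => rw [← ann_ann p.b χ (p.b_nd hA hB hχ) (p.b_nd' hA hB hχ) ((p.heis hA).A ω)]
  rfl

theorem cover {ω : Ω} {w : p.P} (hw : w ≠ 0) (hD : w ∈ p.D hA χ ω) :
    (Nat.card p.P - 1) * Nat.card (p.D hA χ ω) * Nat.card F ≤
      Nat.card ((p.heis hA).R ω) * Nat.card ((p.heis hA).T ω) * (Nat.card (p.D hA χ ω) - 1) ∧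
    ∀ y ∈ (p.heis hA).T ω, w ∈ p.D hA χ y → y ∉ MulAction.orbit (p.heis hA).Q ω →
      2 * ((Nat.card p.P - 1) * Nat.card (p.D hA χ ω) * Nat.card F) ≤
      Nat.card ((p.heis hA).R ω) * Nat.card ((p.heis hA).T ω) * (Nat.card (p.D hA χ ω) - 1) := by
  have h1 := cover_count (G := SG B) ((p.heis hA).T ω) {w | w ≠ 0} (fun w x => w ∈ p.D hA χ x)
    (w := w) (m := Nat.card (p.D hA χ ω) - 1) (fun w' hw' => by
      obtain ⟨g, g1, g2, g3⟩ := p.witt₀ hA hB hw hw'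
      exact ⟨g, fun x hx h => ⟨p.act_T hA one_ne_zero (by simpa) (by simpa) (by simp) hx,
        ((p.act hA one_ne_zero (by simpa) (by simpa) χ x).2.2 w w' (by simpa)).2 h⟩⟩) fun x hx => by
      have e1 := p.card_D hA hB hχ x
      rw [hx.2, ← p.card_D hA hB hχ ω] at e1
      rw [← Nat.eq_of_mul_eq_mul_left Nat.card_pos e1]
      exact (Nat.eq_sub_of_add_eq (card_ne_zero_add (p := fun a => a ∈ p.D hA χ x) (zero_mem _))).le
  have h0 := card_ne_zero_add (p := fun _ : p.P => True) trivial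
  rw [Nat.card_congr (Equiv.subtypeUnivEquiv fun _ : p.P => trivial)] at h0
  simp only [and_true] at h0
  rw [show Nat.card {w : p.P | w ≠ 0} = Nat.card p.P - 1 from Nat.eq_sub_of_add_eq h0] at h1
  obtain ⟨h2, h3⟩ := (p.heis hA).orbit_le {x | x ∈ (p.heis hA).T ω ∧ w ∈ p.D hA χ x}
    (fun g x hx => ⟨(p.heis hA).T_smul ω g x hx.1, by rw [D, Heis.A_smul]; exact hx.2⟩)
    (fun x hx => hx.1) ⟨⟨rfl, rfl⟩, hD⟩
  have h4 := (p.heis hA).card_orbit ω
  rw [← p.card_D hA hB hχ ω, mul_left_comm, mul_assoc] at h4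
  have h5 := Nat.eq_of_mul_eq_mul_left Nat.card_pos h4
  have fin : ∀ j, j * Nat.card (MulAction.orbit (p.heis hA).Q ω) ≤
      Nat.card {x | x ∈ (p.heis hA).T ω ∧ w ∈ p.D hA χ x} →
      j * ((Nat.card p.P - 1) * Nat.card (p.D hA χ ω) * Nat.card F) ≤
      Nat.card ((p.heis hA).R ω) * Nat.card ((p.heis hA).T ω) * (Nat.card (p.D hA χ ω) - 1) := by
    intro j hj
    rw [mul_assoc, ← h5, mul_assoc]
    calc _ = Nat.card ((p.heis hA).R ω) * ((Nat.card p.P - 1) *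
          (j * Nat.card (MulAction.orbit (p.heis hA).Q ω))) := by ring
      _ ≤ _ := Nat.mul_le_mul_left _ ((Nat.mul_le_mul_left _ hj).trans h1)
  exact ⟨by simpa using fin 1 (by simpa using h2), fun y hy hy' hn => fin 2 (h3 y ⟨hy, hy'⟩ hn)⟩

include hA in
omit hχ [Finite Ω] in
theorem sq_le_card {w : p.P} (hw : w ≠ 0) : Nat.card F ^ 2 ≤ Nat.card p.P := by
  obtain ⟨y, hy⟩ := p.one hA hB hw
  rw [sq, ← Nat.card_prod]
  refine Nat.card_le_card_of_injective (fun c => c.1 • w + c.2 • y) fun c d e => ?_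
  have e1 := congrArg (fun a : p.P => B w a) e
  have e2 := congrArg (fun a : p.P => B a y) e
  simp [hy, hA.self_eq_zero] at e1 e2
  exact Prod.ext e2 e1

include hA in
omit hχ [Finite Ω] in
theorem card_le_sq {w : p.P} (hw : w ≠ 0) (h : ∀ a : p.P, B w a = 0 → ∃ c : F, c • w = a) :
    Nat.card p.P ≤ Nat.card F ^ 2 := by
  obtain ⟨y, hy⟩ := p.one hA hB hw
  rw [sq, ← Nat.card_prod]
  refine Nat.card_le_card_of_injective (fun a => (B w a, B a y)) fun a b e => ?_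
  obtain ⟨e1, e2⟩ := Prod.ext_iff.1 e
  obtain ⟨c, hc⟩ := h (a - b) (by simpa [sub_eq_zero] using e1)
  have := congrArg (fun a : p.P => B a y) hc
  simp only [e2, Submodule.coe_smul, map_smul, LinearMap.smul_apply, hy, smul_eq_mul, mul_one,
    Submodule.coe_sub, map_sub, LinearMap.sub_apply, sub_self] at this e2
  rw [this, e2, sub_self, zero_smul] at hc
  exact sub_eq_zero.1 hc.symm

omit hB hχ [FiniteDimensional F V] in
theorem torus (l : F) (hl : l ≠ 0) :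
    ∃ g : SG B, ∀ t, g * (p.heis hA).z t * g⁻¹ = (p.heis hA).z (l ^ 2 * t) :=
  (p.exists_diag hA hl).imp fun _ h => p.conj_z hA h.1

variable (hq : 3 ≤ Nat.card F)
  (hn : (Nat.card F - 1) * Nat.card Ω + 1 < Nat.card F ^ 2 * Nat.card p.P)
  {ω : Ω} (hω : (p.heis hA).R ω ≠ ⊤)
include hq hn hω

theorem uniq {w : p.P} (hw : w ≠ 0) (hD : w ∈ p.D hA χ ω) {y : Ω} (hy : y ∈ (p.heis hA).T ω)
    (hy' : w ∈ p.D hA χ y) : y ∈ MulAction.orbit (p.heis hA).Q ω := by
  by_contra hc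
  exact sp_ar1 hq hn (p.sq_le_card hA hB hw) Nat.card_pos ((p.cover hA hB hχ hw hD).2 y hy hy' hc)
    ((p.heis hA).sq_count (p.torus hA) hω hq).1

theorem two_count (h2 : (2 : F) = 0) {w : p.P} (hw : w ≠ 0) (hD : w ∈ p.D hA χ ω) :
    (p.heis hA).R ω = ⊥ ∧ Nat.card F < 2 * Nat.card (p.D hA χ ω) := by
  obtain ⟨h5, h6⟩ := ((p.heis hA).sq_count (p.torus hA) hω hq).2 h2
  obtain ⟨h7, h8⟩ := sp_ar2 (four_le_of_two h2 hq) hn (p.sq_le_card hA hB hw) Nat.card_pos (p.cover hA hB hχ hw hD).1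
  exact ⟨by_contra fun hb => h7 (h6 hb), h8 h5⟩

theorem inv {g : SG B} (h1 : g.1 p.x = p.x) (h2 : g.1 p.x' = p.x') {w w' : p.P} (hw : w' ≠ 0)
    (hD : w ∈ p.D hA χ ω) (hD' : w' ∈ p.D hA χ ω) (h3 : g.1 w = w') :
    g • ω ∈ MulAction.orbit (p.heis hA).Q ω ∧ ∀ a c : p.P, g.1 a = c → a ∈ p.D hA χ ω →
      c ∈ p.D hA χ ω := by
  have h := (p.act hA one_ne_zero (g := g) (by simpa) (by simpa) χ ω).2.2
  have h4 := p.uniq hA hB hχ hq hn hω hw hD'
    (p.act_T hA one_ne_zero (g := g) (by simpa) (by simpa) (by simp) ⟨rfl, rfl⟩)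
    ((h w w' (by simpa)).2 hD)
  refine ⟨h4, fun a c e ha => ?_⟩
  obtain ⟨k, hk⟩ := h4
  have := (h a c (by simpa)).2 ha
  rwa [← hk, D, Heis.A_smul] at this

theorem D_le {w : p.P} (hw : w ≠ 0) (hD : w ∈ p.D hA χ ω) (hT : p.D hA χ ω ≠ ⊤) {d : p.P}
    (hd : d ∈ p.D hA χ ω) : ∃ c : F, c • w = d := by
  have h1 : ∀ w d : p.P, w ∈ p.D hA χ ω → d ∈ p.D hA χ ω → B w d ≠ 0 → ∀ v : p.P, B w v = 0 →
      v ∈ p.D hA χ ω := by
    intro w d hw hd h v hv
    have hn' : ∀ u : p.P, B w u ≠ 0 → ∀ c : F, c • w ≠ u := by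
      rintro u hu c rfl; simp [hA.self_eq_zero] at hu
    obtain ⟨g, g1, g2, g3, g4⟩ := p.witt hA hB (hn' d h) (hn' (d + v) (by simpa [hv])) (by simp [hv])
    simpa using sub_mem ((p.inv hA hB hχ hq hn hω g1 g2 (by rintro rfl; simp at h) hw hw g3).2 _ _
      g4 hd) hd
  have h2 : ∀ w d : p.P, w ∈ p.D hA χ ω → d ∈ p.D hA χ ω → B w d = 0 := by
    intro w d hw hd
    by_contra h
    refine hT (eq_top_iff.2 fun u _ => ?_)
    have := add_mem (h1 w d hw hd h (u - (B w u / B w d) • d) (by simp [h]))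
      (h1 d w hd hw (fun e => h (alt_zero hA e)) ((B w u / B w d) • d) (by simp [hA.self_eq_zero]))
    simpa using this
  by_contra! h
  obtain ⟨v, v1, v2⟩ := p.orth_one hA hB h
  obtain ⟨g, g1, g2, g3, g4⟩ := p.witt hA hB (v := v) h (by
    rintro c rfl; simp [h2 d w hd hD] at v2) (by rw [v1, h2 w d hD hd])
  simpa [v2] using h2 d v hd ((p.inv hA hB hχ hq hn hω g1 g2 hw hD hD g3).2 _ _ g4 hd)

theorem beta {w : p.P} (hw : w ≠ 0) (hD : w ∈ p.D hA χ ω) (hT : p.D hA χ ω ≠ ⊤) :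
    (∀ a, a ∈ (p.heis hA).A ω ↔ B w a = 0) ∧ ∀ a : p.P, B w a = 0 → ∃ c : F, c • w = a := by
  have h1 : ∀ a : p.P, B w a = 0 → a ∈ (p.heis hA).A ω := fun a ha =>
    (p.mem_A_iff hA hB hχ).2 fun d hd => by
      obtain ⟨c, rfl⟩ := p.D_le hA hB hχ hq hn hω hw hD hT hd
      simp [alt_zero hA ha]
  have top : ∀ a : F, a ≠ 0 → (∀ c, c * a ∈ (p.heis hA).R ω) → False := fun a ha h =>
    hω (eq_top_iff.2 fun t _ => by simpa [ha] using h (t / a))
  by_cases h2 : (2 : F) = 0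
  · obtain ⟨hR, h3⟩ := p.two_count hA hB hχ hq hn hω h2 hw hD
    have h4 : ∀ c : F, c • w ∈ p.D hA χ ω := by
      have : (p.D hA χ ω).comap (LinearMap.toSpanSingleton F _ w).toAddMonoidHom = ⊤ := by
        refine eq_top_of_lt_two_mul (h3.trans_le (Nat.mul_le_mul_left _ ?_))
        refine Nat.card_le_card_of_surjective (fun c => ⟨c.1 • w, c.2⟩) fun d => ?_
        obtain ⟨c, hc⟩ := p.D_le hA hB hχ hq hn hω hw hD hT d.2
        exact ⟨⟨c, by simpa [hc] using d.2⟩, Subtype.ext hc⟩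
      exact fun c => this.ge (AddSubgroup.mem_top c)
    refine ⟨fun a => ⟨fun ha => alt_zero hA (eq_zero_of_char hχ fun c => ?_), h1 a⟩, fun y hy => ?_⟩
    · simpa using (p.mem_A_iff hA hB hχ).1 ha _ (h4 c)
    by_contra! h
    obtain ⟨a, a1, a2⟩ := p.orth_one hA hB h
    have key : ∀ μ : F, μ ≠ 0 → (spE hA p.x y * tv hA p.x μ) • ω = ω := by
      intro μ hμ
      obtain ⟨τ, hτ⟩ := h1 (μ • a) (by simp [a1])
      have g1 : (tv hA y.1 (-μ⁻¹)).1 p.x = p.x := by simp [tv_apply, y.2.1]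
      obtain ⟨⟨k, hk⟩, e⟩ := (p.inv hA hB hχ hq hn hω g1 (by simp [tv_apply, y.2.2]) hw hD hD
        (by simp [tv_apply, hy])).1
      have hc : ∀ a t, k * ((p.heis hA).e a * (p.heis hA).z t) = (p.heis hA).e a * (p.heis hA).z t * k := by
        obtain ⟨b, s, rfl⟩ := hk
        intro a t
        have c1 : Commute ((p.heis hA).e b) ((p.heis hA).e a) := by
          rw [Commute, SemiconjBy, Heis.e_comm, heis_β, h2, zero_mul, Heis.z_zero, mul_one]
        exact (c1.mul_right ((p.heis hA).z_comm b t).symm).mul_left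
          (Commute.mul_right ((p.heis hA).z_comm a s) ((p.heis hA).z_z_comm s t))
      have e1 : (tv hA y.1 (-μ⁻¹) * (spE hA p.x (μ • a : p.P) * tv hA p.x τ) * (tv hA y.1 (-μ⁻¹))⁻¹) •
          k • ω = k • ω := by
        change k • ω = _ at e
        rw [e, ← mul_smul, inv_mul_cancel_right, mul_smul]
        exact congrArg _ hτ
      rw [← conj_mul, spE_conj, conj_tv, g1, tv_apply, show (μ • a : p.P).1 + (-μ⁻¹ * B (μ • a : p.P) y) • y.1 =
        (μ • a + y : p.P) by simp [alt_swap hA a2, hμ], ← mul_smul] at e1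
      erw [← hc] at e1
      rw [mul_smul, smul_left_cancel_iff] at e1
      change (spE hA _ _ * tv hA _ _) • ω = ω at hτ e1
      have e2 : spE hA p.x (μ • a + y : p.P) * tv hA p.x τ =
          spE hA p.x y * tv hA p.x μ * (spE hA p.x (μ • a : p.P) * tv hA p.x τ) := by
        rw [mul_assoc, ← mul_assoc (tv hA p.x μ),
          tv_spE hA (μ • a : p.P).2.1 (hA.self_eq_zero _) (alt_zero hA (μ • a : p.P).2.1),
          ← mul_assoc, ← mul_assoc, spE_mul hA y.2.1 (μ • a : p.P).2.1, mul_assoc, mul_assoc,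
          ← tv_add, ← tv_add, add_comm y.1]
        simp [alt_swap hA a2]
      rwa [e2, mul_smul, hτ] at e1
    obtain ⟨μ, h0, hμ⟩ := exists_ne_two hq (0 : F) 1
    have : μ - 1 ∈ (p.heis hA).R ω := by
      have e1 := key μ h0
      rw [← sub_add_cancel μ 1] at e1
      erw [(p.heis hA).ez_z] at e1
      erw [key 1 one_ne_zero] at e1
      exact e1
    rw [hR] at this
    exact hμ (sub_eq_zero.1 this)
  · have iso : ∀ a b : p.P, (∀ c : F, c • a ∈ (p.heis hA).A ω) → b ∈ (p.heis hA).A ω → B a b = 0 := by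
      intro a b ha hb
      by_contra h
      refine top _ (mul_ne_zero h2 h) fun c => ?_
      simpa [heis_β, mul_left_comm] using (p.heis hA).iso hb (ha c)
    refine ⟨fun a => ⟨iso w a fun c => h1 _ (by simp [hA.self_eq_zero]), h1 a⟩, fun y hy => ?_⟩
    by_contra! h
    obtain ⟨a, a1, a2⟩ := p.orth_one hA hB h
    simpa [a2] using iso y a (fun c => h1 _ (by simp [hy])) (h1 a a1)

end SPt

end Cfsg.Agent.MinI
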