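import Cfsg.Agent.MinI.UAr

/-!
A nonzero isotropic additive subgroup of a Hermitian space has many conjugates.
-/

set_option autoImplicit false

namespace Cfsg.Agent.MinI

open Module Cfsg.Agent.Herm Pointwise

variable {F V : Type*} [Field F] [AddCommGroup V] [Module F V] [FiniteDimensional F V]
  {σ : F →+* F} {B : V →ₛₗ[σ] V →ₗ[F] F} [Finite F] {q : ℕ} (hB : HF B) (hF : Nat.card F = q ^ 2)

/-- The conjugates of `A` containing `x`. -/
abbrev thru (B : V →ₛₗ[σ] V →ₗ[F] F) (A : AddSubgroup V) (x : V) : Set (AddSubgroup V) :=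
  {Y | Y ∈ MulAction.orbit (SUG B) A ∧ x ∈ Y}

omit [Finite F] in
theorem ue_sub_mem {A : AddSubgroup V} {u v a : V} {l : F} (hu : B u u = 0) (huv : B u v = 0)
    (hl : l + σ l = B v v) (h : ue hB u v l • A = A) (ha : a ∈ A) :
    (B v a - l * B u a) • u - B u a • v ∈ A := by
  have := A.sub_mem (h ▸ su_mem_smul.2 ha : (ue hB u v l).1.1 a ∈ A) ha
  rwa [ue_apply hB hu huv hl, add_sub_assoc, add_sub_cancel_left] at this

omit [Finite F] [FiniteDimensional F V] in
theorem char_mul {ψ : AddChar F ℂ} (hψ : ∃ t, ψ t ≠ 1) {c : F} (hc : c ≠ 0) :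
    ∃ t, ψ.compAddMonoidHom (AddMonoidHom.mulLeft c) t ≠ 1 := by
  obtain ⟨t, ht⟩ := hψ
  exact ⟨c⁻¹ * t, by simpa [hc] using ht⟩

include hB hF in
/-- Two independent perpendicular isotropic vectors give many conjugates through one of them. -/
theorem succ_le_thru {A : AddSubgroup V} (h : ∀ x ∈ A, B x x = 0 → ∀ a ∈ A, B x a = 0) {ξ η : V}
    (hξ : ξ ∈ A) (hξ0 : B ξ ξ = 0) (hη : η ∈ A) (hη0 : B η η = 0) (hi : ∀ c : F, c • ξ ≠ η) :
    q + 1 ≤ Nat.card (thru B A ξ) := by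
  haveI : Finite V := Module.finite_of_finite F
  obtain ⟨p, rfl, hp⟩ := exists_upt hB hη0 hi (h _ hη hη0 _ hξ)
  have h1 := p.up ⟨_, hp⟩
  have h2 := p.u'p ⟨_, hp⟩
  have h3 := hB.one_symm p.h1
  let y : Option (fixF σ) → V := fun o => o.elim p.u' fun t => p.u - (skw hB.toInv * t) • p.u'
  have key : ∀ o, ∃ X ∈ thru B A ξ, ∃ c : F, c ≠ 0 ∧ c • y o ∈ X ∧ ∃ g : SUG B, g • A = X := by
    have aux : ∀ (g : SUG B) (c : F) o, g.1.1 ξ = ξ → g.1.1 p.u = c • y o → c ≠ 0 →
        ∃ X ∈ thru B A ξ, ∃ c : F, c ≠ 0 ∧ c • y o ∈ X ∧ ∃ g : SUG B, g • A = X :=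
      fun g c o e1 e2 hc => ⟨g • A, ⟨⟨g, rfl⟩, e1 ▸ su_mem_smul.2 hξ⟩, c, hc,
        e2 ▸ su_mem_smul.2 hη, g, rfl⟩
    have hs := skw_ne hB.toInv
    rintro (_ | t)
    · have s1 : skw hB.toInv + σ (skw hB.toInv) = 0 := by simp [skw_map]
      have s2 : -(skw hB.toInv)⁻¹ + σ (-(skw hB.toInv)⁻¹) = 0 := by simp [skw_map]
      refine aux (ue hB p.u 0 (-(skw hB.toInv)⁻¹) * ue hB p.u' 0 (skw hB.toInv)) (-skw hB.toInv) _
        ?_ ?_ (neg_ne_zero.2 hs) <;> simp [su_mul, ut_apply hB p.hu s2, ut_apply hB p.hu' s1, h1, h2,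
          h3, p.hu, p.h1, y, hs]
    · refine aux (ue hB p.u' 0 (skw hB.toInv * t)) 1 _ ?_ ?_ one_ne_zero <;>
        simp [ut_apply hB p.hu' (skw_mul _ t), h2, h3, y]
  choose X hX c hc hy g hg using key
  have hb : ∀ o o', B (y o) (y o') = 0 ↔ o = o' := by
    rintro (_ | t) (_ | t') <;>
      simp [y, p.hu, p.hu', p.h1, h3, skw_map, fun t : fixF σ => mem_fixF.1 t.2]
    rw [← sub_eq_neg_add, ← mul_sub, mul_eq_zero, sub_eq_zero]
    simp [skw_ne]
  rw [← hB.toInv.card_fixF hF, ← Finite.card_option]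
  refine Nat.card_le_card_of_injective (fun o => ⟨X o, hX o⟩) fun o o' e => (hb o o').1 ?_
  have e : X o = X o' := congrArg Subtype.val e
  have m1 := hy o
  have m2 := hy o'
  rw [← e] at m2
  rw [← hg o, ← su_apply_inv (g o) (_ • _), su_mem_smul] at m1 m2
  have := h _ m1 ((UG.map_b (g o)⁻¹.1 _ _).trans (by simp [(hb o o).2 rfl])) _ m2
  simpa [hc] using (UG.map_b (g o)⁻¹.1 _ _).symm.trans this

omit [Finite F] in
theorem UPt.proj (p : UPt B) (hB : HF B) : ∃ π : V →+ p.P, ∀ a, B p.u a = 0 →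
    a = π a + B p.u' a • p.u :=
  ⟨{ toFun := fun a => ⟨_, hB.hyp_proj_mem p.hu p.hu' p.h1 a⟩
     map_zero' := Subtype.ext (by simp)
     map_add' := fun a b => Subtype.ext (by simp [add_smul]; abel) }, fun a ha => by simp [ha]⟩

include hB hF in
theorem no_small (hk : 3 ≤ finrank F V) {ψ : AddChar F ℂ} (hψ : ∃ t, ψ t ≠ 1) {A : AddSubgroup V}
    (hA : A ≠ ⊥) (iso : ∀ a ∈ A, ∀ b ∈ A, ψ (B a b) = 1) {n : ℕ}
    (h1 : q * Nat.card (MulAction.orbit (SUG B) A) * Nat.card V ≤ n * Nat.card A)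
    (h2 : (q ^ 2 - 1) * n ≤ (q ^ 2 - 1) * q * Nat.card V + q ^ 2 * nz B 0) : False := by
  haveI : Finite V := Module.finite_of_finite F
  have hq := two_le_of_card hF
  have hQ : q ^ 2 - 1 + 1 = q ^ 2 := Nat.sub_add_cancel (by nlinarith)
  have hK := hB.toInv.card_fixF hF
  obtain ⟨b1, b2⟩ := nz_bound hB hF
  have hr : q ^ 3 ≤ q ^ finrank F V := Nat.pow_le_pow_right (by omega) hk
  have h3 := (Nat.mul_le_mul_left (q ^ 2 - 1) h1).trans
    ((mul_assoc _ _ _).symm.trans_le (Nat.mul_le_mul_right _ h2))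
  rw [card_herm hF V] at h3
  have hs := u_ar1 hq hQ ((Nat.le_self_pow (by omega) _).trans hr) b2 h3
  have ha : Nat.card A ≤ q ^ finrank F V := by
    have := card_sq_le (bAdd B) ψ (bAdd_nd hB hψ) iso
    rwa [card_herm hF V, sq, Nat.mul_self_le_mul_self_iff] at this
  have hm : ∀ c, Nat.card {v // (v ≠ 0 ∧ B v v = c) ∧ v ∈ A} + 1 ≤ Nat.card A := fun c => by
    refine le_trans (Nat.add_le_add_right (Nat.card_le_card_of_injective
      (β := {v // v ≠ 0 ∧ v ∈ A}) (fun v => ⟨v.1, v.2.1.1, v.2.2⟩) fun v w e => Subtype.ext (by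
        simpa using e)) 1) (card_ne_zero_add (p := fun v => v ∈ A) A.zero_mem).le
  have hρ1 : ∀ x ∈ A, 1 ≤ Nat.card (thru B A x) := fun x hx =>
    Nat.card_pos_iff.2 ⟨⟨A, MulAction.mem_orbit_self _, hx⟩, inferInstance⟩
  have hq2 : q ^ 2 < Nat.card A := by
    by_contra! h
    obtain ⟨⟨x, hx⟩, h0⟩ := AddSubgroup.ne_bot_iff_exists_ne_zero.1 hA
    exact u_ar2 hq hQ hr (b1 _ (hB.fix x)) hs h (hm _) ((Nat.le_mul_of_pos_right _ (hρ1 x hx)).trans
      (su_cover hB hk A (by simpa using h0)))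
  have hρ : ∀ x ∈ A, x ≠ 0 → B x x = 0 → Nat.card (thru B A x) ≤ q := fun x _ h0 hx => by
    by_contra! h
    have := su_cover hB hk A h0
    rw [hx, mul_comm] at this
    exact u_ar3 hq hQ hr (b1 0 (map_zero σ)) ha (hm _) h3 ((Nat.mul_le_mul_right _ h).trans this)
  have h4 : finrank F V = 3 → Nat.card (MulAction.orbit (SUG B) A) ≤ q ^ 3 + q := fun h => by
    rw [nz_three hB hF h, h] at h3
    exact u_ar4 hq hQ (h ▸ ha) h3
  have step : ∀ x ∈ A, B x x = 0 → ∀ a ∈ A, B x a = 0 := by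
    intro x hx hx0 a haA
    by_contra hb
    obtain ⟨p, rfl⟩ := exists_upt₀ hB hx0 (ne_zero_of_b hb)
    have e1 := (p.heis hB).card_orbit A
    have e2 : Nat.card (MulAction.orbit (p.heis hB).Q A) ≤ Nat.card (thru B A p.u) :=
      Nat.card_le_card_of_injective (fun Y => ⟨Y.1, by
        obtain ⟨_, ⟨g, hg⟩, rfl⟩ := Y
        exact ⟨⟨g, rfl⟩, (p.Q_apply hB hg).1 ▸ su_mem_smul.2 hx⟩⟩)
        fun Y Z e => Subtype.ext (by simpa using e)
    have e3 := hρ _ hx p.u_ne hx0
    have e4 : ∀ v ∈ (p.heis hB).A A, ∃ c : F, c • p.u - B p.u a • v.1 ∈ A := fun v hv => by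
      obtain ⟨l, hl, h⟩ := (p.mem_A hB).1 hv
      exact ⟨_, ue_sub_mem hB p.hu (p.up v) hl h haA⟩
    have e5 := card_sq_le (bAdd p.B1) _ (bAdd_nd (p.hf hB) (char_mul hψ
      (mul_ne_zero ((map_ne_zero σ).2 hb) hb))) (A := (p.heis hB).A A) fun v hv w hw => by
        obtain ⟨c, hc⟩ := e4 v hv
        obtain ⟨d, hd⟩ := e4 w hw
        simpa [bAdd_apply, p.hu, p.up, hB.zero_symm (p.up _), mul_assoc, mul_left_comm]
          using iso _ hc _ hd
    have e6 : Nat.card ((p.heis hB).R A) ≤ q := (Finite.card_subtype_le _).trans hK.le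
    have e7 := p.dim hB
    rw [card_herm hF p.P, sq, Nat.mul_self_le_mul_self_iff] at e5
    rw [card_herm hF p.P, hK] at e1
    have e8 := e2.trans e3
    have e9 : finrank F p.P = 1 := by
      have := e1 ▸ Nat.mul_le_mul e8 (Nat.mul_le_mul e5 e6)
      rw [sq, mul_assoc] at this
      have := Nat.le_of_mul_le_mul_right this (by positivity)
      have := (Nat.pow_le_pow_iff_right (by omega)).1 (this.trans_eq (pow_one q).symm)
      omega
    rw [e9, pow_one] at e1 e5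
    have f1 : q ≤ Nat.card (MulAction.orbit (p.heis hB).Q A) :=
      Nat.le_of_mul_le_mul_right (c := q * q)
        (by nlinarith [Nat.mul_le_mul_left (Nat.card (MulAction.orbit (p.heis hB).Q A)) (Nat.mul_le_mul e5 e6)]) (by positivity)
    have f2 : q ≤ Nat.card ((p.heis hB).A A) :=
      Nat.le_of_mul_le_mul_right (c := q * q)
        (by nlinarith [Nat.mul_le_mul e8 (Nat.mul_le_mul_left (Nat.card ((p.heis hB).A A)) e6)])
        (by positivity)
    have f3 : (p.heis hB).R A = ⊤ := eq_top_of_card_le (hK ▸ Nat.le_of_mul_le_mul_right (c := q * q)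
        (by nlinarith [Nat.mul_le_mul e8 (Nat.mul_le_mul_right (Nat.card ((p.heis hB).R A)) e5)])
        (by positivity))
    have f4 : ∀ t : fixF σ, (skw hB.toInv * t * B p.u a) • p.u ∈ A := fun t => by
      simpa using A.neg_mem (ue_sub_mem hB p.hu (by simp) (by simpa using skw_mul _ t)
        (f3.ge (AddSubgroup.mem_top t)) haA)
    choose c hc using e4
    have f5 : ∀ v : p.P, v ≠ 0 → B v v ≠ 0 := fun v hv h => by
      obtain ⟨w, hw⟩ := (p.hf hB).exists_b_eq hv 1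
      obtain ⟨d, rfl⟩ := (finrank_eq_one_iff_of_nonzero' v hv).1 e9 w
      simp [h] at hw
    have f6 : Nat.card ({v // v ≠ 0 ∧ v ∈ (p.heis hB).A A} × fixF σ) ≤
        Nat.card {v : A // B v v ≠ 0} :=
      Nat.card_le_card_of_injective (fun y => ⟨⟨_, A.add_mem (hc _ y.1.2.2) (f4 y.2)⟩, by
        simpa [p.hu, p.up, hB.zero_symm (p.up _), hb] using f5 _ y.1.2.1⟩) fun y z e => by
        have e := congrArg (fun x => x.1.1) e
        have e' := congrArg (B p.u') e
        simp only [map_add, map_sub, map_smul, p.u'p, hB.one_symm p.h1, smul_eq_mul, mul_one,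
          mul_zero, sub_zero] at e e'
        rw [sub_add_eq_add_sub, sub_add_eq_add_sub, ← add_smul, ← add_smul, e', sub_right_inj] at e
        obtain ⟨⟨v, hv⟩, t⟩ := y
        obtain ⟨⟨w, hw⟩, t'⟩ := z
        obtain rfl : v = w := Subtype.ext (smul_right_injective _ hb e)
        simpa [hb, skw_ne] using e'
    have f7 := card_ne_zero_add (p := fun v => v ∈ (p.heis hB).A A) (zero_mem _)
    have f8 : Nat.card {v : A // B v v = 0} + Nat.card {v : A // B v v ≠ 0} ≤ Nat.card A :=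
      card_add_le fun _ h h' => h' h
    have f9 := card_ne_zero_add (p := fun v : A => B v v = 0) (by simp)
    have f10 : Nat.card {v // (v ≠ 0 ∧ B v v = 0) ∧ v ∈ A} ≤ Nat.card {v : A // v ≠ 0 ∧ B v v = 0} :=
      Nat.card_le_card_of_injective (fun v => ⟨⟨v.1, v.2.2⟩, by simpa using v.2.1.1, v.2.1.2⟩)
        fun v w e => Subtype.ext (by simpa using e)
    have f11 := su_cover hB hk A p.u_ne
    rw [Nat.card_prod, hK] at f6
    rw [p.hu, nz_three hB hF (by omega), mul_comm] at f11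
    rw [show finrank F V = 3 by omega] at ha
    change _ = Nat.card ((p.heis hB).A A) at f7
    exact u_ar5 hq hQ (h4 (by omega)) (by nlinarith)
      ((Nat.mul_le_mul_right _ (f1.trans e2)).trans f11)
  obtain ⟨ξ, hξ, hξ0, hξ1⟩ := exists_iso_mem hB hF A hq2
  have step2 : ∀ η ∈ A, B η η = 0 → ∃ c : F, c • ξ = η := fun η hη h => by
    by_contra! hi
    have := succ_le_thru hB hF step hξ hξ1 hη h hi
    have := hρ ξ hξ hξ0 hξ1
    omega
  let C : AddSubgroup F := A.comap (LinearMap.toSpanSingleton F V ξ).toAddMonoidHom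
  have hC : Nat.card {v // (v ≠ 0 ∧ B v v = 0) ∧ v ∈ A} + 1 ≤ Nat.card C := by
    refine le_trans (Nat.add_le_add_right ?_ 1) (card_ne_zero_add (p := fun v => v ∈ C) C.zero_mem).le
    choose c hc using fun v : {v // (v ≠ 0 ∧ B v v = 0) ∧ v ∈ A} => step2 _ v.2.2 v.2.1.2
    exact Nat.card_le_card_of_injective (fun v => ⟨c v, fun e => v.2.1.1 (by rw [← hc, e, zero_smul]),
      by simpa [C, hc] using v.2.2⟩) fun v w e => Subtype.ext (by
        rw [← hc, ← hc, show c v = c w from congrArg Subtype.val e])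
  have hC' : Nat.card C ≤ q ^ 2 := (Finite.card_subtype_le _).trans hF.le
  have cov := su_cover hB hk A hξ0
  rw [hξ1] at cov
  obtain ⟨p, rfl⟩ := exists_upt₀ hB hξ1 hξ0
  obtain ⟨π, hπ⟩ := p.proj hB
  have hπ' := fun a ha => hπ a (step _ hξ hξ1 a ha)
  by_cases h5 : finrank F V = 3
  swap
  · have g1 := card_eq_range_mul_ker π A
    have g2 : Nat.card (A.map π) ≤ q ^ 2 := by
      by_contra! h
      obtain ⟨_, ⟨a, ha, rfl⟩, h0, h⟩ := exists_iso_mem (p.hf hB) hF _ h
      obtain ⟨c, rfl⟩ := step2 a ha (by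
        rw [hπ' a ha]; simpa [p.hu, p.up, hB.zero_symm (p.up _)] using h)
      have := hπ' _ ha
      simp only [map_smul, hB.one_symm p.h1, smul_eq_mul, mul_one, right_eq_add] at this
      exact h0 (Subtype.ext this)
    have g3 : Nat.card (A ⊓ π.ker : AddSubgroup V) ≤ q ^ 2 := hF ▸
      Nat.card_le_card_of_injective (fun v => B p.u' v.1) fun v w e => Subtype.ext (by
        rw [hπ' _ v.2.1, hπ' _ w.2.1, show π v = 0 from v.2.2, show π w = 0 from w.2.2]
        exact congrArg (fun c => _ + c • p.u) e)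
    refine u_ar6 hq hQ (Nat.pow_le_pow_right (by omega) (by omega)) (b1 0 (map_zero σ))
      (hs.trans (Nat.mul_le_mul_left _ ?_)) (by omega)
      ((Nat.le_mul_of_pos_right _ (hρ1 _ hξ)).trans cov)
    rw [g1, show q ^ 4 = q ^ 2 * q ^ 2 by ring]
    exact Nat.mul_le_mul g2 g3
  rw [nz_three hB hF h5] at cov
  have hC1 : ∀ c : F, c • p.u ∈ A := by
    have : C = ⊤ := eq_top_of_lt_two_mul (by
      by_contra! h
      exact u_ar7 hq hQ (h4 h5) (by omega) ((Nat.le_mul_of_pos_right _ (hρ1 _ hξ)).trans cov))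
    exact fun c => this.ge (AddSubgroup.mem_top c)
  have huniq : ∀ g : SUG B, p.u ∈ g • A → g • A = A := fun g hg => by
    by_contra hne
    haveI : Nontrivial (thru B A p.u) := ⟨⟨g • A, ⟨g, rfl⟩, hg⟩, ⟨A, MulAction.mem_orbit_self _, hξ⟩,
      by simpa using hne⟩
    exact u_ar8 hq hQ (h4 h5) (by omega) ((Nat.mul_le_mul_left _ Finite.one_lt_card).trans cov)
  obtain ⟨a, haA, hy⟩ : ∃ a ∈ A, π a ≠ 0 := by
    by_contra! h
    refine hq2.not_ge (hF ▸ Nat.card_le_card_of_injective (fun v => B p.u' v.1) fun v w e =>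
      Subtype.ext ?_)
    rw [hπ' _ v.2, hπ' _ w.2, h _ v.2, h _ w.2]
    exact congrArg (fun c => _ + c • p.u) e
  have hyA : (π a).1 ∈ A := by
    rw [eq_sub_of_add_eq (hπ' a haA).symm]; exact A.sub_mem haA (hC1 _)
  generalize π a = y at hy hyA
  have hyy : B y y ≠ 0 := fun h => by
    obtain ⟨c, hc⟩ := step2 _ hyA h
    have : c = 0 := by simpa [p.u'p, hB.one_symm p.h1] using congrArg (B p.u') hc
    exact hy (Subtype.ext (by simp [← hc, this]))
  let Y : AddSubgroup F := A.comap (LinearMap.toSpanSingleton F V y).toAddMonoidHom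
  have hY : ∀ d : normOne σ, (d.1 : F) ∈ Y := by
    rintro ⟨d, hd⟩
    rw [mem_normOne] at hd
    obtain ⟨l, l0, hl⟩ := hB.toInv.hilbert90 (d := σ d) (by rw [hB.invol, mul_comm, hd])
    obtain ⟨g, g1, g2⟩ := hB.exists_diag p.hu p.hu' p.h1 l0
    have hσl : σ l ≠ 0 := (map_ne_zero σ).2 l0
    let k : SUG B := ⟨g * hB.qr y ((d - 1) / B y y), by
      rw [mem_SUG, map_mul, Units.val_mul, g1, hB.exists_qr_det hyy hd]
      field_simp; linear_combination d * hl + σ l * hd⟩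
    have k1 : k.1.1 (l⁻¹ • p.u) = p.u := by
      simp only [k, UG.mul_apply, map_smul, hB.qr_apply_of_orth _ (hB.zero_symm (p.up y)), g2,
        hB.one_symm p.h1, p.hu]
      match_scalars <;> field_simp <;> ring
    have k2 : k.1.1 y = (d : F) • y.1 := by
      simp only [k, UG.mul_apply]
      rw [hB.qr_apply (by
        rw [map_div₀, hB.fix, map_sub, map_one]; field_simp; linear_combination hd)]
      simp only [map_add, map_smul, g2, p.up, p.u'p, smul_eq_mul]
      match_scalars <;> field_simp <;> ring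
    have := huniq k (k1 ▸ su_mem_smul.2 (hC1 _))
    show (d : F) • y.1 ∈ A
    rw [← k2, ← this]
    exact this.symm ▸ this ▸ su_mem_smul.2 hyA
  have y1 := card_sq_le ((bAdd B).compl₂ (LinearMap.toSpanSingleton F V y).toAddMonoidHom |>.comp
    (LinearMap.toSpanSingleton F V y).toAddMonoidHom) ψ (fun c hc => by
      obtain ⟨t, ht⟩ := hψ
      exact ⟨t / (σ c * B y y), by simpa [bAdd_apply, hc, hyy] using ht⟩) (A := Y)
    fun c hc d hd => iso _ hc _ hd
  have y2 : Nat.card (normOne σ) ≤ Nat.card Y :=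
    Nat.card_le_card_of_injective (fun d => ⟨_, hY d⟩) fun d e h =>
      Subtype.ext (Units.ext (congrArg Subtype.val h))
  rw [hB.toInv.card_normOne hF] at y2
  rw [hF] at y1
  nlinarith

end Cfsg.Agent.MinI
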