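import Cfsg.Agent.MinI.UG
import Cfsg.Agent.MinI.SL2
import Cfsg.Agent.MinI.SpT

/-!
Counting vectors of given norm; orbits of additive subgroups; arithmetic.
-/

set_option autoImplicit false

namespace Cfsg.Agent.MinI

open Module Cfsg.Agent.Herm Pointwise

theorem orbit_cover {G X : Type*} [Group G] [AddCommGroup X] [DistribMulAction G X] [Finite X]
    (A : AddSubgroup X) (O : X → Prop) (hO : ∀ (g : G) x, O x → O (g • x)) (d : X)
    (htr : ∀ x, O x → ∃ g : G, g • d = x) :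
    Nat.card {x // O x} * Nat.card {Y | Y ∈ MulAction.orbit G A ∧ d ∈ Y} ≤
      Nat.card (MulAction.orbit G A) * Nat.card {x // O x ∧ x ∈ A} := by
  refine cover_count (G := G) _ {x | O x} (fun w Y => w ∈ Y) (fun w hw => ?_) ?_
  · obtain ⟨g, rfl⟩ := htr w hw
    exact ⟨g, fun Y hY h => ⟨MulAction.mapsTo_smul_orbit g A hY,
      AddSubgroup.smul_mem_pointwise_smul _ _ _ h⟩⟩
  · rintro _ ⟨g, rfl⟩
    exact Nat.card_le_card_of_injective (fun x => ⟨g⁻¹ • x.1, hO _ _ x.2.1,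
      AddSubgroup.mem_pointwise_smul_iff_inv_smul_mem.1 x.2.2⟩)
      fun x y e => Subtype.ext (by simpa using e)

section ar
variable {q Q r s a n o m : ℕ} (hq : 2 ≤ q) (hQ : Q + 1 = q ^ 2)
include hq hQ

theorem u_ar1 (hr : q ≤ r) (ho : q * o + q + r ≤ r ^ 2 + q * r)
    (h : Q * (q * s * r ^ 2) ≤ (Q * q * r ^ 2 + q ^ 2 * o) * a) : s ≤ 2 * a := by
  have h1 : q ^ 2 * o ≤ Q * q * r ^ 2 := by
    have : q * o ≤ 2 * r ^ 2 := by nlinarith
    nlinarith [Nat.mul_le_mul_left q this, Nat.mul_le_mul_right (q * r ^ 2) (show 2 ≤ Q by nlinarith)]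
  refine Nat.le_of_mul_le_mul_left (c := Q * q * r ^ 2) ?_ (by
    have : 0 < Q := by nlinarith
    have : 0 < r := by omega
    positivity)
  nlinarith [Nat.mul_le_mul_right a h1]

theorem u_ar2 (hr : q ^ 3 ≤ r) (ho : r ^ 2 + r ≤ q * o + q + q * r) (hs : s ≤ 2 * a) (ha : a ≤ q ^ 2)
    (hm : m + 1 ≤ a) (h : o ≤ s * m) : False := by
  have h1 : o ≤ 2 * q ^ 2 * Q := h.trans (Nat.mul_le_mul (by omega) (by omega))
  obtain ⟨x, rfl⟩ := Nat.exists_eq_add_of_le hr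
  obtain ⟨t, rfl⟩ := Nat.exists_eq_add_of_le hq
  obtain rfl : Q = t ^ 2 + 4 * t + 3 := by nlinarith
  nlinarith [Nat.mul_le_mul_left (2 + t) h1, Nat.zero_le (t ^ 6), Nat.zero_le (t ^ 5),
    Nat.zero_le (t ^ 4), Nat.zero_le (t ^ 3), Nat.zero_le (t ^ 3 * x), Nat.zero_le (t ^ 2 * x),
    Nat.zero_le (t * x)]

theorem u_ar3 (hr : q ^ 3 ≤ r) (ho : r ^ 2 + r ≤ q * o + q + q * r) (ha : a ≤ r) (hm : m + 1 ≤ a)
    (h : Q * (q * s * r ^ 2) ≤ (Q * q * r ^ 2 + q ^ 2 * o) * a) (h' : (q + 1) * o ≤ s * m) :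
    False := by
  have h1 : a * m + r ≤ r ^ 2 := by nlinarith [Nat.mul_le_mul ha (show m + 1 ≤ r by omega)]
  have h2 : q * (Q * r ^ 2 * ((q + 1) * o)) ≤ q * ((Q * r ^ 2 + q * o) * (a * m)) := by
    calc _ ≤ q * (Q * r ^ 2 * (s * m)) := by gcongr
      _ = Q * (q * s * r ^ 2) * m := by ring
      _ ≤ (Q * q * r ^ 2 + q ^ 2 * o) * a * m := by gcongr
      _ = _ := by ring
  generalize a * m = b at *
  zify at *
  rw [show (Q : ℤ) = q ^ 2 - 1 by linarith] at h2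
  clear h h' hQ
  generalize (q : ℤ) = q at *
  generalize (r : ℤ) = r at *
  have hy : r ^ 2 + r - q - q * r ≤ q * o := by linarith
  have h0 : (0 : ℤ) ≤ o := by positivity
  have hq3 : q + 2 ≤ q ^ 3 := by nlinarith
  have hQ0 : 0 ≤ q ^ 2 - 1 := by nlinarith
  have h3 : q * (((q ^ 2 - 1) * r ^ 2 + q * o) * b) ≤ q * (((q ^ 2 - 1) * r ^ 2 + q * o) * (r ^ 2 - r)) := by
    have : 0 ≤ q := by linarith
    gcongr; linarith
  have hc : 0 ≤ (q ^ 3 + q ^ 2 - 2 * q - 1) * r ^ 2 + q * r := by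
    have : 0 ≤ q ^ 3 + q ^ 2 - 2 * q - 1 := by nlinarith
    have : 0 ≤ r := by linarith
    have : 0 ≤ q := by linarith
    positivity
  have h4 := mul_le_mul_of_nonneg_right hy hc
  have h5 : r * ((q ^ 2 - q - 1) * r ^ 3 + (-q ^ 4 + q ^ 3 + 3 * q ^ 2 - q - 1) * r ^ 2 -
      (q ^ 4 + q ^ 3 - q ^ 2 - 2 * q) * r - q ^ 2) ≤ 0 := by nlinarith
  have hr0 : 0 < r := by linarith
  have h6 : (q ^ 2 - q - 1) * q ^ 3 * r ^ 2 ≤ (q ^ 2 - q - 1) * r * r ^ 2 := by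
    have : 0 ≤ q ^ 2 - q - 1 := by nlinarith
    gcongr
  have h7 : (q + 2) * r ^ 2 ≤ (q ^ 5 - 2 * q ^ 4 + 3 * q ^ 2 - q - 1) * r ^ 2 := by
    have : 0 ≤ q ^ 4 * (q - 2) := mul_nonneg (by positivity) (by linarith)
    gcongr; nlinarith
  have h8 : (q + 2) * r * q ^ 3 ≤ (q + 2) * r * r := by
    have : 0 ≤ (q + 2) * r := by positivity
    gcongr
  have h9 : q ^ 2 * 1 ≤ q ^ 2 * r := by gcongr; linarith
  have h10 : 0 < (q ^ 3 + 2 * q) * r := by positivity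
  nlinarith [pos_of_mul_pos_left (a := r) (b := 1) (by linarith) zero_le_one]

theorem u_ar4 (ha : a ≤ q ^ 3)
    (h : Q * (q * s * (q ^ 3) ^ 2) ≤ (Q * q * (q ^ 3) ^ 2 + q ^ 2 * ((q ^ 3 + 1) * Q)) * a) :
    s ≤ q ^ 3 + q := by
  have h1 := h.trans (Nat.mul_le_mul_left _ ha)
  have h2 : Q * q ^ 5 * (q ^ 2 * s) ≤ Q * q ^ 5 * (q ^ 2 * (q ^ 3 + q) + 1) := by nlinarith
  have h3 := Nat.le_of_mul_le_mul_left h2 (by
    have : 0 < Q := by nlinarith
    positivity)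
  by_contra! h4
  nlinarith [Nat.mul_le_mul_left (q ^ 2) (show q ^ 3 + q + 1 ≤ s from h4)]

theorem u_ar5 (hs : s ≤ q ^ 3 + q) (hm : m + 1 + q ^ 2 ≤ q ^ 3 + q)
    (h : q * ((q ^ 3 + 1) * Q) ≤ s * m) : False := by
  have h1 : s * (m + 1 + q ^ 2) ≤ s * (q ^ 3 + q) := Nat.mul_le_mul_left _ hm
  obtain ⟨t, rfl⟩ := Nat.exists_eq_add_of_le hq
  obtain rfl : Q = t ^ 2 + 4 * t + 3 := by nlinarith
  have h2 : m ≤ t ^ 3 + 5 * t ^ 2 + 9 * t + 5 := by nlinarith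
  nlinarith [h.trans (Nat.mul_le_mul hs h2), Nat.zero_le (t ^ 5), Nat.zero_le (t ^ 4),
    Nat.zero_le (t ^ 3)]

theorem u_ar6 (hr : q ^ 4 ≤ r) (ho : r ^ 2 + r ≤ q * o + q + q * r) (hs : s ≤ 2 * q ^ 4) (hm : m ≤ Q)
    (h : o ≤ s * m) : False := by
  have h1 : o ≤ 2 * q ^ 4 * Q := h.trans (Nat.mul_le_mul hs hm)
  obtain ⟨x, rfl⟩ := Nat.exists_eq_add_of_le hr
  have h2 : q * (2 * q ^ 4 * Q) + 2 * q ^ 5 = 2 * q ^ 7 := by
    rw [show q ^ 7 = q ^ 5 * q ^ 2 by ring, ← hQ]; ring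
  have h3 : 2 * q ^ 7 ≤ q ^ 8 := by rw [pow_succ q 7, mul_comm]; exact Nat.mul_le_mul_left _ hq
  have h4 : q ≤ q ^ 4 := Nat.le_self_pow (by omega) _
  have h5 : 0 < q ^ 5 := by positivity
  nlinarith [Nat.mul_le_mul_left q h1, Nat.mul_le_mul_right x h4]

theorem u_ar7 (hs : s ≤ q ^ 3 + q) (hm : 2 * (m + 1) ≤ q ^ 2) (h : (q ^ 3 + 1) * Q ≤ s * m) :
    False := by
  have h1 : q ≤ q ^ 3 := Nat.le_self_pow (by omega) _
  nlinarith [Nat.mul_le_mul hs (show 2 * m ≤ Q by omega), Nat.mul_le_mul_right Q h1]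

theorem u_ar8 (hs : s ≤ q ^ 3 + q) (hm : m ≤ Q) (h : (q ^ 3 + 1) * Q * 2 ≤ s * m) : False := by
  have h1 : q ≤ q ^ 3 := Nat.le_self_pow (by omega) _
  nlinarith [Nat.mul_le_mul hs hm, Nat.mul_le_mul_right Q h1]

end ar

variable {F V : Type*} [Field F] [AddCommGroup V] [Module F V] [FiniteDimensional F V]
  {σ : F →+* F} {B : V →ₛₗ[σ] V →ₗ[F] F} [Finite F] {q : ℕ} (hB : HF B) (hF : Nat.card F = q ^ 2)

/-- The number of nonzero vectors of given norm. -/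
noncomputable abbrev nz (B : V →ₛₗ[σ] V →ₗ[F] F) (c : F) : ℕ := Nat.card {v : V // v ≠ 0 ∧ B v v = c}

theorem nz_zero : nz B 0 + 1 = nv B 0 := by
  haveI : Finite V := Module.finite_of_finite F
  exact card_ne_zero_add (p := fun v => B v v = 0) (by simp)

include hB in
omit [FiniteDimensional F V] in
theorem nz_ne {c : F} (hc : c ≠ 0) (hc' : σ c = c) : nz B c = nv B 1 :=
  (Nat.card_congr (Equiv.subtypeEquivRight fun v => and_iff_right_of_imp fun h =>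
    ne_zero_of_b (h ▸ hc))).trans (hB.nv_of_ne hc hc')

include hF in
theorem card_herm (V : Type*) [AddCommGroup V] [Module F V] [FiniteDimensional F V] :
    Nat.card V = (q ^ finrank F V) ^ 2 := by
  rw [card_eq_pow (F := F), hF, ← pow_mul, ← pow_mul, mul_comm]

include hB hF

theorem nz_bound : (∀ c, σ c = c →
    (q ^ finrank F V) ^ 2 + q ^ finrank F V ≤ q * nz B c + q + q * q ^ finrank F V) ∧
    q * nz B 0 + q + q ^ finrank F V ≤ (q ^ finrank F V) ^ 2 + q * q ^ finrank F V := by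
  have h0 := hB.nv_zero hF
  have h1 := hB.nv_one hF
  have hq := two_le_of_card hF
  rw [← nz_zero] at h0
  rw [mul_comm 2, pow_mul] at h0 h1
  have hr : (0 : ℤ) < q ^ finrank F V := by positivity
  have hq' : (2 : ℤ) ≤ q := by exact_mod_cast hq
  refine ⟨fun c hc => ?_, ?_⟩
  · rcases eq_or_ne c 0 with rfl | hc0
    · zify
      rcases neg_one_pow_eq_or ℤ (finrank F V) with e | e <;> rw [neg_pow, e] at h0 <;> push_cast at h0 <;>
        nlinarith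
    · rw [nz_ne hB hc0 hc]
      zify
      rcases neg_one_pow_eq_or ℤ (finrank F V) with e | e <;> rw [neg_pow, e] at h1 <;> nlinarith
  · zify
    rcases neg_one_pow_eq_or ℤ (finrank F V) with e | e <;> rw [neg_pow, e] at h0 <;> push_cast at h0 <;>
      nlinarith

theorem nz_three (h : finrank F V = 3) : nz B 0 = (q ^ 3 + 1) * (q ^ 2 - 1) := by
  have h0 := hB.nv_zero hF
  have hq := two_le_of_card hF
  rw [← nz_zero, h] at h0
  zify [show 1 ≤ q ^ 2 by nlinarith]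
  refine mul_left_cancel₀ (show (q : ℤ) ≠ 0 by positivity) ?_
  push_cast at h0
  linear_combination h0

theorem UPt.nz_eq (p : UPt B) :
    nz B 0 = (q ^ 2 - 1) * q * Nat.card p.P + q ^ 2 * nz p.B1 0 + (q ^ 2 - 1) := by
  have h0 := hB.nv_zero hF
  have h1 := (p.hf hB).nv_zero hF
  have hq := two_le_of_card hF
  rw [← nz_zero] at h0 h1
  rw [← p.dim hB] at h0
  rw [card_herm hF]
  zify [show 1 ≤ q ^ 2 by nlinarith]
  refine mul_left_cancel₀ (show (q : ℤ) ≠ 0 by positivity) ?_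
  push_cast at h0 h1
  linear_combination h0 - q ^ 2 * h1

omit hF in
theorem su_trans (hn : 3 ≤ finrank F V) {x y : V} (hx : x ≠ 0) (hy : y ≠ 0) (h : B y y = B x x) :
    ∃ g : SUG B, g • x = y := by
  by_cases h0 : B x x = 0
  · obtain ⟨g, hg, e⟩ := hB.SUG_trans_iso hn hx hy h0 (h.trans h0)
    exact ⟨⟨g, hg⟩, e⟩
  · obtain ⟨g, hg, e⟩ := hB.SUG_trans (by omega) h0 h.symm
    exact ⟨⟨g, hg⟩, e⟩

omit hF in
theorem su_cover (hn : 3 ≤ finrank F V) (A : AddSubgroup V) {x : V} (hx : x ≠ 0) :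
    nz B (B x x) * Nat.card {Y | Y ∈ MulAction.orbit (SUG B) A ∧ x ∈ Y} ≤
      Nat.card (MulAction.orbit (SUG B) A) * Nat.card {v // (v ≠ 0 ∧ B v v = B x x) ∧ v ∈ A} := by
  haveI : Finite V := Module.finite_of_finite F
  exact orbit_cover A (fun v => v ≠ 0 ∧ B v v = B x x)
    (fun g v h => ⟨fun e => h.1 ((UG.apply_eq_zero g.1).1 e), (UG.map_b g.1 v v).trans h.2⟩) x
    fun v h => su_trans hB hn hx h.1 h.2

theorem exists_iso_mem (A : AddSubgroup V) (h : q ^ 2 < Nat.card A) :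
    ∃ a ∈ A, a ≠ 0 ∧ B a a = 0 := by
  haveI : Finite V := Module.finite_of_finite F
  obtain ⟨p, k, hp, hc, -⟩ := exists_char_pow hF
  haveI := Fact.mk hp
  letI : Module (ZMod p) A := AddCommGroup.zmodModule fun a => Subtype.ext (by
    rw [AddSubgroup.coe_nsmul, ← Nat.cast_smul_eq_nsmul F, CharP.cast_eq_zero, zero_smul]; rfl)
  letI : Module (ZMod p) (fixF σ) := AddCommGroup.zmodModule fun a => by simp
  let T : F →+ fixF σ :=
    { toFun := fun x => ⟨tro hB.toInv * x + σ (tro hB.toInv * x), by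
        rw [mem_fixF, map_add, hB.invol, add_comm]⟩
      map_zero' := Subtype.ext (by simp)
      map_add' := fun x y => Subtype.ext (by simp; ring) }
  obtain ⟨a, h0, ha⟩ := exists_biadd_zero p (((bAdd B).compr₂ T).compl₂ A.subtype |>.comp A.subtype)
    (by rwa [hB.toInv.card_fixF hF])
  exact ⟨a, a.2, by simpa using h0, (UPt.tro_tr hB a.1).symm.trans (congrArg Subtype.val ha)⟩

end Cfsg.Agent.MinI
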