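import Cfsg.Agent.MinI.Heis2
import Cfsg.Agent.Herm.Iso

/-!
The unipotent radical of an isotropic point stabiliser in a special unitary group.
-/

set_option autoImplicit false

namespace Cfsg.Agent.MinI

open Module Cfsg.Agent.Herm Pointwise

/-- Chevalley–Warning for a biadditive map of elementary abelian groups. -/
theorem exists_biadd_zero {A C : Type*} [AddCommGroup A] [AddCommGroup C] [Finite A] [Finite C]
    (p : ℕ) [Fact p.Prime] [Module (ZMod p) A] [Module (ZMod p) C] (b : A →+ A →+ C)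
    (h : Nat.card C ^ 2 < Nat.card A) : ∃ a, a ≠ 0 ∧ b a a = 0 := by
  classical
  let eA := Module.finBasis (ZMod p) A
  let eC := Module.finBasis (ZMod p) C
  rw [card_eq_pow (F := ZMod p) A, card_eq_pow (F := ZMod p) C, ← pow_mul] at h
  have h1 := (Nat.pow_lt_pow_iff_right (Finite.one_lt_card)).1 h
  let f : Fin (finrank (ZMod p) C) → MvPolynomial (Fin (finrank (ZMod p) A)) (ZMod p) := fun i =>
    ∑ j, ∑ l, MvPolynomial.C (eC.repr (b (eA j) (eA l)) i) * (MvPolynomial.X j * MvPolynomial.X l)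
  have hf : ∀ x i, MvPolynomial.eval x (f i) =
      eC.repr (b (eA.equivFun.symm x) (eA.equivFun.symm x)) i := by
    intro x i
    simp only [f, map_sum, map_mul, MvPolynomial.eval_C, MvPolynomial.eval_X,
      Basis.equivFun_symm_apply, AddMonoidHom.finsetSum_apply, ZMod.map_smul,
      AddMonoidHom.smul_apply, Finsupp.coe_finsetSum, Finset.sum_apply, Finsupp.smul_apply,
      smul_eq_mul, Finset.mul_sum]
    rw [Finset.sum_comm]
    exact Finset.sum_congr rfl fun _ _ => Finset.sum_congr rfl fun _ _ => by ring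
  have hd := char_dvd_card_solutions_of_fintype_sum_lt p (f := f) (by
    refine lt_of_le_of_lt (Finset.sum_le_card_nsmul _ _ 2 fun i _ => ?_) (by simpa using h1)
    refine MvPolynomial.totalDegree_finsetSum_le fun j _ =>
      MvPolynomial.totalDegree_finsetSum_le fun l _ => (MvPolynomial.totalDegree_mul _ _).trans ?_
    rw [MvPolynomial.totalDegree_C, zero_add]
    exact (MvPolynomial.totalDegree_mul _ _).trans (by simp))
  have h0 : ∀ i, MvPolynomial.eval 0 (f i) = 0 := fun i => by rw [hf]; simp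
  haveI : Nonempty {x // ∀ i, MvPolynomial.eval x (f i) = 0} := ⟨⟨0, h0⟩⟩
  rw [Fintype.card_eq_nat_card] at hd
  haveI := Finite.one_lt_card_iff_nontrivial.1 ((Fact.out : p.Prime).one_lt.trans_le
    (Nat.le_of_dvd Nat.card_pos hd))
  obtain ⟨x, hx⟩ := exists_ne (⟨0, h0⟩ : {x // ∀ i, MvPolynomial.eval x (f i) = 0})
  refine ⟨eA.equivFun.symm x, fun e => hx (Subtype.ext (eA.equivFun.symm.map_eq_zero_iff.1 e)), eC.repr.injective ?_⟩
  ext i
  rw [← hf, x.2 i]; simp

variable {F V : Type*} [Field F] [AddCommGroup V] [Module F V] [FiniteDimensional F V]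
  {σ : F →+* F} {B : V →ₛₗ[σ] V →ₗ[F] F}

/-- Eichler maps as elements of the special unitary group. -/
noncomputable def ue (hB : HF B) (u v : V) (l : F) : SUG B := ⟨hB.eich u v l, hB.eich_mem_SUG u v l⟩

omit [FiniteDimensional F V] in
theorem su_ext {g h : SUG B} (H : ∀ x, g.1.1 x = h.1.1 x) : g = h := Subtype.ext (UG.ext H)

omit [FiniteDimensional F V] in
theorem su_mul (g h : SUG B) (x : V) : (g * h).1.1 x = g.1.1 (h.1.1 x) := rfl

omit [FiniteDimensional F V] in
theorem su_inv_apply (g : SUG B) (x : V) : g⁻¹.1.1 (g.1.1 x) = x := UG.inv_apply_self _ _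

omit [FiniteDimensional F V] in
theorem su_apply_inv (g : SUG B) (x : V) : g.1.1 (g⁻¹.1.1 x) = x := UG.apply_inv_self _ _

omit [FiniteDimensional F V] in
theorem su_mem_smul {g : SUG B} {A : AddSubgroup V} {x : V} : g.1.1 x ∈ g • A ↔ x ∈ A :=
  AddSubgroup.smul_mem_pointwise_smul_iff (a := g)

section
variable (hB : HF B)

theorem ue_apply {u v : V} {l : F} (hu : B u u = 0) (huv : B u v = 0) (hl : l + σ l = B v v) (x : V) :
    (ue hB u v l).1.1 x = x + (B v x - l * B u x) • u - B u x • v := hB.eich_apply hu huv hl x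

theorem ut_apply {u : V} {l : F} (hu : B u u = 0) (hl : l + σ l = 0) (x : V) :
    (ue hB u 0 l).1.1 x = x - (l * B u x) • u := by
  rw [ue_apply hB hu (by simp) (by simpa)]; simp [sub_eq_add_neg]

theorem ue_conj (g : SUG B) (u v : V) (l : F) :
    g * ue hB u v l * g⁻¹ = ue hB (g.1.1 u) (g.1.1 v) l := Subtype.ext (hB.eich_conj g.1 u v l)

theorem ue_mul {u v w : V} {l m : F} (hu : B u u = 0) (huv : B u v = 0) (hl : l + σ l = B v v)
    (huw : B u w = 0) (hm : m + σ m = B w w) :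
    ue hB u v l * ue hB u w m = ue hB u (v + w) (l + m + B v w) :=
  Subtype.ext (hB.eich_mul hu huv hl huw hm)

theorem ue_of_not {u v : V} {l : F} (h : ¬ (B u u = 0 ∧ B u v = 0 ∧ l + σ l = B v v)) :
    ue hB u v l = 1 := Subtype.ext (hB.eich_of_not h)

theorem ue_zero (u : V) : ue hB u 0 0 = 1 := by
  by_cases hu : B u u = 0
  · exact su_ext fun x => by rw [ut_apply hB hu (by simp)]; simp
  · exact ue_of_not hB fun h => hu h.1

theorem ue_smul_left {u v : V} {l : F} (hu : B u u = 0) (huv : B u v = 0) (hl : l + σ l = B v v)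
    (a : F) : ue hB (a • u) v l = ue hB u (σ a • v) (a * σ a * l) :=
  Subtype.ext (hB.eich_smul_left hu huv hl a)

end

/-- A fixed nonzero skew element. -/
noncomputable def skw (h : Inv σ) : F := h.exists_skew.choose

/-- A fixed element of trace one. -/
noncomputable def tro (h : Inv σ) : F := h.exists_trace_one.choose

theorem skw_ne (h : Inv σ) : skw h ≠ 0 := h.exists_skew.choose_spec.1

theorem skw_map (h : Inv σ) : σ (skw h) = -skw h :=
  eq_neg_of_add_eq_zero_right h.exists_skew.choose_spec.2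

theorem tro_map (h : Inv σ) : σ (tro h) = 1 - tro h :=
  eq_sub_of_add_eq' h.exists_trace_one.choose_spec

theorem skw_mul (h : Inv σ) (t : fixF σ) : skw h * t + σ (skw h * t) = 0 := by
  rw [map_mul, skw_map, mem_fixF.1 t.2]; ring

theorem exists_skw (h : Inv σ) {l : F} (hl : l + σ l = 0) : ∃ t : fixF σ, skw h * t = l :=
  ⟨⟨l / skw h, by
    rw [mem_fixF, map_div₀, skw_map, eq_neg_of_add_eq_zero_right hl, neg_div_neg_eq]⟩,
    mul_div_cancel₀ _ (skw_ne h)⟩

/-- The skew part divided by the fixed skew element. -/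
noncomputable def skp (h : Inv σ) : F →+ fixF σ where
  toFun x := ⟨(x - σ x) / skw h, by
    rw [mem_fixF, map_div₀, skw_map, map_sub, h.invol, div_neg, ← neg_div, neg_sub]⟩
  map_zero' := Subtype.ext (by simp)
  map_add' x y := Subtype.ext (by simp; ring)

theorem skw_skp (h : Inv σ) (x : F) : skw h * skp h x = x - σ x := mul_div_cancel₀ _ (skw_ne h)

theorem skp_surj (h : Inv σ) : Function.Surjective (skp h) := fun t => by
  obtain ⟨b, hb⟩ := h.exists_sub (skw_mul h t)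
  exact ⟨b, Subtype.ext (mul_left_cancel₀ (skw_ne h) (by rw [skw_skp, hb]))⟩

/-- The form as a biadditive map. -/
def bAdd (B : V →ₛₗ[σ] V →ₗ[F] F) : V →+ V →+ F :=
  AddMonoidHom.mk' (fun a => (B a).toAddMonoidHom) (by intro a c; ext; simp)

omit [FiniteDimensional F V] in
theorem bAdd_apply (a c : V) : bAdd B a c = B a c := rfl

theorem bAdd_nd (hB : HF B) {χ : AddChar F ℂ} (hχ : ∃ t, χ t ≠ 1) (a : V) (ha : a ≠ 0) :
    ∃ w, χ (bAdd B a w) ≠ 1 := by
  obtain ⟨t, ht⟩ := hχ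
  exact (hB.exists_b_eq ha t).imp fun w hw => by rwa [bAdd_apply, hw]

theorem bAdd_nd' (hB : HF B) {χ : AddChar F ℂ} (hχ : ∃ t, χ t ≠ 1) (a : V) (ha : a ≠ 0) :
    ∃ w, χ (bAdd B w a) ≠ 1 := by
  obtain ⟨t, ht⟩ := hχ
  exact (hB.exists_b_eq ha (σ t)).imp fun w hw => by rwa [bAdd_apply, ← hB.symm, hw, hB.invol]

/-- A hyperbolic pair. -/
structure UPt (B : V →ₛₗ[σ] V →ₗ[F] F) where
  u : V
  u' : V
  hu : B u u = 0
  hu' : B u' u' = 0
  h1 : B u u' = 1

namespace UPt

variable (p : UPt B)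

/-- The complement. -/
abbrev P : Submodule F V := perp B (Submodule.span F {p.u, p.u'})

/-- The form on the complement. -/
abbrev B1 : p.P →ₛₗ[σ] p.P →ₗ[F] F := res B p.P

omit [FiniteDimensional F V] in
theorem up (a : p.P) : B p.u a = 0 := (mem_perp_pair.1 a.2).1

omit [FiniteDimensional F V] in
theorem u'p (a : p.P) : B p.u' a = 0 := (mem_perp_pair.1 a.2).2

omit [FiniteDimensional F V] in
theorem u_ne : p.u ≠ 0 := ne_zero_of_b (by rw [p.h1]; exact one_ne_zero)

variable (hB : HF B)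
include hB

theorem hf : HF p.B1 := hB.res_perp_hyp p.hu p.hu' p.h1

theorem dim : finrank F p.P + 2 = finrank F V := hB.finrank_perp_hyp p.hu p.hu' p.h1

theorem decomp (v : V) : ∃ a : p.P, v = a + B p.u' v • p.u + B p.u v • p.u' :=
  ⟨⟨_, hB.hyp_proj_mem p.hu p.hu' p.h1 v⟩, by dsimp only; abel⟩

omit [FiniteDimensional F V] in
theorem tro_tr (a : V) : tro hB.toInv * B a a + σ (tro hB.toInv * B a a) = B a a := by
  rw [map_mul, tro_map, hB.fix]; ring

theorem ez_eq (a : p.P) (t : fixF σ) : ue hB p.u a (tro hB.toInv * B a a) * ue hB p.u 0 (skw hB.toInv * t) =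
    ue hB p.u a (tro hB.toInv * B a a + skw hB.toInv * t) := by
  rw [ue_mul hB p.hu (p.up a) (tro_tr hB a) (by simp) (by simpa using skw_mul _ t)]; simp

theorem exists_ez (a : p.P) {l : F} (hl : l + σ l = B a a) : ∃ t : fixF σ,
    ue hB p.u a (tro hB.toInv * B a a) * ue hB p.u 0 (skw hB.toInv * t) = ue hB p.u a l := by
  obtain ⟨t, ht⟩ := exists_skw hB.toInv (l := l - tro hB.toInv * B a a)
    (by rw [map_sub]; linear_combination hl - tro_tr hB a.1)
  exact ⟨t, by rw [ez_eq, ht, add_sub_cancel]⟩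

/-- The unipotent radical. -/
noncomputable def heis : Heis (SUG B) p.P (fixF σ) where
  e a := ue hB p.u a (tro hB.toInv * B a a)
  z t := ue hB p.u 0 (skw hB.toInv * t)
  β := (bAdd p.B1).compr₂ (skp hB.toInv)
  z_add s t := by
    rw [ue_mul hB p.hu (by simp) (by simpa using skw_mul _ s) (by simp) (by simpa using skw_mul _ t)]
    simp [mul_add]
  e_mul a c := by
    rw [ue_mul hB p.hu (p.up a) (tro_tr hB a) (p.up c) (tro_tr hB c)]
    exact (p.exists_ez hB (a + c) (hB.trace_add (tro_tr hB a) (tro_tr hB c))).imp fun _ h => h.symm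
  z_comm a t := by
    rw [ez_eq, ue_mul hB p.hu (by simp) (by simpa using skw_mul _ t) (p.up a) (tro_tr hB a)]
    simp [add_comm]
  e_comm a c := by
    rw [mul_assoc, ez_eq, ue_mul hB p.hu (p.up a) (tro_tr hB a) (p.up c) (tro_tr hB c),
      ue_mul hB p.hu (p.up c) (tro_tr hB c) (p.up a) (by
        rw [map_add]; linear_combination tro_tr hB a.1 + skw_mul hB.toInv _), add_comm c.1]
    congr 1
    erw [skw_skp]
    simp only [bAdd_apply, res_apply, hB.symm]; ring

variable {Ω : Type*} [MulAction (SUG B) Ω]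

theorem mem_A {ω : Ω} {a : p.P} :
    a ∈ (p.heis hB).A ω ↔ ∃ l, l + σ l = B a a ∧ ue hB p.u a l • ω = ω := by
  constructor
  · rintro ⟨t, ht⟩
    exact ⟨_, by rw [map_add]; linear_combination tro_tr hB a.1 + skw_mul hB.toInv t,
      p.ez_eq hB a t ▸ ht⟩
  · rintro ⟨l, hl, h⟩
    obtain ⟨t, ht⟩ := p.exists_ez hB a hl
    exact ⟨t, ht ▸ h⟩

theorem Q_apply {g : SUG B} (hg : g ∈ (p.heis hB).Q) :
    g.1.1 p.u = p.u ∧ ∀ y, B p.u y = 0 → ∃ c : F, g.1.1 y = y + c • p.u := by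
  obtain ⟨a, t, rfl⟩ := hg
  erw [p.ez_eq hB]
  refine ⟨hB.eich_apply_left _ _ _, fun y hy => ⟨B a y, ?_⟩⟩
  rw [ue_apply hB p.hu (p.up a) (by
    rw [map_add]; linear_combination tro_tr hB a.1 + skw_mul hB.toInv t), hy]
  simp

theorem conj_z {g : SUG B} {a : F} {l : fixF σ} (h : g.1.1 p.u = a • p.u) (hl : a * σ a = l)
    (t : fixF σ) : g * (p.heis hB).z t * g⁻¹ = (p.heis hB).z (l * t) := by
  show g * ue hB _ _ _ * _ = ue hB _ _ _
  rw [ue_conj, h, map_zero, ue_smul_left hB p.hu (by simp) (by simpa using skw_mul _ t), hl]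
  simp [mul_left_comm]

theorem conj_z' {g : SUG B} (h : g.1.1 p.u = p.u) (t : fixF σ) :
    g * (p.heis hB).z t * g⁻¹ = (p.heis hB).z t := by
  simpa using p.conj_z hB (a := 1) (l := 1) (by simpa) (by simp) t

theorem lift (γ : SUG p.B1) : ∃ g : SUG B, g.1.1 p.u = p.u ∧ g.1.1 p.u' = p.u' ∧
    (∀ a : p.P, g.1.1 a = γ.1.1 a) ∧ ∀ ω : Ω, (p.heis hB).R (g • ω) = (p.heis hB).R ω ∧
      (p.heis hB).A (g • ω) = γ • (p.heis hB).A ω := by
  obtain ⟨φ, -, h2, h3, h4⟩ := hB.exists_fix_hom (hB.hyp_inf_perp p.hu p.hu' p.h1)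
  have h5 := (h2 (φ γ)).1 ⟨_, rfl⟩
  let g : SUG B := ⟨φ γ, by rw [mem_SUG, h4]; exact mem_SUG.1 γ.2⟩
  have g1 : g.1.1 p.u = p.u := h5 _ (Submodule.subset_span (by simp))
  refine ⟨g, g1, h5 _ (Submodule.subset_span (by simp)), h3 γ, fun ω =>
    ⟨Heis.R_smul_comm _ (p.conj_z' hB g1) ω, AddSubgroup.ext fun c => ?_⟩⟩
  obtain ⟨a, rfl⟩ : ∃ a, γ.1.1 a = c := ⟨_, su_apply_inv γ c⟩
  rw [su_mem_smul]
  refine (p.heis hB).A_smul_of (c := 0) Function.surjective_id (p.conj_z' hB g1) ?_ ω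
  rw [Heis.z_zero, mul_one]
  show g * ue hB _ _ _ * _ = ue hB _ _ _
  rw [ue_conj, g1, ← h3, UG.map_b]

variable [Finite F]

theorem torus (hn : 3 ≤ finrank F V) (l : fixF σ) (hl : l ≠ 0) :
    ∃ g : SUG B, ∀ t, g * (p.heis hB).z t * g⁻¹ = (p.heis hB).z (l * t) := by
  obtain ⟨a, ha⟩ := hB.toInv.exists_norm l.2
  have ha0 : a ≠ 0 := by rintro rfl; exact hl (Subtype.ext (by simpa using ha.symm))
  obtain ⟨g, hg, e⟩ := hB.SUG_trans_iso hn p.u_ne (smul_ne_zero ha0 p.u_ne) p.hu (by simp [p.hu])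
  exact ⟨⟨g, hg⟩, p.conj_z hB e (by rw [mul_comm, ha])⟩

omit hB in
instance : Finite p.P := Module.finite_of_finite F

theorem master [Finite Ω] (hn : 3 ≤ finrank F V) {ω : Ω} (hω : (p.heis hB).R ω ≠ ⊤) :
    Nat.card (fixF σ) * Nat.card (MulAction.orbit (SUG p.B1) ((p.heis hB).A ω)) * Nat.card p.P ≤
      Nat.card ((p.heis hB).Bad Ω) * Nat.card ((p.heis hB).A ω) ∧
    ((p.heis hB).R ω ≠ ⊥ → (Nat.card (fixF σ) + 1) *
      Nat.card (MulAction.orbit (SUG p.B1) ((p.heis hB).A ω)) * Nat.card p.P ≤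
      Nat.card ((p.heis hB).Bad Ω) * Nat.card ((p.heis hB).A ω)) := by
  have h := (p.heis hB).master (p.torus hB hn) hω
    (Set.toFinite (MulAction.orbit (SUG p.B1) ((p.heis hB).A ω))).toFinset fun X hX => by
      obtain ⟨γ, rfl⟩ := (Set.Finite.mem_toFinset _).1 hX
      obtain ⟨g, -, -, -, h⟩ := p.lift hB (Ω := Ω) γ
      refine ⟨g • ω, ⟨(h ω).1, ?_⟩, (h ω).2⟩
      rw [(h ω).2]
      exact (Nat.card_congr (γ.1.1.toEquiv.subtypeEquiv fun a => su_mem_smul.symm)).symm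
  rw [← Set.ncard_eq_toFinset_card, ← Nat.card_coe_set_eq] at h
  exact ⟨h.1, h.2.1⟩

end UPt

theorem exists_upt (hB : HF B) {u y : V} (hu : B u u = 0) (h : ∀ c : F, c • y ≠ u) (huy : B u y = 0) :
    ∃ p : UPt B, p.u = u ∧ y ∈ p.P := by
  obtain ⟨u', h1, h2, h3⟩ := hB.exists_hyp_partner (Submodule.span F {y}) (x := u)
    (by simpa [Submodule.mem_span_singleton] using h) hu (fun z hz => by
      obtain ⟨c, rfl⟩ := Submodule.mem_span_singleton.1 hz
      simp [huy])
  exact ⟨⟨u, u', hu, h3, h2⟩, rfl, mem_perp_pair.2 ⟨huy, h1 _ (Submodule.mem_span_singleton_self _)⟩⟩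

theorem exists_upt₀ (hB : HF B) {u : V} (hu : B u u = 0) (h : u ≠ 0) : ∃ p : UPt B, p.u = u :=
  (exists_upt hB hu (y := 0) (by simpa using h.symm) (by simp)).imp fun _ h => h.1

end Cfsg.Agent.MinI
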