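import Cfsg.Agent.MinI.UA0
import Cfsg.Agent.MinI.SpMain

/-!
A special unitary group of dimension at least five acting on a small set.
-/

set_option autoImplicit false

namespace Cfsg.Agent.MinI

open Module Cfsg.Agent.Herm Pointwise

variable {F V : Type*} [Field F] [AddCommGroup V] [Module F V] [FiniteDimensional F V]
  {σ : F →+* F} {B : V →ₛₗ[σ] V →ₗ[F] F} {Ω : Type*} [MulAction (SUG B) Ω]

/-- All transvections with centre `v` fix `ω`. -/
def UX (hB : HF B) (ω : Ω) (v : V) : Prop := ∀ l, ue hB v 0 l • ω = ω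

section
variable {hB : HF B} {ω : Ω} {v : V}

theorem ue_smul_iff (g : SUG B) (u w : V) (l : F) :
    ue hB (g.1.1 u) (g.1.1 w) l • g • ω = g • ω ↔ ue hB u w l • ω = ω := by
  rw [← ue_conj, ← mul_smul, inv_mul_cancel_right, mul_smul, smul_left_cancel_iff]

theorem UX.map (h : UX hB ω v) (g : SUG B) : UX hB (g • ω) (g.1.1 v) := fun l => by
  simpa using (ue_smul_iff g v 0 l).2 (h l)

theorem ux_iff (g : SUG B) : UX hB (g • ω) (g.1.1 v) ↔ UX hB ω v :=
  ⟨fun h => by simpa [su_inv_apply] using h.map g⁻¹, fun h => h.map g⟩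

theorem UX.of_skew (h : ∀ l, l + σ l = 0 → ue hB v 0 l • ω = ω) : UX hB ω v := fun l => by
  by_cases hl : l + σ l = 0
  · exact h l hl
  · rw [ue_of_not hB fun h => hl (by simpa using h.2.2), one_smul]

theorem UX.smul (h : UX hB ω v) (hv : B v v = 0) (a : F) : UX hB ω (a • v) := UX.of_skew fun l hl => by
  rw [ue_smul_left hB hv (by simp) (by simpa), smul_zero]; exact h _

theorem UPt.R_top (p : UPt B) : (p.heis hB).R ω = ⊤ ↔ UX hB ω p.u :=
  ⟨fun h => UX.of_skew fun l hl => by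
    obtain ⟨t, rfl⟩ := exists_skw hB.toInv hl
    exact h.ge (AddSubgroup.mem_top t), fun h => eq_top_iff.2 fun _ _ => h _⟩

theorem ue_add_smul {u v : V} {l : F} (hu : B u u = 0) (huv : B u v = 0) (hl : l + σ l = B v v)
    (a : F) : ue hB u (v + a • u) l = ue hB u v (l + a - σ a) :=
  Subtype.ext (hB.eich_add_smul hu huv hl a)

theorem ut_line {u y : V} (hu : B u u = 0) (hy : B y y = 0) (h : B u y = 0) (α : F) {c : F}
    (hc : c + σ c = 0) : ue hB (y + α • u) 0 c =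
      ue hB y 0 c * ue hB u ((c * σ α) • y) (c * α * σ α) := su_ext fun x => by
  have hc' := eq_neg_of_add_eq_zero_right hc
  rw [su_mul, ut_apply hB (by simp [hu, hy, h, hB.zero_symm h]) hc, ut_apply hB hy hc,
    ue_apply hB hu (by simp [h]) (by simp [hy, hc', hB.invol]; ring)]
  simp only [map_add, map_sub, map_smul, LinearMap.add_apply, b_smul_left, hy, hB.zero_symm h,
    map_mul, hc', hB.invol, smul_eq_mul]
  module

theorem ut_mul {u y : V} (hu : B u u = 0) (hy : B y y = 0) (h : B u y = 0) (α : F) {c : F}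
    (hc : c + σ c = 0) : ue hB y 0 c * ue hB u 0 (-(c * (σ α * α))) =
      ue hB (y + α • u) ((-(c * α)) • u) c := su_ext fun x => by
  have hc' := eq_neg_of_add_eq_zero_right hc
  rw [su_mul, ut_apply hB hy hc, ut_apply hB hu (by simp [hc', hB.invol]; ring),
    ue_apply hB (by simp [hu, hy, h, hB.zero_symm h]) (by simp [hu, hB.zero_symm h]) (by simp [hu, hc])]
  simp only [map_add, map_sub, map_smul, LinearMap.add_apply, b_smul_left, hy, hB.zero_symm h,
    map_mul, map_neg, hc', hB.invol, smul_eq_mul]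
  module

end

theorem exists_normOne_sq [Finite F] {q : ℕ} (h : Inv σ) (hF : Nat.card F = q ^ 2) :
    ∃ a : F, σ a * a = 1 ∧ a ^ 2 ≠ 1 := by
  have hq := two_le_of_card hF
  obtain ⟨a, a1, a2⟩ := exists_ne_two (X := normOne σ) (by rw [h.card_normOne hF]; omega) 1
    ⟨-1, by simp [mem_normOne]⟩
  refine ⟨a.1, mem_normOne.1 a.2, fun e => ?_⟩
  rcases sq_eq_one_iff.1 e with e | e
  exacts [a1 (Subtype.ext (Units.ext e)), a2 (Subtype.ext (Units.ext e))]

theorem card_le_four {A : Type*} [AddCommGroup A] [Finite A] {K : Type*} [AddCommGroup K]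
    (t : A →+ K) {d : A} {c : K} (hc : c ≠ 0) (h : ∀ x, x ≠ 0 → x ≠ -d → t x = c) :
    Nat.card A ≤ 4 := by
  classical
  haveI := Fintype.ofFinite A
  by_contra! h4
  obtain ⟨x, x0, x1⟩ := exists_ne_two (X := A) (by omega) 0 (-d)
  obtain ⟨y, -, hy⟩ := Finset.exists_mem_notMem_of_card_lt_card (s := {0, -d, -x, -d - x})
    (t := Finset.univ) (Finset.card_le_four.trans_lt (by
      rwa [Finset.card_univ, ← Nat.card_eq_fintype_card]))
  simp only [Finset.mem_insert, Finset.mem_singleton, not_or] at hy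
  have := h (x + y) (fun e => hy.2.2.1 (eq_neg_of_add_eq_zero_right e))
    fun e => hy.2.2.2 (eq_sub_of_add_eq' e)
  rw [map_add, h x x0 x1, h y hy.1 hy.2.1] at this
  exact hc (by simpa using this)

section main
variable [Finite F] [Finite Ω] {q : ℕ} (hB : HF B) (hF : Nat.card F = q ^ 2)
  (hk : 5 ≤ finrank F V) (hn : (q ^ 2 - 1) * Nat.card Ω + (q ^ 2 - 1) ≤ nz B 0)
include hF hk hn

theorem UPt.A_bot (p : UPt B) {ω : Ω} (hω : (p.heis hB).R ω ≠ ⊤) : (p.heis hB).A ω = ⊥ := by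
  by_contra hA
  obtain ⟨χ, h1, t, ht⟩ := exists_char hω
  obtain ⟨x, rfl⟩ := skp_surj hB.toInv t
  have hd := p.dim hB
  refine no_small (p.hf hB) hF (by omega) (ψ := χ.compAddMonoidHom (skp hB.toInv)) ⟨x, ht⟩ hA
    (fun a ha b hb => h1 _ ((p.heis hB).iso ha hb)) (n := Nat.card Ω) ?_ ?_
  · rw [← hB.toInv.card_fixF hF]
    exact (p.master hB (by omega) hω).1.trans (Nat.mul_le_mul_right _ (Finite.card_subtype_le _))
  · rw [p.nz_eq hB hF] at hn; omega

theorem mem_span_of_fix {ω : Ω} {z w : V} {l : F} (hz : B z z = 0) (h0 : z ≠ 0) (hb : ¬ UX hB ω z)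
    (hzw : B z w = 0) (hl : l + σ l = B w w) (h : ue hB z w l • ω = ω) : ∃ c : F, c • z = w := by
  obtain ⟨p, rfl⟩ := exists_upt₀ hB hz h0
  obtain ⟨a, e⟩ := p.decomp hB w
  generalize B p.u' w = c at e
  rw [hzw, zero_smul, add_zero] at e
  subst e
  have hl' : l + σ l = B a a := by simpa [p.hu, p.up, hB.zero_symm (p.up _)] using hl
  have : a ∈ (p.heis hB).A ω := (p.mem_A hB).2 ⟨l + c - σ c, by
    rw [map_sub, map_add, hB.invol]; linear_combination hl', by
    rwa [ue_add_smul p.hu (p.up a) hl'] at h⟩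
  rw [p.A_bot hB hF hk hn (mt p.R_top.1 hb), AddSubgroup.mem_bot] at this
  exact ⟨c, by simp [this]⟩

theorem UPt.bad_orbit (p : UPt B) {ω : Ω} (hω : ¬ UX hB ω p.u) :
    Nat.card (MulAction.orbit (p.heis hB).Q ω) = q * Nat.card p.P ∧
      ∀ y, ¬ UX hB y p.u → y ∈ MulAction.orbit (p.heis hB).Q ω := by
  have hq := two_le_of_card hF
  have hd := p.dim hB
  have hK := hB.toInv.card_fixF hF
  have h1 : Nat.card ((p.heis hB).Bad Ω) < (q + 1) * Nat.card p.P := by
    refine (Finite.card_subtype_le _).trans_lt (Nat.lt_of_mul_lt_mul_left (a := q ^ 2 - 1) ?_)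
    have b2 := (nz_bound (p.hf hB) hF).2
    rw [p.nz_eq hB hF] at hn
    rw [card_herm hF p.P] at hn ⊢
    have hr : q ^ 3 ≤ q ^ finrank F p.P := Nat.pow_le_pow_right (by omega) (by omega)
    obtain ⟨Q, hQ⟩ := Nat.exists_eq_add_of_le' (show q + 1 + 1 ≤ q ^ 2 by nlinarith)
    rw [hQ, show Q + (q + 1 + 1) - 1 = Q + q + 1 by omega] at hn ⊢
    generalize q ^ finrank F p.P = r at *
    have h2 : q ^ 2 * r ≤ r ^ 2 := by
      rw [sq r]; exact Nat.mul_le_mul_right _ ((Nat.pow_le_pow_right (by omega) (by omega)).trans hr)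
    rw [← hQ] at hn
    nlinarith [Nat.mul_le_mul_left q b2, Nat.zero_le (Q * r ^ 2)]
  have key : ∀ y, ¬ UX hB y p.u → (p.heis hB).R y = ⊥ ∧ (p.heis hB).A y = ⊥ := fun y hy => by
    have hA := p.A_bot hB hF hk hn (mt p.R_top.1 hy)
    refine ⟨by_contra fun hR => ?_, hA⟩
    have := ((p.heis hB).master (p.torus hB (by omega)) (mt p.R_top.1 hy) {⊥}
      (by simpa using ⟨y, ⟨rfl, rfl⟩, hA⟩)).2.1 hR
    simp only [hA, hK, Finset.card_singleton, AddSubgroup.card_bot, mul_one] at this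
    omega
  obtain ⟨hR, hA⟩ := key ω hω
  refine ⟨by simpa [hR, hA, hK, mul_comm] using (p.heis hB).card_orbit ω, fun y hy => by_contra fun hc => ?_⟩
  have := ((p.heis hB).master (p.torus hB (by omega)) (mt p.R_top.1 hω) {⊥}
    (by simpa using ⟨ω, ⟨rfl, rfl⟩, hA⟩)).2.2 ω ⟨rfl, rfl⟩ y
    ⟨by rw [hR, (key y hy).1], by rw [hA, (key y hy).2]⟩ (by rw [hA, (key y hy).2]) hc
  simp only [hA, hK, Finset.card_singleton, AddSubgroup.card_bot] at this
  nlinarith [Nat.mul_le_mul_right (Nat.card p.P) hq]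

theorem not_two {ω : Ω} {u y : V} (hu : B u u = 0) (h0 : u ≠ 0) (hb : ¬ UX hB ω u) (hy : B y y = 0)
    (h : B u y = 0) (hi : ∀ c : F, c • u ≠ y) {α : F} (hα : α ≠ 0) (h1 : UX hB ω y)
    (h2 : UX hB ω (y + α • u)) : False := by
  have hc : skw hB.toInv + σ (skw hB.toInv) = 0 := by simp [skw_map]
  have := h2 (skw hB.toInv)
  rw [ut_line hu hy h α hc, mul_smul, ← eq_inv_smul_iff, inv_smul_eq_iff.2 (h1 _).symm] at this
  obtain ⟨c, e⟩ := mem_span_of_fix hB hF hk hn hu h0 hb (by simp [h])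
    (by simp [hy, skw_map, hB.invol]; ring) this
  exact hi ((skw hB.toInv * σ α)⁻¹ * c) (by
    rw [mul_smul, e, inv_smul_smul₀ (mul_ne_zero (skw_ne _) ((map_ne_zero σ).2 hα))])

theorem UPt.exists_good (p : UPt B) {ω : Ω} (hω : ¬ UX hB ω p.u) (r : UPt p.B1) :
    ∃ α : F, UX hB ω (r.u.1 + α • p.u) := by
  obtain ⟨a, a1, a2⟩ := exists_normOne_sq hB.toInv hF
  have ru : B r.u r.u = 0 := r.hu
  have ru' : B r.u' r.u = 1 := (p.hf hB).one_symm r.h1
  have a0 : a ≠ 0 := by rintro rfl; simp at a1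
  have a3 : σ a ≠ 0 := (map_ne_zero σ).2 a0
  have a4 : σ a = a⁻¹ := eq_inv_of_mul_eq_one_left a1
  obtain ⟨g, g1, g2⟩ := hB.exists_diag p.hu p.hu' p.h1 a0
  obtain ⟨k, k1, k2⟩ := hB.exists_diag (e := r.u) (f := r.u') r.hu r.hu' r.h1 a3
  let s : SUG B := ⟨g * k, by
    rw [mem_SUG, map_mul, Units.val_mul, g1, k1, hB.invol]; field_simp⟩
  have s1 : s.1.1 p.u = a • p.u := by
    simp only [s, UG.mul_apply, g2, k2, hB.zero_symm (p.up _), hB.one_symm p.h1, p.hu, map_add,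
      map_smul, p.up, p.u'p, smul_eq_mul]
    module
  let θ : p.P → p.P := fun v => σ a • (v + ((σ a - 1) * B r.u' v) • r.u + ((a⁻¹ - 1) * B r.u v) • r.u')
  have s2 : ∀ v : p.P, σ a • s.1.1 v = θ v := fun v => by
    simp [s, θ, g2, k2, p.up, p.u'p, hB.invol]
  have hinj : ∀ v : p.P, θ v - v = 0 → v = 0 := fun v e => by
    have n1 : a⁻¹ * a⁻¹ - 1 ≠ 0 := fun e => a2 (by field_simp at e; linear_combination -e)
    have n2 : a⁻¹ - 1 ≠ 0 := fun e => n1 (by rw [sub_eq_zero.1 e]; simp)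
    have e1 := congrArg (p.B1 r.u) e
    have e2 := congrArg (p.B1 r.u') e
    simp only [θ, map_sub, map_add, map_smul, r.hu, r.hu', r.h1, (p.hf hB).one_symm r.h1, a4,
      smul_eq_mul, map_zero] at e1 e2
    have e3 : B r.u v = 0 := (mul_eq_zero.1 (show (a⁻¹ * a⁻¹ - 1) * B r.u v = 0 by
      simp only [res_apply] at e1; linear_combination e1)).resolve_left n1
    have e4 : B r.u' v = 0 := (mul_eq_zero.1 (show (a⁻¹ * a⁻¹ - 1) * B r.u' v = 0 by
      simp only [res_apply] at e2; linear_combination e2)).resolve_left n1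
    simp only [θ, e3, e4, mul_zero, zero_smul, add_zero, a4] at e
    exact (smul_eq_zero.1 (show (a⁻¹ - 1) • v = 0 by rw [sub_smul, one_smul, e])).resolve_left n2
  have hz : ∀ t, s * (p.heis hB).z t * s⁻¹ = (p.heis hB).z t := fun t => by
    simpa using p.conj_z hB (l := 1) s1 (by simp [a4, a0]) t
  have bad : ∀ (g : SUG B) y, (∀ t, g * (p.heis hB).z t * g⁻¹ = (p.heis hB).z t) → ¬ UX hB y p.u →
      g • y ∈ MulAction.orbit (p.heis hB).Q y := fun g y hg hy =>
    (p.bad_orbit hB hF hk hn hy).2 _ (by rwa [← p.R_top, Heis.R_smul_comm _ hg, p.R_top])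
  obtain ⟨_, ⟨⟨k, hk'⟩, rfl⟩, hf⟩ := (p.heis hB).fix_mod (s := s) (fun t => ⟨t, hz t⟩) (θ := θ)
    (fun v => by
      have h1 : B p.u (s.1.1 v) = 0 := by
        have := UG.map_b s.1 p.u v
        simpa [s1, p.up, a0] using this
      have h2 := UPt.tro_tr hB v.1
      rw [← UG.map_b s.1 v v] at h2
      obtain ⟨t, ht⟩ := p.exists_ez hB (θ v) (l := tro hB.toInv * B (s.1.1 v) (s.1.1 v)) (by
        rw [h2, ← s2]; simp [hB.invol]; linear_combination -B v v * a1)
      refine ⟨t, Eq.trans ?_ ht.symm⟩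
      show s * ue hB _ _ _ * _ = _
      rw [ue_conj, s1, ← UG.map_b s.1 v v, ue_smul_left hB p.hu h1 h2, s2, mul_comm a, a1, one_mul])
    (ω := ω) (fun w => Finite.surjective_of_injective (f := fun v => v - θ v) (fun v v' e =>
      sub_eq_zero.1 (hinj _ (by
        have : θ (v - v') = θ v - θ v' := by simp [θ]; module
        rw [this, sub_eq_zero, sub_eq_sub_iff_sub_eq_sub, ← neg_sub, show v - θ v = _ from e,
          neg_sub]))) w |>.imp fun v hv => by simp [← hv])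
    (fun v hv => by
      rw [p.A_bot hB hF hk hn (mt p.R_top.1 hω), AddSubgroup.mem_bot] at hv ⊢
      exact hinj v hv) (bad s ω hz hω)
  obtain ⟨q1, q2⟩ := p.Q_apply hB hk'
  change ∀ g, _ → _ → g • k • ω ∈ MulAction.orbit _ (k • ω) → ∃ c, g • k • ω = _ • k • ω at hf
  have hω' : ¬ UX hB (k • ω) p.u := by rwa [← q1, ux_iff]
  suffices h : ∃ α : F, UX hB (k • ω) (r.u.1 + α • p.u) by
    obtain ⟨α, h⟩ := h
    obtain ⟨c, hc⟩ := q2 r.u (p.up _)
    refine ⟨α - c, (ux_iff k).1 ?_⟩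
    rwa [map_add, map_smul, hc, q1, add_assoc, ← add_smul, add_sub_cancel]
  by_cases h : UX hB (k • ω) r.u.1
  · exact ⟨0, by simpa using h⟩
  obtain ⟨μ, hμ, h'⟩ : ∃ μ, μ + σ μ = 0 ∧ ue hB r.u.1 0 μ • k • ω ≠ k • ω := by
    by_contra! h'
    exact h (UX.of_skew h')
  have hμ0 : μ ≠ 0 := by rintro rfl; simp [ue_zero] at h'
  have t1 := p.conj_z' hB (g := ue hB r.u.1 0 μ) (by
    rw [ut_apply hB ru hμ, hB.zero_symm (p.up _)]; simp)
  obtain ⟨c, hc⟩ := hf _ (by
    rw [eq_comm, ← mul_inv_eq_iff_eq_mul, ue_conj, map_zero, show s.1.1 r.u = σ a • r.u.1 by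
      refine smul_right_injective _ a3 ?_
      simp only [s2, θ, ru, ru']
      simp [sub_smul], ue_smul_left hB ru (by simp) (by simpa), hB.invol, a1]
    simp) t1 (bad _ _ t1 hω')
  obtain ⟨α, hα⟩ := hB.toInv.exists_norm (μ := skw hB.toInv * c / μ) (by
    rw [map_div₀, eq_neg_of_add_eq_zero_right hμ, eq_neg_of_add_eq_zero_right (skw_mul _ c),
      neg_div_neg_eq])
  have e := ut_mul (hB := hB) p.hu ru (p.up _) α hμ
  rw [hα, mul_div_cancel₀ _ hμ0, ← mul_neg] at e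
  have e' : ue hB (r.u.1 + α • p.u) ((-(μ * α)) • p.u) μ • k • ω = k • ω := by
    rw [← e]
    erw [mul_inv_eq_iff_eq_mul.1 (t1 (-c))]
    rw [mul_smul, hc, Heis.z_neg, inv_smul_smul]
  refine ⟨α, by_contra fun hb => ?_⟩
  have hu' : B r.u' (r.u.1 + α • p.u) = 1 := by
    simpa [hB.zero_symm (p.up _)] using (p.hf hB).one_symm r.h1
  obtain ⟨d, hd⟩ := mem_span_of_fix hB hF hk hn (by
    simpa [p.hu, p.up, hB.zero_symm (p.up _)] using r.hu) (ne_zero_of_b' (hu' ▸ one_ne_zero)) hb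
    (by simp [p.hu, hB.zero_symm (p.up _)]) (by simp [p.hu, hμ]) e'
  have d0 : d = 0 := by simpa [ru', hB.zero_symm (p.up _)] using congrArg (B r.u') hd
  have α0 : α = 0 := by simpa [d0, hμ0, p.u_ne] using hd.symm
  exact hb (by
    refine absurd ?_ h'
    simpa [α0] using e')

theorem UPt.exists_not_full (p : UPt B) (hnt : ∃ (g : SUG B) (ω : Ω), g • ω ≠ ω) :
    (∃ ω : Ω, ¬ UX hB ω p.u) ∧ ∃ ω : Ω, UX hB ω p.u ∧ (p.heis hB).A ω ≠ ⊤ := by
  have hd := p.dim hB
  obtain ⟨ω, hω⟩ : ∃ ω : Ω, ¬ UX hB ω p.u := by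
    by_contra! h
    obtain ⟨g, ω, hg⟩ := hnt
    have : hB.tvGroup ≤ (MulAction.stabilizer (SUG B) ω).map (SUG B).subtype := by
      refine (Subgroup.closure_le _).2 ?_
      rintro _ ⟨v, c, hv, rfl⟩
      refine ⟨ue hB v 0 (-c), ?_, (hB.tv_eq_eich hv c).symm⟩
      rcases eq_or_ne v 0 with rfl | h0
      · rw [show ue hB 0 0 (-c) = 1 from Subtype.ext (hB.eich_zero_left _ _)]; exact one_mem _
      obtain ⟨k, hk⟩ := su_trans hB (by omega) p.u_ne h0 (hv.trans p.hu.symm)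
      have := (h (k⁻¹ • ω)).map k
      rw [smul_inv_smul] at this
      exact hk ▸ this _
    rw [hB.tvGroup_eq hF (by omega) (by omega)] at this
    obtain ⟨k, hk, e⟩ := this g.2
    exact hg (Subtype.ext e ▸ hk)
  refine ⟨⟨ω, hω⟩, ?_⟩
  obtain ⟨y, y', h1, h2, h3⟩ := (p.hf hB).exists_hyp_pair (by omega)
  obtain ⟨α, hα⟩ := p.exists_good hB hF hk hn hω ⟨y, y', h1, h2, h3⟩
  obtain ⟨β, hβ⟩ := p.exists_good hB hF hk hn hω ⟨y', y, h2, h1, (p.hf hB).one_symm h3⟩
  simp only [res_apply] at h1 h2 h3 hα hβ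
  have iso : ∀ (v : p.P) (c : F), B v v = 0 → B (v + c • p.u) (v + c • p.u) = 0 := fun v c h => by
    simpa [p.hu, p.up, hB.zero_symm (p.up _)] using h
  have b1 : ∀ c : F, B (y + α • p.u) (y' + c • p.u) = 1 := fun c => by
    simpa [p.hu, p.up, hB.zero_symm (p.up _)] using h3
  obtain ⟨g, hg⟩ := su_trans hB (by omega) (ne_zero_of_b (b1 0 ▸ one_ne_zero)) p.u_ne
    (p.hu.trans (iso y α h1).symm)
  change g.1.1 _ = _ at hg
  refine ⟨g • ω, hg ▸ hα.map g, fun hT => ?_⟩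
  obtain ⟨w, l, e⟩ := hB.eich_trans_opp (iso y α h1) (iso y' (β + 1) h2) (iso y' β h2)
    (by rw [b1]; simp) (by rw [b1]; simp)
  have hfix : ue hB (y + α • p.u) w l • ω = ω := by
    rw [← ue_smul_iff g, hg]
    by_cases hv : B p.u (g.1.1 w) = 0 ∧ l + σ l = B (g.1.1 w) (g.1.1 w)
    swap
    · rw [ue_of_not hB fun h => hv h.2, one_smul]
    obtain ⟨a, ha⟩ := p.decomp hB (g.1.1 w)
    generalize B p.u' (g.1.1 w) = c at ha
    rw [hv.1, zero_smul, add_zero] at ha
    have hl : l + σ l = B a a := by simpa [ha, p.hu, p.up, hB.zero_symm (p.up _)] using hv.2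
    obtain ⟨t, ht⟩ := p.exists_ez hB a (l := l + c - σ c) (by
      rw [map_sub, map_add, hB.invol]; linear_combination hl)
    rw [ha, ue_add_smul p.hu (p.up a) hl]
    obtain ⟨d, hd⟩ := (p.heis hB).smul_eq_of_mem (hT.ge (AddSubgroup.mem_top a)) t
    exact (congrArg (· • g • ω) ht).symm.trans (hd.trans ((hg ▸ hα.map g) _))
  have := hβ.map (ue hB (y + α • p.u) w l)
  rw [hfix, show (ue hB (y + α • p.u) w l).1.1 _ = _ from e, b1, b1, div_one, one_smul] at this
  refine not_two hB hF hk hn p.hu p.u_ne hω (iso y' β h2) (by simp [p.hu, p.up]) (fun c e => ?_)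
    one_ne_zero hβ (by rwa [add_assoc, ← add_smul])
  simpa [h3, hB.zero_symm (p.up _)] using congrArg (B y) e

end main

end Cfsg.Agent.MinI
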